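import Cfsg.Agent.Lib.Induce.Character
import Cfsg.Agent.Lib.Char.Central
import Cfsg.Agent.Lib.Cusp.Gel

/-! S4984: the Mackey formula for a subgroup with a Levi decomposition (pure group theory). -/

set_option autoImplicit false

namespace Cfsg.Lib.HCI

open Finset Cfsg.Lib.Char
open scoped ComplexConjugate

variable {G L : Type*} [Group G] [Group L]

/-- The sum of `f` over a subgroup. -/
noncomputable def sm (H : Subgroup G) (f : G → ℂ) : ℂ := ∑ᶠ x : H, f x

theorem sm_eq (H : Subgroup G) [Fintype H] (f : G → ℂ) : sm H f = ∑ x : H, f x :=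
  finsum_eq_sum_of_fintype _

theorem sum_eq_sm [Fintype G] (H : Subgroup G) {f : G → ℂ} (h : ∀ x ∉ H, f x = 0) : ∑ x, f x = sm H f := by
  classical
  rw [sm_eq, ← Induce.sum_extendByZero H fun x => f x]
  refine sum_congr rfl fun x _ => ?_
  rw [Induce.extendByZero_apply]
  split_ifs with hx
  exacts [rfl, h x hx]

theorem eq_of_add [Finite G] {χ ψ : G → ℂ} (hχ : IsCharacter G χ) (hψ : IsCharacter G ψ) {z : G}
    (h : χ z + ψ z = χ 1 + ψ 1) : χ z = χ 1 := by
  obtain ⟨m, hm⟩ := hχ.exists_apply_one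
  obtain ⟨n, hn⟩ := hψ.exists_apply_one
  have h1 := hχ.norm_le_of_apply_one hm z
  have h2 := (Complex.re_le_norm _).trans (hψ.norm_le_of_apply_one hn z)
  have h3 := congrArg Complex.re h
  rw [hm, hn] at h3
  simp only [Complex.add_re, Complex.natCast_re] at h3
  have h4 := (Complex.re_le_norm _).trans h1
  have h5 : (χ z).re = m := by linarith
  have h6 := Complex.sq_norm (χ z)
  rw [Complex.normSq_apply, h5] at h6
  have h7 : ‖χ z‖ ^ 2 ≤ (m : ℝ) ^ 2 := pow_le_pow_left₀ (norm_nonneg _) h1 2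
  rw [hm]
  exact Complex.ext (by simpa using h5) (by simpa using mul_self_eq_zero.1 (by nlinarith [mul_self_nonneg (χ z).im]))

/-- All fibres of `H → H.map f` have the same size. -/
theorem sm_comp [Finite G] {H : Subgroup G} (f : G →* L) {θ : L → ℂ} (h : sm (H.map f) θ = 0) :
    sm H (fun x => θ (f x)) = 0 := by
  classical
  haveI := Fintype.ofFinite H
  haveI : Finite (H.map f) := .of_surjective _ (f.subgroupMap_surjective H)
  haveI := Fintype.ofFinite (H.map f)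
  rw [sm_eq] at h ⊢
  exact (sum_comp_surjective (f.subgroupMap H) (f.subgroupMap_surjective H) fun y => θ y).trans
    (by rw [h, mul_zero])

/-- `Cusp.expect_mul_eq_zero` with `l = 1` for the inclusion `N → D`, then `∑ x, θ x = ∑ x, θ (x * n)`
averaged over `n`. -/
theorem sm_of_le [Finite G] {N D : Subgroup G} (h : N ≤ D) {θ : G → ℂ}
    (hθ : IsCharacter D fun x => θ x) (h0 : sm N θ = 0) : sm D θ = 0 := by
  classical
  haveI := Fintype.ofFinite N
  haveI := Fintype.ofFinite D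
  rw [sm_eq] at h0 ⊢
  have h1 := Cusp.expect_mul_eq_zero (f := Subgroup.inclusion h) (l := 1) hθ (by
    simpa [Fintype.expect_eq_sum_div_card] using h0)
  simp only [Fintype.expect_eq_sum_div_card, MonoidHom.one_apply, Units.val_one, one_mul, div_eq_zero_iff,
    Nat.cast_eq_zero, Fintype.card_ne_zero, or_false] at h1
  have h2 := sum_eq_zero (s := univ) fun g _ => h1 g
  have h3 : ∀ u : N, ∑ x : D, θ ↑(x * Subgroup.inclusion h u) = ∑ x : D, θ x := fun u =>
    Equiv.sum_comp (Equiv.mulRight (Subgroup.inclusion h u)) fun x : D => θ x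
  rw [sum_comm, sum_congr rfl fun u _ => h3 u] at h2
  simpa using h2

/-- The Mackey term of `g`. -/
noncomputable def mky [Fintype G] (P : Subgroup G) (φ ψ : P → ℂ) (g : G) : ℂ :=
  ∑ x : G, extendByZero P φ x * conj (extendByZero P ψ (g⁻¹ * x * g))

/-- Frobenius reciprocity and the definition of `indFun`. -/
theorem inner_ind [Fintype G] (P : Subgroup G) (φ ψ : P → ℂ) :
    classInner (indFun P φ) (indFun P ψ) = ((Nat.card P : ℂ) ^ 2)⁻¹ * ∑ g, mky P φ ψ g := by
  classical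
  rw [Induce.frobenius_reciprocity P φ (Induce.isClassFunction_indFun P ψ), classInner_def]
  simp only [mky, Induce.sum_extendByZero_mul, Induce.indFun_apply, map_mul, map_sum, map_inv₀, map_natCast]
  rw [sum_comm, sq, mul_inv, mul_assoc, mul_sum _ _ (Nat.card P : ℂ)⁻¹, mul_sum _ _ (Nat.card P : ℂ)⁻¹, mul_sum]
  refine sum_congr rfl fun x _ => ?_
  rw [← mul_sum]; ring

/-- Substitute `x ↦ a * x * a⁻¹`; the extensions by zero are invariant under conjugation by `P`. -/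
theorem mky_mul [Fintype G] {P : Subgroup G} {φ ψ : P → ℂ} (hφ : IsClassFunction P φ)
    (hψ : IsClassFunction P ψ) {a b : G} (ha : a ∈ P) (hb : b ∈ P) (g : G) :
    mky P φ ψ (a * g * b) = mky P φ ψ g := by
  refine (Fintype.sum_equiv (MulAut.conj a).toEquiv _ _ fun x => ?_).symm
  change _ = extendByZero P φ (a * x * a⁻¹) * conj (extendByZero P ψ ((a * g * b)⁻¹ * (a * x * a⁻¹) * (a * g * b)))
  rw [Induce.extendByZero_conj_mem P hφ ha, ← Induce.extendByZero_conj_mem' P hψ hb (g⁻¹ * x * g)]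
  congr 3; group

/-- Substitute `x ↦ g⁻¹ * x * g`. -/
theorem mky_inv [Fintype G] (P : Subgroup G) (φ ψ : P → ℂ) (g : G) :
    mky P φ ψ g⁻¹ = conj (mky P ψ φ g) := by
  rw [mky, mky, map_sum]
  refine Fintype.sum_equiv (MulAut.conj g).toEquiv _ _ fun x => ?_
  simp [mul_assoc, mul_comm]

/-- The summand of `mky` is supported on `D = P ⊓ g P g⁻¹` (`P ⊓ P.comap (MulAut.conj g⁻¹)`), and is a character
of `D` (product of a restriction and a conjugate); apply `sm_of_le`. -/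
theorem mky_eq_zero [Fintype G] {P : Subgroup G} {φ ψ : P → ℂ} (hφ : IsCharacter P φ)
    (hψ : IsCharacter P ψ) {g : G} (N : Subgroup G) (h1 : N ≤ P) (h2 : ∀ x ∈ N, g⁻¹ * x * g ∈ P)
    (h0 : sm N (fun x => extendByZero P φ x * conj (extendByZero P ψ (g⁻¹ * x * g))) = 0) :
    mky P φ ψ g = 0 := by
  let D := P ⊓ P.comap (MulAut.conj g⁻¹).toMonoidHom
  have hD : ∀ x, x ∈ D ↔ x ∈ P ∧ g⁻¹ * x * g ∈ P := fun x => by simp [D]
  rw [mky, sum_eq_sm D]
  · refine sm_of_le (fun x hx => (hD x).2 ⟨h1 hx, h2 x hx⟩) ?_ h0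
    have := (hφ.comp (Subgroup.inclusion inf_le_left : D →* P)).mul (hψ.comp
      ((((MulAut.conj g⁻¹).toMonoidHom.comp D.subtype)).codRestrict P fun x => x.2.2)).conj
    convert this using 1
    funext x
    rw [Induce.extendByZero_of_mem P φ ((hD x).1 x.2).1, Induce.extendByZero_of_mem P ψ ((hD x).1 x.2).2]
    simp only [Pi.mul_apply]
    congr 3
    exact Subtype.ext (by simp)
  · intro x hx
    by_cases h3 : x ∈ P
    · rw [Induce.extendByZero_of_not_mem _ ψ fun h4 => hx ((hD x).2 ⟨h3, h4⟩), map_zero, mul_zero]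
    · rw [Induce.extendByZero_of_not_mem _ _ h3, zero_mul]

/-- A subgroup `P = K ⋊ L` and an element `w` with `P ∩ w P w⁻¹ = L`. -/
structure Dat (G L : Type*) [Group G] [Group L] where
  P : Subgroup G
  π : P →* L
  lam : L →* G
  mem : ∀ l, lam l ∈ P
  sec : ∀ l, π ⟨lam l, mem l⟩ = l
  w : G
  α : L →* L
  cj : ∀ l, w⁻¹ * lam l * w = lam (α l)
  l0 : L
  sq : w * w = lam l0
  nm : w ∉ P
  int : ∀ x ∈ P, w⁻¹ * x * w ∈ P → ∃ l, x = lam l

namespace Dat

variable (D : Dat G L)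

/-- The kernel of `π`. -/
def K : Subgroup G := D.π.ker.map D.P.subtype

theorem mem_K {x : G} : x ∈ D.K ↔ ∃ h : x ∈ D.P, D.π ⟨x, h⟩ = 1 :=
  ⟨fun ⟨y, h, e⟩ => e ▸ ⟨y.2, h⟩, fun ⟨h, e⟩ => ⟨⟨x, h⟩, e, rfl⟩⟩

theorem K_le : D.K ≤ D.P := fun _ h => (D.mem_K.1 h).1

theorem lam_inj : Function.Injective D.lam := fun a b e => by
  rw [← D.sec a, ← D.sec b]; exact congrArg _ (Subtype.ext e)

/-- `l = π x`. -/
theorem dec {x : G} (h : x ∈ D.P) : D.lam (D.π ⟨x, h⟩)⁻¹ * x ∈ D.K ∧ x * D.lam (D.π ⟨x, h⟩)⁻¹ ∈ D.K := by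
  refine ⟨D.mem_K.2 ⟨D.P.mul_mem (D.mem _) h, ?_⟩, D.mem_K.2 ⟨D.P.mul_mem h (D.mem _), ?_⟩⟩
  · exact (map_mul D.π ⟨_, D.mem _⟩ ⟨x, h⟩).trans (by rw [D.sec, inv_mul_cancel])
  · exact (map_mul D.π ⟨x, h⟩ ⟨_, D.mem _⟩).trans (by rw [D.sec, mul_inv_cancel])

theorem card_P [Finite G] : Nat.card D.P = Nat.card D.K * Nat.card L := by
  rw [K, Subgroup.card_map_of_injective D.P.subtype_injective, ← D.π.ker.card_mul_index, Subgroup.index_ker,
    MonoidHom.range_eq_top.2 fun l => ⟨_, D.sec l⟩, Subgroup.card_top]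

/-- The inflation of `τ` to `P`. -/
def φ (τ : L → ℂ) : D.P → ℂ := fun x => τ (D.π x)

/-- The inflation extended by zero. -/
noncomputable def ex (τ : L → ℂ) : G → ℂ := extendByZero D.P (D.φ τ)

theorem ex_of_mem (τ : L → ℂ) {x : G} (h : x ∈ D.P) : D.ex τ x = τ (D.π ⟨x, h⟩) :=
  Subtype.val_injective.extend_apply (D.φ τ) 0 (⟨x, h⟩ : D.P)

theorem ex_of_notMem (τ : L → ℂ) {x : G} (h : x ∉ D.P) : D.ex τ x = 0 :=
  Function.extend_apply' _ _ _ fun ⟨y, e⟩ => h (e ▸ y.2)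

/-- Harish-Chandra induction. -/
noncomputable def I [Fintype G] (τ : L → ℂ) : G → ℂ := indFun D.P (D.φ τ)

/-- The big double coset. -/
def Big (g : G) : Prop := ∃ x ∈ D.P, ∃ y ∈ D.P, g = x * D.w * y

/-- The other double cosets do not contribute. -/
def Mid [Fintype G] (τ τ' : L → ℂ) : Prop :=
  ∀ g, g ∉ D.P → ¬ D.Big g → mky D.P (D.φ τ) (D.φ τ') g = 0

theorem Big.notMem {D : Dat G L} {g : G} (h : D.Big g) : g ∉ D.P := by
  obtain ⟨x, hx, y, hy, rfl⟩ := h
  exact fun h => D.nm (by simpa [mul_assoc] using D.P.mul_mem (D.P.mul_mem (D.P.inv_mem hx) h) (D.P.inv_mem hy))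

/-- Move the `L`-part of `x` through `w` (`dec`, `cj`). -/
theorem Big.dec {D : Dat G L} {g : G} (h : D.Big g) :
    ∃ k ∈ D.K, ∃ k' ∈ D.K, ∃ l, g = k * D.w * D.lam l * k' := by
  obtain ⟨x, hx, y, hy, rfl⟩ := h
  refine ⟨_, (D.dec hx).2, _, (D.dec hy).1, D.α (D.π ⟨x, hx⟩) * D.π ⟨y, hy⟩, ?_⟩
  simp only [map_mul, map_inv, ← D.cj]
  group

/-- `α ∘ α` is conjugation by `l0` (`cj`, `sq`, `lam_inj`). -/
theorem α_bij : Function.Bijective D.α := by
  have h : ∀ l, D.α (D.α l) = D.l0⁻¹ * l * D.l0 := fun l => D.lam_inj (by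
    simp only [map_mul, map_inv, ← D.cj, ← D.sq]; group)
  refine ⟨fun a b e => ?_, fun l => ⟨D.α (D.l0 * l * D.l0⁻¹), by rw [h]; group⟩⟩
  have := congrArg D.α e
  simpa [h] using this

/-- Another choice of `w`. -/
def tw (l : L) : Dat G L where
  P := D.P
  π := D.π
  lam := D.lam
  mem := D.mem
  sec := D.sec
  w := D.w * D.lam l
  α := (MulAut.conj l⁻¹).toMonoidHom.comp D.α
  cj x := by simp [← D.cj, mul_assoc]
  l0 := D.l0 * D.α l * l
  sq := by simp [← D.cj, ← D.sq, mul_assoc]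
  nm h := D.nm (by simpa using D.P.mul_mem h (D.P.inv_mem (D.mem l)))
  int x hx h := D.int x hx (by
    simpa [mul_assoc] using D.P.mul_mem (D.P.mul_mem (D.mem l) h) (D.P.inv_mem (D.mem l)))

theorem tw_big (l : L) {g : G} : (D.tw l).Big g ↔ D.Big g := by
  refine ⟨fun ⟨x, hx, y, hy, e⟩ => ⟨x, hx, _, D.P.mul_mem (D.mem l) hy, by simp [e, tw, mul_assoc]⟩,
    fun ⟨x, hx, y, hy, e⟩ => ⟨x, hx, _, D.P.mul_mem (D.P.inv_mem (D.mem l)) hy, by simp [e, tw, mul_assoc]⟩⟩

variable [Fintype G]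

theorem tw_mid (l : L) {τ τ' : L → ℂ} (h : D.Mid τ τ') : (D.tw l).Mid τ τ' :=
  fun g h1 h2 => h g h1 fun h3 => h2 ((D.tw_big l).2 h3)

theorem I_one (τ : L → ℂ) : D.I τ 1 = D.P.index * τ 1 := by
  rw [I, Induce.indFun_one, φ, map_one]

theorem isCharacter_I {τ : L → ℂ} (h : IsCharacter L τ) : IsCharacter G (D.I τ) := Induce.isCharacter_indFun D.P (h.comp D.π)

theorem π_surj : Function.Surjective D.π := fun l => ⟨_, D.sec l⟩

theorem card_big : Nat.card {g // D.Big g} = Nat.card D.K * Nat.card D.P := by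
  rw [← Nat.card_prod]
  refine (Nat.card_eq_of_bijective (fun p : D.K × D.P => (⟨p.1 * D.w * p.2, _, D.K_le p.1.2, _, p.2.2, rfl⟩ :
    {g // D.Big g})) ⟨?_, ?_⟩).symm
  · rintro ⟨⟨k, hk⟩, y, hy⟩ ⟨⟨k', hk'⟩, y', hy'⟩ e
    have e1 : k * D.w * y = k' * D.w * y' := congrArg Subtype.val e
    have h1 := D.K.mul_mem (D.K.inv_mem hk') hk
    have e2 : D.w⁻¹ * (k'⁻¹ * k) * D.w = y' * y⁻¹ := by
      rw [← mul_inv_eq_iff_eq_mul] at e1
      calc _ = D.w⁻¹ * k'⁻¹ * (k * D.w * y * y'⁻¹) * (y' * y⁻¹) := by group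
        _ = _ := by rw [e1]; group
    obtain ⟨l, hl⟩ := D.int _ (D.K_le h1) (e2 ▸ D.P.mul_mem hy' (D.P.inv_mem hy))
    obtain ⟨h2, h3⟩ := D.mem_K.1 h1
    have h4 : l = 1 := by rw [← D.sec l, ← h3]; exact congrArg _ (Subtype.ext hl.symm)
    rw [h4, map_one, inv_mul_eq_one] at hl
    subst hl
    obtain rfl := mul_left_cancel e1
    rfl
  · rintro ⟨g, hg⟩
    obtain ⟨k, hk, k', hk', l, rfl⟩ := hg.dec
    exact ⟨(⟨k, hk⟩, ⟨_, D.P.mul_mem (D.mem l) (D.K_le hk')⟩), Subtype.ext (by simp [mul_assoc])⟩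

theorem mky_w [Fintype L] (τ τ' : L → ℂ) :
    mky D.P (D.φ τ) (D.φ τ') D.w = ∑ l, τ l * conj (τ' (D.α l)) := by
  classical
  rw [mky, sum_eq_sm D.lam.range, sm_eq]
  · refine (Fintype.sum_equiv (MonoidHom.ofInjective D.lam_inj).toEquiv _ _ fun l => ?_).symm
    change _ = D.ex τ (D.lam l) * conj (D.ex τ' (D.w⁻¹ * D.lam l * D.w))
    rw [D.cj, D.ex_of_mem _ (D.mem _), D.ex_of_mem _ (D.mem _), D.sec, D.sec]
  · intro x hx
    by_cases h1 : x ∈ D.P
    · rw [Induce.extendByZero_of_not_mem _ _ fun h2 => hx ((D.int x h1 h2).imp fun _ => Eq.symm), map_zero,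
        mul_zero]
    · rw [Induce.extendByZero_of_not_mem _ _ h1, zero_mul]

/-- `inner_ind`: `g ∈ P` contribute `|P| * mky 1 = |P| ^ 2 * ⟨τ, τ'⟩` (the fibres of `π` have size `|K|`); the big
`g` are the `k * w * y` with unique `k ∈ K`, `y ∈ P` (uniqueness by `int`), and
`mky w = ∑ l, τ l * conj (τ' (α l))` (`int`, `cj`). -/
theorem inner [Fintype L] {τ τ' : L → ℂ} (h : IsClassFunction L τ) (h' : IsClassFunction L τ')
    (hm : D.Mid τ τ') :
    classInner (D.I τ) (D.I τ') = classInner τ τ' + classInner τ fun l => τ' (D.α l) := by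
  classical
  have c1 : IsClassFunction D.P (D.φ τ) := h.comp D.π
  have c2 : IsClassFunction D.P (D.φ τ') := h'.comp D.π
  have e : ∀ g, mky D.P (D.φ τ) (D.φ τ') g = (if g ∈ D.P then mky D.P (D.φ τ) (D.φ τ') 1 else 0) +
      if D.Big g then mky D.P (D.φ τ) (D.φ τ') D.w else 0 := fun g => by
    by_cases h1 : g ∈ D.P
    · rw [if_pos h1, if_neg fun h2 => h2.notMem h1, add_zero, ← mky_mul c1 c2 h1 D.P.one_mem 1]
      simp
    · rw [if_neg h1, zero_add]
      split_ifs with h2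
      · obtain ⟨x, hx, y, hy, rfl⟩ := h2
        exact mky_mul c1 c2 hx hy _
      · exact hm g h1 h2
  have e1 : mky D.P (D.φ τ) (D.φ τ') 1 = Nat.card D.P * classInner τ τ' := by
    rw [← classInner_comp_surjective D.π D.π_surj, card_mul_classInner, mky, Induce.sum_extendByZero_mul]
    simp [φ]
  have e2 : (univ.filter (· ∈ D.P)).card = Nat.card D.P := by
    rw [Nat.card_eq_fintype_card, Fintype.card_subtype]
  have e3 : (univ.filter D.Big).card = Nat.card D.K * Nat.card D.P := by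
    rw [← D.card_big, Nat.card_eq_fintype_card, Fintype.card_subtype]
  rw [I, I, inner_ind, sum_congr rfl fun g _ => e g, sum_add_distrib, ← sum_filter, ← sum_filter, sum_const,
    sum_const, e2, e3, e1, mky_w, ← card_mul_classInner τ fun l => τ' (D.α l)]
  have h1 := card_ne_zero_complex D.P
  have h2 : (Nat.card D.P : ℂ) = Nat.card D.K * Nat.card L := by exact_mod_cast D.card_P
  simp only [nsmul_eq_mul, Nat.cast_mul]
  field_simp
  rw [h2]; ring

/-- Norm one (`τ ∘ α` is irreducible by `α_bij`). -/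
theorem irr {τ : L → ℂ} (h : IsIrrCharacter L τ) (hm : D.Mid τ τ) (hα : ∃ l, τ (D.α l) ≠ τ l) :
    IsIrrCharacter G (D.I τ) := by
  haveI : Finite L := .of_injective _ D.lam_inj
  haveI := Fintype.ofFinite L
  refine (D.isCharacter_I h.isCharacter).isIrrCharacter_of_inner_self ?_
  obtain ⟨l, hl⟩ := hα
  rw [D.inner h.isClassFunction h.isClassFunction hm, h.inner_self, h.inner_eq_zero_of_ne
    (h.comp_surjective D.α D.α_bij.2) fun e => hl (congrFun e l).symm, add_zero]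

/-- Norm two (see the end of `RK3.rank_three`). -/
theorem two {τ : L → ℂ} (h : IsIrrCharacter L τ) (hm : D.Mid τ τ) (hα : ∀ l, τ (D.α l) = τ l) :
    ∃ χ ψ : G → ℂ, IsIrrCharacter G χ ∧ IsIrrCharacter G ψ ∧ χ ≠ ψ ∧ D.I τ = χ + ψ := by
  haveI : Finite L := .of_injective _ D.lam_inj
  haveI := Fintype.ofFinite L
  have h1 := D.inner h.isClassFunction h.isClassFunction hm
  simp only [hα, h.inner_self] at h1
  obtain ⟨χ, ψ, hχ, hψ, e⟩ := (D.isCharacter_I h.isCharacter).exists_irr_add fun e => by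
    simp [e, classInner_def] at h1
    norm_num at h1
  obtain ⟨m, hm⟩ := hχ.isCharacter.exists_inner_eq_nat hψ
  obtain ⟨n, hn⟩ := hψ.exists_inner_eq_nat hψ
  rw [e, classInner_add_left, classInner_add_right, classInner_add_right, hχ.inner_self,
    hψ.inner_comm hχ.isCharacter, hm, hn] at h1
  have h2 : 1 + m + (m + n) = 1 + 1 := by exact_mod_cast h1
  obtain ⟨rfl, rfl⟩ : m = 0 ∧ n = 1 := by omega
  refine ⟨χ, ψ, hχ, hψ.isIrrCharacter_of_inner_self (by simpa using hn), fun e' => ?_, e⟩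
  rw [← e', hχ.inner_self] at hm
  simp at hm

/-- `I τ z = index * τ l = I τ 1` for central `z`, so `z` lies in the kernel of `I τ = χ + ψ`
(`‖χ z‖ ≤ χ 1`, real parts). -/
theorem sign {τ : L → ℂ} (h : IsCharacter L τ) {l : L} (hl : D.lam l ∈ Subgroup.center G)
    (h1 : τ l = τ 1) {χ ψ : G → ℂ} (hχ : IsCharacter G χ) (hψ : IsCharacter G ψ) (e : D.I τ = χ + ψ) :
    χ (D.lam l) = χ 1 := by
  refine eq_of_add hχ hψ ?_
  have e1 : ∀ g, χ g + ψ g = D.I τ g := fun g => (congrFun e g).symm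
  rw [e1, e1, I, Induce.indFun_apply, Induce.indFun_apply]
  congr 1
  refine sum_congr rfl fun x _ => ?_
  rw [mul_assoc, ← Subgroup.mem_center_iff.1 hl x, inv_mul_cancel_left, mul_one, inv_mul_cancel]
  change D.ex τ _ = D.ex τ _
  rw [D.ex_of_mem _ (D.mem l), D.ex_of_mem _ D.P.one_mem, D.sec, h1]
  exact congrArg τ (map_one D.π).symm

end Dat

/-- A character in the kernel-of-`z` part: constituents of `π` inherit `π z = π 1`. -/
theorem apply_eq_of_add [Finite G] {χ ψ : G → ℂ} (hχ : IsCharacter G χ) (hψ : IsCharacter G ψ) {z : G}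
    (h : χ z + ψ z = χ 1 + ψ 1) : χ z = χ 1 := eq_of_add hχ hψ h

theorem sign_or' [Finite G] {z : G} (hz : z ∈ Subgroup.center G) (h2 : z * z = 1) {τ : G → ℂ}
    (h : IsIrrCharacter G τ) : (∀ g, τ (z * g) = τ g) ∨ ∀ g, τ (z * g) = - τ g := by
  classical
  haveI := Fintype.ofFinite G
  have h1 : ∀ g, τ 1 * τ (z * g) = τ z * τ g := fun g => by
    have := h.sum_conj_mul z g
    simp only [fun x => Subgroup.mem_center_iff.1 hz x, mul_inv_cancel_right, sum_const, card_univ,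
      nsmul_eq_mul, ← Nat.card_eq_fintype_card, eq_div_iff h.apply_one_ne_zero] at this
    exact mul_left_cancel₀ (card_ne_zero_complex G) (by linear_combination this)
  have h0 := h.apply_one_ne_zero
  have h3 := h1 z
  rw [h2] at h3
  rcases mul_self_eq_mul_self_iff.1 h3 with e | e
  · exact .inl fun g => mul_left_cancel₀ h0 (by rw [h1, ← e])
  · exact .inr fun g => mul_left_cancel₀ h0 (by rw [h1, e]; ring)

/-- If every irreducible had `τ z = τ 1` then `z = 1` (regular character); on a central involution an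
irreducible character is `± τ 1`. -/
theorem exists_neg [Finite G] {z : G} (hz : z ∈ Subgroup.center G) (h1 : z ≠ 1) (h2 : z * z = 1) :
    ∃ τ, IsIrrCharacter G τ ∧ τ z = - τ 1 := by
  obtain ⟨τ, h, e⟩ := exists_irr_apply_ne_of_ne_one h1
  exact ⟨τ, h, by simpa using (sign_or' hz h2 h).resolve_left (fun h3 => e (by simpa using h3 1)) 1⟩

theorem sign_or [Finite G] {z : G} (hz : z ∈ Subgroup.center G) (h2 : z * z = 1) {τ : G → ℂ}
    (h : IsIrrCharacter G τ) : (∀ g, τ (z * g) = τ g) ∨ ∀ g, τ (z * g) = - τ g := sign_or' hz h2 h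

/-- Descend to the central quotient. -/
theorem exists_quot [Finite G] {χ : G → ℂ} (h : IsIrrCharacter G χ)
    (hz : ∀ z ∈ Subgroup.center G, χ z = χ 1) :
    ∃ ψ, IsIrrCharacter (G ⧸ Subgroup.center G) ψ ∧ ψ 1 = χ 1 := by
  obtain ⟨ψ, h1, h2⟩ := h.exists_deflate _ hz
  exact ⟨ψ, h1, h2 1⟩

end Cfsg.Lib.HCI
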