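import Cfsg.Agent.Lib.HCI.Par
import Cfsg.Agent.Lib.Char.Product
import Cfsg.Agent.S2580

/-! S4984: cuspidal characters of `GL_k` and the condition `Fr`. -/

set_option autoImplicit false

namespace Cfsg.Lib.HCI

open Module Matrix Cfsg.Lib.Char
open scoped ComplexConjugate

variable {F V V' : Type} [Field F] [AddCommGroup V] [Module F V] [AddCommGroup V'] [Module F V'] {k : ℕ}

/-- The unipotent radical of the stabiliser of `T`. -/
def rad [DecidableEq F] (T : Submodule F (Fin k → F)) : Subgroup (GL (Fin k) F) where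
  carrier := {u | (∀ v ∈ T, u.1 *ᵥ v = v) ∧ ∀ v, u.1 *ᵥ v - v ∈ T}
  one_mem' := ⟨fun v _ => by simp, fun v => by simp⟩
  mul_mem' := fun {a b} ha hb => ⟨fun v hv => by
    rw [Units.val_mul, ← mulVec_mulVec, hb.1 v hv, ha.1 v hv], fun v => by
      rw [Units.val_mul, ← mulVec_mulVec, ← sub_add_sub_cancel _ (b.1 *ᵥ v)]
      exact T.add_mem (ha.2 _) (hb.2 _)⟩
  inv_mem' := fun {a} ha => ⟨fun v hv => by
    conv_lhs => rw [← ha.1 v hv]
    rw [mulVec_mulVec, Units.inv_mul, one_mulVec], fun v => by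
      have := T.neg_mem (ha.2 ((a⁻¹).1 *ᵥ v))
      rwa [mulVec_mulVec, Units.mul_inv, one_mulVec, neg_sub] at this⟩

variable [DecidableEq F]

/-- No fixed vectors for the unipotent radicals. -/
def Cu (ρ : GL (Fin k) F → ℂ) : Prop := ∀ T, T ≠ ⊥ → T ≠ ⊤ → sm (rad T) ρ = 0

/-- `u - 1 = ∑ i, φᵢ • tᵢ` for a basis `tᵢ` of `T`, and the product of the `1 + φᵢ • tᵢ` is `u`
(or: the maps `η : F^k → T` vanishing on `T` with `1 + η ∈ H` form an additive subgroup). -/
theorem rad_le {T : Submodule F (Fin k → F)} {H : Subgroup (GL (Fin k) F)}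
    (h : ∀ t ∈ T, ∀ φ : (Fin k → F) →ₗ[F] F, (∀ v ∈ T, φ v = 0) → ∃ u ∈ H, ∀ v, u.1 *ᵥ v = v + φ v • t) :
    rad T ≤ H := by
  intro a ha
  let b := Module.finBasis F T
  let η : (Fin k → F) →ₗ[F] T := (toLin' a.1 - LinearMap.id).codRestrict T fun v => ha.2 v
  have h0 : ∀ v ∈ T, η v = 0 := fun v hv => Subtype.ext (sub_eq_zero.2 (ha.1 v hv))
  have h1 : ∀ s : Finset (Fin (finrank F T)), ∃ u ∈ H, ∀ v, u.1 *ᵥ v = v + (∑ i ∈ s, b.repr (η v) i • b i : T) :=
    fun s => by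
      induction s using Finset.induction_on with
      | empty => exact ⟨1, H.one_mem, fun v => by simp⟩
      | insert i s hi ih =>
        obtain ⟨u, hu, e⟩ := ih
        obtain ⟨u', hu', e'⟩ := h (b i) (b i).2 (b.coord i ∘ₗ η) fun v hv => by simp [h0 v hv]
        refine ⟨u' * u, H.mul_mem hu' hu, fun v => ?_⟩
        rw [Units.val_mul, ← mulVec_mulVec, e, e', Finset.sum_insert hi, LinearMap.comp_apply, map_add,
          h0 _ (Subtype.property _), add_zero, Submodule.coe_add, add_assoc, add_comm _ (_ • _)]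
        rfl
  obtain ⟨u, hu, e⟩ := h1 Finset.univ
  have : u = a := Units.ext (mulVec_injective (funext fun v => by
    rw [e, b.sum_repr]; exact add_sub_cancel _ _))
  exact this ▸ hu

/-- `S2580.result`. -/
theorem cls_transpose [Finite F] {ρ : GL (Fin k) F → ℂ} (h : IsClassFunction _ ρ) {A B : GL (Fin k) F}
    (e : B.1 = A.1ᵀ) : ρ B = ρ A := by
  obtain ⟨c, hc⟩ := Cfsg.Agent.S2580.result A.1
  rw [← h A c]
  congr 1
  rw [eq_mul_inv_iff_mul_eq]
  exact Units.ext (by rw [Units.val_mul, Units.val_mul, e, hc.eq])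

/-- The converse of `sm_comp` (the fibres are non-empty). -/
theorem sm_map {G L : Type*} [Group G] [Group L] [Finite G] {H : Subgroup G} (f : G →* L) {θ : L → ℂ}
    (h : sm H (fun x => θ (f x)) = 0) : sm (H.map f) θ = 0 := by
  classical
  haveI := Fintype.ofFinite H
  haveI : Finite (H.map f) := .of_surjective _ (f.subgroupMap_surjective H)
  haveI := Fintype.ofFinite (H.map f)
  rw [sm_eq] at h ⊢
  exact (mul_eq_zero.1 ((sum_comp_surjective (f.subgroupMap H) (f.subgroupMap_surjective H)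
    fun y => θ y).symm.trans h)).resolve_left (card_ne_zero_complex _)

/-- The degree of the cuspidal characters. -/
def gam (q k : ℕ) : ℕ := ∏ i ∈ Finset.range (k - 1), (q ^ (i + 1) - 1)

/-- A cuspidal irreducible character. -/
structure CI [Fintype F] (ρ : GL (Fin k) F → ℂ) : Prop where
  irr : IsIrrCharacter _ ρ
  cu : Cu ρ
  deg : ρ 1 = gam (Fintype.card F) k
  ne : ρ ≠ fun _ => 1

/-- Not real valued. -/
def NR (ρ : GL (Fin k) F → ℂ) : Prop := ∃ A, ρ A⁻¹ ≠ ρ A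

/-- The outer tensor product. -/
def tn {A B : Type*} (ρ : A → ℂ) (τ : B → ℂ) : A × B → ℂ := fun p => ρ p.1 * τ p.2

namespace FS

variable (S : FS F V)

/-- The image of `i` is totally singular. -/
def TS (i : (Fin k → F) →ₗ[F] V) : Prop := (∀ z, S.Q (i z) = 0) ∧ ∀ z z', S.B (i z) (i z') = 0

/-- The isometries stabilising `W = range i` and acting trivially on `W^⊥ / W`, with their action on `W`. -/
def nr (i : (Fin k → F) →ₗ[F] V) : Subgroup (GL (Fin k) F × S.Iso) where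
  carrier := {p | (∀ z, p.2.1 (i z) = i (p.1.1 *ᵥ z)) ∧
    ∀ v, (∀ z, S.B (i z) v = 0) → p.2.1 v - v ∈ LinearMap.range i}
  one_mem' := ⟨fun v => by simp, fun v _ => by simp⟩
  mul_mem' := fun {a b} ha hb => ⟨fun z => by
    rw [Prod.snd_mul, mul_ap, hb.1, ha.1, mulVec_mulVec]; rfl, fun v hv => by
      rw [Prod.snd_mul, mul_ap, ← sub_add_sub_cancel _ (b.2.1 v)]
      refine add_mem (ha.2 _ fun z => ?_) (hb.2 v hv)
      rw [← hv ((b.1⁻¹).1 *ᵥ z), ← map_B b.2 (i _) v, hb.1, mulVec_mulVec, Units.mul_inv, one_mulVec]⟩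
  inv_mem' := fun {a} ha => ⟨fun z => by
    have := ha.1 ((a.1⁻¹).1 *ᵥ z)
    rw [mulVec_mulVec, Units.mul_inv, one_mulVec] at this
    rw [← this]; exact inv_ap _ _, fun v hv => by
      have := neg_mem (ha.2 (a.2⁻¹.1 v) fun z => by rw [← map_B a.2, ap_inv, ha.1, hv])
      rwa [ap_inv, neg_sub] at this⟩

/-- `ρ` does not occur in the Harish-Chandra restriction of `τ`. -/
def Fr (ρ : GL (Fin k) F → ℂ) (τ : S.Iso → ℂ) : Prop :=
  ∀ i : (Fin k → F) →ₗ[F] V, Function.Injective i → S.TS i → sm (S.nr i) (fun p => τ p.2 * conj (ρ p.1)) = 0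

variable {S} {S' : FS F V'}

/-- Transport (`nr (h.e ∘ i)` is the image of `nr i`). -/
theorem Fr.congr [Finite F] [Finite V] (h : Isom S S') {ρ : GL (Fin k) F → ℂ} {τ : S'.Iso → ℂ} (h1 : S'.Fr ρ τ) :
    S.Fr ρ fun g => τ (h.congr g) := by
  intro i hi ht
  have h2 := h1 (h.e.toLinearMap ∘ₗ i) (h.e.injective.comp hi)
    ⟨fun z => (h.Q _).trans (ht.1 z), fun z z' => (h.B _ _).trans (ht.2 z z')⟩
  have key : ∀ A g, (A, h.congr g) ∈ S'.nr (h.e.toLinearMap ∘ₗ i) ↔ (A, g) ∈ S.nr i := fun A g => by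
    refine and_congr (forall_congr' fun z => ?_) (h.e.surjective.forall.trans (forall_congr' fun v => ?_))
    · change (h.congr g).1 (h.e (i z)) = h.e _ ↔ _
      rw [h.congr_ap, h.e.injective.eq_iff]
    · change (∀ z, S'.B (h.e (i z)) (h.e v) = 0) → (∃ y, h.e (i y) = (h.congr g).1 (h.e v) - h.e v) ↔ _
      simp only [h.B, h.congr_ap, ← map_sub, h.e.injective.eq_iff]
      rfl
  refine sm_comp (G := GL (Fin k) F × S.Iso) (L := GL (Fin k) F × S'.Iso)
    ((MonoidHom.id _).prodMap h.congr.toMonoidHom) (θ := fun p => τ p.2 * conj (ρ p.1)) ?_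
  convert h2
  ext ⟨A, g⟩
  obtain ⟨g, rfl⟩ := h.congr.surjective g
  rw [key]
  refine ⟨?_, fun h3 => ⟨_, h3, rfl⟩⟩
  rintro ⟨⟨A', g'⟩, h3, e⟩
  obtain ⟨rfl, e'⟩ := Prod.mk.inj e
  exact h.congr.injective e' ▸ h3

/-- The two sums are non-negative integer multiples of `|nr i|` (`exists_inner_eq_nat`). -/
theorem Fr.of_add [Finite F] [Finite V] {ρ : GL (Fin k) F → ℂ} (hρ : IsCharacter _ ρ) {τ τ' : S.Iso → ℂ}
    (h : IsCharacter _ τ) (h' : IsCharacter _ τ') (h1 : S.Fr ρ (τ + τ')) : S.Fr ρ τ := by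
  intro i hi ht
  have h2 := h1 i hi ht
  haveI := Fintype.ofFinite (S.nr i)
  have a := hρ.comp ((MonoidHom.fst _ _).comp (S.nr i).subtype)
  obtain ⟨m, hm⟩ := (h.comp ((MonoidHom.snd _ _).comp (S.nr i).subtype)).exists_inner_eq_nat a
  obtain ⟨n, hn⟩ := (h'.comp ((MonoidHom.snd _ _).comp (S.nr i).subtype)).exists_inner_eq_nat a
  rw [sm_eq] at h2 ⊢
  simp only [Pi.add_apply, add_mul, Finset.sum_add_distrib] at h2
  have e1 := card_mul_classInner (fun x : S.nr i => τ x.1.2) fun x => ρ x.1.1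
  have e2 := card_mul_classInner (fun x : S.nr i => τ' x.1.2) fun x => ρ x.1.1
  erw [hm] at e1
  erw [hn] at e2
  rw [← e1, ← e2, ← mul_add, mul_eq_zero] at h2
  have h3 : m + n = 0 := by exact_mod_cast h2.resolve_left (card_ne_zero_complex _)
  rw [← e1, show m = 0 by omega]
  simp

/-- A hyperbolic partner orthogonal to `u`: choose `j₀` with `B (i x) (j₀ y) = x ⬝ᵥ y` and `B u (j₀ y) = 0` (`exists_B` for a linear functional extending the
prescribed values on `range i ⊕ F u`), then `j = j₀ + i ∘ C` with `C` from `exists_con j₀`. -/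
theorem exists_partner [Fintype F] [Finite V] {i : (Fin k → F) →ₗ[F] V} (hi : Function.Injective i) (ht : S.TS i)
    {u : V} (hu : u = 0 ∨ u ∉ LinearMap.range i) (hu' : ∀ z, S.B (i z) u = 0) :
    ∃ j : (Fin k → F) →ₗ[F] V, S.TS j ∧ (∀ x y, S.B (i x) (j y) = x ⬝ᵥ y) ∧ ∀ y, S.B u (j y) = 0 := by
  obtain ⟨g, h1, h2⟩ : ∃ g : V →ₗ[F] (Fin k → F), (∀ x, g (i x) = x) ∧ g u = 0 := by
    obtain ⟨g, hg⟩ := i.exists_leftInverse_of_injective (LinearMap.ker_eq_bot.2 hi)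
    have hg' : ∀ x, g (i x) = x := fun x => LinearMap.congr_fun hg x
    rcases hu with rfl | hu
    · exact ⟨g, hg', map_zero g⟩
    obtain ⟨ψ, h3, h4⟩ := Submodule.exists_le_ker_of_notMem hu
    refine ⟨g - ψ.smulRight ((ψ u)⁻¹ • g u), fun x => ?_, by simp [smul_smul, h3]⟩
    simp [hg', LinearMap.mem_ker.1 (h4 ⟨x, rfl⟩)]
  choose b hb using fun r => S.exists_B (LinearMap.proj r ∘ₗ g)
  obtain ⟨j, hj⟩ : ∃ j : (Fin k → F) →ₗ[F] V, ∀ v y, S.B v (j y) = g v ⬝ᵥ y :=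
    ⟨(Pi.basisFun F (Fin k)).constr F b, fun v y => by
      rw [← par_t]
      congr 1
      funext r
      rw [← Pi.basisFun_apply, Basis.constr_basis, hb]; rfl⟩
  obtain ⟨C, hC⟩ := exists_con (S := S) j
  refine ⟨j + i ∘ₗ toLin' C, ⟨fun y => ?_, fun y y' => ?_⟩, fun x y => ?_, fun y => ?_⟩
  · simp only [LinearMap.add_apply, LinearMap.comp_apply, toLin'_apply, S.add, ht.1,
      S.symm' (i (C *ᵥ y)) (j y), hj (i _), h1]
    linear_combination hC.1 y + (C *ᵥ y ⬝ᵥ y) * S.κ_ε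
  · simp only [LinearMap.add_apply, LinearMap.comp_apply, toLin'_apply, map_add, ht.2,
      S.symm' (i (C *ᵥ y')) (j y), hj (i _), h1, dotProduct_comm (C *ᵥ y')]
    linear_combination hC.2 y y'
  · simp [hj, h1, ht.2]
  · simp [hj, h2, S.B_comm (hu' _)]

/-- The Levi element `v ↦ v - i (a v) - j (b v) + i (A a v) + j (A⁻ᵀ b v)` where `(a v) r = B v (j eᵣ)`,
`(b v) r = B (i eᵣ) v`. -/
theorem exists_levi [Finite V] {i j : (Fin k → F) →ₗ[F] V} (hi : S.TS i) (hj : S.TS j)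
    (h : ∀ x y, S.B (i x) (j y) = x ⬝ᵥ y) (A : GL (Fin k) F) :
    ∃ g : S.Iso, (A, g) ∈ S.nr i ∧ (∀ y, g.1 (j y) = j ((A⁻¹).1ᵀ *ᵥ y)) ∧
      ∀ v, (∀ z, S.B (i z) v = 0) → (∀ z, S.B v (j z) = 0) → g.1 v = v := by
  let a : V →ₗ[F] (Fin k → F) := LinearMap.pi fun r => S.B.flip (j (Pi.single r 1))
  let b : V →ₗ[F] (Fin k → F) := LinearMap.pi fun r => S.B (i (Pi.single r 1))
  have ha : ∀ v y, S.B v (j y) = a v ⬝ᵥ y := fun v y => (par_t S j v y).symm
  have hb : ∀ v x, S.B (i x) v = x ⬝ᵥ b v := fun v x => by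
    rw [S.symm', ← par_t, dotProduct_comm, ← smul_eq_mul, ← dotProduct_smul]
    congr 1
    funext r
    exact (S.symm' _ _).symm
  have a1 : ∀ x, a (i x) = x := fun x => funext fun r => (h x _).trans (by simp)
  have a2 : ∀ y, a (j y) = 0 := fun y => funext fun r => hj.2 _ _
  have b1 : ∀ x, b (i x) = 0 := fun x => funext fun r => hi.2 _ _
  have b2 : ∀ y, b (j y) = y := fun y => funext fun r => (h _ y).trans (by simp)
  let o : V →ₗ[F] V := LinearMap.id - i ∘ₗ a - j ∘ₗ b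
  have o1 : ∀ v y, S.B (o v) (j y) = 0 := fun v y => by simp [ha, o, a1, a2]
  have o2 : ∀ v x, S.B (i x) (o v) = 0 := fun v x => by simp [hb, o, b1, b2]
  have o3 : ∀ v, o v + i (a v) + j (b v) = v := fun v => by simp [o]; abel
  have eB : ∀ v w p q p' q', S.B (o v + i p + j q) (o w + i p' + j q') =
      S.B (o v) (o w) + p ⬝ᵥ q' + S.ε * (p' ⬝ᵥ q) := fun v w p q p' q' => by
    simp only [map_add, LinearMap.add_apply, o1, o2, hi.2, hj.2, h, S.B_comm (o1 _ _), S.B_comm (o2 _ _),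
      S.symm' (i p') (j q)]
    ring
  have eQ : ∀ v p q, S.Q (o v + i p + j q) = S.Q (o v) + S.κ * (p ⬝ᵥ q) := fun v p q => by
    simp only [S.add, map_add, LinearMap.add_apply, o1, hi.1, hj.1, h, S.B_comm (o2 _ _)]
    ring
  let f : V →ₗ[F] V := o + i ∘ₗ toLin' A.1 ∘ₗ a + j ∘ₗ toLin' (A⁻¹).1ᵀ ∘ₗ b
  have hf : ∀ v, f v = o v + i (A.1 *ᵥ a v) + j ((A⁻¹).1ᵀ *ᵥ b v) := fun v => rfl
  refine ⟨S.mkIso f (fun x y => ?_) fun x => ?_, ⟨fun z => ?_, fun v hv => ?_⟩, fun y => ?_, fun v h1 h2 => ?_⟩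
  · rw [hf, hf, eB, par_dot, par_dot, ← eB, o3, o3]
  · rw [hf, eQ, par_dot, ← eQ, o3]
  · change f _ = _
    simp [hf, o, a1, b1]
  · change f v - v ∈ _
    have : b v = 0 := funext fun r => hv _
    exact ⟨A.1 *ᵥ a v - a v, by simp [hf, o, this]; abel⟩
  · change f _ = _
    simp [hf, o, a2, b2]
  · change f _ = _
    have h3 : b v = 0 := funext fun r => h1 _
    have h4 : a v = 0 := funext fun r => h2 _
    simp [hf, o, h3, h4]

end FS

end Cfsg.Lib.HCI
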