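import Cfsg.Agent.Lib.HCI.T6
import Cfsg.Agent.Lib.CharDeg.SL2Count

/-! S4984: cuspidal characters of `GL₁`, `GL₂`, `SL₂`. `K = QuadraticAlgebra F a b` (`exists_no_root`); `MulChar K ℂ` is cyclic
of order `q² - 1` (`MulChar.mulEquiv_units` or `MulChar.exists_mulChar_orderOf`), `cstar θ = θ ^ q`. -/

set_option autoImplicit false

namespace Cfsg.Lib.HCI

open Module Matrix Cfsg.Lib.Char Cfsg.Lib.GLTwo
open scoped MatrixGroups

variable {F : Type} [Field F] [Fintype F] [DecidableEq F]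

theorem c2_faith (L : Type) [Field L] [Finite L] : ∃ χ : MulChar L ℂ, ∀ z, χ z = 1 → z = 1 := by
  have : NeZero (Nat.card Lˣ) := ⟨Nat.card_pos.ne'⟩
  let e : Lˣ ≃* rootsOfUnity (Nat.card Lˣ) ℂ := mulEquivOfCyclicCardEq (Complex.card_rootsOfUnity _).symm
  refine ⟨MulChar.ofUnitHom ((rootsOfUnity _ ℂ).subtype.comp e.toMonoidHom), fun z hz => ?_⟩
  obtain rfl | h0 := eq_or_ne z 0
  · simp [MulChar.map_zero] at hz
  · lift z to Lˣ using h0.isUnit
    rw [MulChar.ofUnitHom_coe] at hz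
    exact congrArg Units.val (e.map_eq_one_iff.1 (Subtype.ext (Units.ext hz)))

theorem c2_dvd {C : Type} [Group C] [Finite C] [IsCyclic C] {m : ℕ} (h : ∀ x : C, x ^ m = 1) : Nat.card C ∣ m :=
  IsCyclic.exponent_eq_card (α := C) ▸ Monoid.exponent_dvd_of_forall_pow_eq_one h

section
variable {a b : F} [Fact (∀ r : F, r ^ 2 ≠ a + b * r)] {χ : MulChar (QuadraticAlgebra F a b) ℂ}
  (hχ : ∀ z, χ z = 1 → z = 1) {m : ℕ}
include hχ

omit [Fintype F] [DecidableEq F] in
theorem c2_pow {z : (QuadraticAlgebra F a b)ˣ} (h : (χ ^ m) z = 1) : z ^ m = 1 :=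
  Units.ext (hχ _ (by rwa [Units.val_pow_eq_pow_val, map_pow, ← MulChar.pow_apply_coe]))

omit [DecidableEq F] in
theorem c2_res (h : res1 (χ ^ m) = 1) : Fintype.card F + 1 ∣ m := by
  rw [← Nat.card_eq_fintype_card, ← card_ker_normU (a := a) (b := b)]
  exact c2_dvd fun w => Subtype.ext (c2_pow hχ (by rw [← res1_apply, h]; rfl))

omit [DecidableEq F] in
theorem c2_star (h : cstar (χ ^ m) = χ ^ m) : Fintype.card F + 1 ∣ m :=
  c2_res hχ (MonoidHom.ext fun w => Units.ext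
    (exists_eq_nrm_iff.1 (cstar_eq_self_iff.1 h) _ (mem_ker_normU.1 w.2)))

end

/-- Every `rad T` is conjugate to `{bor 1 1 x}` (`sum_cusp_bor`); `cusp_tv`. -/
theorem ci_cusp {a b : F} [Fact (∀ r : F, r ^ 2 ≠ a + b * r)] {θ : MulChar (QuadraticAlgebra F a b) ℂ}
    (h : cstar θ ≠ θ) : CI (cusp θ) := by
  refine ⟨isIrr_cusp h, fun T h0 h1 => ?_, ?_, fun e => ?_⟩
  · obtain ⟨t, ht, ht0⟩ := (Submodule.ne_bot_iff T).1 h0
    have h2 := Submodule.finrank_lt h1
    have h3 := Submodule.finrank_eq_zero.not.2 h0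
    rw [finrank_fin_fun] at h2
    obtain rfl := eq_span_singleton_of_mem_of_finrank_eq_one (by omega) ht ht0
    have h4 : t 0 ≠ 0 ∨ t 1 ≠ 0 := by
      by_contra h5
      push Not at h5
      exact ht0 (funext fun i => by fin_cases i <;> simp [h5.1, h5.2])
    let g : F → GL (Fin 2) F := fun x => PSL2.gl2 (1 - x * t 0 * t 1) (x * t 0 ^ 2) (-x * t 1 ^ 2) (1 + x * t 0 * t 1)
      (by ring_nf; exact one_ne_zero)
    have hg : ∀ x v, (g x).1 *ᵥ v = v + (x * (t 0 * v 1 - t 1 * v 0)) • t := fun x v => funext fun i => by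
      fin_cases i <;> simp [g, mulVec, dotProduct] <;> ring
    let u : F → rad (F ∙ t) := fun x => ⟨g x, fun v hv => by
      obtain ⟨c, rfl⟩ := Submodule.mem_span_singleton.1 hv
      rw [hg]; simp [mul_left_comm, mul_comm (t 1), mul_assoc], fun v => by
      rw [hg, add_sub_cancel_left]; exact Submodule.smul_mem _ _ (Submodule.mem_span_singleton_self t)⟩
    have hu : Function.Bijective u := ⟨fun x y e => by
      have e' : g x = g y := congrArg Subtype.val e
      have e1 := congrArg (fun A : GL (Fin 2) F => A 0 1) e'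
      have e2 := congrArg (fun A : GL (Fin 2) F => A 1 0) e'
      rcases h4 with h4 | h4
      · simpa [g, h4] using e1
      · simpa [g, h4] using e2, fun w => by
      obtain ⟨c, hc⟩ := Submodule.mem_span_singleton.1 (w.2.2 (Pi.single 0 1))
      obtain ⟨d, hd⟩ := Submodule.mem_span_singleton.1 (w.2.2 (Pi.single 1 1))
      have e1 := congrFun hc 0
      have e2 := congrFun hc 1
      have e3 := congrFun hd 0
      have e4 := congrFun hd 1
      have e5 := congrFun (w.2.1 t ht) 0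
      have e6 := congrFun (w.2.1 t ht) 1
      simp [mulVec, dotProduct] at e1 e2 e3 e4 e5 e6
      obtain ⟨x, e7, e8⟩ : ∃ x, c = -x * t 1 ∧ d = x * t 0 := by
        rcases h4 with h4 | h4
        · refine ⟨d / t 0, ?_, by field_simp⟩
          field_simp
          refine mul_left_cancel₀ h4 ?_
          linear_combination t 0 * e1 + t 1 * e3 + e5
        · refine ⟨-c / t 1, by field_simp, ?_⟩
          field_simp
          refine mul_left_cancel₀ h4 ?_
          linear_combination t 0 * e2 + t 1 * e4 + e6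
      subst e7 e8
      refine ⟨x, Subtype.ext (gl_ext ?_ ?_ ?_ ?_)⟩ <;> simp [u, g]
      · linear_combination e1
      · linear_combination e3
      · linear_combination e2
      · linear_combination e4⟩
    have := Fintype.ofFinite (rad (F ∙ t))
    rw [sm_eq, ← hu.sum_comp, ← sum_cusp_bor θ 1 1]
    refine Finset.sum_congr rfl fun x _ => ?_
    obtain rfl | hx := eq_or_ne x 0
    · exact congrArg _ (gl_ext (by simp [u, g]) (by simp [u, g]) (by simp [u, g]) (by simp [u, g]))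
    obtain ⟨c, hc⟩ := isConj_iff.1 (isConj_of_trace_det (g := bor 1 1 x) (h := g x) (fun e => hx (by simpa using e.1))
      (fun e => h4.elim (fun h5 => by simpa [g, hx, h5] using e.1) fun h5 => by simpa [g, hx, h5] using e.2.1)
      (by simp [g, trace_fin_two]) (by simp [g, det_fin_two]; ring))
    exact (congrArg _ hc.symm).trans ((isGen_cusp θ).isClassFunction _ _)
  · rw [cusp_apply_one]
    simp [gam, Fintype.card_pos]
  · have := cusp_tv θ
    rw [e] at this
    norm_num at this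

/-- `g ↦ cusp θ g⁻¹` is `cusp θ⁻¹` (`cusp_emb'` suffices: if `cusp θ` is real then `θ + cstar θ = θ⁻¹ + cstar θ⁻¹` on the
non-scalars and `θ = θ⁻¹` on the scalars, so everywhere; `linearIndependent_monoidHom`). -/
theorem nr_cusp {a b : F} [Fact (∀ r : F, r ^ 2 ≠ a + b * r)] {θ : MulChar (QuadraticAlgebra F a b) ℂ}
    (h : cstar θ ≠ θ) (h1 : θ⁻¹ ≠ θ) (h2 : θ⁻¹ ≠ cstar θ) : NR (cusp θ) := by
  by_contra h3
  have h4 : cusp θ⁻¹ = cusp θ := by
    have h5 : ∀ g, cusp θ g = (starRingEnd ℂ) (cusp θ g) := fun g => by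
      rw [← (isGen_cusp θ).apply_inv]; exact (not_not.1 (not_exists.1 h3 g)).symm
    refine classFun_ext a b (isGen_cusp _).isClassFunction (isGen_cusp _).isClassFunction (fun g e => ?_)
      (fun g e1 e2 e3 => ?_) (fun g e1 e2 => ?_) fun z e => ?_
    · rw [h5, cusp_scal _ e, cusp_scal _ e]; simp [conj_mulChar]
    · rw [h5, cusp_unip _ e1 e2 e3, cusp_unip _ e1 e2 e3]; simp [conj_mulChar]
    · rw [cusp_split _ e1 e2, cusp_split _ e1 e2]
    · rw [h5, cusp_emb _ e, cusp_emb _ e]; simp [conj_mulChar]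
  exact (cusp_eq_iff.1 h4).elim h1 fun e => h2 (by rw [← cstar_cstar θ⁻¹, e])

theorem c2_gen {m : ℕ} (h1 : ¬ Fintype.card F + 1 ∣ m) (h2 : ¬ Fintype.card F + 1 ∣ 2 * m)
    (h3 : ¬ Fintype.card F - 1 ∣ m) : ∃ ρ : GL (Fin 2) F → ℂ, CI ρ ∧ NR ρ ∧ (Even m → ρ (-1) = ρ 1) := by
  obtain ⟨a, b, hab⟩ := exists_no_root F
  have := Fact.mk hab
  obtain ⟨χ, hχ⟩ := c2_faith (QuadraticAlgebra F a b)
  have h4 : cstar (χ ^ m) ≠ χ ^ m := fun e => h1 (c2_star hχ e)
  refine ⟨cusp (χ ^ m), ci_cusp h4, nr_cusp h4 (fun e => h2 (c2_res hχ (MonoidHom.ext fun w => Units.ext ?_)))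
    (fun e => h3 ?_), fun ⟨k, hk⟩ => ?_⟩
  · rw [res1_apply, two_mul, pow_add, MulChar.mul_apply]
    nth_rewrite 2 [← e]
    exact mulChar_mul_inv _ (Units.ne_zero _)
  · rw [← Fintype.card_units, ← Nat.card_eq_fintype_card]
    refine c2_dvd fun c => Units.map_injective (f := (algebraMap F (QuadraticAlgebra F a b)).toMonoidHom)
      (algebraMap F _).injective ?_
    obtain ⟨z, hz⟩ := exists_norm_eq a b c.ne_zero
    rw [map_pow, map_one]
    refine c2_pow hχ ?_
    have h5 := mulChar_mul_inv (χ ^ m) z.ne_zero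
    rw [e, cstar_apply, ← map_mul, ← QuadraticAlgebra.algebraMap_norm_eq_mul_star, hz] at h5
    exact h5
  · rw [cusp_scal _ ⟨by simp, by simp, by simp⟩, cusp_apply_one, hk, pow_add, res_apply, MulChar.mul_apply, ← map_mul,
      ← map_mul]
    simp

/-- `θ = χ²` for a generator `χ`: `q² - 1` divides none of `2 (q - 1)`, `4`, `2 (q + 1)`. -/
theorem cu2_nr (hq : 4 ≤ Fintype.card F) : ∃ ρ : GL (Fin 2) F → ℂ, CI ρ ∧ NR ρ ∧ ρ (-1) = ρ 1 := by
  obtain ⟨ρ, h1, h2, h3⟩ := c2_gen (F := F) (m := 2) (fun e => by have := Nat.le_of_dvd two_pos e; omega)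
    (fun e => by have := Nat.le_of_dvd (by decide) e; omega) fun e => by have := Nat.le_of_dvd two_pos e; omega
  exact ⟨ρ, h1, h2, h3 even_two⟩

/-- `θ` a generator. -/
theorem cu2_any (hq : 3 ≤ Fintype.card F) : ∃ ρ : GL (Fin 2) F → ℂ, CI ρ ∧ NR ρ := by
  obtain ⟨ρ, h1, h2, -⟩ := c2_gen (F := F) (m := 1) (fun e => by have := Nat.le_of_dvd one_pos e; omega)
    (fun e => by have := Nat.le_of_dvd (by decide) e; omega) fun e => by have := Nat.le_of_dvd one_pos e; omega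
  exact ⟨ρ, h1, h2⟩

/-- `θ` a generator. -/
theorem cu2 : ∃ ρ : GL (Fin 2) F → ℂ, CI ρ := by
  obtain ⟨a, b, hab⟩ := exists_no_root F
  have := Fact.mk hab
  obtain ⟨χ, hχ⟩ := c2_faith (QuadraticAlgebra F a b)
  exact ⟨cusp (χ ^ 1), ci_cusp fun e => by
    have := Nat.le_of_dvd one_pos (c2_star hχ e); have := Fintype.card_pos (α := F); omega⟩

/-- `θ = χ²` for a generator `χ`. For `q ≥ 4` the restriction `rs (cusp θ)` is irreducible (`isIrr_rs_cusp`: a generator of
`Kˣ` to the power `q - 1` has norm one and order `q + 1 ∤ 4`). For `q = 3` take any irreducible constituent (`apply_eq_of_add`;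
the sums over the unipotent subgroup of the two summands are `q` times natural numbers). -/
theorem cusp_sl2 (hq : 3 ≤ Fintype.card F) : ∃ (τ : SL(2, F) → ℂ) (t : ℕ), IsIrrCharacter _ τ ∧ τ 1 = t ∧ τ (-1) = τ 1 ∧
    (∀ r, r.Prime → r ≠ 2 → r ∣ Fintype.card F - 1 → r ∣ t) ∧
    ∑ x : F, τ ⟨!![1, x; 0, 1], by simp [det_fin_two]⟩ = 0 := by
  obtain ⟨a, b, hab⟩ := exists_no_root F
  have := Fact.mk hab
  obtain ⟨χ, hχ⟩ := c2_faith (QuadraticAlgebra F a b)
  have h1 : res1 (χ ^ 2) ≠ 1 := fun e => by have := Nat.le_of_dvd two_pos (c2_res hχ e); omega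
  have h2 : cusp (χ ^ 2) (tg (-1)) = cusp (χ ^ 2) 1 := by
    rw [cusp_scal _ ⟨by simp, by simp, by simp⟩, cusp_apply_one, sq, res_apply,
      MulChar.mul_apply, ← map_mul, ← map_mul]
    simp
  have h3 : ∑ x : F, cusp (χ ^ 2) (tg (PSL2.upper x)) = 0 := by
    simpa only [← bor1_one, tg_bor1, inv_one] using sum_cusp_bor (χ ^ 2) 1 1
  have h4 : ((Fintype.card F - 1 : ℕ) : ℂ) = Fintype.card F - 1 := by rw [Nat.cast_sub (by omega), Nat.cast_one]
  by_cases h5 : (res1 (χ ^ 2))⁻¹ = res1 (χ ^ 2)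
  · obtain ⟨τ, τ', h6⟩ := exists_halfPair_cusp h5 h1
    obtain ⟨t, ht⟩ := h6.odd
    refine ⟨τ, t, h6.irr₁, by rw [h6.apply_one, cusp_apply_one, ht]; push_cast; ring, ?_, fun r hr h7 h8 => ?_,
      h6.sum_upper.trans (by rw [h3, zero_div])⟩
    · rw [h6.apply_of_isConj (isConj_sig_of_scal (scal_sl_iff.2 (.inr rfl))), h2, h6.apply_one]
    · rw [ht, add_tsub_cancel_right] at h8
      exact ((Nat.Prime.dvd_mul hr).1 h8).resolve_left fun e => h7 ((Nat.prime_dvd_prime_iff_eq hr Nat.prime_two).1 e)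
  · exact ⟨_, Fintype.card F - 1, isIrr_rs_cusp h5, by rw [rs_cusp_apply_one, h4], h2.trans (rs_apply_one _).symm,
      fun r _ _ e => e, h3⟩

omit [Fintype F] in
theorem c2_g1 (a : Fˣ) : ∃ A : GL (Fin 1) F, A.1 0 0 = a :=
  ⟨GeneralLinearGroup.scalar (Fin 1) a, by simp⟩

theorem ci_g1 {lam : MulChar F ℂ} (h : lam ≠ 1) : CI (FS.g1 lam) := by
  refine ⟨FS.g1_irr lam, FS.g1_cu _, by simp [FS.g1, gam], fun e => h (MulChar.eq_one_iff.2 fun a => ?_)⟩
  obtain ⟨A, hA⟩ := c2_g1 a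
  exact hA ▸ congrFun e A

/-- A generator of `MulChar F ℂ`. -/
theorem cu1_nr (hq : 4 ≤ Fintype.card F) : ∃ ρ : GL (Fin 1) F → ℂ, CI ρ ∧ NR ρ := by
  obtain ⟨χ, hχ⟩ := c2_faith F
  have h1 : NR (FS.g1 χ) := by
    by_contra h1
    have h2 : Nat.card Fˣ ∣ 2 := c2_dvd fun a => Units.ext (hχ _ (by
      obtain ⟨A, hA⟩ := c2_g1 a
      have h3 : χ ((A⁻¹).1 0 0) = χ (A.1 0 0) := not_not.1 (not_exists.1 h1 A)
      rw [Units.val_pow_eq_pow_val, ← hA, sq, map_mul]
      nth_rewrite 1 [← h3]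
      rw [← map_mul, FS.g1_inv, map_one]))
    rw [Nat.card_eq_fintype_card, Fintype.card_units] at h2
    have := Nat.le_of_dvd two_pos h2
    omega
  refine ⟨_, ci_g1 fun e => ?_, h1⟩
  obtain ⟨A, hA⟩ := h1
  have h2 := FS.g1_inv A
  exact hA (by rw [FS.g1, FS.g1, e, mulChar_one_apply (left_ne_zero_of_mul_eq_one h2),
    mulChar_one_apply (right_ne_zero_of_mul_eq_one h2)])

/-- `quadraticChar`. -/
theorem exists_eta (hq : Fintype.card F = 3) : ∃ lam : MulChar F ℂ, lam ≠ 1 ∧ lam ^ 2 = 1 ∧ lam (-1) = -1 := by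
  obtain ⟨χ, hχ⟩ := c2_faith F
  have h1 : (-1 : F) ≠ 1 := fun e => by
    have h2 := FiniteField.cast_card_eq_zero F
    rw [hq] at h2
    exact one_ne_zero (α := F) (by linear_combination h2 + e)
  have h2 : χ (-1) = -1 := (mul_self_eq_one_iff.1 (by rw [← map_mul]; simp)).resolve_left fun e => h1 (hχ _ e)
  refine ⟨χ, fun e => ?_, MulChar.eq_one_iff.2 fun a => ?_, h2⟩
  · rw [e, mulChar_one_apply (by simp)] at h2
    norm_num at h2
  · rw [MulChar.pow_apply_coe, ← map_pow, show 2 = Fintype.card F - 1 by omega,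
      FiniteField.pow_card_sub_one_eq_one _ a.ne_zero, map_one]

end Cfsg.Lib.HCI
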