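import Cfsg.Agent.Lib.Cusp.GG

/-! S4984: the Bessel functional of an elliptic class (Steinberg's cross-section). -/

set_option autoImplicit false

namespace Cfsg.Lib.HCI

open Module Matrix Cfsg.Lib.Cusp Polynomial

variable {F K : Type} [Field F] [Fintype F] [DecidableEq F] [Field K] [Algebra F K] {n : ℕ}

/-- `g` is the image of `y` under an embedding of `K`. -/
def Rt (y : K) (g : GL (Fin n) F) : Prop := ∃ φ : K →ₐ[F] Matrix (Fin n) (Fin n) F, φ y = g.1

open Classical in
/-- The characteristic function of the class of `y`. -/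
noncomputable def ind (y : K) (g : GL (Fin n) F) : ℂ := if Rt y g then 1 else 0

/-- Conjugation of matrices. -/
def cubCj (h : GL (Fin n) F) : Matrix (Fin n) (Fin n) F →ₐ[F] Matrix (Fin n) (Fin n) F where
  toFun M := h.1 * M * (h⁻¹).1
  map_one' := by rw [mul_one, Units.mul_inv]
  map_mul' M N := by simp only [mul_assoc, Units.inv_mul_cancel_left]
  map_zero' := by rw [mul_zero, zero_mul]
  map_add' M N := by rw [mul_add, add_mul]
  commutes' c := by rw [← Algebra.commutes, mul_assoc, Units.mul_inv, mul_one]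

omit [Fintype F] in
theorem Rt.conj {y : K} {g : GL (Fin n) F} (h : Rt y g) (x : GL (Fin n) F) : Rt y (x * g * x⁻¹) :=
  let ⟨φ, e⟩ := h
  ⟨(cubCj x).comp φ, by rw [AlgHom.comp_apply, e]; rfl⟩

omit [Fintype F] in
theorem ind_congr {y y' : K} {g g' : GL (Fin n) F} (h : Rt y g ↔ Rt y' g') : ind y g = ind y' g' := by
  unfold ind
  rw [propext h]

omit [Fintype F] in
theorem ind_class (y : K) : IsClassFunction (GL (Fin n) F) (ind y) := fun g x =>
  ind_congr ⟨fun h => by simpa [mul_assoc] using h.conj x⁻¹, fun h => h.conj x⟩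

omit [Fintype F] in
theorem ind_neg (y : K) (g : GL (Fin n) F) : ind y (-g) = ind (-y) g :=
  ind_congr (exists_congr fun φ => by rw [map_neg, Units.val_neg, neg_eq_iff_eq_neg])

omit [Fintype F] in
theorem ind_inv {y : K} (hy : y ≠ 0) (g : GL (Fin n) F) : ind y g⁻¹ = ind y⁻¹ g := by
  refine ind_congr (exists_congr fun φ => ?_)
  have h1 : φ y * φ y⁻¹ = 1 := by rw [← map_mul, mul_inv_cancel₀ hy, map_one]
  have h2 : φ y⁻¹ * φ y = 1 := by rw [← map_mul, inv_mul_cancel₀ hy, map_one]
  refine ⟨fun e => ?_, fun e => ?_⟩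
  · rw [← one_mul (φ y⁻¹), ← g.mul_inv, ← e, mul_assoc, h1, mul_one]
  · rw [← one_mul (φ y), ← g.inv_mul, ← e, mul_assoc, h2, mul_one]

/-- If `φ (y ^ j) = g ^ j` then `φ y` is a unit with the same `j`-th power as `g`, and the power map is injective. -/
theorem ind_pow {y : K} (hy : y ≠ 0) {j : ℕ} (hj : j.Coprime (Nat.card (GL (Fin n) F))) (g : GL (Fin n) F) :
    ind (y ^ j) (g ^ j) = ind y g := by
  refine ind_congr (exists_congr fun φ => ⟨fun e => ?_, fun e => by rw [map_pow, e, Units.val_pow_eq_pow_val]⟩)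
  have : Units.map (φ : K →* Matrix (Fin n) (Fin n) F) (Units.mk0 y hy) = g :=
    (powCoprime hj.symm).injective (Units.ext (by simpa using e))
  rw [← this]
  rfl

omit [Fintype F] in
/-- `→`: `minpoly F (φ y) = minpoly F y` has degree `n` and divides the characteristic polynomial. `←`: Cayley-Hamilton and
`PowerBasis.lift`. -/
theorem rt_iff (hn : finrank F K = n) (h0 : 0 < n) {y : K} (hy : Algebra.adjoin F {y} = ⊤) {g : GL (Fin n) F} :
    Rt y g ↔ g.1.charpoly = minpoly F y := by
  have : Module.Finite F K := Module.finite_of_finrank_pos (hn ▸ h0)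
  have : NeZero n := ⟨h0.ne'⟩
  let pb := PowerBasis.ofAdjoinEqTop (IsIntegral.of_finite F y) hy
  have hg : pb.gen = y := PowerBasis.ofAdjoinEqTop_gen _ _
  refine ⟨fun ⟨φ, e⟩ => ?_, fun e => ⟨pb.lift g.1 (by rw [hg, ← e, aeval_self_charpoly]), ?_⟩⟩
  · refine eq_of_monic_of_dvd_of_natDegree_le (minpoly.monic (IsIntegral.of_finite F y)) (charpoly_monic _) ?_ ?_
    · rw [← minpoly.algHom_eq φ φ.injective, e]
      exact minpoly_dvd_charpoly _
    · rw [charpoly_natDegree_eq_dim, Fintype.card_fin, ← hg, pb.natDegree_minpoly, ← pb.finrank, hn]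
  · conv_lhs => rhs; rw [← hg]
    exact pb.lift_gen _ _

/-- The matrix `eᵢ ↦ eᵢ₊₁`, `e_last ↦ a`. -/
def cmp (a : Fin (n + 1) → F) : Matrix (Fin (n + 1)) (Fin (n + 1)) F :=
  .of fun i j => if j = Fin.last n then a i else if (i : ℕ) = j + 1 then 1 else 0

omit [Fintype F] [DecidableEq F] in
theorem cmp_mul_zero {m : Type} (a : Fin (n + 1) → F) (N : Matrix (Fin (n + 1)) m F) (j : m) :
    (cmp a * N) 0 j = a 0 * N (Fin.last n) j := by
  simp [mul_apply, cmp, Fin.sum_univ_castSucc]

omit [Fintype F] [DecidableEq F] in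
theorem cmp_mul_succ {m : Type} (a : Fin (n + 1) → F) (N : Matrix (Fin (n + 1)) m F) (k : Fin n) (j : m) :
    (cmp a * N) k.succ j = N k.castSucc j + a k.succ * N (Fin.last n) j := by
  simp [mul_apply, cmp, Fin.sum_univ_castSucc, Fin.val_inj]

omit [Fintype F] [DecidableEq F] in
theorem mul_cmp_last {m : Type} (a : Fin (n + 1) → F) (N : Matrix m (Fin (n + 1)) F) (i : m) :
    (N * cmp a) i (Fin.last n) = ∑ k, N i k * a k := by
  simp [mul_apply, cmp]

omit [Fintype F] [DecidableEq F] in
theorem mul_cmp_castSucc {m : Type} (a : Fin (n + 1) → F) (N : Matrix m (Fin (n + 1)) F) (i : m) (k : Fin n) :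
    (N * cmp a) i k.castSucc = N i k.succ := by
  simp [mul_apply, cmp, Fin.sum_univ_succ, Fin.val_inj]

omit [Fintype F] [DecidableEq F] in
theorem cmp_pow (a : Fin (n + 1) → F) (j : Fin (n + 1)) : cmp a ^ (j : ℕ) *ᵥ Pi.single 0 1 = Pi.single j 1 := by
  induction j using Fin.induction with
  | zero => rw [Fin.val_zero, pow_zero, one_mulVec]
  | succ k ih =>
    rw [Fin.val_succ, pow_succ', ← mulVec_mulVec, ← Fin.val_castSucc, ih, mulVec_single_one]
    funext i
    simp [cmp, Pi.single_apply, Fin.ext_iff, k.2.ne]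

omit [Fintype F] in
/-- With `v = e₀`: `C ^ i v = eᵢ`, `C ^ (n + 1) v = a`. So `P = X ^ (n + 1) - ∑ aᵢ X ^ i` is the only monic polynomial of degree
`n + 1` with `P(C) v = 0`, and it is the characteristic polynomial. -/
theorem charpoly_cmp (a : Fin (n + 1) → F) : (cmp a).charpoly = X ^ (n + 1) - ∑ i, C (a i) * X ^ (i : ℕ) := by
  have hm := charpoly_monic (cmp a)
  have h1 := hm.as_sum
  rw [charpoly_natDegree_eq_dim, Fintype.card_fin, Finset.sum_range] at h1
  have h2 := congrArg (· *ᵥ (Pi.single 0 1 : Fin (n + 1) → F)) (aeval_self_charpoly (cmp a))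
  rw [h1] at h2
  simp only [map_add, map_sum, map_mul, aeval_C, map_pow, aeval_X, add_mulVec, sum_mulVec, zero_mulVec,
    ← Algebra.smul_def, smul_mulVec, cmp_pow] at h2
  rw [pow_succ', ← mulVec_mulVec, show cmp a ^ n = cmp a ^ (Fin.last n : ℕ) from rfl, cmp_pow,
    mulVec_single_one] at h2
  rw [h1, sub_eq_add_neg, ← Finset.sum_neg_distrib]
  congr 1
  refine Finset.sum_congr rfl fun i _ => ?_
  have h3 := congrFun h2 i
  have h4 : cmp a i (Fin.last n) = a i := by simp [cmp]
  simp [h4, Finset.sum_apply, Pi.single_apply] at h3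
  rw [← neg_mul, ← C_neg]
  congr 2
  linear_combination h3

omit [Fintype F] in
theorem charpoly_cmp_eq_iff (a : Fin (n + 1) → F) {m : F[X]} (hm : m.Monic) (hd : m.natDegree = n + 1) :
    (cmp a).charpoly = m ↔ ∀ i, a i = -m.coeff i := by
  refine ⟨fun e i => ?_, fun e => ?_⟩
  · have := i.2
    rw [← e, charpoly_cmp, coeff_sub, coeff_X_pow, if_neg this.ne, finset_sum_coeff]
    simp [coeff_X_pow, Fin.val_inj]
  · have h1 := hm.as_sum
    rw [hd, Finset.sum_range] at h1
    rw [charpoly_cmp, sub_eq_add_neg, ← Finset.sum_neg_distrib]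
    refine Eq.trans ?_ h1.symm
    congr 1
    exact Finset.sum_congr rfl fun i _ => by rw [e, C_neg, neg_mul, neg_neg]

omit [Fintype F] [DecidableEq F] in
theorem uu_apply (u : UU n F) {i j : Fin n} (h : j ≤ i) : u.1.1 i j = if i = j then 1 else 0 := by
  have := u.2 i j (Nat.lt_succ_of_le h)
  rwa [Matrix.sub_apply, one_apply, sub_eq_zero] at this

omit [Fintype F] [DecidableEq F] in
theorem mem_uu {u : GL (Fin n) F} (h : ∀ i j, j ≤ i → u.1 i j = if i = j then 1 else 0) : u ∈ UU n F :=
  fun i j e => by rw [Matrix.sub_apply, one_apply, sub_eq_zero, h i j (Nat.le_of_lt_succ e)]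

/-- The element with last column `a`. -/
noncomputable def cubU (a : Fin n → F) : UU (n + 1) F :=
  mkU (.of fun i j => if j = Fin.last n then Fin.snoc (α := fun _ => F) a 0 i else 0) fun i j e => by
    rw [of_apply]
    split_ifs with h
    · obtain rfl : i = Fin.last n := Fin.last_le_iff.1 (h ▸ Nat.le_of_lt_succ e)
      exact Fin.snoc_last ..
    · rfl

omit [Fintype F] [DecidableEq F] in
theorem cmp_cubU (t : F) (a : Fin n → F) : cmp (Pi.single 0 t) * (cubU a).1.1 = cmp (Fin.cons t a) := by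
  rw [show (cubU a).1.1 = 1 + .of fun i j => if j = Fin.last n then Fin.snoc (α := fun _ => F) a 0 i else 0
    from mkU_val _ _]
  ext i j
  refine Fin.cases ?_ (fun k => ?_) i
  · rw [cmp_mul_zero]
    by_cases h : j = Fin.last n
    · simp [cmp, h]
    · simp [cmp, h, one_apply, Ne.symm h]
  · rw [cmp_mul_succ]
    by_cases h : j = Fin.last n
    · simp [cmp, h, one_apply]
    · have h' : (j : ℕ) ≠ n := fun e => h (Fin.ext e)
      simp [cmp, h', one_apply, Fin.ext_iff]

omit [Fintype F] [DecidableEq F] in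
theorem cub_conj {g : GL (Fin (n + 1)) F} {t : F} (hg : g.1 = cmp (Pi.single 0 t)) (v : UU (n + 1) F)
    (hv : ∀ k : Fin n, v.1.1 0 k.succ = 0) : g⁻¹ * v * g ∈ UU (n + 1) F := by
  have e : cmp (Pi.single 0 t) * (g⁻¹ * v * g).1 = v.1.1 * cmp (Pi.single 0 t) := by
    rw [← hg, ← Units.val_mul, ← Units.val_mul, ← mul_assoc, mul_inv_cancel_left]
  have ht : t ≠ 0 := by
    rintro rfl
    have := congrFun (congrFun g.mul_inv 0) 0
    rw [hg, cmp_mul_zero] at this
    simp at this
  refine mem_uu fun i j h => ?_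
  induction i using Fin.lastCases with
  | last =>
    have := congrFun (congrFun e 0) j
    rw [cmp_mul_zero, Pi.single_eq_same] at this
    refine mul_left_cancel₀ ht (this.trans ?_)
    induction j using Fin.lastCases with
    | last => simp [mul_cmp_last, Pi.single_apply, uu_apply v le_rfl]
    | cast l => rw [mul_cmp_castSucc, hv, if_neg (Fin.castSucc_lt_last l).ne', mul_zero]
  | cast k =>
    have := congrFun (congrFun e k.succ) j
    rw [cmp_mul_succ, Pi.single_eq_of_ne (Fin.succ_ne_zero k), zero_mul, add_zero] at this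
    rw [this]
    induction j using Fin.lastCases with
    | last => exact absurd h (Fin.castSucc_lt_last k).not_ge
    | cast l =>
      rw [mul_cmp_castSucc, uu_apply v (by simpa using h)]
      simp

/-- `g = cmp (t, 0, …, 0)`; let `U₁` be the unitriangular matrices with first row `e₀`. The map
`(v, a) ↦ v * cmp (t, a) * v⁻¹` is a bijection `U₁ × F ^ n → g U`: the inverse sends `M = g u` to the matrix `v` with
columns `M ^ i e₀`. (Or: it maps into `g U` since `g⁻¹ v g ∈ U`, `cmp (t, a) ∈ g U`; it is injective by `charpoly_cmp` and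
because `v e₀ = e₀`; count.) -/
theorem sum_coset [Fintype (UU (n + 1) F)] : ∃ c : ℕ, 0 < c ∧ ∀ (g : GL (Fin (n + 1)) F) (t : F),
    g.1 = cmp (Pi.single 0 t) → ∀ f : F[X] → ℂ, ∑ u : UU (n + 1) F, f (g * (u : GL (Fin (n + 1)) F)).1.charpoly =
      c * ∑ a : Fin n → F, f (cmp (Fin.cons t a)).charpoly := by
  classical
  let U1 := {v : UU (n + 1) F // ∀ k : Fin n, v.1.1 0 k.succ = 0}
  have : Nonempty U1 := ⟨⟨1, fun k => by simp [one_apply, (Fin.succ_ne_zero k).symm]⟩⟩
  refine ⟨Fintype.card U1, Fintype.card_pos, fun g t hg f => ?_⟩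
  let Φ : U1 × (Fin n → F) → UU (n + 1) F := fun p => ⟨_, cub_conj hg p.1.1 p.1.2⟩ * cubU p.2 * p.1.1⁻¹
  have hΦ : ∀ p, (g * (Φ p).1).1 * p.1.1.1.1 = p.1.1.1.1 * cmp (Fin.cons t p.2) := fun p => by
    rw [← cmp_cubU, ← hg, ← Units.val_mul, ← Units.val_mul, ← Units.val_mul]
    simp [Φ, mul_assoc]
  have hinj : Function.Injective Φ := by
    rintro ⟨v, a⟩ ⟨v', a'⟩ e
    have h1 := hΦ (v, a)
    have h2 := hΦ (v', a')
    rw [← e] at h2
    have h3 : ∀ j i, v.1.1.1 i j = v'.1.1.1 i j := fun j => by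
      induction j using Fin.induction with
      | zero => exact fun i => by rw [uu_apply _ (Fin.zero_le i), uu_apply _ (Fin.zero_le i)]
      | succ k ih =>
        intro i
        rw [← mul_cmp_castSucc (Fin.cons t a) v.1.1.1 i k, ← mul_cmp_castSucc (Fin.cons t a') v'.1.1.1 i k,
          ← h1, ← h2, mul_apply, mul_apply]
        simp only [ih]
    obtain rfl : v = v' := Subtype.ext (Subtype.ext (Units.ext (Matrix.ext fun i j => h3 j i)))
    have h4 := (Units.mul_right_inj _).1 (h1.symm.trans h2)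
    congr 1
    funext k
    simpa [cmp] using congrFun (congrFun h4 k.succ) (Fin.last n)
  let Ψ : UU (n + 1) F → U1 × (Fin n → F) := fun u =>
    (⟨mkU (.of fun i j => if i = 0 then 0 else (u.1.1 - 1) i j) fun i j e => by
        rw [of_apply, u.2 i j e, ite_self], fun k => by simp [one_apply, (Fin.succ_ne_zero k).symm]⟩,
      fun k => u.1.1 0 k.succ)
  have hΨ : Function.Injective Ψ := fun u u' e => by
    refine Subtype.ext (Units.ext (Matrix.ext fun i j => ?_))
    induction i using Fin.cases with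
    | zero =>
      induction j using Fin.cases with
      | zero => rw [uu_apply _ le_rfl, uu_apply _ le_rfl]
      | succ k => exact congrFun (congrArg Prod.snd e) k
    | succ k => simpa [Ψ] using congrArg (fun p : U1 × (Fin n → F) => p.1.1.1.1 k.succ j) e
  have hb : Function.Bijective Φ := (Fintype.bijective_iff_injective_and_card Φ).2
    ⟨hinj, le_antisymm (Fintype.card_le_of_injective _ hinj) (Fintype.card_le_of_injective _ hΨ)⟩
  rw [← hb.sum_comp, Fintype.sum_prod_type, Finset.sum_congr rfl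
    (g := fun _ => ∑ a : Fin n → F, f (cmp (Fin.cons t a)).charpoly) fun v _ => Finset.sum_congr rfl fun a _ => ?_]
  · rw [Finset.sum_const, Finset.card_univ, nsmul_eq_mul]
  · rw [← charpoly_units_conj v.1.1 (cmp (Fin.cons t a)), ← hΦ (v, a), mul_nonsing_inv_cancel_right]
    exact (isUnit_iff_isUnit_det _).1 v.1.1.isUnit

/-- `lam θ u = θ (trace (g * u))` for `n ≥ 1`, and the trace is `-nextCoeff charpoly`; `sum_coset`, `rt_iff`, `charpoly_cmp`,
`PowerBasis.trace_gen_eq_nextCoeff_minpoly`, `PowerBasis.norm_gen_eq_coeff_zero_minpoly`; `t = (-1) ^ n * d`. -/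
theorem bessel (hn : finrank F K = n + 1) (h1 : 1 ≤ n) [Fintype (UU (n + 1) F)] : ∃ c : ℕ, 0 < c ∧ ∀ d : F, d ≠ 0 →
    ∃ g : GL (Fin (n + 1)) F, ∀ (θ : AddChar F ℂ) (y : K), Algebra.adjoin F {y} = ⊤ →
      ∑ u : UU (n + 1) F, lam θ u * ind y (g * (u : GL (Fin (n + 1)) F)) =
        if Algebra.norm F y = d then c * θ (Algebra.trace F K y) else 0 := by
  classical
  obtain ⟨c, hc, H⟩ := sum_coset (n := n) (F := F)
  refine ⟨c, hc, fun d hd => ?_⟩
  have hdet : (cmp (Pi.single 0 ((-1) ^ n * d) : Fin (n + 1) → F)).det ≠ 0 := by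
    have := (charpoly_cmp_eq_iff (Pi.single 0 ((-1) ^ n * d) : Fin (n + 1) → F) (charpoly_monic _)
      (by rw [charpoly_natDegree_eq_dim, Fintype.card_fin])).1 rfl 0
    rw [Pi.single_eq_same, Fin.val_zero] at this
    rw [det_eq_sign_charpoly_coeff, ← neg_eq_iff_eq_neg.2 this]
    simp [hd]
  refine ⟨GeneralLinearGroup.mkOfDetNeZero _ hdet, fun θ y hy => ?_⟩
  have : Module.Finite F K := Module.finite_of_finrank_pos (hn ▸ n.succ_pos)
  let pb := PowerBasis.ofAdjoinEqTop (IsIntegral.of_finite F y) hy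
  have hg : pb.gen = y := PowerBasis.ofAdjoinEqTop_gen _ _
  have hdim : pb.dim = n + 1 := by rw [← pb.finrank, hn]
  have hm := minpoly.monic (IsIntegral.of_finite F y)
  have hdeg : (minpoly F y).natDegree = n + 1 := by rw [← hg, pb.natDegree_minpoly, hdim]
  have htr := pb.trace_gen_eq_nextCoeff_minpoly
  have hnm := Algebra.PowerBasis.norm_gen_eq_coeff_zero_minpoly pb
  rw [hg] at htr hnm
  rw [hdim] at hnm
  have h2 := H (GeneralLinearGroup.mkOfDetNeZero _ hdet) _ rfl
    fun P => θ (-P.nextCoeff) * if P = minpoly F y then 1 else 0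
  rw [Finset.sum_congr rfl fun u _ => ?_, h2]
  · split_ifs with h3
    · rw [Finset.sum_eq_single fun k : Fin n => -(minpoly F y).coeff k.succ]
      · have e : (cmp (Fin.cons ((-1) ^ n * d) fun k : Fin n => -(minpoly F y).coeff k.succ)).charpoly =
            minpoly F y := (charpoly_cmp_eq_iff _ hm hdeg).2 fun i => by
          refine Fin.cases ?_ (fun k => rfl) i
          rw [Fin.cons_zero, ← h3, hnm, Fin.val_zero, pow_succ, ← mul_assoc, ← mul_assoc, ← mul_pow]
          simp
        rw [e, if_pos rfl, mul_one, htr]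
      · refine fun a _ ha => mul_eq_zero_of_right _ (if_neg fun e => ha (funext fun k => ?_))
        exact (charpoly_cmp_eq_iff _ hm hdeg).1 e k.succ
      · exact fun h => absurd (Finset.mem_univ _) h
    · refine mul_eq_zero_of_right _ (Finset.sum_eq_zero fun a _ => mul_eq_zero_of_right _ (if_neg fun e => h3 ?_))
      have := (charpoly_cmp_eq_iff _ hm hdeg).1 e 0
      rw [Fin.cons_zero, Fin.val_zero] at this
      rw [hnm, ← neg_eq_iff_eq_neg.2 this, pow_succ, mul_assoc, neg_mul_neg, one_mul, ← mul_assoc, ← mul_pow]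
      simp
  · rw [ind, rt_iff hn n.succ_pos hy, ← trace_eq_neg_charpoly_nextCoeff, lam_apply]
    congr 2
    have h0 : (Fin.last n) ≠ 0 := by simp; omega
    rw [Units.val_mul, show (GeneralLinearGroup.mkOfDetNeZero _ hdet).1 = cmp _ from rfl, trace,
      Fin.sum_univ_succ, diag_apply, cmp_mul_zero, uu_apply u (Fin.zero_le _), if_neg h0, mul_zero, zero_add,
      sd_apply, Fin.sum_univ_castSucc, Finset.sum_eq_zero (s := Finset.univ)
        (f := fun j : Fin (n + 1) => if (Fin.last n : ℕ) + 1 = j then (u.1.1 - 1) (Fin.last n) j else 0)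
        fun j _ => if_neg (by have := j.2; simp; omega), add_zero]
    refine Finset.sum_congr rfl fun k _ => ?_
    rw [diag_apply, cmp_mul_succ, Pi.single_eq_of_ne (Fin.succ_ne_zero k), zero_mul, add_zero,
      Finset.sum_eq_single k.succ]
    · simp [one_apply, (Fin.castSucc_lt_succ (i := k)).ne]
    · exact fun j _ hj => if_neg fun e => hj (Fin.ext (by simpa using e.symm))
    · exact fun h => absurd (Finset.mem_univ _) h

end Cfsg.Lib.HCI
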