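import Mathlib

/-! S4984: traces of elements of a finite field. `linearIndependent_monoidHom` is the main tool; the trace is
`∑ i < n, x ^ q ^ i` (`FiniteField.algebraMap_trace_eq_sum_pow` or `trace_eq_sum_automorphisms`). -/

set_option autoImplicit false

namespace Cfsg.Lib.HCI

open Module Algebra

variable {F K : Type} [Field F] [Fintype F] [Field K] [Finite K] [Algebra F K] {n l : ℕ}

/-- Fourier inversion on `F` (`AddChar.sum_apply_eq_ite`): the function `s ↦ ∑ i with t i = s, c i` vanishes. -/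
theorem fourier {ι : Type*} [Fintype ι] {c : ι → ℤ} {t : ι → F} (h0 : ∑ i, c i = 0)
    (h : ∀ θ : AddChar F ℂ, θ ≠ 1 → ∑ i, c i * θ (t i) = 0) (G : F → ℤ) : ∑ i, c i * G (t i) = 0 := by
  classical
  have key : ∀ s : F, ∑ i, (if t i = s then c i else 0) = 0 := by
    intro s
    have h1 : ∑ θ : AddChar F ℂ, θ (-s) * ∑ i, (c i : ℂ) * θ (t i) = 0 := by
      refine Finset.sum_eq_zero fun θ _ => ?_
      by_cases hθ : θ = 1
      · subst hθ
        simp only [AddChar.one_apply, mul_one, one_mul]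
        exact_mod_cast h0
      · rw [h θ hθ, mul_zero]
    have h2 : ∑ θ : AddChar F ℂ, θ (-s) * ∑ i, (c i : ℂ) * θ (t i) =
        (Fintype.card F : ℂ) * ((∑ i, (if t i = s then c i else 0) : ℤ) : ℂ) := by
      simp only [Finset.mul_sum]
      rw [Finset.sum_comm]
      push_cast
      rw [Finset.mul_sum]
      refine Finset.sum_congr rfl fun i _ => ?_
      have h3 : ∀ θ : AddChar F ℂ, θ (-s) * ((c i : ℂ) * θ (t i)) = (c i : ℂ) * θ (t i - s) := by
        intro θ
        rw [sub_eq_add_neg, AddChar.map_add_eq_mul]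
        ring
      simp only [h3, ← Finset.mul_sum, AddChar.sum_apply_eq_ite, sub_eq_zero]
      split_ifs <;> simp [mul_comm]
    rw [h2] at h1
    have h4 := (mul_eq_zero.1 h1).resolve_left (Nat.cast_ne_zero.2 Fintype.card_ne_zero)
    exact_mod_cast h4
  have h5 : ∀ i, c i * G (t i) = ∑ s : F, (if t i = s then c i else 0) * G s := by
    intro i
    simp
  simp only [h5]
  rw [Finset.sum_comm]
  refine Finset.sum_eq_zero fun s _ => ?_
  rw [← Finset.sum_mul, key s, zero_mul]

omit [Fintype F] in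
theorem pair_eq {a b c d : F} (h : ∀ G : F → ℤ, G a + G d = G b + G c) : a = b ∧ d = c ∨ a = c ∧ d = b := by
  classical
  by_cases hab : a = b
  · subst hab
    left
    refine ⟨rfl, ?_⟩
    by_contra hdc
    have h1 := h fun x => if x = d then 1 else 0
    simp only [if_true, if_neg (Ne.symm hdc)] at h1
    omega
  · right
    have hac : a = c := by
      by_contra hac
      have h1 := h fun x => if x = a then 1 else 0
      simp only [if_true, if_neg (Ne.symm hab), if_neg (Ne.symm hac)] at h1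
      split_ifs at h1 <;> omega
    subst hac
    refine ⟨rfl, ?_⟩
    by_contra hdb
    have h1 := h fun x => if x = d then 1 else 0
    simp only [if_true, if_neg (Ne.symm hdb)] at h1
    omega

omit [Fintype F] in
theorem cuf_dvd_iff {q i : ℕ} (hq : 0 < q) (ho : orderOf (q : ZMod l) = n) : l ∣ q ^ i - 1 ↔ n ∣ i := by
  rw [← ho, orderOf_dvd_iff_pow_eq_one, ← ZMod.natCast_eq_zero_iff, Nat.cast_sub (Nat.one_le_pow _ _ hq)]
  push_cast
  exact sub_eq_zero

theorem cuf_card (hn : finrank F K = n) : Nat.card K = Fintype.card F ^ n := by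
  have : Module.Finite F K := Module.Finite.of_finite
  rw [Module.natCard_eq_pow_finrank (K := F), hn, Nat.card_eq_fintype_card]

theorem cuf_tr (hn : finrank F K = n) (x : K) :
    algebraMap F K (trace F K x) = ∑ i ∈ Finset.range n, x ^ Fintype.card F ^ i := by
  rw [FiniteField.algebraMap_trace_eq_sum_pow, hn, Nat.card_eq_fintype_card]

/-- A generator of `Kˣ`. -/
theorem cuf_gen (K : Type) [Field K] [Finite K] : ∃ g : K, orderOf g = Nat.card K - 1 := by
  obtain ⟨g, hg⟩ := IsCyclic.exists_ofOrder_eq_natCard (α := Kˣ)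
  exact ⟨g, by rw [orderOf_units, hg, Nat.card_units]⟩

/-- The monomials span the functions on a finite field. -/
theorem cuf_ps [DecidableEq K] {ι : Type*} (S : Finset ι) (c u w : ι → K)
    (h : ∀ k : ℕ, ∑ i ∈ S, c i * u i ^ k = ∑ i ∈ S, c i * w i ^ k) (v : K) :
    ∑ i ∈ S, (if u i = v then c i else 0) = ∑ i ∈ S, (if w i = v then c i else 0) := by
  have := Fintype.ofFinite K
  have hP : ∀ P : Polynomial K, ∑ i ∈ S, c i * P.eval (u i) = ∑ i ∈ S, c i * P.eval (w i) := by
    intro P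
    induction P using Polynomial.induction_on' with
    | add p q hp hq => simp only [Polynomial.eval_add, mul_add, Finset.sum_add_distrib, hp, hq]
    | monomial k a =>
      simp only [Polynomial.eval_monomial]
      have h1 : ∀ (i : ι) (z : K), c i * (a * z) = a * (c i * z) := fun i z => by ring
      simp only [h1, ← Finset.mul_sum, h k]
  have h1 : ∀ (a z : K), a * (1 - (Polynomial.X - Polynomial.C v) ^ (Fintype.card K - 1)).eval z =
      if z = v then a else 0 := by
    intro a z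
    simp only [Polynomial.eval_sub, Polynomial.eval_one, Polynomial.eval_pow, Polynomial.eval_X, Polynomial.eval_C]
    split_ifs with h1
    · rw [h1, sub_self, zero_pow (by have := Fintype.one_lt_card (α := K); omega)]
      ring
    · rw [FiniteField.pow_card_sub_one_eq_one _ (sub_ne_zero.2 h1)]
      ring
  have h2 := hP (1 - (Polynomial.X - Polynomial.C v) ^ (Fintype.card K - 1))
  simpa only [h1] using h2

/-- `F[x]` is a field with `q ^ d` elements, `d ∣ n`; `l ∣ q ^ d - 1` forces `d = n`. -/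
theorem adjoin_eq_top (hn : finrank F K = n) (hl : l.Prime) (ho : orderOf (Fintype.card F : ZMod l) = n) {x : K}
    (h0 : x ≠ 0) (hx : l ∣ orderOf x) : adjoin F {x} = ⊤ := by
  have : Module.Finite F K := Module.Finite.of_finite
  have halg : IsAlgebraic F x := IsAlgebraic.of_finite F x
  rw [← IntermediateField.adjoin_simple_toSubalgebra_of_isAlgebraic halg]
  set E := IntermediateField.adjoin F {x} with hE
  have hxE : x ∈ E := IntermediateField.mem_adjoin_simple_self F x
  have hcard : Nat.card E = Fintype.card F ^ finrank F E := cuf_card rfl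
  have h1 : (⟨x, hxE⟩ : E) ^ (Nat.card E - 1) = 1 := by
    have := Fintype.ofFinite E
    rw [Nat.card_eq_fintype_card]
    exact FiniteField.pow_card_sub_one_eq_one _ fun h => h0 (congrArg Subtype.val h)
  have h2 : x ^ (Nat.card E - 1) = 1 := by
    have := congrArg Subtype.val h1
    simpa using this
  have h3 : l ∣ Fintype.card F ^ finrank F E - 1 := hcard ▸ hx.trans (orderOf_dvd_of_pow_eq_one h2)
  have h4 : n ∣ finrank F E := (cuf_dvd_iff Fintype.card_pos ho).1 h3
  have h5 : finrank F E * finrank E K = n := by rw [Module.finrank_mul_finrank, hn]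
  have h6 : 0 < finrank F E := Module.finrank_pos
  have h7 : finrank F E = finrank F K := by
    rw [hn]
    exact Nat.dvd_antisymm ⟨_, h5.symm⟩ h4
  have h8 : E = ⊤ := by
    apply IntermediateField.eq_of_le_of_finrank_eq le_top
    rw [h7, IntermediateField.finrank_top']
  rw [h8]
  rfl

theorem exists_order (hn : finrank F K = n) (h0 : 0 < n) (hl : l.Prime)
    (ho : orderOf (Fintype.card F : ZMod l) = n) : ∃ s : K, orderOf s = l := by
  have := Fact.mk hl
  have h1 : l ∣ Nat.card Kˣ := by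
    rw [Nat.card_units, cuf_card hn]
    exact (cuf_dvd_iff Fintype.card_pos ho).2 dvd_rfl
  obtain ⟨u, hu⟩ := exists_prime_orderOf_dvd_card' l h1
  exact ⟨u, by rw [orderOf_units, hu]⟩

/-- Otherwise `∑ i, x ^ q ^ i = ∑ i, x ^ (-q ^ i)` on the group generated by `s`; the characters `x ↦ x ^ q ^ i` are
distinct, so `x ↦ x` is some `x ↦ x ^ (-q ^ i)`, i.e. `-1` is a power of `q` in `ZMod l`, against `n` odd (`l` is odd).
The norm of `x` has order dividing `l` and `q - 1`. -/
theorem exists_odd (hn : finrank F K = n) (h3 : 3 ≤ n) (h2 : Odd n) (hl : l.Prime)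
    (ho : orderOf (Fintype.card F : ZMod l) = n) :
    ∃ x : K, orderOf x = l ∧ Algebra.norm F x = 1 ∧ trace F K x ≠ trace F K x⁻¹ := by
  classical
  have := Fact.mk hl
  obtain ⟨s, hs⟩ := exists_order hn (by omega) hl ho
  set q := Fintype.card F with hq
  have hq0 : 0 < q := Fintype.card_pos
  have hs0 : s ≠ 0 := by
    rintro rfl
    rw [orderOf_zero] at hs
    exact hl.ne_zero hs.symm
  by_contra hc
  push Not at hc
  have hnorm : ∀ x : K, orderOf x = l → Algebra.norm F x = 1 := by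
    intro x hx
    have h1 : Algebra.norm F x ^ l = 1 := by rw [← map_pow, ← hx, pow_orderOf_eq_one, map_one]
    have h4 : Algebra.norm F x ^ (q - 1) = 1 := by
      refine FiniteField.pow_card_sub_one_eq_one _ fun h => ?_
      rw [h, zero_pow hl.ne_zero] at h1
      exact zero_ne_one h1
    have h5 : Nat.Coprime l (q - 1) := by
      rw [Nat.Prime.coprime_iff_not_dvd hl]
      intro h
      have h6 : n ∣ 1 := (cuf_dvd_iff hq0 ho).1 (by rwa [pow_one])
      have := Nat.le_of_dvd one_pos h6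
      omega
    exact (pow_eq_one_iff_of_coprime h5).1 ⟨h1, h4⟩
  have hall : ∀ k : ℕ, trace F K (s ^ k) = trace F K (s ^ k)⁻¹ := by
    intro k
    by_cases hk : l ∣ k
    · have : s ^ k = 1 := orderOf_dvd_iff_pow_eq_one.1 (hs ▸ hk)
      rw [this, inv_one]
    · have h1 : orderOf (s ^ k) = l := by
        rw [Nat.Coprime.orderOf_pow, hs]
        rw [hs]
        exact (Nat.Prime.coprime_iff_not_dvd hl).2 hk
      exact hc _ h1 (hnorm _ h1)
  have key := cuf_ps (Finset.range n) (fun _ => (1 : K)) (fun i => s ^ q ^ i) (fun i => (s ^ q ^ i)⁻¹) (by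
    intro k
    have h1 := congrArg (algebraMap F K) (hall k)
    rw [cuf_tr hn, cuf_tr hn] at h1
    simp only [one_mul]
    convert h1 using 2 with i _ i _
    · rw [← pow_mul, ← pow_mul, mul_comm]
    · rw [inv_pow, inv_pow, ← pow_mul, ← pow_mul, mul_comm]) s
  have e1 : ∑ i ∈ Finset.range n, (if s ^ q ^ i = s then (1 : K) else 0) = 1 := by
    rw [Finset.sum_eq_single 0]
    · simp
    · intro i hi hi0
      rw [if_neg]
      intro h
      have h1 : s ^ (q ^ i - 1) = 1 := by
        apply mul_right_cancel₀ hs0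
        rw [← pow_succ, Nat.sub_add_cancel (Nat.one_le_pow _ _ hq0), h, one_mul]
      have h4 : n ∣ i := (cuf_dvd_iff hq0 ho).1 (hs ▸ orderOf_dvd_of_pow_eq_one h1)
      have := Nat.le_of_dvd (Nat.pos_of_ne_zero hi0) h4
      rw [Finset.mem_range] at hi
      omega
    · intro h
      exact absurd (Finset.mem_range.2 (by omega)) h
  have e2 : ∑ i ∈ Finset.range n, (if (s ^ q ^ i)⁻¹ = s then (1 : K) else 0) = 0 := by
    refine Finset.sum_eq_zero fun i _ => if_neg fun h => ?_
    have h1 : s ^ (q ^ i + 1) = 1 := by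
      rw [pow_succ]
      nth_rw 2 [← h]
      exact mul_inv_cancel₀ (pow_ne_zero _ hs0)
    have h4 : l ∣ q ^ i + 1 := hs ▸ orderOf_dvd_of_pow_eq_one h1
    have h5 : (q : ZMod l) ^ i = -1 := by
      have := (ZMod.natCast_eq_zero_iff _ _).2 h4
      push_cast at this
      exact eq_neg_of_add_eq_zero_left this
    have h6 : n ∣ i * 2 := by
      rw [← ho, orderOf_dvd_iff_pow_eq_one, pow_mul, h5]
      ring
    have h7 : n ∣ i := (Nat.Coprime.dvd_mul_right (Nat.coprime_two_right.2 h2)).1 h6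
    have h8 : (q : ZMod l) ^ i = 1 := by rwa [← orderOf_dvd_iff_pow_eq_one, ho]
    have h9 : ((2 : ℕ) : ZMod l) = 0 := by
      push_cast
      linear_combination h5 - h8
    have h10 : l ≤ 2 := Nat.le_of_dvd two_pos ((ZMod.natCast_eq_zero_iff _ _).1 h9)
    have h11 : (q : ZMod l) ≠ 0 := by
      intro h
      rw [h, orderOf_zero] at ho
      omega
    have h12 := ZMod.orderOf_dvd_card_sub_one h11
    rw [ho] at h12
    have := Nat.le_of_dvd (by have := hl.two_le; omega) h12
    omega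
  rw [e1, e2] at key
  exact one_ne_zero key

omit [Fintype F] in
theorem cuf_arith {q m a b : ℕ} (hq : 2 ≤ q) (h2 : 2 ≤ m) (h4 : ¬ (q = 2 ∧ m ≤ 3)) (ha : a < m) (hb : b < m)
    (h : q ^ m - 1 ∣ q ^ a + q ^ b + 2) : q = 3 ∧ m = 2 ∧ a = 1 ∧ b = 1 := by
  obtain ⟨m, rfl⟩ : ∃ k, m = k + 2 := ⟨m - 2, by omega⟩
  have hle := Nat.le_of_dvd (by omega) h
  have hA : q ^ a ≤ q ^ (m + 1) := Nat.pow_le_pow_right (by omega) (by omega)
  have hB : q ^ b ≤ q ^ (m + 1) := Nat.pow_le_pow_right (by omega) (by omega)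
  have hA' : a ≠ m + 1 → q ^ a ≤ q ^ m := fun h => Nat.pow_le_pow_right (by omega) (by omega)
  have hB' : b ≠ m + 1 → q ^ b ≤ q ^ m := fun h => Nat.pow_le_pow_right (by omega) (by omega)
  have hP : 1 ≤ q ^ m := Nat.one_le_pow _ _ (by omega)
  have e1 : q ^ (m + 1) = q ^ m * q := pow_succ _ _
  have e2 : q ^ (m + 2) = q ^ m * q * q := by ring
  rcases Nat.lt_or_ge q 4 with h3 | h3
  · have h3' : q = 2 ∨ q = 3 := by omega
    rcases h3' with rfl | rfl
    · exfalso
      have hm : 2 ≤ m := by omega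
      have hP4 : 2 ^ 2 ≤ 2 ^ m := Nat.pow_le_pow_right (by omega) hm
      obtain ⟨c, hc⟩ := h
      have hc1 : c = 1 := by
        rcases c with _ | _ | c
        · omega
        · rfl
        · exfalso
          have : (2 ^ (m + 2) - 1) * 2 ≤ (2 ^ (m + 2) - 1) * (c + 1 + 1) := Nat.mul_le_mul_left _ (by omega)
          omega
      subst hc1
      by_cases ha1 : a = m + 1
      · by_cases hb1 : b = m + 1
        · subst ha1 hb1
          omega
        · have := hB' hb1
          subst ha1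
          omega
      · by_cases hb1 : b = m + 1
        · have := hA' ha1
          subst hb1
          omega
        · have := hA' ha1
          have := hB' hb1
          omega
    · have hm : m = 0 := by
        by_contra hm
        have : 3 ^ 1 ≤ 3 ^ m := Nat.pow_le_pow_right (by omega) (by omega)
        omega
      subst hm
      refine ⟨rfl, rfl, ?_, ?_⟩
      · by_contra ha1
        have := hA' ha1
        omega
      · by_contra hb1
        have := hB' hb1
        omega
  · exfalso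
    have h5 : q ^ m * q * 4 ≤ q ^ m * q * q := Nat.mul_le_mul_left _ h3
    have h6 : q ^ m * 4 ≤ q ^ m * q := Nat.mul_le_mul_left _ h3
    omega

omit [Fintype F] in
theorem cuf_arith2 {q m a b : ℕ} (hq : 2 ≤ q) (ha : a < m) (hb : b < m)
    (h : q ^ m - 1 ∣ q ^ a + q ^ b - 2) : a = 0 ∧ b = 0 := by
  obtain ⟨m, rfl⟩ : ∃ k, m = k + 1 := ⟨m - 1, by omega⟩
  have hA : q ^ a ≤ q ^ m := Nat.pow_le_pow_right (by omega) (by omega)
  have hB : q ^ b ≤ q ^ m := Nat.pow_le_pow_right (by omega) (by omega)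
  have hA1 : 1 ≤ q ^ a := Nat.one_le_pow _ _ (by omega)
  have hB1 : 1 ≤ q ^ b := Nat.one_le_pow _ _ (by omega)
  have e1 : q ^ (m + 1) = q ^ m * q := pow_succ _ _
  have h6 : q ^ m * 2 ≤ q ^ m * q := Nat.mul_le_mul_left _ hq
  have h0 : q ^ a + q ^ b - 2 = 0 := Nat.eq_zero_of_dvd_of_lt h (by omega)
  constructor
  · by_contra h1
    have := Nat.one_lt_pow h1 (show 1 < q by omega)
    omega
  · by_contra h1
    have := Nat.one_lt_pow h1 (show 1 < q by omega)
    omega

/-- `s` of order `l`, `s ^ q ^ m = s⁻¹`; `y` runs over `L = {y | y ^ (q ^ m - 1) = 1}`, cyclic of order `q ^ m - 1`. With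
`φ = s + s⁻¹`, `φ' = s² + s⁻²`: `tr (y s) = ∑ a < m, (y φ) ^ q ^ a` etc., and `φ' ≠ ± φ` (`l ≥ 5`).
Characteristic 2: equality for all `y` gives `tr (y φ') + tr (y⁻¹ φ) = tr (y⁻¹ φ') + tr (y φ)`; the character `y ↦ y` differs
from the other `y ↦ y ^ (± q ^ a)` (`q ^ m - 1 ∤ q ^ a + 1`), so `φ' = φ`.
Odd `q`: the character `y ↦ y²` differs from the other `y ↦ y ^ (± (q ^ a + q ^ b))`, so `φ'² = φ²`; the only exception is
`q = 3`, `m = 2`, `l = 5`, `φ' = φ³`, `φ = φ'³`, where the difference is `2 (φ'² - φ²) (y² - y⁶) ≠ 0` for a generator `y`. -/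
theorem exists_even {m : ℕ} (hn : finrank F K = 2 * m) (h2 : 2 ≤ m) (h4 : ¬ (Fintype.card F = 2 ∧ m ≤ 3))
    (hl : l.Prime) (ho : orderOf (Fintype.card F : ZMod l) = 2 * m) :
    ∃ y s : K, y ^ (Fintype.card F ^ m - 1) = 1 ∧ orderOf s = l ∧
      trace F K (y * s ^ 2) ^ 2 + trace F K (y * s)⁻¹ ^ 2 ≠ trace F K (y * s ^ 2)⁻¹ ^ 2 + trace F K (y * s) ^ 2 := by
  classical
  have := Fact.mk hl
  obtain ⟨s, hs⟩ := exists_order hn (by omega) hl ho
  set q := Fintype.card F with hq
  have hq2 : 2 ≤ q := Fintype.one_lt_card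
  have hs0 : s ≠ 0 := by
    rintro rfl
    rw [orderOf_zero] at hs
    exact hl.ne_zero hs.symm
  have hl5 : 2 * m + 1 ≤ l := by
    have h11 : (q : ZMod l) ≠ 0 := by
      intro h
      rw [h, orderOf_zero] at ho
      omega
    have h12 := ZMod.orderOf_dvd_card_sub_one h11
    rw [ho] at h12
    have := Nat.le_of_dvd (by have := hl.two_le; omega) h12
    omega
  have hqm : (q : ZMod l) ^ m = -1 := by
    have h1 : ((q : ZMod l) ^ m) ^ 2 = 1 := by rw [← pow_mul, mul_comm, ← ho, pow_orderOf_eq_one]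
    refine (mul_self_eq_one_iff.1 (by rwa [sq] at h1)).resolve_left fun h => ?_
    have h3 := orderOf_dvd_of_pow_eq_one h
    rw [ho] at h3
    have := Nat.le_of_dvd (by omega) h3
    omega
  have hdvd : l ∣ q ^ m + 1 := by
    rw [← ZMod.natCast_eq_zero_iff]
    push_cast
    rw [hqm]
    ring
  have hsm : s ^ q ^ m = s⁻¹ := by
    apply eq_inv_of_mul_eq_one_left
    rw [← pow_succ]
    exact orderOf_dvd_iff_pow_eq_one.1 (hs ▸ hdvd)
  obtain ⟨γ, hγ⟩ := cuf_gen K
  rw [cuf_card hn, ← hq] at hγ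
  have hP : 1 < q ^ m := Nat.one_lt_pow (by omega) hq2
  have hfac : q ^ (2 * m) - 1 = (q ^ m + 1) * (q ^ m - 1) := by
    rw [mul_comm 2 m, pow_mul, ← Nat.sq_sub_sq, one_pow]
  set g := γ ^ (q ^ m + 1) with hg
  have hgo : orderOf g = q ^ m - 1 := by
    rw [hg, orderOf_pow_of_dvd (by omega) (by rw [hγ, hfac]; exact dvd_mul_right _ _), hγ, hfac,
      Nat.mul_div_cancel_left _ (by omega)]
  have hg0 : g ≠ 0 := by
    intro h
    rw [h, orderOf_zero] at hgo
    omega
  obtain ⟨p, hp⟩ := CharP.exists F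
  have hpp : p.Prime := CharP.char_is_prime F p
  have := Fact.mk hpp
  have hpK : CharP K p := charP_of_injective_algebraMap (algebraMap F K).injective p
  obtain ⟨e, -, he⟩ := FiniteField.card F p
  have hadd : ∀ (x y : K) (a : ℕ), (x + y) ^ q ^ a = x ^ q ^ a + y ^ q ^ a := by
    intro x y a
    rw [hq, he, ← pow_mul, add_pow_char_pow]
  have htr : ∀ y z : K, y ^ q ^ m = y → z ^ q ^ m = z⁻¹ →
      algebraMap F K (trace F K (y * z)) = ∑ a ∈ Finset.range m, (y * (z + z⁻¹)) ^ q ^ a := by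
    intro y z hy hz
    rw [cuf_tr hn, two_mul, Finset.sum_range_add, ← Finset.sum_add_distrib]
    refine Finset.sum_congr rfl fun a _ => ?_
    rw [← hq, pow_add, pow_mul, mul_pow y z (q ^ m), hy, hz, mul_add, hadd]
  have hsq : ∀ y z : K, (∑ a ∈ Finset.range m, (y * z) ^ q ^ a) ^ 2 =
      ∑ i ∈ Finset.range m ×ˢ Finset.range m, z ^ (q ^ i.1 + q ^ i.2) * y ^ (q ^ i.1 + q ^ i.2) := by
    intro y z
    rw [sq, Finset.sum_mul_sum, Finset.sum_product]
    refine Finset.sum_congr rfl fun a _ => Finset.sum_congr rfl fun b _ => ?_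
    rw [← pow_add, mul_pow, mul_comm]
  by_contra hc
  push Not at hc
  set φ := s + s⁻¹ with hφ
  set ψ := s ^ 2 + (s ^ 2)⁻¹ with hψ
  have key := cuf_ps (Finset.range m ×ˢ Finset.range m)
    (fun i => ψ ^ (q ^ i.1 + q ^ i.2) - φ ^ (q ^ i.1 + q ^ i.2)) (fun i => g ^ (q ^ i.1 + q ^ i.2))
    (fun i => (g ^ (q ^ i.1 + q ^ i.2))⁻¹) (by
    intro k
    have hy1 : (g ^ k) ^ (q ^ m - 1) = 1 := by rw [← pow_mul, mul_comm, pow_mul, ← hgo, pow_orderOf_eq_one, one_pow]
    have hy : (g ^ k) ^ q ^ m = g ^ k := by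
      conv_lhs => rw [← Nat.sub_add_cancel hP.le, pow_succ, hy1, one_mul]
    have hy' : (g ^ k)⁻¹ ^ q ^ m = (g ^ k)⁻¹ := by rw [inv_pow, hy]
    have hs2 : (s ^ 2) ^ q ^ m = (s ^ 2)⁻¹ := by rw [← pow_mul, mul_comm, pow_mul, hsm, inv_pow]
    have hs1' : s⁻¹ ^ q ^ m = s⁻¹⁻¹ := by rw [inv_pow, hsm]
    have hs2' : (s ^ 2)⁻¹ ^ q ^ m = (s ^ 2)⁻¹⁻¹ := by rw [inv_pow, hs2]
    have h1 := congrArg (algebraMap F K) (hc (g ^ k) s hy1 hs)
    simp only [map_add, map_pow, mul_inv] at h1
    rw [htr _ _ hy hs2, htr _ _ hy' hs1', htr _ _ hy' hs2', htr _ _ hy hsm, inv_inv, inv_inv, add_comm s⁻¹ s,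
      add_comm (s ^ 2)⁻¹ (s ^ 2), ← hφ, ← hψ, hsq, hsq, hsq, hsq] at h1
    have h5 : ∀ j : ℕ, (g ^ j) ^ k = (g ^ k) ^ j := fun j => pow_right_comm _ _ _
    have h6 : ∀ j : ℕ, (g ^ j)⁻¹ ^ k = (g ^ k)⁻¹ ^ j := fun j => by rw [inv_pow, inv_pow, h5]
    simp only [sub_mul, Finset.sum_sub_distrib, h5, h6]
    linear_combination h1) (g ^ 2)
  have e1 : ∑ i ∈ Finset.range m ×ˢ Finset.range m, (if g ^ (q ^ i.1 + q ^ i.2) = g ^ 2 then
      ψ ^ (q ^ i.1 + q ^ i.2) - φ ^ (q ^ i.1 + q ^ i.2) else 0) = ψ ^ 2 - φ ^ 2 := by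
    rw [Finset.sum_eq_single (0, 0)]
    · simp
    · rintro ⟨a, b⟩ hi hi0
      rw [Finset.mem_product, Finset.mem_range, Finset.mem_range] at hi
      rw [if_neg]
      intro h
      have hA1 : 1 ≤ q ^ a := Nat.one_le_pow _ _ (by omega)
      have hB1 : 1 ≤ q ^ b := Nat.one_le_pow _ _ (by omega)
      have h1 : g ^ (q ^ a + q ^ b - 2) = 1 := by
        apply mul_right_cancel₀ (pow_ne_zero 2 hg0)
        rw [← pow_add, Nat.sub_add_cancel (by omega), one_mul]
        exact h
      obtain ⟨rfl, rfl⟩ := cuf_arith2 hq2 hi.1 hi.2 (hgo ▸ orderOf_dvd_of_pow_eq_one h1)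
      exact hi0 rfl
    · intro h
      exact absurd (Finset.mem_product.2 ⟨Finset.mem_range.2 (by omega), Finset.mem_range.2 (by omega)⟩) h
  have e2 : ∀ a b : ℕ, a < m → b < m → (g ^ (q ^ a + q ^ b))⁻¹ = g ^ 2 → q = 3 ∧ m = 2 ∧ a = 1 ∧ b = 1 := by
    intro a b ha hb h
    have h1 : g ^ (q ^ a + q ^ b + 2) = 1 := by
      rw [pow_add, ← h]
      exact mul_inv_cancel₀ (pow_ne_zero _ hg0)
    exact cuf_arith hq2 h2 h4 ha hb (hgo ▸ orderOf_dvd_of_pow_eq_one h1)
  have hne : ψ ^ 2 - φ ^ 2 ≠ 0 := by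
    intro h
    have h1 : s ^ 6 = 1 := by
      have h3 : (s ^ 6 - 1) * (s ^ 2 - 1) = 0 := by
        have h5 : (s ^ 6 - 1) * (s ^ 2 - 1) = s ^ 4 * (ψ ^ 2 - φ ^ 2) := by
          rw [hψ, hφ]
          field_simp
          ring
        rw [h5, h, mul_zero]
      rcases mul_eq_zero.1 h3 with h5 | h5
      · exact sub_eq_zero.1 h5
      · rw [show s ^ 6 = (s ^ 2) ^ 3 by ring, sub_eq_zero.1 h5, one_pow]
    have h3 : l ∣ 2 * 3 := hs ▸ orderOf_dvd_of_pow_eq_one h1
    rcases (Nat.Prime.dvd_mul hl).1 h3 with h5 | h5 <;> have := Nat.le_of_dvd (by omega) h5 <;> omega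
  rw [e1] at key
  rw [Finset.sum_eq_single (1, 1)] at key
  · split_ifs at key with h1
    · obtain ⟨h3, hm, -, -⟩ := e2 1 1 (by omega) (by omega) h1
      subst hm
      have hl' : l = 5 := by
        rw [h3] at hdvd
        have h5 : l ∣ 2 * 5 := hdvd
        rcases (Nat.Prime.dvd_mul hl).1 h5 with h6 | h6 <;> have := Nat.le_of_dvd (by omega) h6 <;> omega
      have hp3 : (3 : K) = 0 := by
        have h5 : ((q : ℕ) : F) = 0 := FiniteField.cast_card_eq_zero F
        have h6 := congrArg (algebraMap F K) h5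
        rw [map_natCast, map_zero, h3] at h6
        exact_mod_cast h6
      have hs5 : s ^ 5 = 1 := by rw [← hl', ← hs, pow_orderOf_eq_one]
      have hs1 : s - 1 ≠ 0 := by
        intro h
        rw [sub_eq_zero.1 h, orderOf_one] at hs
        omega
      have hsum : s ^ 4 + s ^ 3 + s ^ 2 + s + 1 = 0 := by
        apply mul_left_cancel₀ hs1
        linear_combination hs5
      have hA : ψ = -1 - φ := by
        rw [hψ, hφ]
        field_simp
        linear_combination hsum
      have hB : φ ^ 2 = 1 - φ := by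
        rw [hφ]
        field_simp
        linear_combination hsum
      simp only [h3] at key
      norm_num at key
      apply hne
      have hD : ψ ^ 2 - φ ^ 2 = 1 - φ := by
        rw [hA]
        linear_combination φ * hp3
      have h6 : φ ^ 6 = 5 - 8 * φ := by
        linear_combination (φ ^ 4 - φ ^ 3 + 2 * φ ^ 2 - 3 * φ + 5) * hB
      have h7 : ψ ^ 6 = 13 + 8 * φ := by
        rw [hA]
        linear_combination (φ ^ 4 + 5 * φ ^ 3 + 11 * φ ^ 2 + 14 * φ + 12) * hB
      rw [hD] at key ⊢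
      rw [h6, h7] at key
      linear_combination 2 * key + (5 + 11 * φ) * hp3
    · exact hne key
  · rintro ⟨a, b⟩ hi hi0
    rw [Finset.mem_product, Finset.mem_range, Finset.mem_range] at hi
    rw [if_neg]
    intro h
    obtain ⟨-, -, rfl, rfl⟩ := e2 a b hi.1 hi.2 h
    exact hi0 rfl
  · intro h
    exact absurd (Finset.mem_product.2 ⟨Finset.mem_range.2 (by omega), Finset.mem_range.2 (by omega)⟩) h

/-- A generator `x` of `Kˣ`: the sum of the eight elements `x ^ (± 2 ^ i)` of order `15` is `1`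
(`∑ i < 15, x ^ i = 0`, `x ^ 5 + x ^ 10 = 1`, `x ^ 3 + x ^ 6 + x ^ 9 + x ^ 12 = 1`); `(x ^ 7) ^ 2 = x⁻¹`. -/
theorem exists_sixteen (hq : Fintype.card F = 2) (hn : finrank F K = 4) :
    ∃ x : K, orderOf x = 15 ∧ trace F K x ≠ trace F K x⁻¹ ∧ trace F K (x ^ 7) = trace F K x⁻¹ ∧
      trace F K (x ^ 7)⁻¹ = trace F K x := by
  obtain ⟨x, hx⟩ := cuf_gen K
  rw [cuf_card hn, hq] at hx
  have hx15 : orderOf x = 15 := hx
  have h15 : x ^ 15 = 1 := by rw [← hx15, pow_orderOf_eq_one]
  have hinv : x⁻¹ = x ^ 14 := by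
    apply inv_eq_of_mul_eq_one_right
    linear_combination h15
  have hinv7 : (x ^ 7)⁻¹ = x ^ 8 := by
    apply inv_eq_of_mul_eq_one_right
    linear_combination h15
  have htr : ∀ z : K, algebraMap F K (trace F K z) = z + z ^ 2 + z ^ 4 + z ^ 8 := by
    intro z
    rw [cuf_tr hn, hq]
    simp [Finset.sum_range_succ]
  have hred : ∀ a b : ℕ, x ^ (15 * a + b) = x ^ b := fun a b => by rw [pow_add, pow_mul, h15, one_pow, one_mul]
  have t1 : algebraMap F K (trace F K x⁻¹) = x ^ 14 + x ^ 13 + x ^ 11 + x ^ 7 := by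
    rw [htr, hinv, ← hred 1 13, ← hred 3 11, ← hred 7 7]
    ring
  have t2 : algebraMap F K (trace F K (x ^ 7)) = x ^ 14 + x ^ 13 + x ^ 11 + x ^ 7 := by
    rw [htr, ← hred 1 13, ← hred 3 11]
    ring
  have t3 : algebraMap F K (trace F K (x ^ 7)⁻¹) = x + x ^ 2 + x ^ 4 + x ^ 8 := by
    rw [htr, hinv7, ← hred 2 2, ← hred 4 4]
    have := hred 1 1
    linear_combination this
  have h2 : (2 : K) = 0 := by
    have h5 : ((Fintype.card F : ℕ) : F) = 0 := FiniteField.cast_card_eq_zero F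
    have h6 := congrArg (algebraMap F K) h5
    rw [map_natCast, map_zero, hq] at h6
    exact_mod_cast h6
  have hne : ∀ k : ℕ, 0 < k → k < 15 → x ^ k - 1 ≠ 0 := by
    intro k hk hk' h
    exact pow_ne_one_of_lt_orderOf hk.ne' (hx15 ▸ hk') (sub_eq_zero.1 h)
  have s1 : 1 + x + x ^ 2 + x ^ 3 + x ^ 4 + x ^ 5 + x ^ 6 + x ^ 7 + x ^ 8 + x ^ 9 + x ^ 10 + x ^ 11 + x ^ 12 + x ^ 13 +
      x ^ 14 = 0 := by
    apply mul_left_cancel₀ (hne 1 (by omega) (by omega))
    linear_combination h15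
  have s5 : 1 + x ^ 5 + x ^ 10 = 0 := by
    apply mul_left_cancel₀ (hne 5 (by omega) (by omega))
    linear_combination h15
  have s3 : 1 + x ^ 3 + x ^ 6 + x ^ 9 + x ^ 12 = 0 := by
    apply mul_left_cancel₀ (hne 3 (by omega) (by omega))
    linear_combination h15
  refine ⟨x, hx15, fun h => ?_, (algebraMap F K).injective (t2.trans t1.symm),
    (algebraMap F K).injective (t3.trans (htr x).symm)⟩
  have h3 := congrArg (algebraMap F K) h
  rw [t1, htr] at h3
  apply one_ne_zero (α := K)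
  linear_combination s3 + s5 - s1 - h3 + (x + x ^ 2 + x ^ 4 + x ^ 8) * h2

end Cfsg.Lib.HCI
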