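import Cfsg.Agent.Lib.HCI.Cu
import Cfsg.Agent.Lib.Cusp.Final
import Cfsg.Agent.Lib.Char.Galois

/-! S4984: a generic character of `GL_n` moved by a suitable power map is cuspidal. -/

set_option autoImplicit false

namespace Cfsg.Lib.HCI

open Module Matrix Cfsg.Lib.Char Cfsg.Lib.Cusp

variable {F : Type} [Field F] [Fintype F] [DecidableEq F] {n : ℕ}

/-- The power map `g ↦ g ^ j` is a bijection of `GL_n` fixing the smaller `GL_d` and the unitriangular group. -/
structure Pw (F : Type) [Field F] (n j : ℕ) : Prop where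
  cop : j.Coprime (Nat.card (GL (Fin n) F))
  sm : ∀ d < n, ∀ g : GL (Fin d) F, g ^ j = g
  un : ∀ u ∈ UU n F, u ^ j = u

/-- `IsCusp.add` for `f = 1`; `η ↦ 1 + T.subtype ∘ η ∘ T.mkQ` is a bijection onto `rad T`
(through `GeneralLinearGroup.toLin`). -/
theorem cu_of_isCusp {χ : Irr F n} (h : IsCusp (lift χ.1)) : Cu fun g => χ.1 (GeneralLinearGroup.toLin g) := by
  intro T h0 h1
  have h2 := h.add h0 h1 (f := 1) fun _ hv => hv
  have := Fintype.ofFinite (rad T)
  let N : (((Fin n → F) ⧸ T) →ₗ[F] T) → End F (Fin n → F) := fun η => T.subtype ∘ₗ η ∘ₗ T.mkQ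
  have hN : ∀ η, ∀ v ∈ T, N η v = 0 := fun η v hv => by simp [N, (Submodule.Quotient.mk_eq_zero T).2 hv]
  have hN2 : ∀ η, N η * N η = 0 := fun η => LinearMap.ext fun v => hN η _ (η (T.mkQ v)).2
  let U : (((Fin n → F) ⧸ T) →ₗ[F] T) → (End F (Fin n → F))ˣ := fun η => ⟨1 + N η, 1 - N η,
    by rw [add_mul, mul_sub, mul_sub, hN2]; simp, by rw [sub_mul, mul_add, mul_add, hN2]; simp⟩
  have hm : ∀ (g : GL (Fin n) F) v, g.1 *ᵥ v = (GeneralLinearGroup.toLin g).1 v := fun g v => by simp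
  let u : (((Fin n → F) ⧸ T) →ₗ[F] T) → rad T := fun η => ⟨GeneralLinearGroup.toLin.symm (U η), fun v hv => by
    rw [hm, MulEquiv.apply_symm_apply]; simp [U, hN η v hv], fun v => by
    rw [hm, MulEquiv.apply_symm_apply]; simp [U, N]⟩
  have hu : Function.Bijective u := ⟨fun η η' e => LinearMap.ext fun x => by
    obtain ⟨v, rfl⟩ := T.mkQ_surjective x
    have h3 : 1 + N η = 1 + N η' := congrArg Units.val (GeneralLinearGroup.toLin.symm.injective (congrArg Subtype.val e))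
    exact Subtype.ext (LinearMap.congr_fun (add_left_cancel h3) v), fun g =>
    ⟨T.liftQ (((GeneralLinearGroup.toLin g.1).1 - 1).codRestrict T fun v => by simpa using g.2.2 v) fun v hv =>
      Subtype.ext (by simpa [sub_eq_zero] using g.2.1 v hv), Subtype.ext (by
        simp only [u, MulEquiv.symm_apply_eq]
        exact Units.ext (LinearMap.ext fun v => by simp [U, N]))⟩⟩
  rw [sm_eq, ← hu.sum_comp]
  rw [Finset.expect_eq_sum_div_card, div_eq_zero_iff, or_iff_left (by simp)] at h2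
  refine Eq.trans (Finset.sum_congr rfl fun η _ => ?_) h2
  simp only [u, MulEquiv.apply_symm_apply]
  exact (lift_irr χ (U η)).symm

omit [Fintype F] in
theorem Pw.pow_eq {j : ℕ} (h : Pw F n j) {V : Type} [AddCommGroup V] [Module F V] [Finite V] {f : End F V}
    (hf : IsUnit f) (hd : finrank F V < n) : f ^ j = f := by
  let e := LinearMap.toMatrixAlgEquiv (Module.finBasis F V)
  obtain ⟨g, hg⟩ := hf.map e
  refine e.injective ?_
  rw [map_pow, ← hg, ← Units.val_pow_eq_pow_val]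
  convert congrArg Units.val (h.sm _ hd g)

omit [Fintype F] in
theorem Pw.cop' {j : ℕ} (h : Pw F n j) : j.Coprime (Nat.card (End F (Fin n → F))ˣ) := by
  have := h.cop
  convert this using 1
  convert (Nat.card_congr GeneralLinearGroup.toLin.toEquiv).symm

/-- `f` and `f ^ j` have the same invariant subspaces (`f` is a power of `f ^ j`), and for an invariant `W` with
`hterm ≠ 0` the dimensions of `W` and `V / W` are `a, b < n` (`Sup`), so the restriction and the quotient map of `f ^ j`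
are those of `f`. -/
theorem hall_pow {j a b : ℕ} (h : Pw F (a + b) j) (ha : 0 < a) (hb : 0 < b) {ρ σ : Ty F → ℂ} (hρ : Sup a ρ)
    (hσ : Sup b σ) (g : (End F (Fin (a + b) → F))ˣ) : hall ρ σ (ty (g ^ j).1) = hall ρ σ (ty g.1) := by
  rw [hall_ty, hall_ty]
  refine Finset.sum_congr rfl fun W _ => ?_
  rw [Units.val_pow_eq_pow_val]
  by_cases hW : ∀ v ∈ W, g.1 v ∈ W
  · have hW' : ∀ v ∈ W, (g.1 ^ j) v ∈ W := Module.End.pow_apply_mem_of_forall_mem j hW
    rw [hterm, hterm, dif_pos hW, dif_pos hW']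
    obtain ⟨h1, h2⟩ := isUnit_iff_of_exact (x := g.1.restrict hW) (f := g.1) (y := W.mapQ W g.1 hW)
      W.injective_subtype W.mkQ_surjective (by simp) (fun _ => rfl) fun _ => rfl
    rw [finrank_fin_fun] at h2
    by_cases h3 : finrank F W = a
    · rw [← Module.End.pow_restrict j hW, Submodule.mapQ_pow W hW, h.pow_eq (h1.1 g.isUnit).1 (by omega),
        h.pow_eq (h1.1 g.isUnit).2 (by omega)]
    · rw [of_not_not fun e => h3 (hρ _ _ e).2, of_not_not fun e => h3 (hρ _ (g.1.restrict hW) e).2, zero_mul, zero_mul]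
  · rw [hterm_of_not hW, hterm_of_not fun h1 => hW ?_]
    obtain ⟨m, hm⟩ := exists_pow_eq_self_of_coprime (x := g) (h.cop'.coprime_dvd_right (orderOf_dvd_natCard g))
    rw [← hm, Units.val_pow_eq_pow_val, Units.val_pow_eq_pow_val]
    exact Module.End.pow_apply_mem_of_forall_mem m h1

omit [DecidableEq F] in
theorem cug_zero {ρ π : Irr F n} {σ : Irr F 0} (h : ip (n + 0) (hall (lift ρ.1) (lift σ.1)) (lift π.1) ≠ 0) :
    π = ρ := by
  classical
  rw [ip_hall sup_lift, ip] at h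
  obtain ⟨x, -, hx⟩ := Finset.exists_ne_zero_of_sum_ne_zero (right_ne_zero_of_mul h)
  have h1 : rs x (lift π.1) = lift π.1 := ext_ty fun m f => by
    rw [rs_ty, Finset.expect_congr rfl fun Φ _ => congrArg (lift π.1) (ty_congr (f := tri f Φ x) (g := f)
      LinearEquiv.prodUnique fun v => by rw [tri_apply, Subsingleton.elim v.2 0, map_zero, add_zero]; rfl), Fintype.expect_const]
  have h2 := right_ne_zero_of_mul hx
  rw [← ip_rs, h1, _root_.map_ne_zero, ip_lift] at h2
  exact of_not_not fun e => h2 (if_neg e)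

/-- Transport `χ` to `Irr F n`; `mult_eq`, `mult_lift` give `mult = 1`. By `exists_support` there is `Con ρ σ χ` with `ρ`
cuspidal of degree `a > 0`. If `σ` has degree `0` then `χ = ρ` (`hall ρ σ = ρ`, `eq_of_ip_lift`) is cuspidal
(`IsCusp.apply_one`). Otherwise `χ' = χ ∘ pow j` (`IsIrrCharacter.comp_pow`) is generic (`un`) and `Con ρ σ χ'`
(`hall_pow`, the power map is a bijection), so `χ' = χ` by `(ax hθ).uni`, `gen`, `fac`. -/
theorem cu_or_pow {j : ℕ} (h : Pw F n j) (hn : 0 < n) {θ : AddChar F ℂ} (hθ : θ ≠ 1) [Fintype (UU n F)]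
    {χ : GL (Fin n) F → ℂ} (hχ : IsIrrCharacter _ χ) (hg : ∑ u : UU n F, lam θ u * χ u ≠ 0) :
    (Cu χ ∧ χ 1 = gam (Fintype.card F) n) ∨ ∀ g, χ (g ^ j) = χ g := by
  let χ0 : Irr F n := ⟨fun g => χ (GeneralLinearGroup.toLin.symm g), hχ.comp_equiv GeneralLinearGroup.toLin.symm⟩
  have e0 : ∀ g, χ0.1 (GeneralLinearGroup.toLin g) = χ g := fun g => congrArg χ (MulEquiv.symm_apply_apply _ g)
  have h1 : mult θ n (lift χ0.1) = 1 := (mult_lift hθ χ0).resolve_left (by
    rw [mult_eq, Finset.expect_eq_sum_div_card, div_eq_zero_iff, not_or]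
    refine ⟨fun e => hg (Eq.trans (Finset.sum_congr rfl fun u _ => ?_) e), by simp⟩
    rw [← e0]
    convert congrArg _ (lift_irr χ0 _).symm)
  obtain ⟨a, b, ρ, σ, ha, hρ, hc⟩ := exists_support χ0 hn
  have hc' : Con ⟨a, ρ⟩ ⟨b, σ⟩ ⟨n, χ0⟩ := hc
  obtain rfl : n = a + b := hc'.deg
  obtain rfl | hb := b.eq_zero_or_pos
  · obtain rfl : χ0 = ρ := cug_zero hc
    refine .inl ⟨by simpa only [e0] using cu_of_isCusp hρ, ?_⟩
    obtain ⟨a, rfl⟩ := Nat.exists_eq_add_one.2 ha
    rw [← e0, map_one, (hρ.apply_one hθ).1, Cusp.gam, gam, Nat.cast_prod, Nat.card_eq_fintype_card]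
    exact Finset.prod_congr rfl fun i _ => by rw [Nat.cast_sub (Nat.one_le_pow _ _ Fintype.card_pos)]; simp
  · let χ1 : Irr F (a + b) := ⟨fun g => χ0.1 (g ^ j), χ0.2.comp_pow h.cop'⟩
    have h2 : mult θ (a + b) (lift χ1.1) = 1 := by
      rw [← h1, mult_eq, mult_eq]
      refine Finset.expect_congr rfl fun u _ => ?_
      rw [lift_irr, lift_irr]
      refine congrArg (fun g => _ * χ0.1 g) ?_
      rw [← map_pow]
      convert congrArg GeneralLinearGroup.toLin (h.un _ u.2)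
    have h3 : Con ⟨a, ρ⟩ ⟨b, σ⟩ ⟨a + b, χ1⟩ := fun e => hc (Eq.trans (by
      rw [(sup_lift.hall sup_lift).ip_eq, (sup_lift.hall sup_lift).ip_eq, classInner, classInner,
        ← (powCoprime h.cop'.symm).sum_comp]
      refine congrArg _ (Finset.sum_congr rfl fun g _ => ?_)
      rw [lift_irr, lift_irr, powCoprime_apply, hall_pow h ha hb sup_lift sup_lift]) e)
    have h4 := ((ax hθ).uni ((ax hθ).gen (ρ := ⟨a, ρ⟩) ⟨ha, hρ⟩) ((ax hθ).fac hc' h1)).unique ⟨h2, h3⟩ ⟨h1, hc'⟩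
    have h5 : χ1 = χ0 := eq_of_heq (Sigma.mk.inj h4).2
    exact .inr fun g => by rw [← e0, ← e0, map_pow]; exact congrFun (congrArg Subtype.val h5) _

/-- `M = ordCompl[l] (∏ d ≤ n, |GL_d|)`, Chinese remainder theorem; `l` divides neither `|GL_d|` for `d < n`
(`Matrix.card_GL_field`) nor `|UU n F|` (a power of `q`), and `q ^ d - 1 ∣ |GL_d|`. -/
theorem exists_pw {l : ℕ} (hl : l.Prime) (ho : orderOf (Fintype.card F : ZMod l) = n) (hn : 0 < n) {a : ℕ}
    (ha : a.Coprime l) : ∃ j, Pw F n j ∧ j ≡ a [MOD l] ∧ ∀ d < n, j ≡ 1 [MOD Fintype.card F ^ d - 1] ∨ d = 0 := by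
  classical
  have := Fact.mk hl
  let N := ∏ d ∈ Finset.range (n + 1), Nat.card (GL (Fin d) F)
  have hN : N ≠ 0 := Finset.prod_ne_zero_iff.2 fun _ _ => Nat.card_pos.ne'
  have hM := Nat.coprime_ordCompl hl hN
  obtain ⟨j, h1, h2⟩ := Nat.chineseRemainder hM a 1
  have h3 : ∀ d ≤ n, Nat.card (GL (Fin d) F) ∣ N := fun d hd =>
    Finset.dvd_prod_of_mem _ (Finset.mem_range.2 (by omega))
  have h4 : ∀ m, m ∣ N → ¬ l ∣ m → j ≡ 1 [MOD m] := fun m hm hm' => h2.of_dvd
    ((((Nat.Prime.coprime_iff_not_dvd hl).2 hm').symm.pow_right _).dvd_of_dvd_mul_left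
      (by rwa [Nat.ordProj_mul_ordCompl_eq_self]))
  have h5 : ∀ d < n, j ≡ 1 [MOD Nat.card (GL (Fin d) F)] := fun d hd => h4 _ (h3 d hd.le) fun e => by
    rw [Matrix.card_GL_field] at e
    obtain ⟨i, -, hi⟩ := (Nat.Prime.prime hl).exists_mem_finset_dvd e
    rw [← ZMod.natCast_eq_zero_iff, Nat.cast_sub (Nat.pow_le_pow_right Fintype.card_pos i.2.le), sub_eq_zero] at hi
    push_cast at hi
    exact i.2.ne' (pow_injOn_Iio_orderOf (x := (Fintype.card F : ZMod l)) (by rwa [ho]) (by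
      rw [ho]; exact i.2.trans hd) hi)
  have h6 : ∀ {G : Type} [Group G] (g : G), j ≡ 1 [MOD Nat.card G] → g ^ j = g := fun g e => by
    simpa using pow_eq_pow_iff_modEq.2 (e.of_dvd (orderOf_dvd_natCard g))
  refine ⟨j, ⟨?_, fun d hd g => ?_, fun u hu => ?_⟩, h1, fun d hd => ?_⟩
  · have h7 : j.Coprime N := by
      rw [← Nat.ordProj_mul_ordCompl_eq_self N l]
      refine Nat.Coprime.mul_right (Nat.Coprime.pow_right _ ?_) ?_
      · rw [Nat.Coprime, h1.gcd_eq]; exact ha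
      · rw [Nat.Coprime, h2.gcd_eq]; exact Nat.gcd_one_left _
    convert h7.coprime_dvd_right (h3 n le_rfl)
  · convert h6 g (by convert h5 d hd)
  · refine congrArg Subtype.val (h6 (⟨u, hu⟩ : UU n F) (h4 _ ?_ fun e => ?_))
    · exact (Subgroup.card_subgroup_dvd_card _).trans (by convert h3 n le_rfl)
    · rw [Linear.card_unipGL_fin] at e
      have h7 := pow_orderOf_eq_one (Fintype.card F : ZMod l)
      rw [ho, (ZMod.natCast_eq_zero_iff _ _).2 (hl.dvd_of_dvd_pow e), zero_pow hn.ne'] at h7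
      exact zero_ne_one h7
  · obtain rfl | hd0 := d.eq_zero_or_pos
    · exact .inr rfl
    · refine .inl ((h5 d hd).of_dvd ?_)
      rw [Matrix.card_GL_field]
      simpa using Finset.dvd_prod_of_mem (fun i : Fin d => Fintype.card F ^ d - Fintype.card F ^ (i : ℕ))
        (Finset.mem_univ ⟨0, hd0⟩)

end Cfsg.Lib.HCI
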