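import Cfsg.Agent.Lib.HCI.CuG
import Cfsg.Agent.Lib.HCI.CuB
import Cfsg.Agent.Lib.HCI.CuF
import Cfsg.Agent.Lib.GLC.Zsig

/-! S4984: non-real cuspidal characters of `GL_n`, `n ≥ 3`. -/

set_option autoImplicit false

namespace Cfsg.Lib.HCI

open Module Matrix Cfsg.Lib.Char Cfsg.Lib.Cusp

variable {F K : Type} [Field F] [Fintype F] [DecidableEq F] [Field K] [Finite K] [Algebra F K] {n : ℕ}

/-- The value of the Bessel functional. -/
noncomputable def bv (F : Type) [Field F] [DecidableEq F] [Algebra F K] (θ : AddChar F ℂ) (d : F) (y : K) : ℂ :=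
  if Algebra.norm F y = d then θ (Algebra.trace F K y) else 0

omit [Fintype F] [DecidableEq F] [Finite K] in
theorem cum_top {y z : K} (hy : Algebra.adjoin F {y} = ⊤) (h : y ∈ Algebra.adjoin F {z}) :
    Algebra.adjoin F {z} = ⊤ :=
  top_le_iff.1 (hy ▸ Algebra.adjoin_le (Set.singleton_subset_iff.2 h))

omit [Fintype F] [DecidableEq F] [Finite K] in
theorem cum_neg {y : K} (hy : Algebra.adjoin F {y} = ⊤) : Algebra.adjoin F {-y} = ⊤ :=
  cum_top hy (by simpa using neg_mem (Algebra.self_mem_adjoin_singleton F (-y)))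

omit [Fintype F] [DecidableEq F] in
theorem cum_inv {y : K} (hy : Algebra.adjoin F {y} = ⊤) : Algebra.adjoin F {y⁻¹} = ⊤ := by
  have : Module.Finite F K := Module.Finite.of_finite
  have := Subalgebra.inv_mem_of_algebraic (Algebra.adjoin F {y⁻¹})
    (x := ⟨_, Algebra.self_mem_adjoin_singleton F y⁻¹⟩) (Algebra.IsAlgebraic.isAlgebraic _)
  exact cum_top hy (by simpa using this)

omit [Fintype F] [DecidableEq F] [Finite K] in
theorem cum_ne (hn : finrank F K = n) (h2 : 2 ≤ n) {x : K} (hx : Algebra.adjoin F {x} = ⊤) : x ≠ 0 := by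
  rintro rfl
  have : (⊥ : Subalgebra F K) = ⊤ := top_le_iff.1 (hx ▸ Algebra.adjoin_le (by simp))
  rw [Subalgebra.bot_eq_top_iff_finrank_eq_one] at this
  omega

theorem cum_cu_ne (h2 : 2 ≤ n) {ρ : GL (Fin n) F → ℂ} (h : Cu ρ) : ρ ≠ fun _ => 1 := by
  rintro rfl
  have h0 : (Pi.single ⟨0, by omega⟩ 1 : Fin n → F) ≠ 0 := by simp
  have h1 := h (F ∙ Pi.single ⟨0, by omega⟩ 1) (by simp) fun e => by
    have := finrank_span_singleton (K := F) h0
    rw [e, finrank_top, finrank_fin_fun] at this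
    omega
  have := Fintype.ofFinite (rad (F ∙ (Pi.single ⟨0, by omega⟩ 1 : Fin n → F)))
  simp [sm_eq] at h1

/-- `h = ind (x ^ j) - ind x = f₀ - f₀ ∘ pow j` (`ind_pow`), `f g = h g + h (-g) - h g⁻¹ - h (-g⁻¹)`. For irreducible `χ`:
`⟨f, χ⟩ = 0` if `χ (-g) = -χ g` (`sign_or`), or if `χ` is real, or if `χ ∘ pow j = χ`; by `cu_or_pow` and `hno` this covers all
generic `χ`. For the others `∑ u, lam θ u * χ (g * u) = 0` (`expect_mul_eq_zero`). Expand `f` in irreducible characters and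
use `bessel` (`x` is a power of `x ^ j` since `Kˣ` embeds in `GL_n`, or since `Rt`; so all eight elements generate `K`). -/
theorem core (hn : finrank F K = n) (h2 : 2 ≤ n) (hno : ∀ ρ : GL (Fin n) F → ℂ, CI ρ → ρ (-1) = ρ 1 → ¬ NR ρ)
    {j : ℕ} (hj : Pw F n j) {x : K} (hx : Algebra.adjoin F {x} = ⊤) (hxj : Algebra.adjoin F {x ^ j} = ⊤)
    {θ : AddChar F ℂ} (hθ : θ ≠ 1) {d : F} (hd : d ≠ 0) :
    bv F θ d (x ^ j) + bv F θ d (-x ^ j) - bv F θ d (x ^ j)⁻¹ - bv F θ d (-(x ^ j)⁻¹) - bv F θ d x - bv F θ d (-x) +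
      bv F θ d x⁻¹ + bv F θ d (-x⁻¹) = 0 := by
  classical
  obtain ⟨m, rfl⟩ : ∃ m, n = m + 1 := ⟨n - 1, by omega⟩
  have := Fintype.ofFinite (UU (m + 1) F)
  have := Fintype.ofFinite (GL (Fin (m + 1)) F)
  obtain ⟨c, hc, hb⟩ := bessel hn (by omega)
  obtain ⟨g, hg⟩ := hb d hd
  have x0 := cum_ne hn h2 hx
  have xj0 := pow_ne_zero j x0
  let h : GL (Fin (m + 1)) F → ℂ := fun g => ind (x ^ j) g - ind x g
  let f : GL (Fin (m + 1)) F → ℂ := fun g => h g + h (-g) - h g⁻¹ - h (-g⁻¹)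
  have hh : IsClassFunction _ h := fun a b => by simp only [h, ind_class _ a b]
  have hf : IsClassFunction _ f := fun a b => by
    have e1 := hh (-a) b
    have e2 := hh a⁻¹ b
    have e3 := hh (-a⁻¹) b
    simp only [f, hh a b, ← e1, ← e2, ← e3]
    simp [mul_assoc]
  have hT : ∀ ψ : GL (Fin (m + 1)) F → ℂ, (∀ g, ψ (g ^ j) = ψ g) → ∑ g, h g * ψ g = 0 := fun ψ hψ => by
    simp only [h, sub_mul, Finset.sum_sub_distrib]
    rw [← Equiv.sum_comp (powCoprime hj.cop.symm), sub_eq_zero]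
    exact Finset.sum_congr rfl fun g _ => by rw [powCoprime_apply, hψ, ind_pow x0 hj.cop]
  have hS : ∀ ψ : GL (Fin (m + 1)) F → ℂ, ∑ g, f g * ψ g =
      ∑ g, h g * ψ g + ∑ g, h g * ψ (-g) - ∑ g, h g * ψ g⁻¹ - ∑ g, h g * ψ (-g⁻¹) := fun ψ => by
    simp only [f, sub_mul, add_mul, Finset.sum_sub_distrib, Finset.sum_add_distrib]
    congr 1
    · congr 1
      · congr 1
        exact Fintype.sum_equiv (Equiv.neg _) _ _ fun g => by simp
      · exact Fintype.sum_equiv (Equiv.inv _) _ _ fun g => by simp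
    · exact Fintype.sum_equiv ((Equiv.inv _).trans (Equiv.neg _)) _ _ fun g => by simp
  have key : ∀ χ : GL (Fin (m + 1)) F → ℂ, IsIrrCharacter _ χ → ∑ u : UU (m + 1) F, lam θ u * χ u ≠ 0 → classInner f χ = 0 :=
    fun χ hχ hgen => by
      rw [classInner_def, hS]
      refine mul_eq_zero_of_right _ ?_
      rcases sign_or (z := -1) (Subgroup.mem_center_iff.2 fun g => by simp) (by simp) hχ with e | e
      · simp only [neg_one_mul] at e
        simp only [e]
        rcases cu_or_pow hj (by omega) hθ hχ hgen with ⟨c1, c2⟩ | c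
        · have := hno χ ⟨hχ, c1, c2, cum_cu_ne h2 c1⟩ (e 1)
          simp only [NR, not_exists, not_not] at this
          simp only [this]
          ring
        · rw [hT (fun g => (starRingEnd ℂ) (χ g)) fun g => by rw [c],
            hT (fun g => (starRingEnd ℂ) (χ g⁻¹)) fun g => by rw [← inv_pow, c]]
          ring
      · simp only [neg_one_mul] at e
        simp only [e, map_neg, mul_neg, Finset.sum_neg_distrib]
        ring
  have h0 : ∑ u : UU (m + 1) F, lam θ u * f (g * u) = 0 := by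
    simp only [hf.apply_eq_sum_irr (g * _), Finset.mul_sum]
    rw [Finset.sum_comm]
    refine Finset.sum_eq_zero fun χ _ => ?_
    simp only [mul_left_comm (lam θ _ : ℂ), ← Finset.mul_sum]
    by_cases e : ∑ u : UU (m + 1) F, lam θ u * (χ : GL (Fin (m + 1)) F → ℂ) u = 0
    · have := expect_mul_eq_zero (f := (UU (m + 1) F).subtype) (l := lam θ) χ.2.isCharacter
        (by rw [Fintype.expect_eq_sum_div_card]; exact div_eq_zero_iff.2 (.inl e)) g
      rw [Fintype.expect_eq_sum_div_card, div_eq_zero_iff] at this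
      exact mul_eq_zero_of_right _ (this.resolve_right (Nat.cast_ne_zero.2 Fintype.card_ne_zero))
    · rw [key _ χ.2 e, zero_mul]
  have e1 := ind_inv (F := F) (n := m + 1) x0
  have e2 := ind_inv (F := F) (n := m + 1) xj0
  have e3 := ind_inv (F := F) (n := m + 1) (neg_ne_zero.2 x0)
  have e4 := ind_inv (F := F) (n := m + 1) (neg_ne_zero.2 xj0)
  have hv : ∀ y : K, Algebra.adjoin F {y} = ⊤ →
      ∑ u : UU (m + 1) F, lam θ u * ind y (g * (u : GL (Fin (m + 1)) F)) = c * bv F θ d y := fun y hy => by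
    rw [hg θ y hy, bv]; split_ifs <;> simp
  simp only [f, h, ind_neg, e1, e2, e3, e4, inv_neg, mul_add, mul_sub, Finset.sum_add_distrib,
    Finset.sum_sub_distrib, hv _ hx, hv _ hxj, hv _ (cum_neg hx), hv _ (cum_neg hxj), hv _ (cum_inv hx),
    hv _ (cum_inv hxj), hv _ (cum_neg (cum_inv hx)), hv _ (cum_neg (cum_inv hxj))] at h0
  refine mul_left_cancel₀ (Nat.cast_ne_zero.2 hc.ne' : (c : ℂ) ≠ 0) ?_
  linear_combination h0

/-- Sum `core` over `d ≠ 0`; `fourier` with `G (t ^ 2)`, `pair_eq`. -/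
theorem core_sq (hn : finrank F K = n) (h2 : 2 ≤ n) (hno : ∀ ρ : GL (Fin n) F → ℂ, CI ρ → ρ (-1) = ρ 1 → ¬ NR ρ)
    {j : ℕ} (hj : Pw F n j) {x : K} (hx : Algebra.adjoin F {x} = ⊤) (hxj : Algebra.adjoin F {x ^ j} = ⊤) :
    Algebra.trace F K (x ^ j) ^ 2 = Algebra.trace F K (x ^ j)⁻¹ ^ 2 ∧
        Algebra.trace F K x⁻¹ ^ 2 = Algebra.trace F K x ^ 2 ∨
      Algebra.trace F K (x ^ j) ^ 2 = Algebra.trace F K x ^ 2 ∧
        Algebra.trace F K x⁻¹ ^ 2 = Algebra.trace F K (x ^ j)⁻¹ ^ 2 := by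
  have : Module.Finite F K := Module.Finite.of_finite
  have x0 := cum_ne hn h2 hx
  have xj0 := pow_ne_zero j x0
  have hv : ∀ (θ : AddChar F ℂ) (y : K), y ≠ 0 →
      ∑ d ∈ Finset.univ.erase 0, bv F θ d y = θ (Algebra.trace F K y) := fun θ y hy => by
    simp [bv, Algebra.norm_eq_zero_iff, hy]
  refine pair_eq fun G => ?_
  have := fourier (c := ![1, 1, -1, -1, -1, -1, 1, 1]) (t := ![Algebra.trace F K (x ^ j),
    Algebra.trace F K (-x ^ j), Algebra.trace F K (x ^ j)⁻¹, Algebra.trace F K (-(x ^ j)⁻¹), Algebra.trace F K x,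
    Algebra.trace F K (-x), Algebra.trace F K x⁻¹, Algebra.trace F K (-x⁻¹)]) (by decide) (fun θ hθ => by
      have := Finset.sum_eq_zero (s := Finset.univ.erase 0) fun d hd =>
        core hn h2 hno hj hx hxj hθ (Finset.ne_of_mem_erase hd)
      simp only [Finset.sum_add_distrib, Finset.sum_sub_distrib, hv θ _ x0, hv θ _ xj0, hv θ _ (inv_ne_zero x0),
        hv θ _ (inv_ne_zero xj0), hv θ _ (neg_ne_zero.2 x0), hv θ _ (neg_ne_zero.2 xj0),
        hv θ _ (neg_ne_zero.2 (inv_ne_zero x0)), hv θ _ (neg_ne_zero.2 (inv_ne_zero xj0))] at this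
      simp only [Fin.sum_univ_eight, cons_val]
      push_cast
      linear_combination this) fun s => G (s ^ 2)
  simp only [Fin.sum_univ_eight, cons_val, map_neg, neg_sq] at this
  omega

omit [DecidableEq F] [Finite K] [Algebra F K] in
theorem cum_dvd {m l a : ℕ} (h0 : 0 < m) (hl : l.Prime) (ho : orderOf (Fintype.card F : ZMod l) = 2 * m) {y s : K}
    (hy : y ^ (Fintype.card F ^ m - 1) = 1) (hs : orderOf s = l) (ha : a.Coprime l) : l ∣ orderOf (y * s ^ a) := by
  have h1 : (y * s ^ a) ^ (orderOf (y * s ^ a) * (Fintype.card F ^ m - 1)) = 1 := by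
    rw [pow_mul, pow_orderOf_eq_one, one_pow]
  rw [mul_pow, mul_comm (orderOf _), pow_mul, hy, one_pow, one_mul, ← pow_mul, ← orderOf_dvd_iff_pow_eq_one, hs] at h1
  refine ((hl.dvd_mul.1 (ha.symm.dvd_of_dvd_mul_left h1)).resolve_left fun e => ?_)
  have h2 : (Fintype.card F : ZMod l) ^ m = 1 := by
    have := (ZMod.natCast_eq_zero_iff _ _).2 e
    rwa [Nat.cast_sub (Nat.one_le_pow _ _ Fintype.card_pos), Nat.cast_pow, Nat.cast_one, sub_eq_zero] at this
  have := Nat.le_of_dvd h0 (ho ▸ orderOf_dvd_of_pow_eq_one h2)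
  omega

theorem cum_main (hn : finrank F K = n) (h3 : 3 ≤ n) (h6 : ¬ (Fintype.card F = 2 ∧ n = 6))
    (hno : ∀ ρ : GL (Fin n) F → ℂ, CI ρ → ρ (-1) = ρ 1 → ¬ NR ρ) : False := by
  have : Module.Finite F K := Module.Finite.of_finite
  obtain ⟨l, hl, ho⟩ := GLC.zsigmondy (a := Fintype.card F) (n := n) Fintype.one_lt_card (by omega) h6 (by omega)
  rcases n.even_or_odd' with ⟨m, rfl | hm⟩
  · by_cases h4 : Fintype.card F = 2 ∧ m ≤ 3
    · obtain rfl : m = 2 := by omega
      have o5 : orderOf (Fintype.card F : ZMod 5) = 2 * 2 := by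
        rw [h4.1, orderOf_eq_iff (by norm_num)]; decide
      obtain ⟨j, hj, j1, j2⟩ := exists_pw (F := F) Nat.prime_five o5 (by norm_num) (a := 2) (by norm_num)
      have j3 := (j2 2 (by norm_num)).resolve_right (by norm_num)
      rw [h4.1] at j3
      obtain ⟨x, x1, x2, x3, x4⟩ := exists_sixteen h4.1 hn
      have x0 : x ≠ 0 := by rintro rfl; simp at x1
      have xj : x ^ j = x ^ 7 := pow_eq_pow_of_modEq (n := 15) (by
        simp only [Nat.ModEq] at j1 j3 ⊢; omega) (x1 ▸ pow_orderOf_eq_one x)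
      have := core_sq hn (by norm_num) hno hj (adjoin_eq_top hn Nat.prime_five o5 x0 (by rw [x1]; norm_num))
        (adjoin_eq_top hn Nat.prime_five o5 (pow_ne_zero _ x0) (by
          rw [xj, Nat.Coprime.orderOf_pow (by rw [x1]; norm_num), x1]; norm_num))
      have sq : ∀ a : F, a ^ 2 = a := fun a => h4.1 ▸ FiniteField.pow_card a
      simp only [xj, x3, x4, sq, and_self, or_self] at this
      exact x2 this.symm
    · have l2 : Nat.Coprime 2 l := (Nat.coprime_primes Nat.prime_two hl).2 (by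
        rintro rfl
        generalize (Fintype.card F : ZMod 2) = a at ho
        fin_cases a
        · have : orderOf (0 : ZMod 2) = 2 * m := ho
          rw [orderOf_zero] at this; omega
        · have : orderOf (1 : ZMod 2) = 2 * m := ho
          rw [orderOf_one] at this; omega)
      obtain ⟨j, hj, j1, j2⟩ := exists_pw hl ho (by omega) l2
      have j3 := (j2 m (by omega)).resolve_right (by omega)
      obtain ⟨y, s, y1, s1, h⟩ := exists_even hn (by omega) h4 hl ho
      have s0 : s ≠ 0 := by rintro rfl; rw [orderOf_zero] at s1; exact hl.ne_zero s1.symm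
      have y0 : y ≠ 0 := by
        rintro rfl
        rw [zero_pow (Nat.sub_ne_zero_of_lt (Nat.one_lt_pow (by omega) Fintype.one_lt_card))] at y1
        exact zero_ne_one y1
      have xj : (y * s) ^ j = y * s ^ 2 := by
        rw [mul_pow, pow_eq_pow_of_modEq j3 y1, pow_eq_pow_of_modEq j1 (s1 ▸ pow_orderOf_eq_one s), pow_one]
      have := core_sq hn (by omega) hno hj (adjoin_eq_top hn hl ho (mul_ne_zero y0 s0)
        (by simpa using cum_dvd (by omega) hl ho y1 s1 (Nat.coprime_one_left l)))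
        (xj ▸ adjoin_eq_top hn hl ho (mul_ne_zero y0 (pow_ne_zero _ s0)) (cum_dvd (by omega) hl ho y1 s1 l2))
      rw [xj] at this
      rcases this with ⟨a, b⟩ | ⟨a, b⟩
      · exact h (by rw [a, b])
      · exact h (by rw [a, b, add_comm])
  · have od : Odd n := ⟨m, hm⟩
    obtain ⟨j, hj, j1, -⟩ := exists_pw hl ho (by omega) (a := l - 1)
      ((Nat.coprime_self_sub_left hl.one_le).2 (Nat.coprime_one_left l))
    obtain ⟨x, x1, x2, x3⟩ := exists_odd hn h3 od hl ho
    have x0 : x ≠ 0 := by rintro rfl; rw [orderOf_zero] at x1; exact hl.ne_zero x1.symm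
    have xl : x ^ l = 1 := x1 ▸ pow_orderOf_eq_one x
    have xj : x ^ j = x⁻¹ := by
      rw [pow_eq_pow_of_modEq j1 xl]
      exact eq_inv_of_mul_eq_one_left (by rw [← pow_succ, Nat.sub_add_cancel hl.one_le, xl])
    have hx := adjoin_eq_top hn hl ho x0 (x1 ▸ dvd_rfl)
    obtain ⟨θ, hθ⟩ := AddChar.exists_apply_ne_zero.2 (sub_ne_zero.2 x3)
    have := core hn (by omega) hno hj hx (xj ▸ cum_inv hx) (θ := θ) (by rintro rfl; exact hθ rfl) one_ne_zero
    have n1 : Algebra.norm F x⁻¹ = 1 := by rw [Algebra.norm_inv, x2, inv_one]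
    have n2 : ∀ y : K, Algebra.norm F (-y) = - Algebra.norm F y := fun y => by
      rw [← neg_one_mul, map_mul, ← (algebraMap F K).map_one, ← map_neg, Algebra.norm_algebraMap, hn, od.neg_one_pow,
        neg_one_mul]
    have h0 : θ (Algebra.trace F K x) = θ (Algebra.trace F K x⁻¹) := by
      simp only [xj, inv_inv, bv, n1, n2, x2, if_true, map_neg] at this
      split_ifs at this with c
      · have c' : ∀ a : F, -a = a := fun a => by rw [← neg_one_mul, c, one_mul]
        simp only [c'] at this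
        linear_combination (-1 / 4 : ℂ) * this
      · linear_combination (-1 / 2 : ℂ) * this
    exact hθ (by rw [AddChar.map_sub_eq_div, h0, div_self (θ.val_isUnit _).ne_zero])

/-- `K = FiniteField.Extension F p n` (or `GaloisField`), `l` from `GLC.zsigmondy`.
Odd `n`: `j ≡ l - 1`, `x` from `exists_odd`, `x ^ j = x⁻¹`, `core` with `d = 1` (`norm (-x) = -1`; in characteristic 2 `-x = x`)
gives `θ (tr x) = θ (tr x⁻¹)` for all `θ`. Even `n = 2 m`: `j ≡ 2`, `x = y s`, `x ^ j = y s²` (`exists_even`, `core_sq`,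
`adjoin_eq_top`: `l ∣ orderOf (y s)` as `l ∤ q ^ m - 1`). `q = 2`, `n = 4`: `l = 5`, `j ≡ 2 [MOD 5]`, `j ≡ 1 [MOD 3]`,
`x ^ j = x ^ 7` (`exists_sixteen`). -/
theorem exists_nr (h3 : 3 ≤ n) (h6 : ¬ (Fintype.card F = 2 ∧ n = 6)) :
    ∃ ρ : GL (Fin n) F → ℂ, CI ρ ∧ NR ρ ∧ ρ (-1) = ρ 1 := by
  by_contra! hno'
  obtain ⟨p, hp⟩ := CharP.exists F
  have := Fact.mk (CharP.char_is_prime F p)
  have : NeZero n := ⟨by omega⟩
  exact cum_main (FiniteField.finrank_extension F p n) h3 h6 fun ρ h1 h2 h3 => hno' ρ h1 h3 h2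

end Cfsg.Lib.HCI
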