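import Cfsg.Agent.Lib.HCI.R3

/-! S4984: a non-trivial cuspidal character does not occur in the restriction of `pi1`. -/

set_option autoImplicit false

namespace Cfsg.Lib.HCI.FS

open Module Matrix Cfsg.Lib.Char
open scoped ComplexConjugate

variable {F V : Type} [Field F] [Fintype F] [DecidableEq F] [AddCommGroup V] [Module F V] [Finite V]
  {S : FS F V} {k : ℕ} {ρ : GL (Fin k) F → ℂ} {i : (Fin k → F) →ₗ[F] V}

theorem frp_sm {G : Type*} [Group G] [Fintype G] (H : Subgroup G) [DecidablePred (· ∈ H)] (f : G → ℂ) :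
    sm H f = ∑ g, if g ∈ H then f g else 0 := by
  rw [sm_eq, ← Finset.sum_filter]
  exact (Finset.sum_subtype _ (by simp) f).symm

omit [Fintype F] in
theorem frp_eich (ht : S.TS i) {t : Fin k → F} {b : V} {φ : (Fin k → F) →ₗ[F] F}
    (hφ : ∀ z, S.B (i z) b = -S.ε * φ z) (h0 : φ t = 0) :
    ∃ A : GL (Fin k) F, (∀ v, A.1 *ᵥ v = v + φ v • t) ∧ (A, S.eich (i t) b) ∈ S.nr i := by
  have hb : S.B (i t) b = 0 := by rw [hφ, h0, mul_zero]
  have key : ∀ c : F, LinearMap.toMatrix' (LinearMap.id + c • φ.smulRight t) *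
      LinearMap.toMatrix' (LinearMap.id + (-c) • φ.smulRight t) = 1 := fun c => by
    rw [← LinearMap.toMatrix'_comp, ← LinearMap.toMatrix'_id]
    congr 1
    refine LinearMap.ext fun v => ?_
    simp [h0]
  have key' := key (-1)
  rw [neg_neg] at key'
  let A : GL (Fin k) F := ⟨_, _, key 1, key'⟩
  have hA : ∀ v, A.1 *ᵥ v = v + φ v • t := fun v => by
    simp only [A, LinearMap.toMatrix'_mulVec]
    simp
  refine ⟨A, hA, fun z => ?_, fun v hv => ?_⟩
  · rw [hA, eich_ap _ (ht.1 t) hb, ht.2, hφ, ← mul_assoc, mul_neg, S.ε_sq]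
    simp
  · rw [eich_ap _ (ht.1 t) hb, S.B_comm (hv t)]
    exact ⟨(-(S.ε * S.B v b)) • t, by simp⟩

omit [Fintype F] [DecidableEq F] [Finite V] in
theorem frp_stab {x : S.Pt} {u : V} (h0 : u ≠ 0) (hx : x.1 = F ∙ u) {g : S.Iso} {c : F} (h : g.1 u = c • u) :
    g ∈ MulAction.stabilizer S.Iso x := by
  have hc : c ≠ 0 := by
    rintro rfl
    exact h0 (by simpa using h)
  refine Subtype.ext ?_
  rw [smul_val, hx, Submodule.map_span, Set.image_singleton, LinearEquiv.coe_coe, h,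
    Submodule.span_singleton_smul_eq hc.isUnit]

/-- If the image of `H` in `GL` is everything or contains some `rad T` then the sum vanishes
(`sm_comp` for `MonoidHom.fst`, `sm_of_le`, orthogonality with the trivial character; `conj ∘ ρ` sums to the
conjugate). -/
theorem sm_conj_eq_zero (h : CI ρ) {H : Subgroup (GL (Fin k) F × S.Iso)}
    (hH : H.map (MonoidHom.fst _ _) = ⊤ ∨ ∃ T, T ≠ ⊥ ∧ T ≠ ⊤ ∧ rad T ≤ H.map (MonoidHom.fst _ _)) :
    sm H (fun p => conj (ρ p.1)) = 0 := by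
  classical
  refine sm_comp (H := H) (MonoidHom.fst _ _) (θ := fun A => conj (ρ A)) ?_
  rcases hH with e | ⟨T, h1, h2, h3⟩
  · have h0 := isIrrCharacter_one.inner_eq_zero_of_ne h.irr h.ne.symm
    have h4 := card_mul_classInner (fun _ : GL (Fin k) F => (1 : ℂ)) ρ
    rw [h0, mul_zero] at h4
    rw [e, frp_sm]
    simpa using h4.symm
  · refine sm_of_le h3 (h.irr.conj.isCharacter.restrict _) ?_
    have h4 := congrArg (starRingEnd ℂ) (h.cu T h1 h2)
    rw [sm_eq, map_sum, map_zero] at h4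
    rw [sm_eq, h4]

/-- The stabiliser in `nr i` of the point `F ∙ u`.
* `u = i x₀`: for `k = 1` the Levi elements (`exists_partner` with `u = 0`, `exists_levi`) fix the point; for `k ≥ 2` take
  `T = F ∙ x₀` and `eich (i t) b` with `-ε B (i x) b = φ x` (`exists_B`).
* `u ⊥ range i`, `u ∉ range i`: `exists_partner`, `exists_levi` (the Levi elements fix `u`).
* otherwise `T = {x | B (i x) u = 0} ≠ ⊤`: if `T ≠ ⊥` use `eich (i t) (c • u)` (a functional vanishing on `T` is a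
  multiple of `x ↦ B (i x) u`); it fixes `u`. If `T = ⊥` then `k = 1` and `j y = (c * y 0) • u` is a partner.
In all cases `eich (i t) b` moves `v ⊥ range i` by a multiple of `i t`. -/
theorem stab_map (hi : Function.Injective i) (ht : S.TS i) (x : S.Pt) :
    (S.nr i ⊓ (MulAction.stabilizer S.Iso x).comap (MonoidHom.snd _ _)).map (MonoidHom.fst _ _) = ⊤ ∨
      ∃ T, T ≠ ⊥ ∧ T ≠ ⊤ ∧ rad T ≤
        (S.nr i ⊓ (MulAction.stabilizer S.Iso x).comap (MonoidHom.snd _ _)).map (MonoidHom.fst _ _) := by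
  obtain ⟨u, h0, hQ, hx⟩ := x.2
  have mem : ∀ (A : GL (Fin k) F) (g : S.Iso) (c : F), (A, g) ∈ S.nr i → g.1 u = c • u →
      A ∈ (S.nr i ⊓ (MulAction.stabilizer S.Iso x).comap (MonoidHom.snd _ _)).map (MonoidHom.fst _ _) :=
    fun A g c h1 h2 => ⟨(A, g), ⟨h1, frp_stab h0 hx h2⟩, rfl⟩
  by_cases h1 : u ∈ LinearMap.range i
  · obtain ⟨x0, rfl⟩ := h1
    by_cases h2 : (F ∙ x0) = ⊤
    · refine Or.inl (eq_top_iff.2 fun A _ => ?_)
      obtain ⟨j, hj, hij, -⟩ := exists_partner hi ht (Or.inl rfl) fun z => map_zero _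
      obtain ⟨g, hg, -⟩ := exists_levi ht hj hij A
      obtain ⟨c, hc⟩ := Submodule.mem_span_singleton.1 (h2 ▸ Submodule.mem_top : A.1 *ᵥ x0 ∈ F ∙ x0)
      exact mem A g c hg (by rw [hg.1, ← map_smul, hc])
    · refine Or.inr ⟨F ∙ x0, fun h3 => h0 (by rw [Submodule.span_singleton_eq_bot.1 h3, map_zero]), h2,
        rad_le fun t _ φ hφ => ?_⟩
      obtain ⟨r, hr⟩ := i.exists_leftInverse_of_injective (LinearMap.ker_eq_bot.2 hi)
      obtain ⟨b, hb⟩ := S.exists_B ((-S.ε • φ) ∘ₗ r)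
      obtain ⟨A, hA, hA'⟩ := frp_eich ht (t := t) (b := b) (φ := φ) (fun z => by
        rw [hb, LinearMap.comp_apply, ← LinearMap.comp_apply r, hr]; rfl) (hφ t ‹_›)
      refine ⟨A, mem A _ 1 hA' ?_, hA⟩
      rw [hA'.1, hA, hφ x0 (Submodule.mem_span_singleton_self _), zero_smul, add_zero, one_smul]
  by_cases h2 : ∀ z, S.B (i z) u = 0
  · refine Or.inl (eq_top_iff.2 fun A _ => ?_)
    obtain ⟨j, hj, hij, hu⟩ := exists_partner hi ht (Or.inr h1) h2
    obtain ⟨g, hg, -, hg'⟩ := exists_levi ht hj hij A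
    exact mem A g 1 hg (by rw [hg' u h2 hu, one_smul])
  obtain ⟨z0, hz0⟩ := not_forall.1 h2
  have hmem : ∀ z, z ∈ LinearMap.ker (S.B.flip u ∘ₗ i) ↔ S.B (i z) u = 0 := fun z => Iff.rfl
  have huu : S.B u u = 0 := by rw [S.self, hQ, mul_zero]
  by_cases h3 : LinearMap.ker (S.B.flip u ∘ₗ i) = ⊥
  · have hk : k ≤ 1 := by
      simpa using LinearMap.finrank_le_finrank_of_injective (LinearMap.ker_eq_bot.1 h3)
    have hk' : k ≠ 0 := by
      rintro rfl
      exact hz0 (by rw [Subsingleton.elim z0 0, map_zero, LinearMap.map_zero₂])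
    obtain rfl : k = 1 := by omega
    have hone : ∀ z : Fin 1 → F, z = z 0 • (1 : Fin 1 → F) := fun z => funext fun r => by
      rw [Subsingleton.elim r 0]; simp
    have hβ : S.B (i 1) u ≠ 0 := fun e => hz0 (by rw [hone z0, map_smul, LinearMap.map_smul₂, e, smul_zero])
    let j : (Fin 1 → F) →ₗ[F] V := ((S.B (i 1) u)⁻¹ • LinearMap.proj 0).smulRight u
    have hj : ∀ y, j y = ((S.B (i 1) u)⁻¹ * y 0) • u := fun y => rfl
    refine Or.inl (eq_top_iff.2 fun A _ => ?_)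
    obtain ⟨g, hg, hg', -⟩ := exists_levi (j := j) ht ⟨fun z => by rw [hj, S.smul, hQ, mul_zero], fun z z' => by
      simp [hj, huu]⟩ (fun a y => by
        rw [hj, hone a, map_smul, map_smul, LinearMap.map_smul₂]
        simp only [smul_eq_mul, dotProduct, Fin.sum_univ_one, Pi.smul_apply, Pi.one_apply]
        field_simp) A
    refine mem A g _ hg ((?_ : _ = g.1 (j fun _ => S.B (i 1) u)).trans ((hg' _).trans (hj _)))
    rw [hj, inv_mul_cancel₀ hβ, one_smul]
  · refine Or.inr ⟨_, h3, fun h4 => hz0 ((hmem z0).1 (h4 ▸ Submodule.mem_top)), rad_le fun t htT φ hφ => ?_⟩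
    have hb : ∀ z, S.B (i z) ((-S.ε * (φ z0 / S.B (i z0) u)) • u) = -S.ε * φ z := fun z => by
      have := hφ (S.B (i z0) u • z - S.B (i z) u • z0) ((hmem _).2 (by simp [mul_comm]))
      rw [map_sub, map_smul, map_smul, smul_eq_mul, smul_eq_mul] at this
      rw [map_smul, smul_eq_mul]
      field_simp
      linear_combination S.ε * this
    obtain ⟨A, hA, hA'⟩ := frp_eich ht hb (hφ t htT)
    refine ⟨A, mem A _ 1 hA' ?_, hA⟩
    rw [eich_ap _ (ht.1 t) (by rw [hb, hφ t htT, mul_zero]), S.B_comm ((hmem t).1 htT)]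
    simp [huu]

/-- Interchange the sums over `nr i` and over the points. -/
theorem fr_pi1 (h : CI ρ) : S.Fr ρ S.pi1 := by
  classical
  intro i hi ht
  have h1 : ∀ g : S.Iso, S.pi1 g = ∑ x : S.Pt, if g • x = x then 1 else 0 := fun g => by
    rw [Finset.sum_boole, pi1]
    show (Nat.card (MulAction.fixedBy S.Pt g) : ℂ) = _
    rw [Nat.card_eq_fintype_card, Fintype.card_subtype]
    rfl
  have h2 := fun x : S.Pt => sm_conj_eq_zero h (stab_map hi ht x)
  simp only [frp_sm] at h2 ⊢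
  refine Eq.trans ?_ (Finset.sum_eq_zero fun x (_ : x ∈ Finset.univ) => h2 x)
  rw [Finset.sum_comm]
  refine Finset.sum_congr rfl fun p _ => ?_
  rw [h1, Finset.sum_mul]
  by_cases hp : p ∈ S.nr i
  · rw [if_pos hp]
    refine Finset.sum_congr rfl fun x _ => ?_
    simp [hp]
  · simp [hp]

/-- `exists_partner`, `exists_levi`. -/
theorem fr_one (h : CI ρ) : S.Fr ρ fun _ => 1 := by
  intro i hi ht
  simp only [one_mul]
  refine sm_conj_eq_zero h (Or.inl (eq_top_iff.2 fun A _ => ?_))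
  obtain ⟨j, hj, hij, -⟩ := exists_partner hi ht (Or.inl rfl) fun z => map_zero _
  obtain ⟨g, hg, -⟩ := exists_levi ht hj hij A
  exact ⟨(A, g), hg, rfl⟩

/-- A constituent of `pi1`. -/
def Cp (S : FS F V) (τ : S.Iso → ℂ) : Prop :=
  IsIrrCharacter _ τ ∧ ∃ τ', IsCharacter _ τ' ∧ S.pi1 = τ + τ'

theorem Cp.fr {τ : S.Iso → ℂ} (h : S.Cp τ) (hρ : CI ρ) : S.Fr ρ τ :=
  let ⟨h1, _, h2, e⟩ := h
  Fr.of_add hρ.irr.isCharacter h1.isCharacter h2 (e ▸ fr_pi1 hρ)

theorem Cp.neg {τ : S.Iso → ℂ} (h : S.Cp τ) : τ S.neg = τ 1 :=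
  let ⟨h1, τ', h2, e⟩ := h
  apply_eq_of_add h1.isCharacter h2 (show (τ + τ') _ = (τ + τ') _ from e ▸ S.pi1_neg)

end Cfsg.Lib.HCI.FS
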