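import Mathlib

/-! S4984: symplectic (`κ = 0`) and orthogonal (`κ = 1`) spaces treated together. -/

set_option autoImplicit false

namespace Cfsg.Lib.HCI

open Module

/-- A non-degenerate symplectic (`κ = 0`, `Q = 0`) or quadratic (`κ = 1`, `B` the polar form) space. -/
structure FS (F V : Type) [Field F] [AddCommGroup V] [Module F V] where
  B : V →ₗ[F] V →ₗ[F] F
  Q : V → F
  κ : F
  hκ : κ = 0 ∨ κ = 1
  add : ∀ x y, Q (x + y) = Q x + Q y + κ * B x y
  smul : ∀ (a : F) x, Q (a • x) = a ^ 2 * Q x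
  symm : ∀ x y, B y x = (2 * κ - 1) * B x y
  self : ∀ x, B x x = 2 * Q x
  zero : ∀ x, κ * Q x = Q x
  nd : ∀ x, (∀ y, B x y = 0) → x = 0

variable {F V V' V'' : Type} [Field F] [AddCommGroup V] [Module F V] [AddCommGroup V'] [Module F V']
  [AddCommGroup V''] [Module F V'']

namespace FS

variable (S : FS F V)

/-- The sign of the form. -/
def ε : F := 2 * S.κ - 1

theorem κ_sq : S.κ * S.κ = S.κ := by rcases S.hκ with h | h <;> simp [h]

theorem ε_sq : S.ε * S.ε = 1 := by rw [ε]; linear_combination 4 * S.κ_sq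

theorem κ_ε : S.κ * S.ε = S.κ := by rw [ε]; linear_combination 2 * S.κ_sq

theorem symm' (x y : V) : S.B y x = S.ε * S.B x y := S.symm x y

theorem B_comm {x y : V} (h : S.B x y = 0) : S.B y x = 0 := by rw [S.symm, h, mul_zero]

theorem Q_zero : S.Q 0 = 0 := by simpa using S.smul 0 0

theorem Q_neg (x : V) : S.Q (-x) = S.Q x := by simpa using S.smul (-1) x

theorem nd' (y : V) (h : ∀ x, S.B x y = 0) : y = 0 := S.nd y fun x => S.B_comm (h x)

/-- The isometry group. -/
def Iso : Subgroup (V ≃ₗ[F] V) where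
  carrier := {g | (∀ x y, S.B (g x) (g y) = S.B x y) ∧ ∀ x, S.Q (g x) = S.Q x}
  one_mem' := ⟨fun _ _ => rfl, fun _ => rfl⟩
  mul_mem' := fun {a b} ha hb => ⟨fun x y => (ha.1 (b x) (b y)).trans (hb.1 x y),
    fun x => (ha.2 (b x)).trans (hb.2 x)⟩
  inv_mem' := fun {a} ha => ⟨fun x y => by
    simpa using (ha.1 (a.symm x) (a.symm y)).symm, fun x => by simpa using (ha.2 (a.symm x)).symm⟩

variable {S}

theorem map_B (g : S.Iso) (x y : V) : S.B (g.1 x) (g.1 y) = S.B x y := g.2.1 x y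

theorem map_Q (g : S.Iso) (x : V) : S.Q (g.1 x) = S.Q x := g.2.2 x

theorem mul_ap (g h : S.Iso) (x : V) : (g * h).1 x = g.1 (h.1 x) := rfl

theorem one_ap (x : V) : (1 : S.Iso).1 x = x := rfl

theorem inv_ap (g : S.Iso) (x : V) : g⁻¹.1 (g.1 x) = x := g.1.symm_apply_apply x

theorem ap_inv (g : S.Iso) (x : V) : g.1 (g⁻¹.1 x) = x := g.1.apply_symm_apply x

theorem iso_ext {g h : S.Iso} (e : ∀ x, g.1 x = h.1 x) : g = h := Subtype.ext (LinearEquiv.ext e)

instance finiteIso [Finite V] : Finite S.Iso :=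
  Finite.of_injective (fun g : S.Iso => (g.1 : V → V)) fun _ _ e => iso_ext (congrFun e)

noncomputable instance fintypeIso [Finite V] : Fintype S.Iso := Fintype.ofFinite _

variable (S)

/-- An isometry from a linear map. -/
noncomputable def mkIso [Finite V] (f : V →ₗ[F] V) (hB : ∀ x y, S.B (f x) (f y) = S.B x y)
    (hQ : ∀ x, S.Q (f x) = S.Q x) : S.Iso :=
  ⟨LinearEquiv.ofBijective f (Finite.injective_iff_bijective.1 (LinearMap.ker_eq_bot.1
    (LinearMap.ker_eq_bot'.2 fun x h => S.nd x fun y => by rw [← hB, h]; simp))), hB, hQ⟩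

theorem mkIso_ap [Finite V] (f : V →ₗ[F] V) (hB hQ) (x : V) : (S.mkIso f hB hQ).1 x = f x := rfl

/-- The scalar `-1`. -/
def neg : S.Iso := ⟨LinearEquiv.neg F, fun x y => by simp, fun x => S.Q_neg x⟩

theorem neg_ap (x : V) : S.neg.1 x = -x := rfl

theorem neg_mem_center : S.neg ∈ Subgroup.center S.Iso :=
  Subgroup.mem_center_iff.2 fun g => iso_ext fun x => map_neg g.1 x

theorem neg_sq : S.neg * S.neg = 1 := iso_ext fun x => neg_neg x

open Classical in
/-- The transvection (`κ = 0`) or reflection (`κ = 1`, `c = -1 / Q u`) `x ↦ x + c B(x, u) u`. -/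
noncomputable def tv [Finite V] (u : V) (c : F) : S.Iso :=
  if h : S.κ + c * S.Q u = 0 then S.mkIso (LinearMap.id + c • (S.B.flip u).smulRight u)
    (fun x y => by
      simp [S.symm y u, S.self u]
      linear_combination (2 * c * S.B x u * S.B y u) * h)
    (fun x => by
      simp [S.add, S.smul, smul_smul]
      linear_combination (c * S.B x u ^ 2) * h)
  else 1

theorem tv_ap [Finite V] {u : V} {c : F} (h : S.κ + c * S.Q u = 0) (x : V) :
    (S.tv u c).1 x = x + (c * S.B x u) • u := by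
  simp [tv, h, mkIso_ap, smul_smul]

theorem tv_conj [Finite V] (g : S.Iso) (u : V) (c : F) : g * S.tv u c * g⁻¹ = S.tv (g.1 u) c := by
  by_cases h : S.κ + c * S.Q u = 0
  · refine iso_ext fun x => ?_
    rw [mul_ap, mul_ap, tv_ap _ h, tv_ap _ (by rwa [map_Q]), map_add, ap_inv, map_smul, ← map_B g, ap_inv]
  · simp [tv, h, map_Q]

open Classical in
/-- The Eichler transformation. -/
noncomputable def eich [Finite V] (a b : V) : S.Iso :=
  if h : S.Q a = 0 ∧ S.B a b = 0 then S.mkIso (LinearMap.id + (S.B.flip a).smulRight b -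
      S.ε • (S.B.flip b).smulRight a - S.Q b • (S.B.flip a).smulRight a)
    (fun x y => by
      have h1 := S.ε_sq
      have h2 := S.zero b
      simp [S.symm' y a, S.symm' y b, S.self a, S.self b, h.1, h.2, S.B_comm h.2]
      rw [ε] at h1 ⊢
      linear_combination (-(S.B x b * S.B y a)) * h1 - 2 * S.B x a * S.B y a * h2)
    (fun x => by
      have h1 := S.κ_ε
      have h2 := S.zero b
      simp [sub_eq_add_neg, S.add, S.smul, S.Q_neg, S.self a, h.1, S.B_comm h.2]
      linear_combination (-(S.B x b * S.B x a)) * h1 - S.B x a ^ 2 * h2)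
  else 1

theorem eich_ap [Finite V] {a b : V} (ha : S.Q a = 0) (hb : S.B a b = 0) (x : V) : (S.eich a b).1 x =
    x + S.B x a • b - (S.ε * S.B x b) • a - (S.Q b * S.B x a) • a := by
  simp [eich, ha, hb, mkIso_ap, smul_smul]

/-- The orthogonal sum of `k` hyperbolic planes and `S`. -/
def ext (k : ℕ) : FS F ((Fin k → F) × (Fin k → F) × V) where
  B := LinearMap.mk₂ F (fun z z' => z.1 ⬝ᵥ z'.2.1 + S.ε * (z.2.1 ⬝ᵥ z'.1) + S.B z.2.2 z'.2.2)
    (fun _ _ _ => by simp; ring) (fun _ _ _ => by simp; ring) (fun _ _ _ => by simp; ring)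
    (fun _ _ _ => by simp; ring)
  Q z := S.κ * (z.1 ⬝ᵥ z.2.1) + S.Q z.2.2
  κ := S.κ
  hκ := S.hκ
  add x y := by
    simp [S.add, dotProduct_comm x.2.1]
    linear_combination (-(y.1 ⬝ᵥ x.2.1)) * S.κ_ε
  smul a x := by simp [S.smul]; ring
  symm x y := by
    have := S.ε_sq
    simp [S.symm x.2.2 y.2.2, dotProduct_comm x.2.1, dotProduct_comm y.2.1]
    rw [ε] at this ⊢
    linear_combination (-(y.1 ⬝ᵥ x.2.1)) * this
  self x := by simp [S.self, dotProduct_comm x.2.1, ε]; ring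
  zero x := by linear_combination (x.1 ⬝ᵥ x.2.1) * S.κ_sq + S.zero x.2.2
  nd x h := by
    have h0 : S.ε ≠ 0 := left_ne_zero_of_mul_eq_one S.ε_sq
    refine Prod.ext (funext fun i => ?_) (Prod.ext (funext fun i => ?_) (S.nd _ fun v => ?_))
    · simpa using h (0, Pi.single i 1, 0)
    · simpa [h0] using h (Pi.single i 1, 0, 0)
    · simpa using h (0, 0, v)

theorem ext_B (k : ℕ) (z z' : (Fin k → F) × (Fin k → F) × V) :
    (S.ext k).B z z' = z.1 ⬝ᵥ z'.2.1 + S.ε * (z.2.1 ⬝ᵥ z'.1) + S.B z.2.2 z'.2.2 := rfl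

theorem ext_Q (k : ℕ) (z : (Fin k → F) × (Fin k → F) × V) :
    (S.ext k).Q z = S.κ * (z.1 ⬝ᵥ z.2.1) + S.Q z.2.2 := rfl

theorem ext_κ (k : ℕ) : (S.ext k).κ = S.κ := rfl

theorem ext_ε (k : ℕ) : (S.ext k).ε = S.ε := rfl

/-- An isometry between two spaces. -/
structure Isom (S : FS F V) (S' : FS F V') where
  e : V ≃ₗ[F] V'
  κ : S'.κ = S.κ
  B : ∀ x y, S'.B (e x) (e y) = S.B x y
  Q : ∀ x, S'.Q (e x) = S.Q x

variable {S} {S' : FS F V'} {S'' : FS F V''}

/-- The identity. -/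
def Isom.refl (S : FS F V) : Isom S S := ⟨.refl F V, rfl, fun _ _ => rfl, fun _ => rfl⟩

/-- The inverse. -/
def Isom.symm (h : Isom S S') : Isom S' S :=
  ⟨h.e.symm, h.κ.symm, fun x y => by simp [← h.B], fun x => by simp [← h.Q]⟩

/-- The composition. -/
def Isom.trans (h : Isom S S') (h' : Isom S' S'') : Isom S S'' :=
  ⟨h.e.trans h'.e, h'.κ.trans h.κ, fun x y => by simp [h'.B, h.B], fun x => by simp [h'.Q, h.Q]⟩

/-- Adding hyperbolic planes. -/
def Isom.ext (h : Isom S S') (k : ℕ) : Isom (S.ext k) (S'.ext k) :=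
  ⟨(LinearEquiv.refl F _).prodCongr ((LinearEquiv.refl F _).prodCongr h.e), h.κ,
    fun x y => by simp [ext_B, h.B, ε, h.κ], fun x => by simp [ext_Q, h.Q, h.κ]⟩

/-- The isomorphism of the isometry groups. -/
def Isom.congr (h : Isom S S') : S.Iso ≃* S'.Iso where
  toFun g := ⟨h.e.symm.trans (g.1.trans h.e), fun x y => (h.B _ _).trans ((map_B g _ _).trans (h.symm.B x y)),
    fun x => (h.Q _).trans ((map_Q g _).trans (h.symm.Q x))⟩
  invFun g := ⟨h.e.trans (g.1.trans h.e.symm), fun x y => by simp [← h.B, map_B], fun x => by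
    simp [← h.Q, map_Q]⟩
  left_inv g := iso_ext fun x => by simp
  right_inv g := iso_ext fun x => by simp
  map_mul' g g' := iso_ext fun x => by simp

theorem Isom.congr_ap (h : Isom S S') (g : S.Iso) (x : V) : (h.congr g).1 (h.e x) = h.e (g.1 x) := by
  simp [Isom.congr]

theorem Isom.congr_neg (h : Isom S S') : h.congr S.neg = S'.neg :=
  iso_ext fun x => by simp [Isom.congr, neg_ap]

end FS

end Cfsg.Lib.HCI
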