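import Cfsg.Agent.Lib.HCI.Ab
import Cfsg.Agent.Lib.Block.Omega
import Cfsg.Agent.Lib.Char.Galois

/-! S4984: the Hecke algebra of an induced character of norm two.

Work in `ℂ[G]` with the tools of `Lib/Block/Omega` (`ev`, `omega`, `ev_mul_central`, `coeff_eq_sum_irr`).
`e = ∑ x, (τ 1 / |P| * conj (ex τ x)) • x` is the central idempotent of `φ τ` in `ℂ[P]`: `e * e = e`, `e` commutes with
`P`, `k * e = e = e * k` for `k ∈ K`, `ev χ e = τ 1 * ⟨χ|P, φ τ⟩`, `lam l * e = b • e` if `τ (l * y) = b * τ y` for all `y`,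
`a * e = omega (φ τ) a • e` for `a` central in `ℂ[P]`.
* `e * g * e = 0` when `mky g = 0`: with `x⋆ h = conj (x h⁻¹)` one has `(a * b)⋆ = b⋆ * a⋆`, `e⋆ = e`,
  `coeff (x * x⋆) 1 = ∑ h, ‖x h‖ ^ 2` and `coeff (e * g * e * g⁻¹) 1` is a multiple of `mky g`.
* `Y = e * w * e`; `(C - α₀) * e = β • Y` for the central element `C = ∑ i, c i`, so
  `ev χ (β ^ n • Y ^ n) = θ ^ n * ev χ e`; `ev χ e = τ 1` for the two constituents and `ev χ (e * a) = 0` for the
  other irreducibles (`ev χ (e * a)`: the idempotent `e` has trace `0` in the representation).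
* `coeff Y 1 = 0` (`w ∉ P`), `coeff (e * w * lam l * e * w) 1 = (τ 1 / |P|) ^ 2 * ∑ y, τ y * τ (y⁻¹ * l0 * l)
  = (τ 1 / |P|) ^ 2 * |L| * τ (l0 * l) / τ 1` (`int`, `hz`, `sum_inv_mul_apply_mul_self`).
* `e * w * e * w * e = |K|⁻¹ • ∑ k : K, e * (w * k * w) * e`: `e = eK * eL` with `eK` the average of `K` and `eL` the
  idempotent of `τ` in `ℂ[L]`, `w * eL = eL * w` and `e * eL = e`. -/

set_option autoImplicit false

namespace Cfsg.Lib.HCI

open Finset Cfsg.Lib.Char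

section star

open Cfsg.Lib.Block MonoidAlgebra Cfsg.Lib.Induce
open scoped ComplexConjugate

variable {G : Type*} [Group G] [Fintype G]

/-- The adjoint in the complex group algebra. -/
noncomputable def hkSt (a : ℂ[G]) : ℂ[G] := ofFun fun h => conj (a.coeff h⁻¹)

theorem hkSt_coeff (a : ℂ[G]) (h : G) : (hkSt a).coeff h = conj (a.coeff h⁻¹) := coeff_ofFun _ _

theorem hkSt_mul (a b : ℂ[G]) : hkSt (a * b) = hkSt b * hkSt a := by
  refine ext_coeff fun h => ?_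
  rw [hkSt_coeff, coeff_mul_left, coeff_mul_right, map_sum]
  refine Fintype.sum_equiv (Equiv.inv G) _ _ fun x => ?_
  simp only [hkSt_coeff, Equiv.inv_apply, inv_inv, mul_inv_rev, map_mul]
  ring

theorem hkSt_of (g : G) : hkSt (of ℂ G g) = of ℂ G g⁻¹ := by
  classical
  refine ext_coeff fun h => ?_
  rw [hkSt_coeff, of_apply, of_apply, coeff_single', coeff_single']
  by_cases e : g = h⁻¹
  · subst e; simp
  · rw [if_neg e, if_neg fun e' => e (by rw [← e', inv_inv]), map_zero]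

theorem hk_trace (a b : ℂ[G]) : (a * b).coeff 1 = (b * a).coeff 1 := by
  rw [coeff_mul_left, coeff_mul_right]
  exact Finset.sum_congr rfl fun x _ => by rw [mul_one, one_mul, mul_comm]

theorem hk_eq_zero {a : ℂ[G]} (h : (a * hkSt a).coeff 1 = 0) : a = 0 := by
  rw [coeff_mul_left] at h
  simp only [hkSt_coeff, mul_one, inv_inv, Complex.mul_conj] at h
  rw [← Complex.ofReal_sum, Complex.ofReal_eq_zero,
    Finset.sum_eq_zero_iff_of_nonneg fun _ _ => Complex.normSq_nonneg _] at h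
  exact ext_coeff fun g => Complex.normSq_eq_zero.1 (h g (Finset.mem_univ _))

theorem hk_cube {e : ℂ[G]} (he : e * e = e) (w : ℂ[G]) :
    ((e * w * e) ^ (2 + 1)).coeff 1 = (e * w * e * w * e * w).coeff 1 := by
  have h1 : ∀ x, x * e * e = x * e := fun x => by rw [mul_assoc, he]
  rw [pow_succ, pow_two]
  simp only [← mul_assoc, h1]
  rw [hk_trace]
  simp only [← mul_assoc, he]

variable {P : Subgroup G} {φ : P → ℂ}

/-- The central idempotent of `φ` in `ℂ[P]`, inside `ℂ[G]`. -/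
noncomputable def hkE (hφ : IsIrrCharacter P φ) : ℂ[G] :=
  emb P.subtype (fblk {(⟨φ, hφ⟩ : IrrCharacter P)})

theorem hk_coeff_fblk (hφ : IsIrrCharacter P φ) (x : P) :
    (fblk {(⟨φ, hφ⟩ : IrrCharacter P)}).coeff x = φ 1 / Nat.card P * conj (φ x) := by
  classical
  rw [coeff_fblk, blockCoeff_eq, Finset.sum_eq_single (⟨φ, hφ⟩ : IrrCharacter P)]
  · ring
  · intro b hb hne
    simp [hne] at hb
  · simp

theorem hkE_coeff (hφ : IsIrrCharacter P φ) (x : G) :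
    (hkE hφ).coeff x = φ 1 / Nat.card P * conj (extendByZero P φ x) := by
  by_cases hx : x ∈ P
  · rw [extendByZero_of_mem _ _ hx, ← hk_coeff_fblk hφ]
    exact coeff_emb_subtype P _ ⟨x, hx⟩
  · rw [extendByZero_of_not_mem _ _ hx, map_zero, mul_zero]
    exact emb_subtype_mem_supp P _ x hx

theorem hk_ex_inv (hφ : IsCharacter P φ) (x : G) :
    extendByZero P φ x⁻¹ = conj (extendByZero P φ x) := by
  by_cases hx : x ∈ P
  · rw [extendByZero_of_mem _ _ hx, extendByZero_of_mem _ _ (P.inv_mem hx), ← hφ.apply_inv]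
    rfl
  · rw [extendByZero_of_not_mem _ _ hx, extendByZero_of_not_mem _ _ fun h => hx (by simpa using h), map_zero]

theorem hkE_idem (hφ : IsIrrCharacter P φ) : hkE hφ * hkE hφ = hkE hφ := by
  rw [hkE, ← map_mul, fblk_idem]

theorem hkE_st (hφ : IsIrrCharacter P φ) : hkSt (hkE hφ) = hkE hφ := by
  refine ext_coeff fun h => ?_
  obtain ⟨n, hn⟩ := hφ.isCharacter.exists_apply_one
  rw [hkSt_coeff, hkE_coeff, hkE_coeff, hk_ex_inv hφ.isCharacter, hn]
  simp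

theorem hkE_comm (hφ : IsIrrCharacter P φ) {x : G} (hx : x ∈ P) :
    of ℂ G x * hkE hφ = hkE hφ * of ℂ G x :=
  commute_of_supp_of_fix (of_mem_supp hx) (mem_cen.1 (emb_subtype_mem_cen P (fblk_mem_fix _))).1

theorem hkE_of_mul (hφ : IsIrrCharacter P φ) (x : P) {b : ℂ} (h : ∀ y, φ (x * y) = b * φ y) :
    of ℂ G x * hkE hφ = b • hkE hφ := by
  have : of ℂ P x * fblk {(⟨φ, hφ⟩ : IrrCharacter P)} = b • fblk {(⟨φ, hφ⟩ : IrrCharacter P)} := by
    refine ext_coeff fun y => ?_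
    rw [coeff_of_mul, coeff_smul', hk_coeff_fblk, hk_coeff_fblk, ← hφ.apply_inv, ← hφ.apply_inv,
      mul_inv_rev, inv_inv, hφ.isClassFunction.mul_comm, h]
    ring
  have e := congrArg (emb P.subtype) this
  rwa [map_mul, map_smul, emb_of] at e

theorem hkE_mul_eq_zero (hφ : IsIrrCharacter P φ) {g : G} (h : mky P φ φ g = 0) :
    hkE hφ * of ℂ G g * hkE hφ = 0 := by
  refine hk_eq_zero ?_
  rw [hkSt_mul, hkSt_mul, hkE_st, hkSt_of]
  have e : hkE hφ * of ℂ G g * hkE hφ * (hkE hφ * (of ℂ G g⁻¹ * hkE hφ)) =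
      (hkE hφ * of ℂ G g * hkE hφ * of ℂ G g⁻¹) * hkE hφ := by
    rw [← mul_assoc, mul_assoc _ (hkE hφ) (hkE hφ), hkE_idem, ← mul_assoc]
  rw [e, hk_trace, ← mul_assoc, ← mul_assoc, ← mul_assoc, hkE_idem, mul_assoc, mul_assoc, coeff_mul_left]
  have e2 := congrArg (starRingEnd ℂ) h
  rw [mky, map_sum, map_zero] at e2
  calc _ = ∑ x : G, (φ 1 / Nat.card P) ^ 2 *
        conj (extendByZero P φ x * conj (extendByZero P φ (g⁻¹ * x * g))) := by
        refine Finset.sum_congr rfl fun x _ => ?_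
        rw [coeff_of_mul, coeff_mul_of, hkE_coeff, hkE_coeff,
          show g⁻¹ * (x⁻¹ * 1) * g⁻¹⁻¹ = (g⁻¹ * x * g)⁻¹ by group, hk_ex_inv hφ.isCharacter, map_mul]
        ring
    _ = 0 := by rw [← Finset.mul_sum, e2, mul_zero]

theorem hkE_ev (hφ : IsIrrCharacter P φ) {χ : G → ℂ} (hχ : IsClassFunction G χ) :
    ev χ (hkE hφ) = φ 1 * classInner χ (indFun P φ) := by
  have := Fintype.ofFinite P
  rw [frobenius_reciprocity' P φ hχ, hkE, ev_emb, ev_apply, classInner_def, Finset.mul_sum, Finset.mul_sum]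
  refine Finset.sum_congr rfl fun x _ => ?_
  rw [hk_coeff_fblk]
  simp only [Subgroup.coe_subtype]
  ring

theorem hkE_central (hφ : IsIrrCharacter P φ) {a : ℂ[P]} (ha : a ∈ fix ℂ ⊤) :
    emb P.subtype a * hkE hφ = omega φ a • hkE hφ := by
  have : a * fblk {(⟨φ, hφ⟩ : IrrCharacter P)} = omega φ a • fblk {(⟨φ, hφ⟩ : IrrCharacter P)} := by
    refine eq_of_omega_eq (mul_mem ha (fblk_mem_fix _)) (Subalgebra.smul_mem _ (fblk_mem_fix _) _)
      fun χ => ?_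
    rw [omega_mul χ.2 ha, map_smul, smul_eq_mul]
    by_cases e : χ = ⟨φ, hφ⟩
    · subst e; rfl
    · rw [omega_fblk_of_notMem (by simpa using e), mul_zero, mul_zero]
  rw [hkE, ← map_mul, this, map_smul]

theorem hkE_eq_sum [Fintype P] (hφ : IsIrrCharacter P φ) :
    hkE hφ = ∑ x : P, (φ 1 / Nat.card P * conj (φ x)) • of ℂ G x := by
  rw [hkE, eq_sum_single (fblk _), map_sum]
  refine Finset.sum_congr rfl fun x _ => ?_
  rw [map_smul, hk_coeff_fblk, emb_single]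
  rfl

/-- The moments of a central element on the constituents of the induced character. -/
theorem hkE_moment (hφ : IsIrrCharacter P φ) {χ ψ : G → ℂ} (h1 : IsIrrCharacter G χ)
    (h2 : IsIrrCharacter G ψ) (hne : χ ≠ ψ) (e : indFun P φ = χ + ψ) {a : ℂ[G]} (ha : a ∈ fix ℂ ⊤) :
    φ 1 * (χ 1 * omega χ a + ψ 1 * omega ψ a) = Nat.card G * (a * hkE hφ).coeff 1 := by
  classical
  rw [coeff_eq_sum_irr, mul_inv_cancel_left₀ (card_ne_zero_complex G)]
  simp only [inv_one, map_one, mul_one]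
  have key : ∀ θ : IrrCharacter G, (θ : G → ℂ) 1 * ev θ (a * hkE hφ) =
      (if θ = ⟨χ, h1⟩ then φ 1 * (χ 1 * omega χ a) else 0) +
        if θ = ⟨ψ, h2⟩ then φ 1 * (ψ 1 * omega ψ a) else 0 := by
    intro θ
    rw [ev_mul_central θ.2 ha, hkE_ev hφ θ.2.isClassFunction, e, classInner_add_right]
    by_cases e1 : θ = ⟨χ, h1⟩
    · subst e1
      rw [if_pos rfl, if_neg fun e' => hne (congrArg Subtype.val e'), h1.inner_self,
        h1.inner_eq_zero_of_ne h2 hne]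
      ring
    · rw [if_neg e1, θ.2.inner_eq_zero_of_ne h1 fun e' => e1 (Subtype.ext e')]
      by_cases e2 : θ = ⟨ψ, h2⟩
      · subst e2
        rw [if_pos rfl, h2.inner_self]
        ring
      · rw [if_neg e2, θ.2.inner_eq_zero_of_ne h2 fun e' => e2 (Subtype.ext e')]
        ring
  rw [Finset.sum_congr rfl fun θ _ => key θ, Finset.sum_add_distrib]
  simp only [Finset.sum_ite_eq', Finset.mem_univ, if_true]
  ring

end star

variable {G L : Type*} [Group G] [Group L] [Fintype G]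

/-- The eigenvalue of a class sum minus the contribution of `P`. -/
noncomputable def Dat.th (D : Dat G L) (τ : L → ℂ) {ι : Type*} [Fintype ι] (c : ι → G) (χ : G → ℂ) : ℂ :=
  (∑ i, χ (c i)) / χ 1 - (∑ i, D.ex τ (c i)) / τ 1

/-- The hypotheses: norm two, a conjugation invariant family and its scalars on the big double coset. -/
structure Hyp (D : Dat G L) (τ : L → ℂ) (χ ψ : G → ℂ) {ι : Type*} (c : ι → G) (b : ι → ℂ) : Prop where
  irr : IsIrrCharacter L τ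
  mid : D.Mid τ τ
  hz : ∀ l, τ (l⁻¹ * D.α l) = τ 1
  i1 : IsIrrCharacter G χ
  i2 : IsIrrCharacter G ψ
  ne : χ ≠ ψ
  eq : D.I τ = χ + ψ
  cj : ∀ g, ∃ σ : ι ≃ ι, ∀ i, g * c i * g⁻¹ = c (σ i)
  sc : ∀ i, (¬ D.Big (c i) ∧ b i = 0) ∨
    ∃ k ∈ D.K, ∃ k' ∈ D.K, ∃ l, c i = k * D.w * D.lam l * k' ∧ ∀ y, τ (l * y) = b i * τ y

variable {D : Dat G L} {τ : L → ℂ} {χ ψ : G → ℂ} {ι : Type*} [Fintype ι] {c : ι → G} {b : ι → ℂ}

section aux

open Cfsg.Lib.Block MonoidAlgebra Cfsg.Lib.Induce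
open scoped ComplexConjugate

omit [Fintype G] in
theorem Dat.irr_φ (D : Dat G L) (h : IsIrrCharacter L τ) : IsIrrCharacter D.P (D.φ τ) :=
  h.comp_surjective D.π fun l => ⟨_, D.sec l⟩

omit [Fintype G] in
theorem Dat.φ_one (D : Dat G L) (τ : L → ℂ) : D.φ τ 1 = τ 1 := by rw [Dat.φ, map_one]

omit [Fintype G] in
theorem Dat.ex_lam (D : Dat G L) (τ : L → ℂ) (l : L) : D.ex τ (D.lam l) = τ l := by
  rw [D.ex_of_mem τ (D.mem l), D.sec]

/-- The idempotent. -/
noncomputable def Dat.e (D : Dat G L) (h : IsIrrCharacter L τ) : ℂ[G] := hkE (D.irr_φ h)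

theorem Dat.e_coeff (D : Dat G L) (h : IsIrrCharacter L τ) (x : G) :
    (D.e h).coeff x = τ 1 / Nat.card D.P * conj (D.ex τ x) := by
  rw [Dat.e, hkE_coeff, D.φ_one]
  rfl

theorem Dat.e_idem (D : Dat G L) (h : IsIrrCharacter L τ) : D.e h * D.e h = D.e h := hkE_idem _

theorem Dat.e_comm (D : Dat G L) (h : IsIrrCharacter L τ) {x : G} (hx : x ∈ D.P) :
    of ℂ G x * D.e h = D.e h * of ℂ G x := hkE_comm _ hx

theorem Dat.lam_mul_e (D : Dat G L) (h : IsIrrCharacter L τ) {l : L} {β : ℂ} (hl : ∀ y, τ (l * y) = β * τ y) :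
    of ℂ G (D.lam l) * D.e h = β • D.e h :=
  hkE_of_mul (D.irr_φ h) ⟨D.lam l, D.mem l⟩ fun y => by
    simp only [Dat.φ, map_mul, D.sec, hl]

theorem Dat.k_mul_e (D : Dat G L) (h : IsIrrCharacter L τ) {k : G} (hk : k ∈ D.K) :
    of ℂ G k * D.e h = D.e h := by
  obtain ⟨h1, h2⟩ := D.mem_K.1 hk
  have := hkE_of_mul (D.irr_φ h) ⟨k, h1⟩ (b := 1) fun y => by
    simp only [Dat.φ, map_mul, h2, one_mul]
  rwa [one_smul] at this

theorem Dat.e_mul_k (D : Dat G L) (h : IsIrrCharacter L τ) {k : G} (hk : k ∈ D.K) :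
    D.e h * of ℂ G k = D.e h := by
  rw [← D.e_comm h (D.K_le hk), D.k_mul_e h hk]

theorem Dat.e_big (D : Dat G L) (h : IsIrrCharacter L τ) {k k' : G} (hk : k ∈ D.K) (hk' : k' ∈ D.K) (l : L) :
    D.e h * of ℂ G (k * D.w * D.lam l * k') * D.e h =
      D.e h * of ℂ G D.w * (of ℂ G (D.lam l) * D.e h) := by
  simp only [map_mul (of ℂ G), ← mul_assoc]
  rw [D.e_mul_k h hk, mul_assoc _ (of ℂ G k'), D.k_mul_e h hk']

omit [Fintype G] in
theorem Dat.big_of (D : Dat G L) {k k' : G} (hk : k ∈ D.K) (hk' : k' ∈ D.K) (l : L) :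
    D.Big (k * D.w * D.lam l * k') :=
  ⟨k, D.K_le hk, D.lam l * k', D.P.mul_mem (D.mem l) (D.K_le hk'), by simp only [mul_assoc]⟩

omit [Fintype ι] in
theorem Hyp.lam_α (h : Hyp D τ χ ψ c b) (l : L) :
    of ℂ G (D.lam (D.α l)) * D.e h.irr = of ℂ G (D.lam l) * D.e h.irr := by
  have := Finite.of_injective _ D.lam_inj
  have := D.lam_mul_e h.irr (l := l⁻¹ * D.α l) (β := 1) fun y => by
    rw [one_mul, h.irr.isCharacter.apply_mul_of_apply_eq (h.hz l)]
  rw [one_smul] at this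
  conv_rhs => rw [← this, ← mul_assoc, ← map_mul, ← map_mul, mul_inv_cancel_left]

omit [Fintype ι] in
theorem Hyp.coeff_T (h : Hyp D τ χ ψ c b) (l : L) :
    (D.e h.irr * of ℂ G D.w * (of ℂ G (D.lam l) * D.e h.irr) * of ℂ G D.w).coeff 1 =
      (τ 1 / Nat.card D.P) ^ 2 * (Nat.card L * τ (D.l0 * l) / τ 1) := by
  have := Finite.of_injective _ D.lam_inj
  have := Fintype.ofFinite L
  have hw : D.w⁻¹ = D.w * (D.lam D.l0)⁻¹ := by rw [← D.sq]; group
  rw [mul_assoc, mul_assoc, coeff_mul_left, h.irr.isClassFunction.mul_comm D.l0,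
    ← h.irr.sum_inv_mul_apply_mul_self, Finset.mul_sum]
  refine (Fintype.sum_of_injective D.lam D.lam_inj _ _ (fun x hx => ?_) fun y => ?_).symm
  · rw [coeff_of_mul, coeff_mul_of, coeff_of_mul, D.e_coeff, D.e_coeff]
    by_cases h1 : x ∈ D.P
    · rw [D.ex_of_notMem τ (x := (D.lam l)⁻¹ * _), map_zero, mul_zero, mul_zero]
      intro h2
      refine hx ?_
      have h3 : D.w⁻¹ * x⁻¹ * D.w ∈ D.P := by
        have := D.P.mul_mem (D.P.mul_mem (D.mem l) h2) (D.mem D.l0)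
        rw [← D.sq] at this
        convert this using 1
        group
      obtain ⟨y, hy⟩ := D.int _ (D.P.inv_mem h1) h3
      exact ⟨y⁻¹, by rw [map_inv, ← hy, inv_inv]⟩
    · rw [D.ex_of_notMem τ h1, map_zero, mul_zero, zero_mul]
  · have e : (D.lam l)⁻¹ * (D.w⁻¹ * ((D.lam y)⁻¹ * 1) * D.w⁻¹) = D.lam (D.l0 * D.α y * l)⁻¹ := by
      simp only [map_inv, map_mul, ← D.cj, ← D.sq]
      group
    have e2 : τ (D.l0 * D.α y * l) = τ (y * (l * D.l0)) := by
      rw [mul_assoc, h.irr.isClassFunction.mul_comm, mul_assoc,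
        show D.α y * (l * D.l0) = y * ((y⁻¹ * D.α y) * (l * D.l0)) by group,
        h.irr.isClassFunction.mul_comm y, mul_assoc, h.irr.isCharacter.apply_mul_of_apply_eq (h.hz y),
        h.irr.isClassFunction.mul_comm]
    rw [coeff_of_mul, coeff_mul_of, coeff_of_mul, D.e_coeff, D.e_coeff, e, D.ex_lam, D.ex_lam,
      ← h.irr.apply_inv, ← h.irr.apply_inv, inv_inv, e2]
    ring

theorem Dat.e_eq_sum (D : Dat G L) (h : IsIrrCharacter L τ) [Fintype D.K] [Fintype L] :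
    D.e h = ∑ k : D.K, ∑ l, (τ 1 / Nat.card D.P * conj (τ l)) • (of ℂ G k * of ℂ G (D.lam l)) := by
  have := Fintype.ofFinite D.P
  have hπ : ∀ (k : D.K) (l : L), D.π ⟨k * D.lam l, D.P.mul_mem (D.K_le k.2) (D.mem l)⟩ = l := fun k l => by
    obtain ⟨h1, h2⟩ := D.mem_K.1 k.2
    have : (⟨k * D.lam l, D.P.mul_mem (D.K_le k.2) (D.mem l)⟩ : D.P) = ⟨k, h1⟩ * ⟨D.lam l, D.mem l⟩ := rfl
    rw [this, map_mul, h2, one_mul, D.sec]
  rw [Dat.e, hkE_eq_sum, ← Fintype.sum_prod_type']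
  refine (Fintype.sum_bijective (fun p : D.K × L => (⟨p.1 * D.lam p.2,
    D.P.mul_mem (D.K_le p.1.2) (D.mem p.2)⟩ : D.P)) ⟨?_, ?_⟩ _ _ fun p => ?_).symm
  · rintro ⟨k, l⟩ ⟨k', l'⟩ e
    have e1 : l = l' := by rw [← hπ k l, ← hπ k' l']; exact congrArg D.π e
    subst e1
    have e2 : (k : G) * D.lam l = k' * D.lam l := congrArg Subtype.val e
    rw [Subtype.ext (mul_right_cancel e2)]
  · rintro ⟨x, hx⟩
    exact ⟨⟨⟨_, (D.dec hx).2⟩, D.π ⟨x, hx⟩⟩, Subtype.ext (by simp)⟩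
  · rw [D.φ_one, Dat.φ, hπ, map_mul]

omit [Fintype ι] in
theorem Hyp.ewewe (h : Hyp D τ χ ψ c b) [Fintype D.K] :
    (Nat.card D.K : ℂ) • (D.e h.irr * of ℂ G D.w * D.e h.irr * of ℂ G D.w * D.e h.irr) =
      ∑ k : D.K, D.e h.irr * of ℂ G (D.w * k * D.w) * D.e h.irr := by
  have := Finite.of_injective _ D.lam_inj
  have := Fintype.ofFinite L
  set A : ℂ[G] := ∑ l, (τ 1 / Nat.card D.P * conj (τ l)) • (of ℂ G (D.lam l) * D.e h.irr) with hA
  have h1 : (Nat.card D.K : ℂ) • A = D.e h.irr := by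
    conv_rhs => rw [← D.e_idem h.irr]
    conv_rhs => lhs; rw [D.e_eq_sum h.irr]
    rw [Finset.sum_mul, Finset.sum_congr rfl (g := fun _ => A) fun k _ => ?_]
    · rw [Finset.sum_const, Finset.card_univ, Nat.card_eq_fintype_card, Nat.cast_smul_eq_nsmul]
    · rw [Finset.sum_mul]
      refine Finset.sum_congr rfl fun l _ => ?_
      rw [smul_mul_assoc, mul_assoc, D.e_comm h.irr (D.mem l), ← mul_assoc, D.k_mul_e h.irr k.2]
  have h2 : D.e h.irr * of ℂ G D.w * D.e h.irr * of ℂ G D.w * D.e h.irr =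
      ∑ k : D.K, D.e h.irr * of ℂ G (D.w * k * D.w) * A := by
    conv_lhs => lhs; lhs; rhs; rw [D.e_eq_sum h.irr]
    rw [Finset.mul_sum, Finset.sum_mul, Finset.sum_mul]
    refine Finset.sum_congr rfl fun k _ => ?_
    rw [Finset.mul_sum, Finset.sum_mul, Finset.sum_mul, hA, Finset.mul_sum]
    refine Finset.sum_congr rfl fun l _ => ?_
    rw [← h.lam_α l, ← D.cj]
    simp only [mul_smul_comm, smul_mul_assoc, map_mul (of ℂ G), mul_assoc]
    rw [← mul_assoc (of ℂ G D.w) (of ℂ G D.w⁻¹), ← map_mul, mul_inv_cancel, map_one, one_mul]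
  rw [h2, Finset.smul_sum]
  refine Finset.sum_congr rfl fun k _ => ?_
  rw [← mul_smul_comm, h1]

theorem Hyp.mem_fix (h : Hyp D τ χ ψ c b) : ∑ i, of ℂ G (c i) ∈ fix ℂ ⊤ := by
  refine Block.mem_fix.2 fun g _ => ?_
  obtain ⟨σ, hσ⟩ := h.cj g
  rw [map_sum, ← Equiv.sum_comp σ fun i => of ℂ G (c i)]
  exact Finset.sum_congr rfl fun i _ => by rw [of_apply, of_apply, cj_single, hσ]

theorem Hyp.c_mul_e (h : Hyp D τ χ ψ c b) :
    (∑ i, of ℂ G (c i) - ((∑ i, D.ex τ (c i)) / τ 1) • 1) * D.e h.irr =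
      (∑ i, b i) • (D.e h.irr * of ℂ G D.w * D.e h.irr) := by
  classical
  have hP : ∀ i, D.e h.irr * of ℂ G (c i) * D.e h.irr =
      emb D.P.subtype (res D.P.subtype (of ℂ G (c i))) * D.e h.irr +
        b i • (D.e h.irr * of ℂ G D.w * D.e h.irr) := by
    intro i
    have hn : c i ∉ D.P → emb D.P.subtype (res D.P.subtype (of ℂ G (c i))) = 0 := fun hc => by
      rw [emb_res_subtype, trunc_eq_zero_iff]
      intro g hg
      rw [of_apply, coeff_single', if_neg fun (e : c i = g) => hc (e ▸ hg)]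
    rcases h.sc i with ⟨h1, h2⟩ | ⟨k, hk, k', hk', l, e, hl⟩
    · rw [h2, zero_smul, add_zero]
      by_cases hc : c i ∈ D.P
      · rw [emb_res_subtype_of_supp _ (of_mem_supp hc), ← D.e_comm h.irr hc, mul_assoc, D.e_idem]
      · rw [hn hc, zero_mul]
        exact hkE_mul_eq_zero _ (h.mid _ hc h1)
    · rw [hn (e ▸ (D.big_of hk hk' l).notMem), zero_mul, zero_add, e, D.e_big h.irr hk hk',
        D.lam_mul_e h.irr hl, mul_smul_comm]
  have h1 : (∑ i, of ℂ G (c i)) * D.e h.irr = ∑ i, D.e h.irr * of ℂ G (c i) * D.e h.irr := by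
    conv_lhs => rw [← D.e_idem h.irr, ← mul_assoc, ← (commute_of_fix_top h.mem_fix _).eq, Finset.mul_sum,
      Finset.sum_mul]
  have h2 : omega (D.φ τ) (res D.P.subtype (∑ i, of ℂ G (c i))) = (∑ i, D.ex τ (c i)) / τ 1 := by
    have := Fintype.ofFinite D.P
    rw [omega_apply, D.φ_one, map_sum, map_sum]
    congr 1
    refine Finset.sum_congr rfl fun i _ => ?_
    rw [← ev_of (D.ex τ), ev_apply, ev_apply]
    simp only [coeff_res, Subgroup.coe_subtype, mul_comm _ (D.φ τ _), mul_comm _ (D.ex τ _)]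
    exact (sum_extendByZero_mul _ _ _).symm
  have h3 := hkE_central (D.irr_φ h.irr) (res_subtype_mem_fix_top D.P (mem_fix_of_top h.mem_fix))
  rw [h2, map_sum, map_sum, Finset.sum_mul] at h3
  rw [sub_mul, h1, Finset.sum_congr rfl fun i _ => hP i, Finset.sum_add_distrib, ← Finset.sum_smul,
    smul_mul_assoc, one_mul]
  rw [show ∑ i, emb D.P.subtype (res D.P.subtype (of ℂ G (c i))) * D.e h.irr = _ from h3]
  exact add_sub_cancel_left _ _

theorem Hyp.moment (h : Hyp D τ χ ψ c b) (n : ℕ) :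
    τ 1 * (χ 1 * D.th τ c χ ^ (n + 1) + ψ 1 * D.th τ c ψ ^ (n + 1)) =
      Nat.card G * ((∑ i, b i) ^ (n + 1) * ((D.e h.irr * of ℂ G D.w * D.e h.irr) ^ (n + 1)).coeff 1) := by
  set a : ℂ[G] := ∑ i, of ℂ G (c i) - ((∑ i, D.ex τ (c i)) / τ 1) • 1 with ha
  have hfix : a ∈ fix ℂ ⊤ := sub_mem h.mem_fix (Subalgebra.smul_mem _ (one_mem _) _)
  have hom : ∀ θ : G → ℂ, IsIrrCharacter G θ → omega θ a = D.th τ c θ := fun θ hθ => by
    rw [ha, map_sub, map_smul, omega_one hθ.apply_one_ne_zero, map_sum, Dat.th, smul_eq_mul, mul_one,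
      Finset.sum_div _ fun i => θ (c i)]
    simp only [omega_of]
  have h1 := hkE_moment (D.irr_φ h.irr) h.i1 h.i2 h.ne h.eq (pow_mem hfix (n + 1))
  rw [omega_pow h.i1 hfix, omega_pow h.i2 hfix, hom _ h.i1, hom _ h.i2, D.φ_one] at h1
  have h2 : (a * D.e h.irr) ^ (n + 1) = a ^ (n + 1) * D.e h.irr := by
    rw [(commute_of_fix_top hfix _).symm.mul_pow, IsIdempotentElem.pow_succ_eq n (D.e_idem h.irr)]
  rw [h1, ← coeff_smul' (_ ^ _), ← smul_pow, ← h.c_mul_e, h2]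
  rfl

omit [Fintype ι] in
theorem Hyp.coeff_w (h : Hyp D τ χ ψ c b) {x : G} (hx : x ∈ D.P) :
    (D.e h.irr * of ℂ G x * D.e h.irr * of ℂ G D.w).coeff 1 = 0 := by
  rw [← D.e_comm h.irr hx, mul_assoc _ (D.e h.irr) (D.e h.irr), D.e_idem, coeff_mul_of, coeff_of_mul, D.e_coeff,
    D.ex_of_notMem, map_zero, mul_zero]
  intro h1
  exact D.nm (by simpa using D.P.mul_mem hx h1)

end aux

theorem Hyp.m1 (h : Hyp D τ χ ψ c b) : χ 1 * D.th τ c χ + ψ 1 * D.th τ c ψ = 0 := by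
  have := Finite.of_injective _ D.lam_inj
  have h1 := h.moment 0
  have h2 := h.coeff_w D.P.one_mem
  rw [map_one (MonoidAlgebra.of ℂ G), mul_one] at h2
  rw [zero_add, pow_one, pow_one, pow_one, pow_one, hk_trace, ← mul_assoc (D.e h.irr), h2, mul_zero, mul_zero] at h1
  exact (mul_eq_zero.1 h1).resolve_left h.irr.apply_one_ne_zero

theorem Hyp.m2 (h : Hyp D τ χ ψ c b) : (χ 1 * D.th τ c χ ^ 2 + ψ 1 * D.th τ c ψ ^ 2) * Nat.card D.K =
    (∑ i, b i) ^ 2 * (D.P.index * τ D.l0) := by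
  have := Finite.of_injective _ D.lam_inj
  have h1 := h.moment 1
  have h2 := h.coeff_T 1
  rw [map_one D.lam, map_one (MonoidAlgebra.of ℂ G), one_mul, mul_one] at h2
  have h3 : ((D.e h.irr * MonoidAlgebra.of ℂ G D.w * D.e h.irr) ^ (1 + 1)).coeff 1 =
      (D.e h.irr * MonoidAlgebra.of ℂ G D.w * D.e h.irr * MonoidAlgebra.of ℂ G D.w).coeff 1 := by
    rw [pow_succ, pow_one, ← mul_assoc, ← mul_assoc, mul_assoc _ (D.e h.irr) (D.e h.irr), D.e_idem, hk_trace]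
    simp only [← mul_assoc, D.e_idem]
  have h4 : (Nat.card G : ℂ) = Nat.card D.K * Nat.card L * D.P.index := by
    rw [← D.P.card_mul_index, D.card_P]; push_cast; rfl
  rw [h3, h2, h4, D.card_P] at h1
  have := h.irr.apply_one_ne_zero
  have := card_ne_zero_complex L
  have := card_ne_zero_complex D.K
  refine mul_left_cancel₀ h.irr.apply_one_ne_zero ?_
  rw [← mul_assoc, show τ 1 * (χ 1 * D.th τ c χ ^ 2 + ψ 1 * D.th τ c ψ ^ 2) = _ from h1]
  push_cast
  field_simp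

theorem Hyp.m3 (h : Hyp D τ χ ψ c b) [Fintype D.K] {s : D.K → ℂ}
    (hs : ∀ k : D.K, (¬ D.Big (D.w * k * D.w) ∧ s k = 0) ∨
      ∃ k1 ∈ D.K, ∃ k2 ∈ D.K, ∃ l, D.w * k * D.w = k1 * D.w * D.lam l * k2 ∧ s k = τ (D.l0 * l)) :
    (χ 1 * D.th τ c χ ^ 3 + ψ 1 * D.th τ c ψ ^ 3) * Nat.card D.K ^ 2 =
      (∑ i, b i) ^ 3 * (D.P.index * ∑ k, s k) := by
  have := Finite.of_injective _ D.lam_inj
  have h1 := h.moment 2
  have h2 : ∀ k : D.K, (D.e h.irr * MonoidAlgebra.of ℂ G (D.w * k * D.w) * D.e h.irr *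
      MonoidAlgebra.of ℂ G D.w).coeff 1 = (τ 1 / Nat.card D.P) ^ 2 * (Nat.card L * s k / τ 1) := by
    intro k
    rcases hs k with ⟨h3, h4⟩ | ⟨k1, hk1, k2, hk2, l, e, hl⟩
    · rw [h4, mul_zero, zero_div, mul_zero]
      by_cases hk : D.w * k * D.w ∈ D.P
      · exact h.coeff_w hk
      · rw [show D.e h.irr * MonoidAlgebra.of ℂ G (D.w * k * D.w) * D.e h.irr = 0 from
          hkE_mul_eq_zero _ (h.mid _ hk h3), zero_mul, Block.coeff_zero']
    · rw [e, D.e_big h.irr hk1 hk2, h.coeff_T, hl]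
  have h3 : (Nat.card D.K : ℂ) * ((D.e h.irr * MonoidAlgebra.of ℂ G D.w * D.e h.irr) ^ (2 + 1)).coeff 1 =
      (τ 1 / Nat.card D.P) ^ 2 * (Nat.card L * (∑ k, s k) / τ 1) := by
    rw [Finset.mul_sum, Finset.sum_div, Finset.mul_sum, ← Finset.sum_congr rfl fun k _ => h2 k,
      ← Block.coeff_sum', ← Finset.sum_mul, ← h.ewewe, smul_mul_assoc, Block.coeff_smul',
      hk_cube (D.e_idem h.irr)]
  have h4 : (Nat.card G : ℂ) = Nat.card D.K * Nat.card L * D.P.index := by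
    rw [← D.P.card_mul_index, D.card_P]; push_cast; rfl
  rw [D.card_P] at h3
  have := h.irr.apply_one_ne_zero
  have := card_ne_zero_complex L
  have := card_ne_zero_complex D.K
  refine mul_left_cancel₀ h.irr.apply_one_ne_zero ?_
  rw [← mul_assoc, show τ 1 * (χ 1 * D.th τ c χ ^ 3 + ψ 1 * D.th τ c ψ ^ 3) = _ from h1, h4]
  push_cast at h3
  field_simp at h3
  linear_combination (∑ i, b i) ^ 3 * D.P.index * h3

/-- `m1`, `m2` with positive degrees. -/
theorem Hyp.th_eq_zero (h : Hyp D τ χ ψ c b) (hb : ∑ i, b i = 0) : D.th τ c χ = 0 ∧ D.th τ c ψ = 0 := by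
  have h1 := h.m1
  have h2 := h.m2
  rw [hb, zero_pow two_ne_zero, zero_mul, mul_eq_zero, or_iff_left (card_ne_zero_complex D.K)] at h2
  obtain ⟨f, hf, ef⟩ := h.i1.exists_apply_one
  obtain ⟨g, hg, eg⟩ := h.i2.exists_apply_one
  rw [ef, eg] at h1 h2
  have hf' : (f : ℂ) ≠ 0 := Nat.cast_ne_zero.2 hf.ne'
  have hg' : (g : ℂ) ≠ 0 := Nat.cast_ne_zero.2 hg.ne'
  have hfg : (f : ℂ) + g ≠ 0 := by exact_mod_cast (Nat.add_pos_left hf g).ne'
  have e1 : (f : ℂ) * (f + g) * D.th τ c χ ^ 2 = 0 := by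
    linear_combination g * h2 + (f * D.th τ c χ - g * D.th τ c ψ) * h1
  have e2 : (g : ℂ) * (f + g) * D.th τ c ψ ^ 2 = 0 := by
    linear_combination f * h2 - (f * D.th τ c χ - g * D.th τ c ψ) * h1
  exact ⟨pow_eq_zero_iff two_ne_zero |>.1 ((mul_eq_zero.1 e1).resolve_left (mul_ne_zero hf' hfg)),
    pow_eq_zero_iff two_ne_zero |>.1 ((mul_eq_zero.1 e2).resolve_left (mul_ne_zero hg' hfg))⟩

/-- `isIntegral_sum_div` for the class functions `g ↦ #{i | c i = g}` on `G` and on `P`; characters are integers on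
involutions (`exists_int_of_sq_eq_one`), `exists_int_of_isIntegral_of_rat`. -/
theorem Hyp.int (h : Hyp D τ χ ψ c b) (h2 : ∀ i, c i * c i = 1) :
    (∃ x : ℤ, D.th τ c χ = x) ∧ ∃ y : ℤ, D.th τ c ψ = y := by
  classical
  have := Fintype.ofFinite D.P
  choose σ hσ using h.cj
  have hF := isClassFunction_card_fiber c σ fun y x => (hσ y x).symm
  have key : ∀ (z : ℂ) (n : ℕ) (v : ι → ℂ), (∀ i, ∃ m : ℤ, v i = m) → IsIntegral ℤ ((∑ i, v i) / n) →
      ∃ m : ℤ, (∑ i, v i) / n = m := fun z n v hv hi => by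
    choose m hm using hv
    refine exists_int_of_isIntegral_of_rat hi (q := (∑ i, m i : ℤ) / n) ?_
    simp only [hm]
    push_cast
    rfl
  have hG : ∀ θ : G → ℂ, IsIrrCharacter G θ → ∃ m : ℤ, (∑ i, θ (c i)) / θ 1 = m := fun θ hθ => by
    have h1 := hθ.isIntegral_sum_div hF fun g => isIntegral_natCast _
    rw [sum_card_fiber_mul] at h1
    obtain ⟨n, -, hn⟩ := hθ.exists_apply_one
    rw [hn] at h1 ⊢
    exact key 0 n _ (fun i => hθ.isGeneralizedCharacter.exists_int_of_sq_eq_one (by rw [pow_two, h2])) h1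
  have hP : ∃ m : ℤ, (∑ i, D.ex τ (c i)) / τ 1 = m := by
    have h1 := (D.irr_φ h.irr).isIntegral_sum_div (hF.restrict D.P) fun g => isIntegral_natCast _
    simp only [mul_comm _ (D.φ τ _)] at h1
    rw [← Induce.sum_extendByZero_mul D.P (D.φ τ) fun g => (Nat.card {x // c x = g} : ℂ), D.φ_one] at h1
    simp only [mul_comm (extendByZero D.P (D.φ τ) _)] at h1
    rw [sum_card_fiber_mul] at h1
    obtain ⟨n, -, hn⟩ := h.irr.exists_apply_one
    rw [hn] at h1 ⊢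
    refine key 0 n _ (fun i => ?_) h1
    by_cases hc : c i ∈ D.P
    · rw [D.ex_of_mem τ hc]
      exact (D.irr_φ h.irr).isGeneralizedCharacter.exists_int_of_sq_eq_one
        (Subtype.ext (by rw [pow_two]; exact h2 i))
    · exact ⟨0, by rw [D.ex_of_notMem τ hc, Int.cast_zero]⟩
  obtain ⟨m, hm⟩ := hP
  obtain ⟨x, hx⟩ := hG χ h.i1
  obtain ⟨y, hy⟩ := hG ψ h.i2
  exact ⟨⟨x - m, by rw [Dat.th, hx, hm, Int.cast_sub]⟩, y - m, by rw [Dat.th, hy, hm, Int.cast_sub]⟩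

/-- `f x + g y = 0` and `f x² + g y² = (f + g) N` give `x y = -N`, so `|x| = 2 ^ a`, `|y| = 2 ^ b` with `a + b` odd. -/
theorem ratio_two {f g : ℕ} (hf : 0 < f) (hg : 0 < g) {x y : ℤ} {n : ℕ} (h1 : f * x + g * y = 0)
    (h2 : f * x ^ 2 + g * y ^ 2 = (f + g) * 2 ^ (2 * n + 1)) :
    ∃ a, a ≤ n ∧ (f = 2 ^ (2 * a + 1) * g ∨ g = 2 ^ (2 * a + 1) * f) := by
  have e1 : ((f : ℤ) + g) * (x * y + 2 ^ (2 * n + 1)) = 0 := by linear_combination (x + y) * h1 - h2
  have e2 : x * y = - 2 ^ (2 * n + 1) :=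
    eq_neg_of_add_eq_zero_left ((mul_eq_zero.1 e1).resolve_left (by positivity))
  have e3 : x.natAbs * y.natAbs = 2 ^ (2 * n + 1) := by
    rw [← Int.natAbs_mul, e2, Int.natAbs_neg, Int.natAbs_pow]; rfl
  have e4 : f * x.natAbs = g * y.natAbs := by
    have := congrArg Int.natAbs (eq_neg_of_add_eq_zero_left h1)
    simpa [Int.natAbs_mul] using this
  obtain ⟨a, -, ha⟩ := (Nat.dvd_prime_pow Nat.prime_two).1 (Dvd.intro _ e3)
  obtain ⟨b, -, hb⟩ := (Nat.dvd_prime_pow Nat.prime_two).1 (Dvd.intro_left _ e3)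
  rw [ha, hb] at e3 e4
  rw [← pow_add] at e3
  have e5 : a + b = 2 * n + 1 := Nat.pow_right_injective le_rfl e3
  rcases le_total a b with hab | hab
  · obtain ⟨d, hd⟩ : ∃ d, b = a + (2 * d + 1) := ⟨(b - a) / 2, by omega⟩
    refine ⟨d, by omega, Or.inl (Nat.eq_of_mul_eq_mul_right (Nat.two_pow_pos a) ?_)⟩
    rw [e4, hd, pow_add]; ring
  · obtain ⟨d, hd⟩ : ∃ d, a = b + (2 * d + 1) := ⟨(a - b) / 2, by omega⟩
    refine ⟨d, by omega, Or.inr (Nat.eq_of_mul_eq_mul_right (Nat.two_pow_pos b) ?_)⟩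
    rw [← e4, hd, pow_add]; ring

/-- `x`, `y` are the roots of `T ^ 2 - (x + y) T + x y`. -/
theorem vieta {f g x y N a : ℂ} (hfg : f + g ≠ 0) (hN : N ≠ 0) (h1 : f * x + g * y = 0)
    (h2 : f * x ^ 2 + g * y ^ 2 = (f + g) * N) (h3 : f * x ^ 3 + g * y ^ 3 = (f + g) * N * a) :
    x * y = - N ∧ x + y = a := by
  have e1 : (f + g) * (x * y + N) = 0 := by linear_combination (x + y) * h1 - h2
  have e2 : (f + g) * N * (x + y - a) = 0 := by linear_combination h3 - (x + y) * h2 + x * y * h1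
  exact ⟨eq_neg_of_add_eq_zero_left ((mul_eq_zero.1 e1).resolve_left hfg),
    sub_eq_zero.1 ((mul_eq_zero.1 e2).resolve_left (mul_ne_zero hfg hN))⟩

end Cfsg.Lib.HCI
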