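import Cfsg.Agent.Lib.HCI.Tool

/-! S4984: common patterns of the case analysis. -/

set_option autoImplicit false
set_option linter.unusedSectionVars false

namespace Cfsg.Lib.HCI.FS

variable {F V : Type} [Field F] [Fintype F] [DecidableEq F] [AddCommGroup V] [Module F V] [Finite V] {S : FS F V}
  {d e j : ℕ}

local notation "𝔮" => Fintype.card F

/-- `k = 4`, `k = 3` and a third degree. -/
theorem Sz.all_three (h : S.Sz (j + 4) e) (hj : j ≤ 1) (he : e = 0 → j = 1) (he2 : e = 2 → j = 0)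
    (H : ∃ D, S.Av D ∧ (∀ r, r.Prime → r ∣ 𝔮 → Cv S.cc r D) ∧ 𝔮 ^ 2 + 𝔮 + 1 ∣ D) : S.All (j + 4) e := by
  refine all_of (h.lk_even (by omega) (by decide) (rho_big (by omega) (by omega)) (by omega) (by omega))
    fun r s hr hs hrs h1 h2 h3 => ?_
  have h' : S.Sz (j + 1 + 3) e := h
  rcases h'.lk_odd (by omega) (rho_big (by omega) (by omega)) (by omega) (by omega) (by omega) (by omega) hr hs hrs h1 h2 h3
    with a | ⟨a, b, c⟩
  · exact a
  · obtain ⟨D, x, y, z⟩ := H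
    exact h.lk x hr hs hrs (y r hr h2) (.of_ne a ((dvd_three hs b c).trans z))

/-- `q = 2`: `k = 5, 7, 8`. -/
theorem Sz.all_578 (hq : 𝔮 = 2) (h : S.Sz (j + 8) e) (hj : j ≤ 1) (he : e = 0 → j = 1) (he2 : e = 2 → j = 0) :
    S.All (j + 8) e := by
  refine all_of (h.lk_even (by omega) (by decide) (rho_big (by omega) (by omega)) (by omega) (by omega))
    fun r s hr hs hrs h1 h2 h3 => ?_
  have h7 : S.Sz (j + 1 + 7) e := h
  have h5 : S.Sz (j + 3 + 5) e := h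
  rcases h7.lk_odd (by omega) (rho_big (by omega) (by omega)) (by omega) (by omega) (by omega) (by omega) hr hs hrs h1 h2 h3
    with a | ⟨-, a, -⟩
  · exact a
  rcases h5.lk_odd (by omega) (rho_big (by omega) (by omega)) (by omega) (by omega) (by omega) (by omega) hr hs hrs h1 h2 h3
    with b | ⟨-, b, -⟩
  · exact b
  rw [hq] at a b
  have := Int.dvd_gcd a b
  norm_num at this
  exact absurd this hs.ne_one

theorem card_two (hq : 𝔮 = 2) : (2 : F) = 0 := by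
  have := FiniteField.cast_card_eq_zero F
  rwa [hq] at this

theorem card_three (hq : 𝔮 = 3) : (2 : F) ≠ 0 := fun h => by
  have := FiniteField.cast_card_eq_zero F
  rw [hq] at this
  exact one_ne_zero (α := F) (by push_cast at this; linear_combination this - h)

theorem four_dvd_q (hq : 3 ≤ 𝔮) (h : 2 ∣ 𝔮) : (2 : F) = 0 ∧ 4 ∣ 𝔮 := by
  obtain ⟨p, n, hp, hn, e, h0⟩ := tl_card F
  rw [e] at h hq ⊢
  obtain rfl : 2 = p := (Nat.prime_dvd_prime_iff_eq Nat.prime_two hp).1 (Nat.prime_two.dvd_of_dvd_pow h)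
  refine ⟨by exact_mod_cast h0, pow_dvd_pow 2 (show 2 ≤ n from ?_)⟩
  by_contra h1
  obtain rfl : n = 1 := by omega
  omega

theorem cc_dvd_two (h : (2 : F) = 0) : S.cc ∣ 2 := by
  rw [cc, if_pos h]
  split_ifs <;> decide

/-- An odd characteristic, or `q` divisible by four. -/
theorem cv_q (hq : 3 ≤ 𝔮) {D : ℕ} (h : 𝔮 ∣ D) (r : ℕ) (hr : r ∣ 𝔮) : Cv S.cc r D := by
  refine ⟨hr.trans h, ?_⟩
  rintro rfl
  obtain ⟨h1, h2⟩ := four_dvd_q hq hr
  exact (Nat.mul_dvd_mul_left 2 (cc_dvd_two h1)).trans (h2.trans h)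

/-- The same with a factor two lost, for `e = 1`. -/
theorem cv_half (hq : 3 ≤ 𝔮) (hS : S.Pol d 1) {D : ℕ} (h : 𝔮 ∣ 2 * D) (r : ℕ) (hp : r.Prime) (hr : r ∣ 𝔮) : Cv S.cc r D := by
  by_cases h2 : r = 2
  · subst h2
    obtain ⟨h1, h2⟩ := four_dvd_q hq hr
    have h3 : 2 ∣ D := Nat.dvd_of_mul_dvd_mul_left two_pos (h2.trans h)
    have h4 : S.κ = 0 := S.hκ.resolve_right fun h4 => hS.typ.2.2 h4 rfl h1
    exact ⟨h3, fun _ => by rwa [cc, if_pos h4]⟩
  · exact .of_ne h2 (((hp.dvd_mul.1 (hr.trans h)).resolve_left fun h3 =>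
      h2 ((Nat.prime_dvd_prime_iff_eq hp Nat.prime_two).1 h3)))

/-- `cc ∣ 2` in characteristic two. -/
theorem cv_two (hq : 𝔮 = 2) {D : ℕ} (h : 2 ∣ D ∧ S.κ = 0 ∨ 4 ∣ D) (r : ℕ) (hp : r.Prime) (hr : r ∣ 𝔮) : Cv S.cc r D := by
  obtain rfl : r = 2 := (Nat.prime_dvd_prime_iff_eq hp Nat.prime_two).1 (hq ▸ hr)
  rcases h with ⟨h1, h2⟩ | h
  · exact ⟨h1, fun _ => by rwa [cc, if_pos h2]⟩
  · exact ⟨(by decide : 2 ∣ 4).trans h, fun _ => (Nat.mul_dvd_mul_left 2 (cc_dvd_two (card_two hq))).trans h⟩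

end Cfsg.Lib.HCI.FS
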