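import Cfsg.Agent.Lib.HCI.Tool

/-! S4984: special degrees of `Sp₄(q)` and `Sp₆(2)`. -/

set_option autoImplicit false
set_option linter.unusedSectionVars false

namespace Cfsg.Lib.HCI.FS

open Module Matrix Cfsg.Lib.Char
open scoped MatrixGroups

variable {F V : Type} [Field F] [Fintype F] [DecidableEq F] [AddCommGroup V] [Module F V] [Finite V] {S : FS F V}

local notation "𝔮" => Fintype.card F

theorem spa_Q (hκ : S.κ = 0) (x : V) : S.Q x = 0 := by rw [← S.zero, hκ, zero_mul]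

theorem spa_alt (hκ : S.κ = 0) (x : V) : S.B x x = 0 := by rw [S.self, spa_Q hκ, mul_zero]

theorem spa_tv (hκ : S.κ = 0) (u : V) (c : F) : S.κ + c * S.Q u = 0 := by
  rw [hκ, spa_Q hκ, mul_zero, add_zero]

theorem spa_tv0 (hκ : S.κ = 0) (u : V) : S.tv u 0 = 1 :=
  iso_ext fun x => by rw [tv_ap _ (spa_tv hκ u 0), zero_mul, zero_smul, add_zero, one_ap]

theorem spa_tv0' (hκ : S.κ = 0) (c : F) : S.tv 0 c = 1 :=
  iso_ext fun x => by rw [tv_ap _ (spa_tv hκ 0 c), smul_zero, add_zero, one_ap]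

theorem spa_add (hκ : S.κ = 0) (u : V) (c c' : F) : S.tv u (c + c') = S.tv u c * S.tv u c' :=
  iso_ext fun x => by
    rw [mul_ap, tv_ap _ (spa_tv hκ u _), tv_ap _ (spa_tv hκ u _), tv_ap _ (spa_tv hκ u _)]
    simp only [map_add, map_smul, LinearMap.add_apply, LinearMap.smul_apply, spa_alt hκ, smul_eq_mul]
    module

/-- `finrank = 2` (`Pol.finrank`); for a basis `u, u'` with `B u u' = -1` the form `B` is a multiple of the determinant, and
`tv u c u' = u' + c u`. -/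
theorem exists_sl2 (hκ : S.κ = 0) (h : S.Pol 1 1) {u : V} (hu : u ≠ 0) : ∃ Φ : S.Iso ≃* SL(2, F), Φ S.neg = -1 ∧
    ∀ c, Φ (S.tv u c) = ⟨!![1, c; 0, 1], by simp [det_fin_two]⟩ := by
  have hB := spa_alt hκ
  have hr : finrank F V = 2 := by rw [h.finrank, if_pos hκ]
  obtain ⟨y, hy⟩ : ∃ y, S.B u y ≠ 0 := by
    by_contra! c
    exact hu (S.nd u c)
  obtain ⟨w, hw⟩ : ∃ w, S.B u w = -1 := ⟨(-(S.B u y)⁻¹) • y, by simp [hy]⟩
  have hw' : S.B w u = 1 := by rw [S.symm, hκ, hw]; ring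
  have li : LinearIndependent F ![u, w] := by
    refine LinearIndependent.pair_iff.2 fun a b e => ?_
    have e1 := congrArg (S.B u) e
    have e2 := congrArg (S.B w) e
    simp only [map_add, map_smul, hB, hw, hw', smul_eq_mul, map_zero] at e1 e2
    exact ⟨by linear_combination e2, by linear_combination -e1⟩
  let b : Basis (Fin 2) F V := basisOfLinearIndependentOfCardEqFinrank li (by simp [hr])
  have b0 : b 0 = u := by simp [b]
  have b1 : b 1 = w := by simp [b]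
  have hx : ∀ x, x = b.repr x 0 • u + b.repr x 1 • w := fun x => by
    conv_lhs => rw [← b.sum_repr x]
    rw [Fin.sum_univ_two, b0, b1]
  have hf : ∀ x y, S.B x y = b.repr x 1 * b.repr y 0 - b.repr x 0 * b.repr y 1 := fun x y => by
    conv_lhs => rw [hx x, hx y]
    simp only [map_add, map_smul, LinearMap.add_apply, LinearMap.smul_apply, hB, hw, hw', smul_eq_mul]
    ring
  let f : S.Iso →* SL(2, F) :=
    { toFun := fun g => ⟨LinearMap.toMatrix b b g.1.toLinearMap, by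
        have := map_B g u w
        rw [hw, hf] at this
        simp only [det_fin_two, LinearMap.toMatrix_apply, b0, b1, LinearEquiv.coe_coe]
        linear_combination -this⟩
      map_one' := Subtype.ext (LinearMap.toMatrix_id b)
      map_mul' := fun g g' => Subtype.ext (LinearMap.toMatrix_mul b g.1.toLinearMap g'.1.toLinearMap) }
  have fa : ∀ g i j, (f g).1 i j = b.repr (g.1 (b j)) i := fun g i j => LinearMap.toMatrix_apply b b _ i j
  have hbij : Function.Bijective f := by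
    refine ⟨fun g g' e => iso_ext fun x => ?_, fun A => ?_⟩
    · exact LinearMap.congr_fun ((LinearMap.toMatrix b b).injective (congrArg Subtype.val e)) x
    · refine ⟨S.mkIso (toLin b b A.1) (fun x y => ?_) fun x => by rw [spa_Q hκ, spa_Q hκ],
        Subtype.ext (LinearMap.toMatrix_toLin b b A.1)⟩
      have hd := A.2
      rw [det_fin_two] at hd
      rw [hf, hf x y]
      simp only [Matrix.repr_toLin, mulVec, dotProduct, Fin.sum_univ_two]
      linear_combination (b.repr x 1 * b.repr y 0 - b.repr x 0 * b.repr y 1) * hd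
  refine ⟨MulEquiv.ofBijective f hbij, Subtype.ext (Matrix.ext fun i j => ?_),
    fun c => Subtype.ext (Matrix.ext fun i j => ?_)⟩
  · rw [MulEquiv.ofBijective_apply, fa, neg_ap, map_neg, b.repr_self]
    fin_cases i <;> fin_cases j <;> simp
  · rw [MulEquiv.ofBijective_apply, fa, tv_ap _ (spa_tv hκ u c)]
    have h0 : S.B (b 0) (b 0) = 0 := hB _
    have h1 : S.B (b 1) (b 0) = 1 := by rw [b0, b1, hw']
    rw [← b0]
    fin_cases i <;> fin_cases j <;> simp [h0, h1]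

/-- `cusp_sl2`, `exists_sl2`; all `u ≠ 0` are conjugate (`Pol.trans`, `tv_conj`). For `Fr`: the elements `(1, tv (i 1) c)` form a
subgroup of `nr i` (`sm_of_le`; `g1 1 = 1`). -/
theorem exists_cusp (hκ : S.κ = 0) (h : S.Pol 1 1) (hq : 3 ≤ 𝔮) : ∃ (τ : S.Iso → ℂ) (t : ℕ), IsIrrCharacter _ τ ∧
    τ 1 = t ∧ τ S.neg = τ 1 ∧ (∀ r, r.Prime → r ≠ 2 → r ∣ 𝔮 - 1 → r ∣ t) ∧
    (∀ u, u ≠ 0 → ∑ c : F, τ (S.tv u c) = 0) ∧ S.Fr (g1 1) τ := by
  have hr : finrank F V = 2 := by rw [h.finrank, if_pos hκ]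
  haveI : Nontrivial V := Module.nontrivial_of_finrank_pos (R := F) (by omega)
  obtain ⟨u0, hu0⟩ := exists_ne (0 : V)
  obtain ⟨Φ, h1, h2⟩ := exists_sl2 hκ h hu0
  obtain ⟨τ, t, a, b, c, d, e⟩ := cusp_sl2 hq
  have hτ := a.comp_equiv Φ
  have hs : ∀ u, u ≠ 0 → ∑ c : F, τ (Φ (S.tv u c)) = 0 := fun u hu => by
    obtain ⟨g, rfl⟩ := h.trans hu0 hu (spa_Q hκ _) (spa_Q hκ _)
    rw [← e]
    refine Finset.sum_congr rfl fun c _ => ?_
    rw [← tv_conj, hτ.isClassFunction.conj_apply, h2]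
  refine ⟨_, t, hτ, by rw [map_one, b], by rw [h1, map_one, c], d, hs, fun i hi ht => ?_⟩
  have hg : (fun p : GL (Fin 1) F × S.Iso => τ (Φ p.2) * (starRingEnd ℂ) (g1 1 p.1)) =
      fun p => τ (Φ p.2) := funext fun p => by
    rw [g1, MulChar.one_apply (IsUnit.of_mul_eq_one_right _ (g1_inv p.1)), map_one, mul_one]
  rw [hg]
  let f : Multiplicative F →* GL (Fin 1) F × S.Iso :=
    { toFun := fun c => (1, S.tv (i 1) c.toAdd)
      map_one' := Prod.ext rfl (spa_tv0 hκ _)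
      map_mul' := fun c c' => Prod.ext (mul_one _).symm (spa_add hκ _ _ _) }
  refine sm_of_le (N := (⊤ : Subgroup (Multiplicative F)).map f) ?_
    ((hτ.isCharacter.comp (MonoidHom.snd (GL (Fin 1) F) S.Iso)).restrict _) (sm_map f ?_)
  · rintro _ ⟨c, -, rfl⟩
    refine ⟨fun z => ?_, fun v _ => ⟨(c.toAdd * S.B v (i 1)) • 1, ?_⟩⟩
    · show (S.tv (i 1) c.toAdd).1 (i z) = i ((1 : Matrix (Fin 1) (Fin 1) F) *ᵥ z)
      rw [tv_ap _ (spa_tv hκ _ _), ht.2, mul_zero, zero_smul, add_zero, one_mulVec]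
    · show _ = (S.tv (i 1) c.toAdd).1 v - v
      rw [tv_ap _ (spa_tv hκ _ _), map_smul, add_sub_cancel_left]
  · rw [← sum_eq_sm ⊤ fun x hx => absurd (Subgroup.mem_top x) hx,
      ← hs (i 1) fun e => one_ne_zero (hi (e.trans (map_zero i).symm))]
    exact Fintype.sum_equiv Multiplicative.toAdd _ _ fun _ => rfl

/-- `Pol.split`, `t6` with `lam = 1`: the sum is `(q - 1) t - (q² - 1) t` (`tv 0 c = 1 = tv u 0`), `om = q³`, so
`{x, y} = {q, -q²}`; there are `(q + 1) (q² + 1)` points. -/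
theorem av_c2 (hκ : S.κ = 0) (h : S.Pol 2 1) (hq : 3 ≤ 𝔮) :
    ∃ t, S.Av (𝔮 * (𝔮 ^ 2 + 1) * t) ∧ ∀ r, r.Prime → r ≠ 2 → r ∣ 𝔮 - 1 → r ∣ t := by
  classical
  obtain ⟨W, _, _, _, T, hT, hκ', ⟨i⟩⟩ := Pol.split (j := 1) (k := 1) h
  have k0 : T.κ = 0 := hκ'.trans hκ
  obtain ⟨τ, t, a, b, c, d, e, f⟩ := exists_cusp k0 hT hq
  haveI := Fintype.ofFinite W
  obtain ⟨χ, ψ, x, y, h1, h2, h3, h4, h5, h6, h7⟩ := t6 (one_pow 2) a f
  have u1 : (1 : MulChar F ℂ) T.ε = 1 := MulChar.one_apply (IsUnit.of_mul_eq_one _ T.ε_sq)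
  have q0 : (𝔮 : ℂ) ≠ 0 := Nat.cast_ne_zero.2 Fintype.card_ne_zero
  have q2 : (𝔮 : ℂ) - 1 ≠ 0 := sub_ne_zero.2 (by exact_mod_cast (Fintype.one_lt_card (α := F)).ne')
  have q3 : (𝔮 : ℂ) + 1 ≠ 0 := by exact_mod_cast Nat.succ_ne_zero 𝔮
  have t0 : (t : ℂ) ≠ 0 := by
    obtain ⟨n, hn, e⟩ := a.exists_apply_one
    rw [← b, e]
    exact Nat.cast_ne_zero.2 hn.ne'
  have hW : (Fintype.card W : ℂ) = 𝔮 ^ 2 := by
    have := hT.finrank
    rw [if_pos k0] at this
    rw [Module.card_eq_pow_finrank (K := F), this]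
    norm_num
  have hP : (Nat.card (T.ext 1).Pt : ℂ) = (𝔮 + 1) * (𝔮 ^ 2 + 1) := by
    have := congrArg (Int.cast : ℤ → ℂ) (hT.ext 1).card_pt
    push_cast at this
    refine mul_right_cancel₀ q2 (mul_right_cancel₀ q0 (this.trans ?_))
    ring
  have hs : ∑ p : {p : W × F // T.κ * p.2 + T.Q p.1 = 0}, (1 : MulChar F ℂ) p.1.2 * τ (T.tv p.1.1 p.1.2⁻¹) =
      (𝔮 - 𝔮 ^ 2) * t := by
    have hp : ∀ p : W × F, T.κ * p.2 + T.Q p.1 = 0 := fun p => by rw [k0, spa_Q k0, zero_mul, add_zero]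
    refine (Fintype.sum_equiv (Equiv.subtypeUnivEquiv hp) _
      (fun p : W × F => (1 : MulChar F ℂ) p.2 * τ (T.tv p.1 p.2⁻¹)) fun _ => rfl).trans ?_
    rw [Fintype.sum_prod_type]
    have : ∀ u : W, ∑ c : F, (1 : MulChar F ℂ) c * τ (T.tv u c⁻¹) = (if u = 0 then (𝔮 : ℂ) * t else 0) - t := by
      intro u
      have e1 : ∀ c : F, (1 : MulChar F ℂ) c * τ (T.tv u c⁻¹) = τ (T.tv u c⁻¹) - if c = 0 then (t : ℂ) else 0 := by
        intro c
        by_cases hc : c = 0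
        · rw [hc, MulChar.map_zero, _root_.inv_zero, spa_tv0 k0, b, if_pos rfl, zero_mul, sub_self]
        · rw [MulChar.one_apply (Ne.isUnit hc), if_neg hc, one_mul, sub_zero]
      rw [Finset.sum_congr rfl fun c _ => e1 c, Finset.sum_sub_distrib, Finset.sum_ite_eq', if_pos (Finset.mem_univ _),
        show ∑ c : F, τ (T.tv u c⁻¹) = _ from Equiv.sum_comp (Equiv.inv F) fun c => τ (T.tv u c)]
      split_ifs with hu
      · simp [hu, spa_tv0' k0, b]
      · rw [e u hu]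
    rw [Finset.sum_congr rfl fun u _ => this u, Finset.sum_sub_distrib, Finset.sum_ite_eq', if_pos (Finset.mem_univ _),
      Finset.sum_const, Finset.card_univ, nsmul_eq_mul, hW]
    ring
  rw [hs, u1, b, mul_one] at h6
  rw [u1, hT.om] at h5
  rw [hP, b] at h3
  have h8 := mul_right_cancel₀ t0 h6
  push_cast at h5
  have h9 : (x - 𝔮) * (x + 𝔮 ^ 2) = 0 := by linear_combination x * h8 - h5
  have hn := h7 (by rw [MulChar.one_apply isUnit_one.neg, one_mul, c])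
  refine ⟨t, Av.congr i ?_, d⟩
  rcases mul_eq_zero.1 h9 with h0 | h0
  · refine ⟨χ, h1, ?_, .inl hn.1⟩
    have hx : x = 𝔮 := by linear_combination h0
    have hy : y = -𝔮 ^ 2 := by linear_combination h8 - h0
    rw [hx, hy] at h4
    push_cast
    refine mul_left_cancel₀ q0 (mul_left_cancel₀ q3 ?_)
    linear_combination h4 + (𝔮 : ℂ) ^ 2 * h3
  · refine ⟨ψ, h2, ?_, .inl hn.2⟩
    have hx : x = -𝔮 ^ 2 := by linear_combination h0
    have hy : y = 𝔮 := by linear_combination h8 - h0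
    rw [hx, hy] at h4
    push_cast
    refine mul_left_cancel₀ q0 (mul_left_cancel₀ q3 ?_)
    linear_combination h4 + (𝔮 : ℂ) ^ 2 * h3

theorem spa_num {D : ℕ} {m : ℤ} (h : (63 : ℤ) * (D - 2 * m) = D * 15) (h2 : 2 ∣ D) (h5 : 5 ∣ D) (h7 : 7 ∣ D) :
    210 ∣ D := by
  have h3 : 3 ∣ D := by
    clear h2 h5 h7
    omega
  exact Nat.Coprime.mul_dvd_of_dvd_of_dvd (m := 6) (n := 35) (by norm_num)
    (Nat.Coprime.mul_dvd_of_dvd_of_dvd (m := 2) (n := 3) (by norm_num) h2 h3)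
    (Nat.Coprime.mul_dvd_of_dvd_of_dvd (m := 5) (n := 7) (by norm_num) h5 h7)

theorem spa_card [Fintype V] [DecidableEq V] (hκ : S.κ = 0) :
    Fintype.card {v // S.κ + S.Q v = 0 ∧ v ≠ 0} = Fintype.card V - 1 := by
  rw [Fintype.card_congr (Equiv.subtypeEquivRight (q := fun v => ¬ v = 0) fun v => by
    rw [hκ, spa_Q hκ, add_zero]; simp), Fintype.card_subtype_compl, Fintype.card_subtype_eq]

theorem spa_sum [Fintype V] [DecidableEq V] (hκ : S.κ = 0) {d : ℕ} (h : S.Pol d 1) {χ : S.Iso → ℂ}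
    (hχ : IsClassFunction _ χ) {u : V} (hu : u ≠ 0) :
    ∑ v : {v // S.κ + S.Q v = 0 ∧ v ≠ 0}, χ (S.tv v 1) = (Fintype.card V - 1) • χ (S.tv u 1) := by
  rw [← spa_card hκ, ← Finset.card_univ, ← Finset.sum_const]
  refine Finset.sum_congr rfl fun v _ => ?_
  obtain ⟨g, hg⟩ := h.trans hu v.2.2 (spa_Q hκ _) (spa_Q hκ _)
  rw [← hg, ← tv_conj, hχ.conj_apply]

/-- `t5` with `τ = 1`: the `63` transvections are conjugate involutions, so `63 m = 15 χ 1` with `m ∈ ℤ` (`exists_int_of_sq`)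
and `3 ∣ f`; `win 2 1 2 1 = 945`, `num_five`. -/
theorem av_sp62 (hκ : S.κ = 0) (h : S.Pol 3 1) (hq : 𝔮 = 2) : ∃ D, S.Av D ∧ 210 ∣ D := by
  classical
  obtain ⟨W, _, _, _, T, hT, hκ', ⟨i⟩⟩ := Pol.split (j := 1) (k := 2) h
  have k0 : T.κ = 0 := hκ'.trans hκ
  have k1 : (T.ext 2).κ = 0 := k0
  obtain ⟨ρ, hρ⟩ := cu2 (F := F)
  haveI := Fintype.ofFinite W
  obtain ⟨χ, f, a, h1, h2, h3, h4⟩ := FS.t5 (t := 1) hq hT hρ isIrrCharacter_one (fr_one hρ) Nat.cast_one.symm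
  have hW : Fintype.card W = 4 := by
    have := hT.finrank
    rw [if_pos k0] at this
    rw [Module.card_eq_pow_finrank (K := F), this, hq]
    norm_num
  have n0 : ((1, 0, 0) : (Fin 2 → F) × (Fin 2 → F) × W) ≠ 0 := fun e => one_ne_zero (congrArg Prod.fst e)
  obtain ⟨m, hm⟩ := exists_int_of_sq h1.isCharacter h2 (g := (T.ext 2).tv (1, 0, 0) 1) (by
    rw [← spa_add k1, one_add_one_eq_two, t5_two hq, spa_tv0 k1])
  have c2 : Fintype.card ((Fin 2 → F) × (Fin 2 → F) × W) = 64 := by simp [hq, hW]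
  have e1 := spa_sum k1 (hT.ext 2) h1.isClassFunction n0
  have e2 : ∑ _v : {v // T.κ + T.Q v = 0 ∧ v ≠ 0}, (1 : ℂ) = 3 := by
    rw [Finset.sum_const, Finset.card_univ, spa_card k0, hW]
    norm_num
  rw [c2, hm] at e1
  rw [e1, if_pos k0, h2] at h4
  beta_reduce at h4
  rw [e2] at h4
  have h5 : (63 : ℤ) * ((2 ^ (2 * a + 1) * f : ℕ) - 2 * m) = (2 ^ (2 * a + 1) * f : ℕ) * 15 := by
    apply Int.cast_injective (α := ℂ)
    simp only [nsmul_eq_mul] at h4
    push_cast at h4 ⊢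
    linear_combination h4
  have hw : win 2 1 2 1 = 945 := by simp [win, Finset.prod_range_succ]
  rw [hw] at h3
  have d5 := num_five (n := 1) (.inr (.inl rfl)) h3 (by norm_num)
  have d7 := num_five (n := 1) (.inr (.inr (.inl rfl))) h3 (by norm_num)
  refine ⟨_, Av.congr i ⟨χ, h1, h2, .inl (by rw [neg_eq_one (t5_two hq)])⟩, ?_⟩
  exact spa_num h5 ((dvd_pow_self 2 (Nat.succ_ne_zero _)).mul_right f)
    ((pow_one 5 ▸ d5).mul_left _) ((pow_one 7 ▸ d7).mul_left _)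

end Cfsg.Lib.HCI.FS
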