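import Cfsg.Agent.Lib.HCI.M0
import Cfsg.Agent.Lib.HCI.SpA

/-! S4984: the small groups of types `B` and `C`. For `κ = 0` we have `cc = 1`, so `Cv 1 r D` is `r ∣ D`. -/

set_option autoImplicit false
set_option linter.unusedSectionVars false

namespace Cfsg.Lib.HCI.FS

variable {F V : Type} [Field F] [Fintype F] [DecidableEq F] [AddCommGroup V] [Module F V] [Finite V] {S : FS F V}
  {d : ℕ}

local notation "𝔮" => Fintype.card F

theorem mc_cc (h : S.κ = 0) : S.cc = 1 := if_pos h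

theorem mc_cv (h : S.κ = 0) {r D : ℕ} (hr : r ∣ D) : Cv S.cc r D := ⟨hr, fun e => by rw [mc_cc h]; simpa [e] using hr⟩

theorem mc_pr {q d e r N : ℕ} (hr : r.Prime) (h : Pr q d e r) (h1 : q ∣ N) (h2 : 2 ∣ N) (n : ℕ) (h3 : win q 0 d e ∣ (N : ℤ) ^ n)
    (h4 : e ≠ 2) : r ∣ N := by
  rcases h with a | rfl | a | a
  · exact a.trans h1
  · exact h2
  · exact hr.dvd_of_dvd_pow (n := n) (by exact_mod_cast a.trans h3)
  · exact absurd a.1 h4

theorem mc_one {N : ℕ} (h : S.Sz d 1) (hκ : S.κ = 0) {D : ℕ} (hD : S.Av D) (hN : N ∣ D)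
    (H : ∀ r, r.Prime → Pr 𝔮 d 1 r → r ∣ N) : S.All d 1 := fun r s a b c x y =>
  h.lk hD a b c (mc_cv hκ ((H r a x).trans hN)) (mc_cv hκ ((H s b y).trans hN))

theorem mc_cancel {q f : ℕ} {a b : ℤ} (hq : 2 ≤ q) (h : (f : ℤ) * ((q - 1) * (q ^ 1 + q)) = a)
    (h' : a = b * ((q - 1) * q)) : 2 * f = b := by
  have h1 : (2 : ℤ) ≤ q := by exact_mod_cast hq
  have h0 : ((q : ℤ) - 1) * q ≠ 0 := mul_ne_zero (by omega) (by omega)
  exact mul_right_cancel₀ h0 (by linear_combination h + h')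

theorem mc_odd {r f : ℕ} {b : ℤ} (hr : r.Prime) (h2 : r ≠ 2) (h : 2 * (f : ℤ) = b) (hb : (r : ℤ) ∣ b) : r ∣ f := by
  rw [← h] at hb
  exact ((Nat.coprime_primes hr Nat.prime_two).2 h2).dvd_of_dvd_mul_left (by exact_mod_cast hb)

/-- `κ = 0`, `q ≥ 3`. For `q = 3`: the primes are `2, 3, 5` and `av_c2` gives a multiple of `30`. For `q ≥ 4`: `all_of`,
`lk_even` with `j = 0`, `k = 2` (`rho_two`); for the characteristic `r` and `s ∣ (q - 1) (q + 1) (q² + 1)`: `av_c2` if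
`s ∣ q² + 1` (this includes `s = 2`) or `s ∣ q - 1`; `av_f` (`2 f = q (q + 1)²`, `cv_half`) if `s ∣ q + 1` is odd. -/
theorem Sz.all_c2 (h : S.Sz 2 1) : S.All 2 1 := by
  have hκ : S.κ = 0 := S.hκ.resolve_right fun a => by have := h.or a; omega
  have hq := (h.sp hκ).2 rfl
  obtain ⟨t, a, b⟩ := av_c2 hκ h.pol hq
  rcases hq.eq_or_lt with e | e
  · refine mc_one (N := 30) h hκ a (by rw [← e]; exact Dvd.intro _ rfl) fun r x y => ?_
    rw [← e] at y
    exact mc_pr x y (by norm_num) (by norm_num) 7 (by decide) (by decide)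
  refine all_of (Sz.lk_even (j := 0) h le_rfl (by decide) (rho_two e) (by omega) (by omega)) fun r s hr hs hrs h1 h2 h3 => ?_
  have k1 : s ∣ 𝔮 ^ 2 + 1 ∨ s ∣ t → S.Lk r s := fun c => h.lk a hr hs hrs
    (mc_cv hκ ((h2.mul_right _).mul_right _)) (mc_cv hκ (c.elim (fun c => (c.mul_left _).mul_right _) (·.mul_left _)))
  by_cases h4 : s = 2
  · subst h4
    exact k1 (.inl (even_iff_two_dvd.1 ((Nat.odd_iff.2 (by omega) : Odd 𝔮).pow.add_one)))
  have hz := Nat.prime_iff_prime_int.1 hs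
  have h5 : (s : ℤ) ∣ (𝔮 - 1) ^ 2 * (𝔮 + 1) ^ 2 * (𝔮 ^ 2 + 1) := by
    rcases h1 with c | c | c | c
    · exact absurd c h3
    · exact absurd c h4
    · convert c using 1
      simp [win, Finset.prod_range_succ]; ring
    · omega
  rcases hz.dvd_or_dvd h5 with c | c
  · rcases hz.dvd_or_dvd c with c | c
    · refine k1 (.inr (b s hs h4 ?_))
      have := hz.dvd_of_dvd_pow c
      zify [show 1 ≤ 𝔮 by omega]
      exact this
    · obtain ⟨f, x, y⟩ := Pol.av_f (j := 0) h.pol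
      have z := mc_cancel (b := 𝔮 * (𝔮 + 1) ^ 2) two_le_q y (by ring)
      refine h.lk x hr hs hrs (cv_half hq h.pol ?_ r hr h2) (mc_cv hκ (mc_odd hs h4 z (c.mul_left _)))
      exact_mod_cast (z ▸ Dvd.intro _ rfl : (𝔮 : ℤ) ∣ 2 * f)
  · exact k1 (.inl (by exact_mod_cast c))

/-- `q ≥ 4`, or `κ = 1` (`q` odd, `Sz.ng`, `rho_two'`): `all_even` with `j = 1`, `k = 2`. `κ = 0`, `q = 2`: the primes are
`2, 3, 5, 7`, `av_sp62`. `κ = 0`, `q = 3`: the primes are `2, 3, 5, 7, 13`; `t1_neg` with `cu2_any`, `j = 1`, `k = 2` gives a multiple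
of `7280 = 16 * 5 * 7 * 13` (or `num_even`); `av_f` gives `195 = 3 * 5 * 13` and `av_g` gives `168 = 8 * 3 * 7`. -/
theorem Sz.all_c3 (h : S.Sz 3 1) : S.All 3 1 := by
  have h2 := two_le_q (F := F)
  have key : S.Rho 2 → S.All 3 1 := fun ρ =>
    Sz.all_even (j := 1) h le_rfl (by decide) ρ le_rfl (by omega) (by omega) (by omega)
  by_cases hq : 4 ≤ 𝔮
  · exact key (rho_two hq)
  rcases S.hκ with hκ | hκ
  swap
  · have h3 := h.pol.typ.2.2 hκ rfl
    exact key (rho_two' (by by_contra c; exact h3 (card_two (by omega))) (h.ng hκ h3 (.inl rfl)))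
  obtain e | e : 𝔮 = 2 ∨ 𝔮 = 3 := by omega
  · obtain ⟨D, a, b⟩ := av_sp62 hκ h.pol e
    refine mc_one h hκ a b fun r x y => ?_
    rw [e] at y
    exact mc_pr x y (by norm_num) (by norm_num) 4 (by decide) (by decide)
  obtain ⟨ρ, a, b⟩ := cu2_any (F := F) e.ge
  obtain ⟨D, t, x, y⟩ := Pol.t1_neg (j := 1) h.pol one_pos one_lt_two (card_three e) a b
  refine all_of (fun r s hr hs hrs u v u' v' => h.lk x hr hs hrs
    (num_even h2 S.cc_dvd le_rfl (by decide) one_lt_two (by omega) (by omega) hr u' u y)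
    (num_even h2 S.cc_dvd le_rfl (by decide) one_lt_two (by omega) (by omega) hs v' v y)) fun r s hr hs hrs h1 h3 h4 => ?_
  obtain ⟨f, f1, f2⟩ := Pol.av_f (j := 1) h.pol
  obtain ⟨g, g1, g2⟩ := Pol.av_g (j := 1) h.pol
  rw [e] at h1 h3 f2 g2
  obtain rfl : f = 195 := by simp only [Ff] at f2; omega
  obtain rfl : g = 168 := by simp only [Fg] at g2; omega
  have := mc_pr (N := 195 * 168) hs h1 (by norm_num) (by norm_num) 4 (by decide) (by decide)
  rcases hs.dvd_mul.1 this with c | c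
  · exact h.lk f1 hr hs hrs (mc_cv hκ (h3.trans (by norm_num))) (mc_cv hκ c)
  · exact h.lk g1 hr hs hrs (mc_cv hκ (h3.trans (by norm_num))) (mc_cv hκ c)

/-- `all_three` with `j = 0`. `q ≥ 3`: `av_g`, `2 g = q (q² + q + 1) (q⁴ + 1)`, `cv_half`. `q = 2` (so `κ = 0`): `Pol.t5` with
`sr_one`, `win 2 2 2 1 = 16065`, `num_five` (`r = 7`), `cv_two`. -/
theorem Sz.all_c4 (h : S.Sz 4 1) : S.All 4 1 := by
  refine Sz.all_three (j := 0) h (by omega) (by omega) (by omega) ?_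
  rcases (two_le_q (F := F)).eq_or_lt with e | e
  · have hκ : S.κ = 0 := S.hκ.resolve_right fun a => h.pol.typ.2.2 a rfl (card_two e.symm)
    obtain ⟨f, a, t, x, y, rfl⟩ := Pol.t5 (j := 2) e.symm h.pol sr_one
    refine ⟨_, x, fun r u v => cv_two e.symm (.inl ⟨(dvd_pow_self 2 (by omega)).mul_right _, hκ⟩) r u v, ?_⟩
    rw [← e]
    exact (num_five (r := 7) (n := 1) (by omega) y (by decide)).mul_left _
  · obtain ⟨g, x, y⟩ := Pol.av_g (j := 2) h.pol
    have z := mc_cancel (b := 𝔮 * (𝔮 ^ 2 + 𝔮 + 1) * (𝔮 ^ 4 + 1)) two_le_q y (by ring)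
    have z' : 2 * g = 𝔮 * (𝔮 ^ 2 + 𝔮 + 1) * (𝔮 ^ 4 + 1) := by exact_mod_cast z
    refine ⟨g, x, fun r u v => cv_half e h.pol (z' ▸ (Dvd.intro _ rfl).mul_right _) r u v, ?_⟩
    refine (Nat.coprime_two_right.2 ?_).dvd_of_dvd_mul_left (z' ▸ (Dvd.intro_left _ rfl).mul_right _)
    rw [pow_two, ← Nat.mul_add_one]
    exact (Nat.even_mul_succ_self _).add_one

end Cfsg.Lib.HCI.FS
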