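import Cfsg.Agent.Lib.HCI.Tool

/-! S4984: special degrees of `O₈⁻(3)` and `O₈⁻(2)`. -/

set_option autoImplicit false
set_option linter.unusedSectionVars false

namespace Cfsg.Lib.HCI.FS

open Module Matrix Cfsg.Lib.Char Cfsg.Lib.Orth

variable {F V : Type} [Field F] [Fintype F] [DecidableEq F] [AddCommGroup V] [Module F V] [Finite V] {S : FS F V}

local notation "𝔮" => Fintype.card F

theorem spb_B (hκ : S.κ = 1) {f : V →ₗ[F] V} (h : ∀ x, S.Q (f x) = - S.Q x) (x y : V) :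
    S.B (f x) (f y) = - S.B x y := by
  have h1 := h (x + y)
  rw [map_add, S.add, S.add, h, h, hκ] at h1
  linear_combination h1

theorem spb_plane (hq : 𝔮 = 3) (hκ : S.κ = 1) (an : ∀ v, S.Q v = 0 → v = 0) (h : S.Pol 0 2) :
    ∃ f : V →ₗ[F] V, ∀ x, S.Q (f x) = - S.Q x := by
  have hr : finrank F V = 2 := by rw [h.finrank, if_neg (by rw [hκ]; exact one_ne_zero)]
  have h3 : (3 : F) = 0 := by
    have := FiniteField.cast_card_eq_zero F
    rwa [hq, Nat.cast_ofNat] at this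
  have h2 : (2 : F) ≠ 0 := fun e => one_ne_zero (α := F) (by linear_combination h3 - e)
  have sq : ∀ a : F, a ≠ 0 → a ^ 2 = 1 := fun a ha => by
    have := FiniteField.pow_card_sub_one_eq_one a ha
    rwa [hq] at this
  haveI : Nontrivial V := Module.nontrivial_of_finrank_pos (R := F) (by omega)
  obtain ⟨u, hu⟩ := exists_ne (0 : V)
  obtain ⟨w, hw, hw0⟩ : ∃ w, S.B u w = 0 ∧ w ≠ 0 :=
    (Submodule.ne_bot_iff _).1 (LinearMap.ker_ne_bot_of_finrank_lt (f := S.B u) (by simp [hr]))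
  have qu : S.Q u ≠ 0 := mt (an u) hu
  have qw : S.Q w ≠ 0 := mt (an w) hw0
  have li : LinearIndependent F ![u, w] := by
    refine LinearIndependent.pair_iff.2 fun a b e => ?_
    have e1 := congrArg (S.B u) e
    have e2 := congrArg (S.B w) e
    simp only [map_add, map_smul, hw, S.B_comm hw, S.self, smul_eq_mul, map_zero, mul_zero, add_zero, zero_add,
      mul_eq_zero, h2, qu, qw, or_false] at e1 e2
    exact ⟨e1, e2⟩
  have hQ : ∀ a b : F, S.Q (a • u + b • w) = a ^ 2 * S.Q u + b ^ 2 * S.Q w := fun a b => by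
    simp [S.add, S.smul, hw]
  have he : S.Q w = S.Q u := by
    have h1 : S.Q u + S.Q w ≠ 0 := fun e => one_ne_zero (LinearIndependent.pair_iff.1 li 1 1
      (an _ (by rw [hQ]; linear_combination e))).1
    exact mul_left_cancel₀ h1 (by linear_combination sq _ qw - sq _ qu)
  let b : Basis (Fin 2) F V := basisOfLinearIndependentOfCardEqFinrank li (by simp [hr])
  have b0 : b 0 = u := by simp [b]
  have b1 : b 1 = w := by simp [b]
  refine ⟨b.constr F ![u + w, u - w], fun x => ?_⟩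
  have hx : x = b.repr x 0 • u + b.repr x 1 • w := by
    conv_lhs => rw [← b.sum_repr x]
    rw [Fin.sum_univ_two, b0, b1]
  have hy : b.constr F ![u + w, u - w] x = (b.repr x 0 + b.repr x 1) • u + (b.repr x 0 - b.repr x 1) • w := by
    rw [Basis.constr_apply_fintype, Fin.sum_univ_two]
    simp only [Basis.equivFun_apply, cons_val_zero, cons_val_one]
    module
  conv_rhs => rw [hx]
  rw [hy, hQ, hQ, he]
  linear_combination (b.repr x 0 ^ 2 + b.repr x 1 ^ 2) * S.Q u * h3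

/-- On the hyperbolic part `(x, y) ↦ (x, -y)`. The anisotropic plane has an orthogonal basis `e₁, e₂`, with
`Q e₁ = Q e₂ = ± 1` as `e₁ + e₂` is not singular; `e₁ ↦ e₁ + e₂`, `e₂ ↦ e₁ - e₂`. -/
theorem exists_sim {j : ℕ} (hq : 𝔮 = 3) (hκ : S.κ = 1) (h : S.Pol j 2) :
    ∃ σ : V ≃ₗ[F] V, (∀ x, S.Q (σ x) = - S.Q x) ∧ ∀ x y, S.B (σ x) (σ y) = - S.B x y := by
  obtain ⟨V0, _, _, _, S0, an, om, ⟨i⟩⟩ := h
  have k0 : S0.κ = 1 := (show (S0.ext j).κ = S.κ from i.κ).trans hκ
  obtain ⟨i0⟩ := S0.ext_zero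
  obtain ⟨f, hf⟩ := spb_plane hq k0 an ⟨V0, _, _, inferInstance, S0, an, om, ⟨i0.symm⟩⟩
  let g := i.e.symm.toLinearMap ∘ₗ (LinearMap.id.prodMap ((-LinearMap.id).prodMap f)) ∘ₗ i.e.toLinearMap
  have hg : ∀ x, S.Q (g x) = - S.Q x := fun x => by
    rw [← i.Q x, ← i.Q (g x)]
    simp [g, ext_Q, hf]
    ring
  have hB := spb_B hκ hg
  exact ⟨LinearEquiv.ofBijective g (Finite.injective_iff_bijective.1 (LinearMap.ker_eq_bot.1
    (LinearMap.ker_eq_bot'.2 fun x h => S.nd x fun y => neg_eq_zero.1 (by rw [← hB, h]; simp)))), hg, hB⟩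

/-- Conjugation by `σ`; `σ` permutes the points. -/
theorem exists_aut {σ : V ≃ₗ[F] V} (h1 : ∀ x, S.Q (σ x) = - S.Q x) (h2 : ∀ x y, S.B (σ x) (σ y) = - S.B x y) :
    ∃ Φ : S.Iso ≃* S.Iso, (∀ g, S.pi1 (Φ g) = S.pi1 g) ∧ ∀ u c, Φ (S.tv u c) = S.tv (σ u) (-c) := by
  have h1' : ∀ x, S.Q (σ.symm x) = - S.Q x := fun x => by rw [← neg_eq_iff_eq_neg, ← h1, σ.apply_symm_apply]
  have h2' : ∀ x y, S.B (σ.symm x) (σ.symm y) = - S.B x y := fun x y => by
    rw [← neg_eq_iff_eq_neg, ← h2, σ.apply_symm_apply, σ.apply_symm_apply]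
  let Φ : S.Iso ≃* S.Iso :=
    { toFun := fun g => ⟨σ.symm.trans (g.1.trans σ), fun x y => by simp [h2, h2', map_B],
        fun x => by simp [h1, h1', map_Q]⟩
      invFun := fun g => ⟨σ.trans (g.1.trans σ.symm), fun x y => by simp [h2, h2', map_B],
        fun x => by simp [h1, h1', map_Q]⟩
      left_inv := fun g => iso_ext fun x => by simp
      right_inv := fun g => iso_ext fun x => by simp
      map_mul' := fun g g' => iso_ext fun x => by simp }
  have ha : ∀ g x, (Φ g).1 (σ x) = σ (g.1 x) := fun g x => by simp [Φ]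
  refine ⟨Φ, fun g => ?_, fun u c => ?_⟩
  · let m : ∀ τ : V ≃ₗ[F] V, (∀ x, S.Q (τ x) = - S.Q x) → S.Pt → S.Pt := fun τ h p =>
      ⟨p.1.map (τ : V →ₗ[F] V), by
        obtain ⟨v, h0, h3, h4⟩ := p.2
        exact ⟨τ v, by simpa using h0, by rw [h, h3, neg_zero], by simp [h4, Submodule.map_span]⟩⟩
    let e : S.Pt ≃ S.Pt := ⟨m σ h1, m σ.symm h1',
      fun p => Subtype.ext (by simp [m, ← Submodule.map_comp]),
      fun p => Subtype.ext (by simp [m, ← Submodule.map_comp])⟩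
    have h : ∀ p, Φ g • e p = e (g • p) := fun p => Subtype.ext (by
      show (p.1.map _).map _ = (p.1.map _).map _
      rw [← Submodule.map_comp, ← Submodule.map_comp]
      exact congrArg (fun f => p.1.map f) (LinearMap.ext fun x => ha g x))
    refine congrArg (Nat.cast : ℕ → ℂ) (Nat.card_congr (Equiv.subtypeEquiv e fun p => ?_)).symm
    rw [MulAction.mem_fixedBy, MulAction.mem_fixedBy, h, e.apply_eq_iff_eq]
  · by_cases h : S.κ + c * S.Q u = 0
    · refine iso_ext fun x => ?_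
      obtain ⟨y, rfl⟩ := σ.surjective x
      rw [ha, tv_ap _ h, tv_ap _ (by rw [h1]; linear_combination h), h2, map_add, map_smul, _root_.neg_mul_neg]
    · rw [tv, dif_neg h, tv, dif_neg (by rw [h1, _root_.neg_mul_neg]; exact h), map_one]

/-- `rank_three` gives the degrees `90` and `21`; `χ ∘ Φ` is a constituent of `pi1` of degree `90`, so it is `χ`. Reindex the
sum by `(u, c) ↦ (σ u, -c)`. -/
theorem exists_ninety [Fintype V] (hq : 𝔮 = 3) (hκ : S.κ = 1) (h : S.Pol 2 2) {lam : MulChar F ℂ} (hl : lam (-1) = -1) :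
    ∃ τ, S.Cp τ ∧ τ 1 = 90 ∧
      ∑ p : {p : V × F // S.κ * p.2 + S.Q p.1 = 0}, lam p.1.2 * τ (S.tv p.1.1 p.1.2⁻¹) = 0 := by
  obtain ⟨σ, s1, s2⟩ := exists_sim hq hκ h
  obtain ⟨Φ, p1, p2⟩ := exists_aut s1 s2
  obtain ⟨χ, ψ, f, g, a, b, c, h1, h2, h3, h4⟩ := Pol.rank_three (j := 0) h
  rw [hq] at h3 h4
  norm_num at h3 h4
  obtain rfl : f = 90 := by omega
  obtain rfl : g = 21 := by omega
  have a' := a.comp_equiv Φ
  have b' := b.comp_equiv Φ
  have hΦ : (fun x => χ (Φ x)) = χ := by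
    by_contra ne
    have e : (fun x => χ (Φ x)) + (fun x => ψ (Φ x)) = χ + ψ := funext fun x => by
      have := p1 x
      rw [c] at this
      simp only [Pi.add_apply] at this ⊢
      linear_combination this
    have := congrArg (classInner fun x => χ (Φ x)) e
    rw [classInner_add_right, classInner_add_right, a'.inner_self, a'.inner_eq_zero_of_ne a ne,
      a'.inner_eq_zero_of_ne b fun e => ?_, a'.inner_eq_zero_of_ne b' fun e => ?_] at this
    · norm_num at this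
    all_goals
      have := congrFun e 1
      simp only [map_one, h1, h2] at this
      norm_num at this
  refine ⟨χ, ⟨a, _, isIrrCharacter_one.isCharacter.add b.isCharacter, c.trans (by abel)⟩, by rw [h1]; norm_num, ?_⟩
  let E : {p : V × F // S.κ * p.2 + S.Q p.1 = 0} ≃ {p : V × F // S.κ * p.2 + S.Q p.1 = 0} :=
    Equiv.subtypeEquiv (σ.toEquiv.prodCongr (Equiv.neg F)) fun p => by
      show _ ↔ S.κ * -p.2 + S.Q (σ p.1) = 0
      rw [s1, ← neg_eq_zero]
      ring_nf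
  have e := Equiv.sum_comp E fun p => lam p.1.2 * χ (S.tv p.1.1 p.1.2⁻¹)
  rw [← self_eq_neg, ← Finset.sum_neg_distrib, ← e]
  refine Finset.sum_congr rfl fun p _ => ?_
  show lam (-p.1.2) * χ (S.tv (σ p.1.1) (-p.1.2)⁻¹) = _
  rw [inv_neg, ← p2, show χ (Φ _) = _ from congrFun hΦ _, ← neg_one_mul p.1.2, map_mul, hl]
  ring

theorem spb_half (hκ : S.κ = 1) {d e : ℕ} (h : S.Pol d e) {lam : MulChar F ℂ} {a b n t x y : ℂ} (h3 : a + b = n)
    (h4 : a * x + b * y = 0) (h5 : x * y = - (lam S.ε * S.om)) (h6 : (x + y) * lam S.ε * t = 0) (ht : t ≠ 0) :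
    2 * a = n := by
  have e : lam S.ε = 1 := by rw [ε, hκ, show (2 : F) * 1 - 1 = 1 by ring, map_one]
  rw [e, mul_one] at h6
  rw [e, one_mul, h.om] at h5
  have h7 : x + y = 0 := (mul_eq_zero.1 h6).resolve_right ht
  have hx : x ≠ 0 := by
    rintro rfl
    rw [zero_mul, zero_eq_neg] at h5
    exact pow_ne_zero _ Fintype.card_ne_zero (Nat.cast_eq_zero.1 h5)
  exact mul_left_cancel₀ hx (by linear_combination h4 - b * h7 + x * h3)

/-- `t6` with `exists_eta`, `ci_g1`, `Cp.fr`: `x + y = 0 ≠ x`, so `χ 1 = ψ 1 = 1066 * 90 / 2`; `Sz.ng`. -/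
theorem av_m3 (hq : 𝔮 = 3) (hκ : S.κ = 1) (h : S.Sz 3 2) : S.Av 47970 := by
  obtain ⟨W, _, _, _, T, hT, hκ', ⟨i⟩⟩ := Pol.split (j := 2) (k := 1) h.pol
  have k0 : T.κ = 1 := hκ'.trans hκ
  haveI := Fintype.ofFinite W
  obtain ⟨lam, l1, l2, l3⟩ := exists_eta hq
  obtain ⟨τ, a, b, c⟩ := exists_ninety hq k0 hT l3
  obtain ⟨χ, ψ, x, y, h1, -, h3, h4, h5, h6, -⟩ := t6 l2 a.1 (a.fr (ci_g1 l1))
  have hP : (Nat.card (T.ext 1).Pt : ℤ) = 1066 := by
    have := (hT.ext 1).card_pt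
    rw [hq] at this
    generalize Nat.card (T.ext 1).Pt = N at this ⊢
    norm_num at this
    omega
  have h2 : (2 : F) ≠ 0 := fun e => one_ne_zero (α := F) (by
    have := FiniteField.cast_card_eq_zero F
    rw [hq, Nat.cast_ofNat] at this
    linear_combination this - e)
  have hD := spb_half k0 hT h3 h4 h5 (h6.trans c) (by rw [b]; norm_num)
  refine Av.congr i ⟨χ, h1, ?_, .inr (mt (tl_com i.symm) (h.ng hκ h2 (.inr (.inr ⟨rfl, by decide⟩))))⟩
  rw [b, show (Nat.card (T.ext 1).Pt : ℂ) = 1066 by exact_mod_cast hP] at hD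
  push_cast
  linear_combination hD / 2

/-- The action on the three non-zero vectors is 2-transitive: `tv u 1` fixes `u` and swaps the other two. `τ` is the
permutation character minus `1`. -/
theorem exists_two (hq : 𝔮 = 2) (hκ : S.κ = 1) (h : S.Pol 0 2) :
    ∃ τ, IsIrrCharacter S.Iso τ ∧ τ 1 = 2 ∧ ∀ u, S.Q u = 1 → τ (S.tv u 1) = 0 := by
  classical
  have h2 := t5_two hq
  have an : ∀ v, S.Q v = 0 → v = 0 := fun v hv => by
    obtain ⟨_, _, _, _, S0, h1, -, ⟨i⟩⟩ := h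
    obtain ⟨i'⟩ := S0.ext_zero
    exact (i.trans i').e.map_eq_zero_iff.1 (h1 _ (((i.trans i').Q v).trans hv))
  have q1 : ∀ v, v ≠ 0 → S.Q v = 1 := fun v hv => t5_one hq (mt (an v) hv)
  have dd : ∀ v : V, v + v = 0 := fun v => by rw [← two_smul F, h2, zero_smul]
  have ne : ∀ {x u : V}, x ≠ u → x + u ≠ 0 := fun {x u} n e => n (add_right_cancel (e.trans (dd u).symm))
  have hB : ∀ {x u : V}, x ≠ 0 → u ≠ 0 → x ≠ u → S.B x u = 1 := fun {x u} hx hu n => by
    have := S.add x u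
    rw [q1 _ (ne n), q1 _ hx, q1 _ hu, hκ] at this
    linear_combination -this - h2
  have bs : ∀ u, S.B u u = 0 := fun u => by rw [S.self, h2, zero_mul]
  have ta : ∀ {u : V}, u ≠ 0 → ∀ x, (S.tv u 1).1 x = x + S.B x u • u := fun {u} hu x => by
    rw [tv_ap _ (by rw [q1 u hu, hκ]; linear_combination h2), one_mul]
  have sw : ∀ {a b : V}, a ≠ 0 → b ≠ 0 → a ≠ b → (S.tv (a + b) 1).1 a = b := fun {a b} ha hb n => by
    rw [ta (ne n), map_add, bs, hB ha hb n, zero_add, one_smul, ← add_assoc, dd, zero_add]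
  letI : MulAction S.Iso {v : V // v ≠ 0} :=
    { smul := fun g v => ⟨g.1 v.1, fun e => v.2 (g.1.map_eq_zero_iff.1 e)⟩
      one_smul := fun _ => rfl
      mul_smul := fun _ _ _ => rfl }
  have sm : ∀ (g : S.Iso) (v w : {v : V // v ≠ 0}), g • v = w ↔ g.1 v.1 = w.1 := fun g v w => Subtype.ext_iff
  haveI := Fintype.ofFinite V
  haveI : MulAction.IsPretransitive S.Iso {v : V // v ≠ 0} := ⟨fun a b => by
    by_cases e : a = b
    · exact ⟨1, by rw [one_smul, e]⟩
    · exact ⟨_, (sm _ _ _).2 (sw a.2 b.2 (mt Subtype.ext e))⟩⟩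
  have hV : Fintype.card V = 4 := by
    have := h.om
    rwa [om, if_neg (by rw [hκ]; exact one_ne_zero), hq, mul_one, Nat.card_eq_fintype_card] at this
  have hc : Fintype.card {v : V // v ≠ 0} = 3 := by
    rw [Fintype.card_subtype_compl, Fintype.card_subtype_eq, hV]
  obtain ⟨a, b, hab⟩ := Fintype.exists_pair_of_one_lt_card (α := {v : V // v ≠ 0}) (by omega)
  have i2 := PermChar.inner_pc_self (G := S.Iso) a
  rw [r3_card_orb (fun y => y = a) (fun p => by
      by_cases c : p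
      · exact ⟨a, by simp [c]⟩
      · exact ⟨b, propext (iff_of_false hab.symm c)⟩)
    fun y y' => ?_, Nat.card_eq_fintype_card, Fintype.card_prop] at i2
  · have hπ : IsCharacter S.Iso (PermChar.pc S.Iso {v : V // v ≠ 0}) := isCharacter_card_fixedBy _
    have h1 : IsIrrCharacter S.Iso fun _ => 1 := isIrrCharacter_one
    have i1 := PermChar.inner_pc_one_of_trans (G := S.Iso) a
    have hs := (hπ.sub_irr h1 (by rw [i1]; simp)).isIrrCharacter_of_inner_self (by
      rw [classInner_sub_right, classInner_sub_left, classInner_sub_left, i1, h1.inner_self,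
        h1.isCharacter.inner_comm hπ, i1, i2]
      norm_num)
    refine ⟨_, hs, ?_, fun u hu => ?_⟩
    · simp only [Pi.sub_apply, PermChar.pc, MulAction.fixedBy_one_eq_univ, Nat.card_univ]
      rw [Nat.card_eq_fintype_card, hc]
      norm_num
    · have u0 : u ≠ 0 := fun e => by rw [e, S.Q_zero] at hu; exact zero_ne_one hu
      have : MulAction.fixedBy {v : V // v ≠ 0} (S.tv u 1) = {⟨u, u0⟩} := by
        ext x
        rw [MulAction.mem_fixedBy, sm, ta u0, Set.mem_singleton_iff, Subtype.ext_iff, add_eq_left]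
        refine ⟨fun e => by_contra fun n => u0 (by rwa [hB x.2 u0 n, one_smul] at e), fun e => ?_⟩
        rw [e, bs, zero_smul]
      simp [PermChar.pc, this]
  · rw [MulAction.orbitRel_apply, eq_iff_iff]
    constructor
    · rintro ⟨g, rfl⟩
      have : g • a = a := g.2
      exact ⟨fun e => (smul_left_cancel_iff g).1 (e.trans this.symm), fun e => (congrArg (g • ·) e).trans this⟩
    · intro e
      by_cases c : y' = y
      · exact ⟨1, by simp [c]⟩
      have n1 : y ≠ a := fun k => c ((e.1 k).trans k.symm)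
      have n2 : y' ≠ a := mt e.2 n1
      refine ⟨⟨S.tv (y'.1 + y.1) 1, (sm _ _ _).2 ?_⟩, (sm _ _ _).2 (sw y'.2 y.2 (mt Subtype.ext c))⟩
      rw [ta (ne (mt Subtype.ext c)), map_add, hB a.2 y'.2 (mt Subtype.ext n2.symm),
        hB a.2 y.2 (mt Subtype.ext n1.symm), one_add_one_eq_two, h2, zero_smul, add_zero]

/-- `t6` with `lam = 1`, `exists_two`, `Pol.fr`: `x + y = 0`, five points. -/
theorem exists_five (hq : 𝔮 = 2) (hκ : S.κ = 1) (h : S.Pol 1 2) : ∃ τ, IsIrrCharacter S.Iso τ ∧ τ 1 = 5 := by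
  obtain ⟨W, _, _, _, T, hT, hκ', ⟨i⟩⟩ := Pol.split (j := 0) (k := 1) h
  have k0 : T.κ = 1 := hκ'.trans hκ
  haveI := Fintype.ofFinite W
  obtain ⟨τ, a, b, c⟩ := exists_two hq k0 hT
  obtain ⟨χ, ψ, x, y, h1, -, h3, h4, h5, h6, -⟩ := t6 (one_pow 2) a (hT.fr zero_lt_one _ τ)
  have hP : (Nat.card (T.ext 1).Pt : ℤ) = 5 := by
    have := (hT.ext 1).card_pt
    rw [hq] at this
    generalize Nat.card (T.ext 1).Pt = N at this ⊢
    norm_num at this
    omega
  have hD := spb_half k0 hT h3 h4 h5 (h6.trans (Finset.sum_eq_zero fun p _ => by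
    by_cases e : p.1.2 = 0
    · rw [e, MulChar.map_zero, zero_mul]
    · have := p.2
      have e1 := t5_one hq e
      rw [e1, _root_.inv_one, c _ (by linear_combination this - t5_two hq - k0 - T.κ * e1), mul_zero])) (by rw [b]; norm_num)
  refine ⟨_, h1.comp_equiv i.congr, ?_⟩
  rw [b, show (Nat.card (T.ext 1).Pt : ℂ) = 5 by exact_mod_cast hP] at hD
  rw [map_one]
  linear_combination hD / 2

/-- The reflections are conjugate (`witt_vec` for `toQ`, `tv_conj`) involutions, the value is odd (`exists_int_of_sq`), and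
`Q` takes the value `1` (`nd`). -/
theorem sum_refl_ne [Fintype V] [DecidableEq V] [Nontrivial V] (hq : 𝔮 = 2) (hκ : S.κ = 1) {τ : S.Iso → ℂ}
    (hτ : IsCharacter _ τ) {t : ℕ} (ht : τ 1 = t) (h : Odd t) :
    ∑ v : {v // S.κ + S.Q v = 0 ∧ v ≠ 0}, τ (S.tv v 1) ≠ 0 := by
  have h2 := t5_two hq
  have q1 : ∀ v, S.κ + S.Q v = 0 ↔ S.Q v = 1 := fun v => by
    rw [hκ]
    exact ⟨fun e => by linear_combination e - h2, fun e => by linear_combination e + h2⟩
  obtain ⟨u, hu⟩ : ∃ u, S.Q u ≠ 0 := by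
    by_contra! c
    obtain ⟨x, hx⟩ := exists_ne (0 : V)
    refine hx (S.nd x fun y => ?_)
    have := S.add x y
    rw [c, c, c, hκ] at this
    linear_combination -this
  have u0 : u ≠ 0 := fun e => hu (e ▸ S.Q_zero)
  have u1 := t5_one hq hu
  have ta := tv_ap (S := S) (u := u) (c := 1) (by rw [one_mul]; exact (q1 u).2 u1)
  obtain ⟨m, hm⟩ := exists_int_of_sq hτ ht (g := S.tv u 1) (iso_ext fun x => by
    rw [mul_ap, ta, ta, one_ap, map_add, map_smul, LinearMap.add_apply, LinearMap.smul_apply, S.self, h2, zero_mul,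
      smul_zero, add_zero, add_assoc, ← two_smul F, h2, zero_smul, add_zero])
  rw [Finset.sum_congr rfl (g := fun _ => τ (S.tv u 1)) fun v _ => ?_, Finset.sum_const, nsmul_eq_mul, hm]
  · refine mul_ne_zero (Nat.cast_ne_zero.2 (Finset.card_ne_zero.2 ⟨⟨u, (q1 u).2 u1, u0⟩, Finset.mem_univ _⟩)) fun e => ?_
    have : (t : ℤ) - 2 * m = 0 := by exact_mod_cast e
    obtain ⟨k, rfl⟩ := h
    omega
  · obtain ⟨g, hg⟩ := witt_vec (nd_toQ hκ) u0 v.2.2 (u1.trans ((q1 _).1 v.2.1).symm)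
    have : ((eqO hκ).symm g).1 u = v.1 := by rw [← eqO_ap hκ, MulEquiv.apply_symm_apply, hg]
    rw [← this, ← tv_conj, hτ.isClassFunction.conj_apply]

theorem spb_congr {V' : Type} [AddCommGroup V'] [Module F V'] [Finite V'] {S' : FS F V'} (i : Isom S S') (u : V) (c : F) :
    i.congr (S.tv u c) = S'.tv (i.e u) c := by
  by_cases h : S.κ + c * S.Q u = 0
  · refine iso_ext fun x => ?_
    obtain ⟨y, rfl⟩ := i.e.surjective x
    rw [i.congr_ap, tv_ap _ h, tv_ap _ (by rwa [i.κ, i.Q]), i.B, map_add, map_smul]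
  · rw [tv, dif_neg h, tv, dif_neg (by rwa [i.κ, i.Q]), map_one]

/-- `t5` with `exists_five`; `χ` does not vanish on some reflection, `Sz.mem_of_refl`; `win 2 1 2 2 = 3213`, `num_five`. -/
theorem mem_m2 (hq : 𝔮 = 2) (hκ : S.κ = 1) (h : S.Sz 3 2) : ∃ D ∈ charDegrees (PCom S.Iso), 70 ∣ D := by
  classical
  obtain ⟨W, _, _, _, T, hT, hκ', ⟨i⟩⟩ := Pol.split (j := 1) (k := 2) h.pol
  have k0 : T.κ = 1 := hκ'.trans hκ
  have k1 : T.κ ≠ 0 := by rw [k0]; exact one_ne_zero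
  obtain ⟨ρ, hρ⟩ := cu2 (F := F)
  haveI := Fintype.ofFinite W
  obtain ⟨τ, a, b⟩ := exists_five hq k0 hT
  have b' : τ 1 = (5 : ℕ) := by rw [b]; norm_num
  obtain ⟨χ, f, n, h1, h2, h3, h4⟩ := FS.t5 hq hT hρ a (hT.fr one_lt_two ρ τ) b'
  haveI : Nontrivial W := Module.nontrivial_of_finrank_pos (R := F) (by rw [hT.finrank, if_neg k1]; norm_num)
  have hs := sum_refl_ne hq k0 a.isCharacter b' (by decide)
  have h0 : χ 1 ≠ 0 := by
    obtain ⟨m, hm, e⟩ := h1.exists_apply_one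
    rw [e]
    exact Nat.cast_ne_zero.2 hm.ne'
  rw [if_neg k1, add_zero] at h4
  obtain ⟨u, -, hu⟩ := Finset.exists_ne_zero_of_sum_ne_zero
    (left_ne_zero_of_mul (h4 ▸ mul_ne_zero h0 (mul_ne_zero (by norm_num) hs)))
  have hw : win 2 1 2 2 = 3213 := by simp [win, Finset.prod_range_succ]
  rw [hw] at h3
  have d5 := num_five (n := 1) (.inr (.inl rfl)) h3 (by norm_num)
  have d7 := num_five (n := 1) (.inr (.inr (.inl rfl))) h3 (by norm_num)
  refine ⟨_, h.mem_of_refl hκ (t5_two hq) (h1.comp_equiv i.congr) (by rw [map_one, h2]) (u := i.e.symm u.1)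
    (by rw [← i.κ, ← i.Q, LinearEquiv.apply_symm_apply]; exact u.2.1)
    (by rwa [spb_congr, LinearEquiv.apply_symm_apply]), ?_⟩
  exact Nat.mul_dvd_mul (dvd_pow_self 2 (Nat.succ_ne_zero _))
    (Nat.Coprime.mul_dvd_of_dvd_of_dvd (m := 5) (n := 7) (by norm_num) (pow_one 5 ▸ d5) (pow_one 7 ▸ d7))

end Cfsg.Lib.HCI.FS
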