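import Cfsg.Agent.Lib.HCI.M0
import Cfsg.Agent.Lib.HCI.SpB

/-! S4984: the small groups of type `²D`. Here `κ = 1` (`Pol.typ`). -/

set_option autoImplicit false
set_option linter.unusedSectionVars false

namespace Cfsg.Lib.HCI.FS

variable {F V : Type} [Field F] [Fintype F] [DecidableEq F] [AddCommGroup V] [Module F V] [Finite V] {S : FS F V}

local notation "𝔮" => Fintype.card F

theorem Sz.kappa {d : ℕ} (h : S.Sz d 2) : S.κ = 1 :=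
  S.hκ.resolve_left fun h0 => absurd (h.pol.typ.1 h0) (by decide)

theorem mm_nat {r D : ℕ} {x : ℤ} (h1 : (r : ℤ) ∣ x) (h2 : x ∣ D) : r ∣ D := Int.natCast_dvd_natCast.1 (h1.trans h2)

theorem mm_type {q r : ℕ} (hr : r.Prime) (h : Pr q 3 2 r) :
    (r ∣ q ∨ r = 2 ∨ (r : ℤ) ∣ q ^ 3 - 1 ∨ (r : ℤ) ∣ q ^ 3 + 1 ∨ (r : ℤ) ∣ q ^ 4 + 1) ∨
      r ≠ 2 ∧ (r : ℤ) ∣ q ^ 2 + 1 := by
  by_cases h2 : r = 2
  · exact .inl (.inr (.inl h2))
  have hp := Nat.prime_iff_prime_int.1 hr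
  have a1 : (r : ℤ) ∣ q - 1 → (r : ℤ) ∣ q ^ 3 - 1 := fun h => h.trans ⟨q ^ 2 + q + 1, by ring⟩
  have a2 : (r : ℤ) ∣ q + 1 → (r : ℤ) ∣ q ^ 3 + 1 := fun h => h.trans ⟨q ^ 2 - q + 1, by ring⟩
  rcases h with h | h | h | h
  · exact .inl (.inl h)
  · exact absurd h h2
  · rw [show win q 0 3 2 = (q - 1) * ((q ^ 2 + 1) * ((q - 1) * ((q + 1) * ((q ^ 3 + 1) *
      ((q ^ 3 - 1) * (q ^ 4 + 1)))))) by simp only [win, Finset.prod_range_succ, Finset.prod_range_zero]; ring] at h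
    simp only [hp.dvd_mul] at h
    tauto
  · exact .inl (.inr (.inr (.inr (.inl (a2 h.2)))))

theorem Sz.av_m3' (hq : 3 ≤ 𝔮) (h : S.Sz 3 2) : ∃ D, S.Av D ∧ 𝔮 ∣ D ∧ 𝔮 ^ 2 + 1 ∣ D ∧ 𝔮 ^ 2 + 𝔮 + 1 ∣ D := by
  rcases hq.eq_or_lt with h3 | h4
  · exact ⟨_, av_m3 h3.symm h.kappa h, by rw [← h3]; decide⟩
  · obtain ⟨D, t, h1, h2, h3⟩ := Pol.t1 (j := 2) (k := 1) h.pol one_ne_zero
      (rho_one h4 fun h2 => h.ng h.kappa h2 (.inr (.inr ⟨rfl, by decide⟩))) (sr_f (j := 0))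
    have h5 : (3 : ℤ) < 𝔮 := by exact_mod_cast h4
    have h6 : (t : ℤ) = 𝔮 ^ 2 * (𝔮 ^ 2 + 1) :=
      mul_right_cancel₀ (b := ((𝔮 : ℤ) - 1) * (𝔮 ^ 2 + 𝔮)) (mul_ne_zero (by omega) (by positivity))
        (by rw [show (t : ℤ) * _ = _ from h3]; ring)
    have h7 : (D : ℤ) = (𝔮 ^ 2 + 𝔮 + 1) * (𝔮 ^ 4 + 1) * (𝔮 ^ 2 * (𝔮 ^ 2 + 1)) :=
      mul_right_cancel₀ (b := (𝔮 : ℤ) ^ 1 - 1) (by rw [pow_one]; omega)
        (by rw [h2, h6]; simp only [win, Finset.prod_range_succ, Finset.prod_range_zero]; ring)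
    have h8 : D = (𝔮 ^ 2 + 𝔮 + 1) * (𝔮 ^ 4 + 1) * (𝔮 ^ 2 * (𝔮 ^ 2 + 1)) := by exact_mod_cast h7
    exact ⟨D, h1, ⟨(𝔮 ^ 2 + 𝔮 + 1) * (𝔮 ^ 4 + 1) * (𝔮 * (𝔮 ^ 2 + 1)), by rw [h8]; ring⟩,
      ⟨(𝔮 ^ 2 + 𝔮 + 1) * (𝔮 ^ 4 + 1) * 𝔮 ^ 2, by rw [h8]; ring⟩,
      ⟨(𝔮 ^ 4 + 1) * (𝔮 ^ 2 * (𝔮 ^ 2 + 1)), by rw [h8]; ring⟩⟩

/-- A prime divides `2`, `q`, `q³ - 1`, `q³ + 1`, `q⁴ + 1` (type A) or it is odd and divides `q² + 1` (type B; both
primes may be of type B). `D₁`: `Pol.tp`, `j = 1`, `k = 2` (`rho_two`, or `rho_two'` with `Sz.ng`) covers type A (`num_sub`,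
`num_add`, `num_two`). `D₂`: `Pol.t1`, `sr_one`, `j = 0`, `k = 3` covers (`num_odd`, `dvd_three`) all primes dividing neither `q`
nor `q² + q + 1`, and type B (`num_add`). `D₃` covers the characteristic, `q² + q + 1` and type B: for `q ≥ 4` `Pol.t1` with
`j = 2`, `k = 1` (`rho_one`), `sr_f` (`f = q² (q² + 1)`), `D₃ = (q² + q + 1) (q⁴ + 1) f`, `cv_q`; for `q = 3`
`av_m3`, `47970 = 2 * 9 * 5 * 13 * 41`. -/
theorem Sz.all_m3 (hq : 3 ≤ 𝔮) (h : S.Sz 3 2) : S.All 3 2 := by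
  have h2q : 2 ≤ 𝔮 := two_le_q
  have hρ : S.Rho 2 := by
    rcases hq.eq_or_lt with h3 | h4
    · exact rho_two' hq (h.ng h.kappa (card_three h3.symm) (.inr (.inr ⟨rfl, by decide⟩)))
    · exact rho_two h4
  obtain ⟨D₁, t₁, a1, b1, c1⟩ := Pol.tp (j := 1) (k := 2) h.pol two_ne_zero hρ le_rfl (by decide) (.inl one_lt_two)
  obtain ⟨D₂, t₂, a2, b2, -⟩ := Pol.t1 (j := 0) (k := 3) h.pol three_ne_zero (rho_big le_rfl (by omega)) sr_one
  obtain ⟨D₃, a3, b3, c3, d3⟩ := h.av_m3' hq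
  have hA : ∀ r, r.Prime → r ∣ 𝔮 ∨ r = 2 ∨ (r : ℤ) ∣ 𝔮 ^ 3 - 1 ∨ (r : ℤ) ∣ 𝔮 ^ 3 + 1 ∨ (r : ℤ) ∣ 𝔮 ^ 4 + 1 →
      Cv S.cc r D₁ := fun r hr h0 => by
    by_cases h1 : r ∣ 𝔮
    · exact c1 r hr h1
    by_cases h2 : r = 2
    · subst h2
      exact num_cv h2q S.cc_dvd le_rfl h1 b1
    rcases h0 with h0 | h0 | h0 | h0 | h0
    · exact absurd h0 h1
    · exact absurd h0 h2
    · exact .of_ne h2 (mm_nat h0 (num_sub h2q (b := 2) (by decide) (by decide) (by decide) dvd_rfl b1))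
    · exact .of_ne h2 (mm_nat h0 (num_add h2q (by decide) b1))
    · exact .of_ne h2 (mm_nat h0 (num_add h2q (by decide) b1))
  have hB : ∀ r s, r.Prime → s.Prime → r ≠ s → Pr 𝔮 3 2 r → s ≠ 2 → (s : ℤ) ∣ 𝔮 ^ 2 + 1 → S.Lk r s :=
    fun r s hr hs hrs h1 h2 h3 => by
      have e3 : Cv S.cc s D₃ := .of_ne h2 (mm_nat h3 (by exact_mod_cast c3))
      by_cases h4 : r ∣ 𝔮
      · exact h.lk a3 hr hs hrs (cv_q hq b3 r h4) e3
      rcases num_odd (j := 0) (k := 3) h2q S.cc_dvd (by decide) (by decide) le_rfl (by decide) hr h4 h1 b2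
        with h5 | ⟨h5, h6, h7⟩
      · exact h.lk a2 hr hs hrs h5 (.of_ne h2 (mm_nat h3 (num_add h2q (by decide) b2)))
      · exact h.lk a3 hr hs hrs (.of_ne h5 ((dvd_three hr h6 h7).trans d3)) e3
  intro r s hr hs hrs h1 h2
  rcases mm_type hs h2 with h3 | h3
  · rcases mm_type hr h1 with h4 | h4
    · exact h.lk a1 hr hs hrs (hA r hr h4) (hA s hs h3)
    · exact (hB s r hs hr hrs.symm h2 h4.1 h4.2).symm
  · exact hB r s hr hs hrs h1 h3.1 h3.2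

/-- The primes are `2, 3, 5, 7, 17`. `av_f` gives `84`; `Pol.t1` with `sr_one`, `j = 0`, `k = 3` gives `2295 = 27 * 5 * 17`;
`Pol.t5` with `sr_two` (`t = 4`, `win 2 1 2 2 = 27 * 7 * 17`, `num_five`) gives a multiple of `8 * 7 * 17`; `mem_m2`. -/
theorem Sz.all_m32 (hq : 𝔮 = 2) (h : S.Sz 3 2) : S.All 3 2 := by
  have hc : S.cc = 2 := by rw [cc, if_neg (h.kappa ▸ one_ne_zero), if_pos (card_two hq)]
  obtain ⟨f, a1, b1⟩ := Pol.av_f (j := 1) h.pol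
  obtain ⟨D, t, a2, b2, rfl⟩ := Pol.t1 (j := 0) (k := 3) h.pol three_ne_zero (rho_big le_rfl (by omega)) sr_one
  obtain ⟨g, a, t, a3, b3, rfl⟩ := Pol.t5 (j := 1) hq h.pol sr_two
  obtain ⟨E, a4, b4⟩ := mem_m2 hq h.kappa h
  rw [Ff, hq] at b1
  rw [hq] at b2 b3
  obtain rfl : f = 84 := by norm_num at b1; omega
  obtain rfl : D = 2295 := by
    simp only [win, Finset.prod_range_succ, Finset.prod_range_zero] at b2; norm_num at b2; omega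
  have hw : win 2 1 2 2 * ((2 ^ 2 : ℕ) : ℤ) = 12852 := by
    simp only [win, Finset.prod_range_succ, Finset.prod_range_zero]; norm_num
  rw [hw] at b3
  have g2 : 2 ^ 2 ∣ g := num_five (.inl rfl) b3 (by norm_num)
  have g7 : 7 ^ 1 ∣ g := num_five (.inr (.inr (.inl rfl))) b3 (by norm_num)
  have g17 : 17 ^ 1 ∣ g := num_five (.inr (.inr (.inr rfl))) b3 (by norm_num)
  have hP : ∀ r, r.Prime → Pr 𝔮 3 2 r → r = 2 ∨ r = 3 ∨ r = 5 ∨ r = 7 ∨ r = 17 := fun r hr h0 => by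
    have h1 : r ∣ 2 * (3 * (5 * (7 * 17))) := by
      rw [hq] at h0
      rcases h0 with h0 | rfl | h0 | h0
      · exact h0.mul_right _
      · decide
      · refine hr.dvd_of_dvd_pow (n := 3) (mm_nat h0 ?_)
        simp only [win, Finset.prod_range_succ, Finset.prod_range_zero]; norm_num
      · exact mm_nat h0.2 (by norm_num)
    simpa only [hr.dvd_mul, Nat.prime_dvd_prime_iff_eq hr Nat.prime_two, Nat.prime_dvd_prime_iff_eq hr Nat.prime_three,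
      Nat.prime_dvd_prime_iff_eq hr Nat.prime_five, Nat.prime_dvd_prime_iff_eq hr Nat.prime_seven,
      Nat.prime_dvd_prime_iff_eq hr (by norm_num : Nat.Prime 17)] using h1
  have c1 : ∀ r, r = 2 ∨ r = 3 ∨ r = 7 → Cv S.cc r 84 := by
    rintro r (rfl | rfl | rfl) <;> rw [hc] <;> exact ⟨by decide, by decide⟩
  have c2 : ∀ r, r = 3 ∨ r = 5 ∨ r = 17 → Cv S.cc r 2295 := by
    rintro r (rfl | rfl | rfl) <;> exact .of_ne (by decide) (by decide)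
  have c3 : ∀ r, r = 2 ∨ r = 7 ∨ r = 17 → Cv S.cc r (2 ^ (2 * a + 1) * g) := by
    rintro r (rfl | rfl | rfl)
    · exact ⟨((by decide : 2 ∣ 2 ^ 2).trans g2).mul_left _, fun _ => by rw [hc]; exact g2.mul_left _⟩
    · exact .of_ne (by decide) (g7.mul_left _)
    · exact .of_ne (by decide) (g17.mul_left _)
  intro r s hr hs hrs h1 h2
  rcases hP r hr h1 with rfl | rfl | rfl | rfl | rfl <;> rcases hP s hs h2 with rfl | rfl | rfl | rfl | rfl <;>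
    first
    | exact absurd rfl hrs
    | exact h.lk a1 hr hs hrs (c1 _ (by decide)) (c1 _ (by decide))
    | exact h.lk a2 hr hs hrs (c2 _ (by decide)) (c2 _ (by decide))
    | exact h.lk a3 hr hs hrs (c3 _ (by decide)) (c3 _ (by decide))
    | exact ⟨E, a4, Dvd.dvd.trans (by decide) b4⟩

/-- `all_three` with `j = 0`. `q ≥ 3`: `av_g`, `g (q + 1) = q (q² + q + 1) (q⁵ + 1)`, `cv_q`. `q = 2`: `Pol.t5` with `sr_f`
(`f = 20`), `win 2 2 2 2 = 7 * 17 * 15 * 33`, `num_five` (`r = 2, 7`), `cv_two`. -/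
theorem Sz.all_m4 (h : S.Sz 4 2) : S.All 4 2 := by
  refine Sz.all_three (j := 0) h (by decide) (by decide) (fun _ => rfl) ?_
  rcases (two_le_q (F := F)).eq_or_lt with hq | hq
  · obtain ⟨g, a, t, a3, b3, c3⟩ := Pol.t5 (j := 2) hq.symm h.pol (sr_f (j := 0))
    rw [Ff, ← hq] at c3
    obtain rfl : t = 20 := by norm_num at c3; omega
    have hw : win 2 2 2 2 * ((20 : ℕ) : ℤ) = 1178100 := by
      simp only [win, Finset.prod_range_succ, Finset.prod_range_zero]; norm_num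
    rw [hw] at b3
    have g2 : 2 ^ 2 ∣ g := num_five (.inl rfl) b3 (by norm_num)
    have g7 : 7 ^ 1 ∣ g := num_five (.inr (.inr (.inl rfl))) b3 (by norm_num)
    exact ⟨_, a3, cv_two hq.symm (.inr (g2.mul_left _)), by rw [← hq]; exact g7.mul_left _⟩
  · obtain ⟨g, a1, b1⟩ := Pol.av_g (j := 2) h.pol
    have h5 : (2 : ℤ) < 𝔮 := by exact_mod_cast hq
    have h6 : (g : ℤ) = 𝔮 * (𝔮 ^ 2 + 𝔮 + 1) * (𝔮 ^ 4 - 𝔮 ^ 3 + 𝔮 ^ 2 - 𝔮 + 1) :=
      mul_right_cancel₀ (b := ((𝔮 : ℤ) - 1) * (𝔮 ^ 2 + 𝔮)) (mul_ne_zero (by omega) (by positivity))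
        (by rw [show (g : ℤ) * _ = _ from b1]; ring)
    refine ⟨g, a1, fun r _ hr => cv_q hq (Int.natCast_dvd_natCast.1 ?_) r hr, Int.natCast_dvd_natCast.1 ?_⟩
    · rw [h6, mul_assoc]
      exact dvd_mul_right _ _
    · rw [h6]
      push_cast
      exact (dvd_mul_left _ _).mul_right _

/-- `Pol.tp` with `j = 2`, `k = 5` covers all primes but `31` (`num_odd`); `Pol.t1` with `sr_one`, `j = 0`, `k = 7` covers all odd
primes but `127`; `Pol.tp` with `j = 3`, `k = 4` covers `2, 31, 127` (`num_sub` with `b = 4`). -/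
theorem Sz.all_m7 (hq : 𝔮 = 2) (h : S.Sz 7 2) : S.All 7 2 := by
  have h2q : 2 ≤ 𝔮 := two_le_q
  obtain ⟨D₁, t₁, a1, b1, c1⟩ := Pol.tp (j := 2) (k := 5) h.pol (by decide) (rho_big (by decide) (by omega))
    (by decide) (by decide) (.inl (by decide))
  obtain ⟨D₂, t₂, a2, b2, -⟩ := Pol.t1 (j := 0) (k := 7) h.pol (by decide) (rho_big (by decide) (by omega)) sr_one
  obtain ⟨D₃, t₃, a3, b3, c3⟩ := Pol.tp (j := 3) (k := 4) h.pol (by decide) (rho_big (by decide) (by omega))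
    (by decide) (by decide) (.inl (by decide))
  have e1 : ∀ r, r.Prime → Pr 𝔮 7 2 r → r ≠ 31 → Cv S.cc r D₁ := fun r hr h1 h2 => by
    by_cases h3 : r ∣ 𝔮
    · exact c1 r hr h3
    refine (num_odd (j := 2) (k := 5) h2q S.cc_dvd (by decide) (by decide) le_rfl (by decide) hr h3 h1 b1).resolve_right
      fun h4 => h2 ((Nat.prime_dvd_prime_iff_eq hr (by norm_num)).1 (mm_nat h4.2.1 ?_))
    rw [hq]; norm_num
  have e2 : ∀ r, r.Prime → Pr 𝔮 7 2 r → ¬ r ∣ 𝔮 → r ≠ 127 → Cv S.cc r D₂ := fun r hr h1 h3 h2 => by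
    refine (num_odd (j := 0) (k := 7) h2q S.cc_dvd (by decide) (by decide) le_rfl (by decide) hr h3 h1 b2).resolve_right
      fun h4 => h2 ((Nat.prime_dvd_prime_iff_eq hr (by norm_num)).1 (mm_nat h4.2.1 ?_))
    rw [hq]; norm_num
  have e3 : Cv S.cc 31 D₃ := .of_ne (by decide) (mm_nat (by rw [hq]; norm_num)
    (num_sub h2q (a := 5) (b := 4) (by decide) (by decide) (by decide) dvd_rfl b3))
  have e4 : Cv S.cc 127 D₃ := .of_ne (by decide) (mm_nat (by rw [hq]; norm_num)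
    (num_sub h2q (a := 7) (b := 4) (by decide) (by decide) (by decide) dvd_rfl b3))
  have key : ∀ r, r.Prime → r ≠ 31 → Pr 𝔮 7 2 r → Pr 𝔮 7 2 31 → S.Lk r 31 := fun r hr h1 h2 h3 => by
    have hs : Nat.Prime 31 := by norm_num
    by_cases h4 : r ∣ 𝔮
    · exact h.lk a3 hr hs h1 (c3 r hr h4) e3
    by_cases h5 : r = 127
    · exact h.lk a3 hr hs h1 (h5 ▸ e4) e3
    · exact h.lk a2 hr hs h1 (e2 r hr h2 h4 h5) (e2 31 hs h3 (by rw [hq]; decide) (by decide))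
  intro r s hr hs hrs h1 h2
  by_cases h3 : s = 31
  · subst h3
    exact key r hr hrs h1 h2
  by_cases h4 : r = 31
  · subst h4
    exact (key s hs h3 h2 h1).symm
  exact h.lk a1 hr hs hrs (e1 r hr h1 h4) (e1 s hs h2 h3)

end Cfsg.Lib.HCI.FS
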