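import Cfsg.Agent.Lib.HCI.M0

/-! S4984: the small groups of type `D`. Here `κ = 1` (`Pol.typ`). -/

set_option autoImplicit false
set_option linter.unusedSectionVars false

namespace Cfsg.Lib.HCI.FS

variable {F V : Type} [Field F] [Fintype F] [DecidableEq F] [AddCommGroup V] [Module F V] [Finite V] {S : FS F V}

local notation "𝔮" => Fintype.card F

theorem mp_κ {d : ℕ} (h : S.Sz d 0) : S.κ = 1 := S.hκ.resolve_left fun a => absurd (h.pol.typ.1 a) (by decide)

theorem mp_pr {q d r N : ℕ} (hr : r.Prime) (h : Pr q d 0 r) (h1 : ¬ r ∣ q) (h2 : r ≠ 2) (n : ℕ)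
    (h3 : win q 0 d 0 ∣ 2 * (N : ℤ) ^ n) : r ∣ N := by
  rcases h with a | a | a | a
  · exact absurd a h1
  · exact absurd a h2
  · have : r ∣ 2 * N ^ n := by exact_mod_cast a.trans h3
    exact hr.dvd_of_dvd_pow (((Nat.coprime_primes hr Nat.prime_two).2 h2).dvd_of_dvd_mul_left this)
  · omega

theorem mp_cancel {q : ℕ} {f a b : ℤ} (hq : 2 ≤ q) (h : f * ((q - 1) * (q ^ 0 + q)) = a)
    (h' : a = b * ((q - 1) * (q + 1))) : f = b := by
  have h1 : (2 : ℤ) ≤ q := by exact_mod_cast hq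
  have h0 : ((q : ℤ) - 1) * (q + 1) ≠ 0 := mul_ne_zero (by omega) (by omega)
  exact mul_right_cancel₀ h0 (by linear_combination h + h')

/-- `q ≥ 4`: `Pol.tp` with `j = k = 2` (`rho_two`) gives a multiple of `(q³ - 1) (q² + 1) (q³ + 1)` (`num_sub`, `num_add`,
`num_two`), which every prime `≠ 2` not dividing `q` divides. `q ≤ 3`: `all_of`, `lk_even` with `j = 0`, `k = 4`.
`q = 3`: primes `2, 3, 5, 7, 13`; `mem_f` gives `300` (unfold `Lk`), `av_g` gives `819 = 9 * 7 * 13`.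
`q = 2`: primes `2, 3, 5, 7`; `mem_f` gives `50`, `av_g` gives `84`. -/
theorem Sz.all_d4 (h : S.Sz 4 0) : S.All 4 0 := by
  have hκ := mp_κ h
  have h2 := two_le_q (F := F)
  by_cases hq : 4 ≤ 𝔮
  · obtain ⟨D, t, a, b, c⟩ := Pol.tp (j := 2) (k := 2) h.pol (by omega) (rho_two hq) (by omega) (by omega) (.inr hκ)
    have key : ∀ r, r.Prime → Pr 𝔮 4 0 r → Cv S.cc r D := fun r x y => by
      by_cases z : r ∣ 𝔮
      · exact c r x z
      by_cases w : r = 2
      · subst w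
        have := num_two h2 z le_rfl b
        exact ⟨Dvd.dvd.trans (by norm_num) this, fun _ => (Nat.mul_dvd_mul_left 2 S.cc_dvd).trans this⟩
      have hz := Nat.prime_iff_prime_int.1 x
      have d1 := num_sub (a := 3) (b := 4) h2 (by omega) (by omega) (by omega) (by omega) b
      have d2 := num_add (a := 2) h2 (by omega) b
      have d3 := num_add (a := 3) h2 (by omega) b
      have e1 : ((𝔮 : ℤ) - 1) ∣ D := Dvd.dvd.trans ⟨𝔮 ^ 2 + 𝔮 + 1, by ring⟩ d1
      have e2 : ((𝔮 : ℤ) + 1) ∣ D := Dvd.dvd.trans ⟨𝔮 ^ 2 - 𝔮 + 1, by ring⟩ d3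
      refine .of_ne w (mp_pr x y z w 10 ?_)
      have : win 𝔮 0 4 0 = 2 * ((𝔮 - 1) ^ 3 * (𝔮 + 1) ^ 3 * (𝔮 ^ 2 + 1) ^ 2 * (𝔮 ^ 3 - 1) * (𝔮 ^ 3 + 1)) := by
        simp [win, Finset.prod_range_succ]; ring
      rw [this, show (D : ℤ) ^ 10 = D ^ 3 * D ^ 3 * D ^ 2 * D * D by ring]
      gcongr
    exact fun r s x y z u v => h.lk a x y z (key r x u) (key s y v)
  refine all_of (Sz.lk_even (j := 0) (k := 4) h (by omega) (by decide) (rho_big (by omega) (by omega)) (by omega) (by omega))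
    fun r s hr hs hrs h1 h3 h4 => ?_
  obtain ⟨f, f1, f2⟩ := Sz.mem_f (j := 1) h hκ
  obtain ⟨g, g1, g2⟩ := Pol.av_g (j := 2) h.pol
  obtain e | e : 𝔮 = 2 ∨ 𝔮 = 3 := by omega
  · have c := cv_two (S := S) e (D := 84) (.inr (by norm_num)) r hr h3
    rw [e] at h1 h3 h4 f2 g2
    obtain rfl : f = 50 := by simp only [Ff] at f2; omega
    obtain rfl : g = 84 := by simp only [Fg] at g2; omega
    obtain rfl := (Nat.prime_dvd_prime_iff_eq hr Nat.prime_two).1 h3
    rcases hs.dvd_mul.1 (mp_pr (N := 25 * 84) hs h1 h4 hrs.symm 5 (by decide)) with c' | c'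
    · exact ⟨50, f1, Nat.mul_dvd_mul_left 2 c'⟩
    · exact h.lk g1 hr hs hrs c (.of_ne hrs.symm c')
  · rw [e] at h1 h3 h4 f2 g2
    obtain rfl : f = 300 := by simp only [Ff] at f2; omega
    obtain rfl : g = 819 := by simp only [Fg] at g2; omega
    obtain rfl := (Nat.prime_dvd_prime_iff_eq hr Nat.prime_three).1 h3
    by_cases w : s = 2
    · exact ⟨300, f1, by norm_num [w]⟩
    rcases hs.dvd_mul.1 (mp_pr (N := 100 * 819) hs h1 h4 w 7 (by decide)) with c' | c'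
    · exact ⟨300, f1, Nat.mul_dvd_mul_left 3 c'⟩
    · exact h.lk g1 hr hs hrs (.of_ne (by decide) (by norm_num)) (.of_ne w c')

/-- `all_three` with `j = 1`. The source is `sr_f` (`j = 1`): `f = q (q² + q + 1)`. `q ≥ 3`: `Pol.t1` with `j = 3`, `k = 2`
(`rho_two`; `rho_two'` and `Sz.ng` for `q = 3`), `num_t`, `cv_q`. `q = 2`: `Pol.t5`, `f = 14`, `num_five` (`r = 2, 7`),
`cv_two`. -/
theorem Sz.all_d5 (h : S.Sz 5 0) : S.All 5 0 := by
  have hκ := mp_κ h
  have h2 := two_le_q (F := F)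
  refine Sz.all_three (j := 1) h (by omega) (by omega) (by omega) ?_
  rcases h2.eq_or_lt with e | e
  · obtain ⟨f, a, t, x, y, z⟩ := Pol.t5 (j := 3) e.symm h.pol (sr_f (j := 1))
    rw [← e] at z
    obtain rfl : t = 14 := by simp only [Ff] at z; omega
    refine ⟨_, x, fun r u v => cv_two e.symm (.inr ?_) r u v, ?_⟩
    · exact Nat.mul_dvd_mul (a := 2) (c := 2) (dvd_pow_self 2 (by omega)) (num_five (r := 2) (n := 1) (by omega) y (by decide))
    · rw [← e]
      exact (num_five (r := 7) (n := 1) (by omega) y (by decide)).mul_left _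
  · have hρ : S.Rho 2 := by
      rcases (show 3 ≤ 𝔮 from e).eq_or_lt with c | c
      · exact rho_two' e (h.ng hκ (card_three c.symm) (.inr (.inl ⟨rfl, by decide, by omega⟩)))
      · exact rho_two c
    obtain ⟨D, t, x, y, z⟩ := Pol.t1 (j := 3) (k := 2) h.pol (by omega) hρ (sr_f (j := 1))
    have w : t = 𝔮 * (𝔮 ^ 2 + 𝔮 + 1) := by
      have := mp_cancel (b := 𝔮 * (𝔮 ^ 2 + 𝔮 + 1)) h2 z (by ring)
      exact_mod_cast this
    have := num_t h2 (by omega) y
    exact ⟨D, x, fun r _ v => cv_q e ((w ▸ Dvd.intro _ rfl : 𝔮 ∣ t).trans this) r v,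
      (w ▸ Dvd.intro_left _ rfl : _ ∣ t).trans this⟩

/-- `Pol.tp` with `j = k = 4`: `win 2 4 4 0 = 15 W` and `win 2 0 8 0 ∣ 2 W⁴`. -/
theorem Sz.all_d8 (hq : 𝔮 = 2) (h : S.Sz 8 0) : S.All 8 0 := by
  obtain ⟨D, t, a, b, c⟩ := Pol.tp (j := 4) (k := 4) h.pol (by omega) (rho_big (by omega) (by omega)) (by omega) (by omega)
    (.inr (mp_κ h))
  have key : ∀ r, r.Prime → Pr 𝔮 8 0 r → Cv S.cc r D := fun r x y => by
    by_cases z : r ∣ 𝔮
    · exact c r x z
    rw [hq] at y z b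
    have w : r ≠ 2 := fun e => z (e ▸ dvd_rfl)
    refine .of_ne w ((mp_pr (N := 19834479760095) x y z w 4 (by decide)).trans ⟨t, ?_⟩)
    rw [show win (2 : ℕ) 4 4 0 = 15 * 19834479760095 by decide] at b
    omega
  exact fun r s x y z u v => h.lk a x y z (key r x u) (key s y v)

end Cfsg.Lib.HCI.FS
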