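import Cfsg.Agent.Lib.HCI.Pass
import Cfsg.Agent.Lib.Orth.GammaStd
import Cfsg.Agent.Lib.Symp.Group

/-! S4984: the standard models. -/

set_option autoImplicit false

namespace Cfsg.Lib.HCI.FS

open Module Cfsg.Lib.Orth Cfsg.Lib.Char

variable {F : Type} [Field F] [Fintype F] [DecidableEq F]

/-- The zero space. -/
def nul (F : Type) [Field F] (κ : F) (h : κ = 0 ∨ κ = 1) : FS F PUnit where
  B := 0
  Q _ := 0
  κ := κ
  hκ := h
  add _ _ := by simp
  smul _ _ := by simp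
  symm _ _ := by simp
  self _ := by simp
  zero _ := by simp
  nd _ _ := rfl

/-- `G` is the simple group of some space. -/
def Md (G : Type*) [Group G] : Prop :=
  ∃ (F : Type) (_ : Field F) (_ : Fintype F) (_ : DecidableEq F) (V : Type) (_ : AddCommGroup V) (_ : Module F V)
    (_ : Finite V) (S : FS F V) (d e : ℕ), S.Sz d e ∧ Nonempty (G ≃* PCom S.Iso)

/-- `(x, y, 0) ↦ Sum.elim x y` carries `B` to `± Symp.bil`; `Symp.spEquiv`. -/
theorem exists_spEquiv (m : ℕ) :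
    Nonempty (((nul F 0 (.inl rfl)).ext m).Iso ≃* Matrix.symplecticGroup (Fin m) F) := by
  have hQ : ∀ x, ((nul F 0 (.inl rfl)).ext m).Q x = 0 := fun x => by simp [ext_Q, nul]
  have e : ((nul F 0 (.inl rfl)).ext m).Iso = Symp.isom ((nul F 0 (.inl rfl)).ext m).B :=
    Subgroup.ext fun g => ⟨fun h => h.1, fun h => ⟨h, fun x => by rw [hQ, hQ]⟩⟩
  obtain ⟨e'⟩ := Symp.nonempty_isom_equiv (l := Fin m) (B := ((nul F 0 (.inl rfl)).ext m).B)
    (fun x => by rw [FS.self, hQ, mul_zero]) ⟨FS.nd _, FS.nd' _⟩ (by simp [two_mul, finrank_zero_of_subsingleton])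
  exact ⟨(MulEquiv.subgroupCongr e).trans e'⟩

/-- `Sz.index` gives `commutator = ⊤`; `centerQuotCongr`. -/
theorem md_psp {G : Type*} [Group G] (h : IsPSp G) : Md G := by
  classical
  obtain ⟨F, _, _, m, h1, h2, ⟨e⟩⟩ := h
  have hS : ((nul F 0 (.inl rfl)).ext m).Sz m 1 :=
    ⟨⟨PUnit, inferInstance, inferInstance, inferInstance, nul F 0 (.inl rfl), fun _ _ => rfl, by simp [om, nul],
      ⟨Isom.refl _⟩⟩, fun _ => ⟨h1, h2⟩, fun h => absurd h zero_ne_one, fun h => absurd h zero_ne_one⟩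
  have hc : commutator ((nul F 0 (.inl rfl)).ext m).Iso = ⊤ :=
    Subgroup.index_eq_one.1 (hS.index.trans (if_pos rfl))
  obtain ⟨e'⟩ := exists_spEquiv (F := F) m
  exact ⟨F, _, _, _, _, _, _, inferInstance, _, m, 1, hS, ⟨e.trans (centerQuotCongr
    (((MulEquiv.subgroupCongr hc).trans Subgroup.topEquiv).trans e').symm)⟩⟩

/-- An isometry of quadratic spaces. -/
def Isom.ofQ {V V' : Type} [AddCommGroup V] [Module F V] [AddCommGroup V'] [Module F V'] {S : FS F V}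
    {S' : FS F V'} (e : V ≃ₗ[F] V') (h : S.κ = 1) (h' : S'.κ = 1) (hQ : ∀ x, S'.Q (e x) = S.Q x) : Isom S S' :=
  ⟨e, h'.trans h.symm, fun x y => by
    have h1 := hQ (x + y)
    rw [map_add, S.add, S'.add, hQ, hQ, h, h'] at h1
    linear_combination h1, hQ⟩

theorem pol_plus (m : ℕ) : (ofQ (qPlus m F) (nd_qPlus m)).Pol m 0 := by
  let e : (Fin m ⊕ Fin m → F) ≃ₗ[F] (Fin m → F) × (Fin m → F) × PUnit :=
    { toFun v := (fun i => v (.inl i), fun i => v (.inr i), 0)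
      invFun z := Sum.elim z.1 z.2.1
      map_add' _ _ := rfl
      map_smul' _ _ := rfl
      left_inv v := funext fun j => by cases j <;> rfl
      right_inv _ := rfl }
  exact ⟨PUnit, inferInstance, inferInstance, inferInstance, nul F 1 (.inr rfl), fun _ _ => rfl, by simp [om, nul],
    ⟨Isom.ofQ e rfl rfl fun x => by simp [ext_Q, nul, ofQ, qPlus_apply, dotProduct]; rfl⟩⟩

theorem pol_odd (h2 : (2 : F) ≠ 0) (m : ℕ) : (ofQ (qOdd m F) (nd_qOdd h2 m)).Pol m 1 := by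
  let e : (Unit ⊕ (Fin m ⊕ Fin m) → F) ≃ₗ[F] (Fin m → F) × (Fin m → F) × (Unit ⊕ (Fin 0 ⊕ Fin 0) → F) :=
    { toFun v := (fun i => v (.inr (.inl i)), fun i => v (.inr (.inr i)), fun _ => v (.inl ()))
      invFun z := Sum.elim (fun u => z.2.2 (.inl u)) (Sum.elim z.1 z.2.1)
      map_add' _ _ := rfl
      map_smul' _ _ := rfl
      left_inv v := funext fun j => by rcases j with j | j | j <;> rfl
      right_inv z := Prod.ext rfl (Prod.ext rfl (funext fun j => by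
        rcases j with j | j | j
        exacts [rfl, j.elim0, j.elim0])) }
  refine ⟨_, inferInstance, inferInstance, inferInstance, ofQ (qOdd 0 F) (nd_qOdd h2 0), fun v hv => ?_,
    by simp [om, ofQ], ⟨Isom.ofQ e rfl rfl fun x => by simp [ext_Q, ofQ, qOdd_apply, e, dotProduct, add_comm]⟩⟩
  funext j
  rcases j with j | j | j
  exacts [by simpa [ofQ, qOdd_apply] using hv, j.elim0, j.elim0]

theorem pol_minus (m : ℕ) {a b : F} (hab : ∀ z₁ z₂ : F, z₁ ^ 2 + a * z₁ * z₂ + b * z₂ ^ 2 = 0 → z₁ = 0 ∧ z₂ = 0) :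
    (ofQ (qMinus m F a b) (nd_qMinus m hab)).Pol m 2 := by
  let e : ((Fin m ⊕ Fin m) ⊕ Fin 2 → F) ≃ₗ[F] (Fin m → F) × (Fin m → F) × ((Fin 0 ⊕ Fin 0) ⊕ Fin 2 → F) :=
    { toFun v := (fun i => v (.inl (.inl i)), fun i => v (.inl (.inr i)), fun j => v (.inr (j.elim 0 id)))
      invFun z := Sum.elim (Sum.elim z.1 z.2.1) fun t => z.2.2 (.inr t)
      map_add' _ _ := rfl
      map_smul' _ _ := rfl
      left_inv v := funext fun j => by rcases j with (j | j) | j <;> rfl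
      right_inv z := Prod.ext rfl (Prod.ext rfl (funext fun j => by
        rcases j with (j | j) | j
        exacts [j.elim0, j.elim0, rfl])) }
  refine ⟨_, inferInstance, inferInstance, inferInstance, ofQ (qMinus 0 F a b) (nd_qMinus 0 hab), fun v hv => ?_,
    by simp [om, ofQ], ⟨Isom.ofQ e rfl rfl fun x => by simp [ext_Q, ofQ, qMinus_apply, e, dotProduct]⟩⟩
  obtain ⟨h0, h1⟩ := hab (v (.inr 0)) (v (.inr 1)) (by simpa [ofQ, qMinus_apply] using hv)
  funext j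
  rcases j with (j | j) | j
  exacts [j.elim0, j.elim0, by fin_cases j; exacts [h0, h1]]

omit [Fintype F] [DecidableEq F] in
theorem neg_mem_ofQ {V : Type} [AddCommGroup V] [Module F V] {Q : QuadraticForm F V} (hQ : ND Q)
    (h : (ofQ Q hQ).neg ∈ commutator (ofQ Q hQ).Iso) : O.neg Q ∈ commutator (O Q) :=
  (commutatorCongr (MulEquiv.subgroupCongr (iso_ofQ Q hQ)) ⟨_, h⟩).2

/-- `neg_mem_plus_iff`, `iso_ofQ`, `pomegaEquiv`, `pcomCongr`. -/
theorem md_plus {G : Type*} [Group G] (h : IsPOmegaPlus G) : Md G := by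
  classical
  obtain ⟨F, _, _, m, h1, ⟨e⟩⟩ := h
  refine ⟨F, _, _, _, _, _, _, inferInstance, _, m, 0, ⟨pol_plus m, fun h => absurd h one_ne_zero,
    fun _ => ⟨by omega, fun _ => h1⟩, fun _ h2 h3 h4 => ?_⟩, ⟨(e.trans (pomegaEquiv (qPlus m F))).trans
      (pcomCongr (MulEquiv.subgroupCongr (iso_ofQ _ _)).symm)⟩⟩
  refine (neg_mem_plus_iff (odd_card_iff.2 h2) m).1 (neg_mem_ofQ _ h4) ?_
  rcases h3 with h | h | h
  exacts [absurd h zero_ne_one, h.2, absurd h.1 (by decide)]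

/-- `neg_mem_commutator_iff` (odd dimension). -/
theorem md_odd {G : Type*} [Group G] (h : IsPOmegaOdd G) : Md G := by
  classical
  obtain ⟨F, _, _, m, h1, ho, ⟨e⟩⟩ := h
  have h2 := odd_card_iff.1 ho
  refine ⟨F, _, _, _, _, _, _, inferInstance, _, m, 1, ⟨pol_odd h2 m, fun h => absurd h one_ne_zero,
    fun _ => ⟨h1, fun h => absurd h one_ne_zero⟩, fun _ _ _ h4 => ?_⟩, ⟨(e.trans (pomegaEquiv (qOdd m F))).trans
      (pcomCongr (MulEquiv.subgroupCongr (iso_ofQ _ _)).symm)⟩⟩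
  obtain ⟨k, hk⟩ := ((neg_mem_commutator_iff (nd_qOdd h2 m) h2).1 (neg_mem_ofQ _ h4)).1
  simp at hk
  omega

/-- `neg_mem_minus_iff`. -/
theorem md_minus {G : Type*} [Group G] (h : IsPOmegaMinus G) : Md G := by
  classical
  obtain ⟨F, _, _, m, a, b, h1, hab, ⟨e⟩⟩ := h
  refine ⟨F, _, _, _, _, _, _, inferInstance, _, m - 1, 2, ⟨pol_minus (m - 1) hab, fun h => absurd h one_ne_zero,
    fun _ => ⟨by omega, fun h => absurd h two_ne_zero⟩, fun _ h2 h3 h4 => ?_⟩,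
    ⟨(e.trans (pomegaEquiv (qMinus (m - 1) F a b))).trans (pcomCongr (MulEquiv.subgroupCongr (iso_ofQ _ _)).symm)⟩⟩
  have h5 := ((neg_mem_minus_iff (odd_card_iff.2 h2) (m - 1) hab).1 (neg_mem_ofQ _ h4)).1
  rcases h3 with h | h | h
  exacts [absurd h (by decide), absurd h.1 two_ne_zero, Nat.not_odd_iff_even.2 h5 h.2]

/-- Transport along the isomorphism; a degree divides `|G|`, which divides `|S.Iso|`. -/
theorem Md.adj {G : Type*} [Group G] [Finite G] (h : Md G)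
    (H : ∀ (F : Type) [Field F] [Fintype F] [DecidableEq F] (V : Type) [AddCommGroup V] [Module F V] [Finite V]
      (S : FS F V) (d e r s : ℕ), S.Sz d e → r.Prime → s.Prime → r ≠ s → r ∣ Nat.card S.Iso → s ∣ Nat.card S.Iso →
        S.Lk r s)
    {r s : ℕ} (hr : r ∈ degreePrimes G) (hs : s ∈ degreePrimes G) (hrs : r ≠ s) : (degreeGraph G).Adj r s := by
  obtain ⟨F, _, _, _, V, _, _, _, S, d, e, hS, ⟨i⟩⟩ := h
  have h1 : Nat.card G ∣ Nat.card S.Iso := by
    rw [Nat.card_congr i.toEquiv]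
    exact (Subgroup.card_quotient_dvd_card _).trans (Subgroup.card_subgroup_dvd_card _)
  have h2 : ∀ t ∈ degreePrimes G, t ∣ Nat.card S.Iso := by
    rintro t ⟨-, _, ⟨χ, rfl⟩, h3⟩
    exact h3.trans (χ.2.charDegree_dvd_card.trans h1)
  obtain ⟨_, ⟨χ, rfl⟩, h3⟩ := H F V S d e r s hS hr.1 hs.1 hrs (h2 r hr) (h2 s hs)
  exact ⟨hrs, hr.1, hs.1, _, ⟨⟨_, χ.2.comp_equiv i⟩, charDegree_congr (by simp)⟩, h3⟩

end Cfsg.Lib.HCI.FS
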