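import Cfsg.Agent.Lib.HCI.MC
import Cfsg.Agent.Lib.HCI.MP
import Cfsg.Agent.Lib.HCI.MM
import Cfsg.Agent.Lib.HCI.Std

/-! S4984: the case analysis. -/

set_option autoImplicit false
set_option linter.unusedSectionVars false

namespace Cfsg.Lib.HCI.FS

variable {F V : Type} [Field F] [Fintype F] [DecidableEq F] [AddCommGroup V] [Module F V] [Finite V] {S : FS F V}
  {d e : ℕ}

local notation "𝔮" => Fintype.card F

theorem Sz.all_of_eq (h : S.Sz d e) (k : ℕ) (hk : 4 ≤ k) (hk2 : k % 2 = 0) (h6 : ¬ (𝔮 = 2 ∧ k = 6)) (hj : k + 1 ≤ d)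
    (he : e = 0 → k + 2 ≤ d) (hjk : d < 2 * k) (he2 : e = 2 → d + 1 < 2 * k) : S.All d e := by
  obtain ⟨j, rfl⟩ : ∃ j, d = j + k := ⟨d - k, by omega⟩
  exact h.all_even (by omega) (Nat.even_iff.2 hk2) (rho_big (by omega) h6) (by omega) (by omega) (by omega) (by omega)

theorem Sz.all (h : S.Sz d e) : S.All d e := by
  have ht := h.pol.typ
  have hd : 2 ≤ d ∧ (e ≠ 1 → 3 ≤ d) ∧ (e = 0 → 4 ≤ d) := by
    rcases S.hκ with a | a
    · have := h.sp a; have := ht.1 a; omega
    · have := h.or a; omega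
  by_cases h10 : 10 ≤ d
  · exact h.all_of_eq (2 * (d / 2 - 1)) (by omega) (by omega) (by omega) (by omega) (by omega) (by omega) (by omega)
  obtain rfl | rfl | rfl : e = 0 ∨ e = 1 ∨ e = 2 := by omega
  · obtain rfl | rfl | a | a : d = 4 ∨ d = 5 ∨ (d = 6 ∨ d = 7) ∨ (d = 8 ∨ d = 9) := by omega
    · exact h.all_d4
    · exact h.all_d5
    · exact h.all_of_eq 4 (by omega) (by omega) (by omega) (by omega) (by omega) (by omega) (by omega)
    · by_cases hq : 𝔮 = 2
      · obtain rfl | rfl := a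
        · exact h.all_d8 hq
        · exact Sz.all_578 (j := 1) hq h (by omega) (by omega) (by omega)
      · exact h.all_of_eq 6 (by omega) (by omega) (by omega) (by omega) (by omega) (by omega) (by omega)
  · obtain rfl | rfl | rfl | a | rfl | rfl : d = 2 ∨ d = 3 ∨ d = 4 ∨ (5 ≤ d ∧ d ≤ 7) ∨ d = 8 ∨ d = 9 := by omega
    · exact h.all_c2
    · exact h.all_c3
    · exact h.all_c4
    · exact h.all_of_eq 4 (by omega) (by omega) (by omega) (by omega) (by omega) (by omega) (by omega)
    · by_cases hq : 𝔮 = 2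
      · exact Sz.all_578 (j := 0) hq h (by omega) (by omega) (by omega)
      · exact h.all_of_eq 6 (by omega) (by omega) (by omega) (by omega) (by omega) (by omega) (by omega)
    · exact h.all_of_eq 8 (by omega) (by omega) (by omega) (by omega) (by omega) (by omega) (by omega)
  · obtain rfl | rfl | a | a | rfl : d = 3 ∨ d = 4 ∨ (d = 5 ∨ d = 6) ∨ (d = 7 ∨ d = 8) ∨ d = 9 := by omega
    · have := two_le_q (F := F)
      by_cases hq : 𝔮 = 2
      · exact h.all_m32 hq
      · exact h.all_m3 (by omega)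
    · exact h.all_m4
    · exact h.all_of_eq 4 (by omega) (by omega) (by omega) (by omega) (by omega) (by omega) (by omega)
    · by_cases hq : 𝔮 = 2
      · obtain rfl | rfl := a
        · exact h.all_m7 hq
        · exact Sz.all_578 (j := 0) hq h (by omega) (by omega) (by omega)
      · exact h.all_of_eq 6 (by omega) (by omega) (by omega) (by omega) (by omega) (by omega) (by omega)
    · exact h.all_of_eq 8 (by omega) (by omega) (by omega) (by omega) (by omega) (by omega) (by omega)

theorem adj {G : Type*} [Group G] [Finite G] (h : IsPSp G ∨ IsPOmegaOdd G ∨ IsPOmegaPlus G ∨ IsPOmegaMinus G) {r s : ℕ}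
    (hr : r ∈ degreePrimes G) (hs : s ∈ degreePrimes G) (hrs : r ≠ s) : (degreeGraph G).Adj r s :=
  (h.elim md_psp fun h => h.elim md_odd fun h => h.elim md_plus md_minus).adj
    (fun _ _ _ _ _ _ _ _ _ _ _ r s a b c d e f => a.all r s b c d (a.pol.prime_dvd b e) (a.pol.prime_dvd c f)) hr hs hrs

end Cfsg.Lib.HCI.FS
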