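import Cfsg.Agent.Lib.HCI.Pass

/-! S4984: arithmetic of `win`. For `j < k` the only multiple of `k` among the exponents `j + 1, …, j + k` is `k`. -/

set_option autoImplicit false

namespace Cfsg.Lib.HCI

/-- The primes dividing the group order. -/
def Pr (q d e r : ℕ) : Prop := r ∣ q ∨ r = 2 ∨ (r : ℤ) ∣ win q 0 d e ∨ e = 2 ∧ (r : ℤ) ∣ q + 1

variable {q j k e r c D t : ℕ}

theorem num_ex (n : ℕ) (hk : k ≠ 0) : ∃ i < k, k ∣ n + i + 1 := by
  have h1 := Nat.mod_lt n (Nat.pos_of_ne_zero hk)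
  have h2 := Nat.div_add_mod n k
  exact ⟨k - 1 - n % k, by omega, n / k + 1, by rw [mul_add]; omega⟩

theorem num_pow (q : ℤ) {b : ℕ} (h : k ∣ b) : q ^ k - 1 ∣ q ^ b - 1 := by
  obtain ⟨m, rfl⟩ := h
  rw [pow_mul]
  exact sub_one_dvd_pow_sub_one _ _

theorem num_key (hq : 2 ≤ q) (hk : k ≠ 0) (h : (D : ℤ) * (q ^ k - 1) = win q j k e * t) {x : ℤ}
    (hx : x * (q ^ k - 1) ∣ win q j k e * t) : x ∣ D :=
  Int.dvd_of_mul_dvd_mul_right (sub_ne_zero.2 (one_lt_pow₀ (by exact_mod_cast hq) hk).ne') (h ▸ hx)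

theorem num_pair (q : ℤ) {a b : ℕ} (ha : a < k) (hb : b < k) (hab : a ≠ b) :
    (q ^ (j + a + 1) - 1) * (q ^ (j + a + e) + 1) * ((q ^ (j + b + 1) - 1) * (q ^ (j + b + e) + 1)) ∣ win q j k e := by
  rw [← Finset.prod_pair (f := fun i => (q ^ (j + i + 1) - 1) * (q ^ (j + i + e) + 1)) hab]
  exact Finset.prod_dvd_prod_of_subset _ _ _ (by simp [Finset.insert_subset_iff, ha, hb])

theorem num_ord {n : ℕ} : (r : ℤ) ∣ q ^ n - 1 ↔ orderOf (q : ZMod r) ∣ n := by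
  rw [← ZMod.intCast_zmod_eq_zero_iff_dvd, orderOf_dvd_iff_pow_eq_one]
  push_cast
  exact sub_eq_zero

/-- One of `k` consecutive exponents is a multiple of `k`. -/
theorem sub_dvd_win (q : ℤ) (hk : k ≠ 0) : q ^ k - 1 ∣ win q j k e := by
  obtain ⟨i, hi, h⟩ := num_ex j hk
  exact ((num_pow q h).mul_right _).trans (Finset.dvd_prod_of_mem _ (Finset.mem_range.2 hi))

theorem num_t (hq : 2 ≤ q) (hk : k ≠ 0) (h : (D : ℤ) * (q ^ k - 1) = win q j k e * t) : t ∣ D := by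
  exact Int.natCast_dvd_natCast.1 (num_key hq hk h (by
    rw [mul_comm]; exact mul_dvd_mul_right (sub_dvd_win _ hk) _))

/-- All `2 k - 1 ≥ 3` remaining factors are even. -/
theorem num_two (hq : 2 ≤ q) (h2 : ¬ 2 ∣ q) (hk : 2 ≤ k) (h : (D : ℤ) * (q ^ k - 1) = win q j k e * t) : 8 ∣ D := by
  obtain ⟨i, hi, h1⟩ := num_ex j (show k ≠ 0 by omega)
  obtain ⟨i', hi', hne⟩ : ∃ i' < k, i' ≠ i := by
    by_cases c : i = 0
    · exact ⟨1, hk, by omega⟩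
    · exact ⟨0, by omega, Ne.symm c⟩
  have o : ∀ n, Odd ((q : ℤ) ^ n) := fun n => (Int.odd_coe_nat q |>.2 (Nat.odd_iff.2 (by omega))).pow
  refine Int.natCast_dvd_natCast.1 (num_key hq (by omega) h ((dvd_trans ?_ (num_pair _ hi' hi hne)).mul_right _))
  rw [show ((8 : ℕ) : ℤ) * (q ^ k - 1) = 2 * 2 * ((q ^ k - 1) * 2) by ring]
  exact mul_dvd_mul (mul_dvd_mul ((o _).sub_odd odd_one).two_dvd (o _).add_one.two_dvd)
    (mul_dvd_mul (num_pow _ h1) (o _).add_one.two_dvd)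

/-- The factor `q ^ a - 1`, another one being divisible by `q ^ k - 1`. -/
theorem num_sub (hq : 2 ≤ q) {a b : ℕ} (ha : j < a ∧ a ≤ j + k) (hb : j < b ∧ b ≤ j + k) (hab : a ≠ b) (hk : k ∣ b)
    (h : (D : ℤ) * (q ^ k - 1) = win q j k e * t) : ((q : ℤ) ^ a - 1) ∣ D := by
  obtain ⟨a, rfl⟩ : ∃ i, a = j + i + 1 := ⟨a - j - 1, by omega⟩
  obtain ⟨b, rfl⟩ : ∃ i, b = j + i + 1 := ⟨b - j - 1, by omega⟩
  exact num_key hq (by omega) h (((mul_dvd_mul (dvd_mul_right _ _) ((num_pow _ hk).mul_right _)).trans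
    (num_pair (k := k) _ (a := a) (b := b) (by omega) (by omega) (by omega))).mul_right _)

/-- The factor `q ^ a + 1`. -/
theorem num_add (hq : 2 ≤ q) {a : ℕ} (ha : j + e ≤ a ∧ a < j + e + k)
    (h : (D : ℤ) * (q ^ k - 1) = win q j k e * t) : ((q : ℤ) ^ a + 1) ∣ D := by
  obtain ⟨a, rfl⟩ : ∃ i, a = j + i + e := ⟨a - j - e, by omega⟩
  obtain ⟨i, hi, h1⟩ := num_ex j (show k ≠ 0 by omega)
  refine num_key hq (by omega) h (Dvd.dvd.mul_right ?_ _)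
  rw [win, Finset.prod_mul_distrib, mul_comm]
  exact mul_dvd_mul ((num_pow _ h1).trans (Finset.dvd_prod_of_mem _ (Finset.mem_range.2 hi)))
    (Finset.dvd_prod_of_mem (fun i => (q : ℤ) ^ (j + i + e) + 1) (Finset.mem_range.2 (by omega)))

/-- Let `o` be the order of `q` modulo `r`; `o ≤ j + k` or `r ∣ q ^ b + 1` with `j + e ≤ b < j + e + k` (if `r ∣ q ^ b + 1` with
`b < j + e` then `o ≤ 2 b ≤ j + k`; if `r ∣ q + 1` then `o ≤ 2 ≤ k`). If `o > k` use `num_sub` with `a = o`. If `o < k` there is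
a multiple `a ≠ k` of `o` in `(j, j + k]`: if `o ∣ k` then `2 o ≤ k` and `k - o > j` or `o ≤ j`. -/
theorem num_or (hq : 2 ≤ q) (hk : 2 ≤ k) (hj : j < k) (he : e ≤ 2) (he2 : e = 2 → j + 1 < k) (hr : r.Prime)
    (h2 : r ≠ 2) (hrq : ¬ r ∣ q) (hP : Pr q (j + k) e r) (h : (D : ℤ) * (q ^ k - 1) = win q j k e * t) :
    r ∣ D ∨ orderOf (q : ZMod r) = k := by
  have := Fact.mk hr
  have o0 : 0 < orderOf (q : ZMod r) := (isOfFinOrder_iff_pow_eq_one.2 ⟨r - 1, by have := hr.two_le; omega,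
    ZMod.pow_card_sub_one_eq_one (mt (ZMod.natCast_eq_zero_iff _ _).1 hrq)⟩).orderOf_pos
  have sq : ∀ b, (r : ℤ) ∣ q ^ b + 1 → orderOf (q : ZMod r) ≤ 2 * b := fun b hb => by
    refine Nat.le_of_dvd (Nat.pos_of_ne_zero fun c => h2 ?_) (num_ord.1 ?_)
    · rw [show b = 0 by omega] at hb
      exact (Nat.prime_dvd_prime_iff_eq hr Nat.prime_two).1 (by exact_mod_cast hb)
    · exact hb.trans ⟨q ^ b - 1, by ring⟩
  have key : r ∣ D ∨ orderOf (q : ZMod r) ≤ j + k := by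
    rcases hP with c | c | c | c
    · exact absurd c hrq
    · exact absurd c h2
    · obtain ⟨i, hi, c⟩ := ((Nat.prime_iff_prime_int.1 hr).dvd_finsetProd_iff _).1 c
      rw [Finset.mem_range] at hi
      rcases (Nat.prime_iff_prime_int.1 hr).dvd_or_dvd c with c | c
      · exact .inr ((Nat.le_of_dvd (by omega) (num_ord.1 c)).trans (by omega))
      by_cases c' : j ≤ i
      · exact .inl (Int.natCast_dvd_natCast.1 (c.trans (num_add hq (by omega) h)))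
      · exact .inr ((sq _ c).trans (by omega))
    · exact .inr ((sq 1 (by simpa using c.2)).trans (by omega))
  refine key.elim .inl fun ho => or_iff_not_imp_right.2 fun hne => ?_
  generalize ho' : orderOf (q : ZMod r) = o at *
  suffices ∃ a, j < a ∧ a ≤ j + k ∧ a ≠ k ∧ o ∣ a by
    obtain ⟨a, h1, h2, h3, h4⟩ := this
    exact Int.natCast_dvd_natCast.1 ((num_ord.2 (ho' ▸ h4)).trans
      (num_sub hq ⟨h1, h2⟩ ⟨hj, by omega⟩ h3 dvd_rfl h))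
  by_cases c : j < o
  · exact ⟨o, c, ho, hne, dvd_rfl⟩
  obtain ⟨i, hi, h1⟩ := num_ex j o0.ne'
  by_cases c' : j + i + 1 = k
  · exact ⟨k + o, by omega, by omega, by omega, dvd_add (c' ▸ h1) dvd_rfl⟩
  · exact ⟨_, by omega, by omega, c', h1⟩

theorem num_cv (hq : 2 ≤ q) (hc : c ∣ 4) (hk : 2 ≤ k) (hrq : ¬ 2 ∣ q)
    (h : (D : ℤ) * (q ^ k - 1) = win q j k e * t) : Cv c 2 D :=
  ⟨(show 2 ∣ 8 by norm_num).trans (num_two hq hrq hk h),
    fun _ => (mul_dvd_mul_left 2 hc).trans (num_two hq hrq hk h)⟩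

/-- If the order is `k = 2 m` then `r ∣ q ^ b + 1` for the odd multiple `b` of `m` in `[j + e, j + e + k)`. -/
theorem num_even (hq : 2 ≤ q) (hc : c ∣ 4) (hk : 2 ≤ k) (hk2 : Even k) (hj : j < k) (he : e ≤ 2) (he2 : e = 2 → j + 1 < k)
    (hr : r.Prime) (hrq : ¬ r ∣ q) (hP : Pr q (j + k) e r) (h : (D : ℤ) * (q ^ k - 1) = win q j k e * t) :
    Cv c r D := by
  by_cases h2 : r = 2
  · subst h2; exact num_cv hq hc hk hrq h
  refine .of_ne h2 ((num_or hq hk hj he he2 hr h2 hrq hP h).elim id fun ho => ?_)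
  obtain ⟨m, rfl⟩ := hk2
  have hp := Nat.prime_iff_prime_int.1 hr
  have h1 : (r : ℤ) ∣ q ^ m + 1 :=
    (hp.dvd_or_dvd (show (r : ℤ) ∣ (q ^ m - 1) * (q ^ m + 1) from
      (num_ord.2 ho.dvd).trans ⟨1, by ring⟩)).resolve_left fun c => by
        have := Nat.le_of_dvd (by omega) (ho ▸ num_ord.1 c)
        omega
  obtain ⟨i, hi, h3⟩ := num_ex (j + e + m - 1) (show m + m ≠ 0 by omega)
  rw [show j + e + m - 1 + i + 1 = j + e + i + m by omega, ← ho, ← num_ord] at h3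
  refine Int.natCast_dvd_natCast.1 (Dvd.dvd.trans ?_ (num_add hq (a := j + e + i) (by omega) h))
  rw [show (q : ℤ) ^ (j + e + i) + 1 = q ^ (j + e + i) * (q ^ m + 1) - (q ^ (j + e + i + m) - 1) by ring]
  exact dvd_sub (h1.mul_left _) h3

/-- `num_two`, `num_or`; if the order is `k ≥ 2` then `r ∣ q ^ k - 1` and `r ∤ q - 1`. -/
theorem num_odd (hq : 2 ≤ q) (hc : c ∣ 4) (hk : 2 ≤ k) (hj : j < k) (he : e ≤ 2) (he2 : e = 2 → j + 1 < k)
    (hr : r.Prime) (hrq : ¬ r ∣ q) (hP : Pr q (j + k) e r) (h : (D : ℤ) * (q ^ k - 1) = win q j k e * t) :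
    Cv c r D ∨ r ≠ 2 ∧ (r : ℤ) ∣ q ^ k - 1 ∧ ¬ (r : ℤ) ∣ q - 1 := by
  by_cases h2 : r = 2
  · subst h2; exact .inl (num_cv hq hc hk hrq h)
  refine (num_or hq hk hj he he2 hr h2 hrq hP h).imp (.of_ne h2) fun ho => ⟨h2, num_ord.2 ho.dvd, fun c => ?_⟩
  have := Nat.le_of_dvd one_pos (ho ▸ num_ord.1 (by rwa [pow_one]))
  omega

theorem dvd_three (hr : r.Prime) (h1 : (r : ℤ) ∣ q ^ 3 - 1) (h2 : ¬ (r : ℤ) ∣ q - 1) : r ∣ q ^ 2 + q + 1 := by
  have := ((Nat.prime_iff_prime_int.1 hr).dvd_or_dvd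
    (show (r : ℤ) ∣ (q - 1) * (q ^ 2 + q + 1) from h1.trans ⟨1, by ring⟩)).resolve_left h2
  exact_mod_cast this

/-- `2 ^ odd` is `2, 3` modulo `5`, is `1, 2, 4` modulo `7`, etc. -/
theorem not_dvd_odd (a : ℕ) (hr : r = 2 ∨ r = 5 ∨ r = 7 ∨ r = 17) : ¬ r ∣ 1 + 2 ^ (2 * a + 1) := by
  have key : ∀ n : ℕ, (4 : ZMod n) ^ 12 = 1 → (∀ i : Fin 12, (1 + 4 ^ (i : ℕ) * 2 : ZMod n) ≠ 0) →
      ¬ n ∣ 1 + 2 ^ (2 * a + 1) := fun n h1 h2 h => h2 ⟨a % 12, Nat.mod_lt _ (by norm_num)⟩ (by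
    have := (ZMod.natCast_eq_zero_iff _ _).2 h
    rw [pow_succ, pow_mul] at this
    push_cast at this
    rwa [pow_eq_pow_of_modEq (Nat.mod_modEq a 12) h1])
  rcases hr with rfl | rfl | rfl | rfl
  · rw [pow_succ]
    exact fun h => absurd ((Nat.dvd_add_left (dvd_mul_left _ _)).1 h) (by norm_num)
  all_goals exact key _ (by decide) (by decide)

/-- The output of `t5`. -/
theorem num_five {a f n : ℕ} (hr : r = 2 ∨ r = 5 ∨ r = 7 ∨ r = 17) {w : ℤ}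
    (h : ((1 + 2 ^ (2 * a + 1)) * f * 3 : ℤ) = w) (hn : ((r ^ n : ℕ) : ℤ) ∣ w) : r ^ n ∣ f := by
  have hp : r.Prime := by rcases hr with rfl | rfl | rfl | rfl <;> norm_num
  have h1 : r ^ n ∣ (1 + 2 ^ (2 * a + 1)) * f * 3 := by rw [← h] at hn; exact_mod_cast hn
  exact ((hp.coprime_iff_not_dvd.2 (not_dvd_odd a hr)).pow_left n).dvd_of_dvd_mul_left
    (((hp.coprime_iff_not_dvd.2 (by rcases hr with rfl | rfl | rfl | rfl <;> norm_num)).pow_left n).dvd_of_dvd_mul_right h1)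

end Cfsg.Lib.HCI
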