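import Cfsg.Agent.Lib.HCI.Fs
import Cfsg.Agent.Lib.Orth.Count

/-! S4984: the spaces with `κ = 1` are the non-degenerate quadratic spaces. -/

set_option autoImplicit false

namespace Cfsg.Lib.HCI.FS

open Module Cfsg.Lib.Orth QuadraticMap

variable {F V : Type} [Field F] [AddCommGroup V] [Module F V]

/-- The space of a quadratic form. -/
def ofQ (Q : QuadraticForm F V) (hQ : ND Q) : FS F V where
  B := polarBilin Q
  Q := Q
  κ := 1
  hκ := .inr rfl
  add x y := by simp [Q_add]
  smul := Q_smul Q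
  symm x y := by simp [polar_comm Q y x]; ring
  self x := by simp [two_mul]
  zero x := one_mul _
  nd x h := hQ.eq_zero (by simpa using h)

theorem iso_ofQ (Q : QuadraticForm F V) (hQ : ND Q) : (ofQ Q hQ).Iso = O Q :=
  Subgroup.ext fun g => ⟨fun h => h.2, fun h => ⟨fun x y => O.map_polar ⟨g, h⟩ x y, h⟩⟩

/-- The quadratic form of a space with `κ = 1`. -/
def toQ (S : FS F V) (h : S.κ = 1) : QuadraticForm F V where
  toFun := S.Q
  toFun_smul a x := by rw [S.smul, smul_eq_mul, pow_two]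
  exists_companion' := ⟨S.B, fun x y => by rw [S.add, h, one_mul]⟩

variable {S : FS F V} (h : S.κ = 1)

theorem toQ_apply (x : V) : S.toQ h x = S.Q x := rfl

theorem polar_toQ (x y : V) : polar (S.toQ h) x y = S.B x y := by
  simp [polar, toQ_apply, S.add, h]; ring

theorem nd_toQ : ND (S.toQ h) := (nd_iff _).2 fun x hx => S.nd x fun y => by rw [← polar_toQ h, hx]

theorem iso_toQ : S.Iso = O (S.toQ h) :=
  Subgroup.ext fun g => ⟨fun e => e.2, fun e => ⟨fun x y => by
    rw [← polar_toQ h, ← polar_toQ h]; exact O.map_polar ⟨g, e⟩ x y, e⟩⟩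

/-- The isometry group as `O`. -/
def eqO : S.Iso ≃* O (S.toQ h) := MulEquiv.subgroupCongr (iso_toQ h)

theorem eqO_ap (g : S.Iso) : (eqO h g).1 = g.1 := rfl

theorem eqO_neg : eqO h S.neg = O.neg _ := rfl

theorem eqO_tv [Finite V] {u : V} (hu : S.Q u ≠ 0) : eqO h (S.tv u (-(S.Q u)⁻¹)) = refl _ u :=
  O.ext fun x => by
    rw [eqO_ap, tv_ap _ (by rw [h]; field_simp; ring), refl_apply, polar_toQ, toQ_apply, S.symm x u, h]
    simp [sub_eq_add_neg]
    congr 2
    ring

end Cfsg.Lib.HCI.FS
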