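import Cfsg.Agent.Lib.HCI.Fs
import Cfsg.Agent.Lib.HCI.Ab

/-! S4984: the stabiliser of `W₀ = {(x, 0, 0)}` in the isometry group of `S.ext k`. -/

set_option autoImplicit false

namespace Cfsg.Lib.HCI

open Module Matrix

variable {F V : Type} [Field F] [Fintype F] [DecidableEq F] [AddCommGroup V] [Module F V] [Finite V]

namespace FS

variable (S : FS F V) (k : ℕ)

omit [DecidableEq F] in
/-- `b ↦ B · b` is injective (`nd'`), hence bijective onto the dual. -/
theorem exists_B (f : V →ₗ[F] F) : ∃ b, ∀ x, S.B x b = f x := by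
  have : Module.Finite F V := Module.Finite.of_finite
  have hi : Function.Injective S.B.flip := LinearMap.ker_eq_bot.1 (LinearMap.ker_eq_bot'.2 fun b h =>
    S.nd' b fun x => LinearMap.congr_fun h x)
  obtain ⟨b, hb⟩ := (LinearMap.injective_iff_surjective_of_finrank_eq_finrank
    (Subspace.dual_finrank_eq (K := F) (V := V)).symm).1 hi f
  exact ⟨b, fun x => LinearMap.congr_fun hb x⟩

/-- The description of the parabolic subgroup, its Levi factor and `w`. -/
structure Spec (D : Dat (S.ext k).Iso (GL (Fin k) F × S.Iso)) : Prop where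
  mem : ∀ g, g ∈ D.P ↔ ∀ x, (g.1 (x, 0, 0)).2 = 0
  pi1 : ∀ g : D.P, ∀ x, g.1.1 (x, 0, 0) = ((D.π g).1.1 *ᵥ x, 0, 0)
  pi2 : ∀ g : D.P, ∀ x v, (g.1.1 (x, 0, v)).2 = (0, (D.π g).2.1 v)
  lam : ∀ l z, (D.lam l).1 z = (l.1.1 *ᵥ z.1, (l.1⁻¹).1ᵀ *ᵥ z.2.1, l.2.1 z.2.2)
  w : ∀ z, D.w.1 z = (z.2.1, S.ε • z.1, z.2.2)
  α : ∀ l, (D.α l).1.1 = (l.1⁻¹).1ᵀ ∧ (D.α l).2 = l.2
  l0 : D.l0.1.1 = S.ε • 1 ∧ D.l0.2 = 1

omit [Fintype F] [DecidableEq F] [Finite V] in
theorem par_dot {k : ℕ} (A : GL (Fin k) F) (x y : Fin k → F) : (A.1 *ᵥ x) ⬝ᵥ ((A⁻¹).1ᵀ *ᵥ y) = x ⬝ᵥ y := by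
  rw [dotProduct_mulVec, vecMul_transpose, mulVec_mulVec, Units.inv_mul, one_mulVec]

omit [Fintype F] [DecidableEq F] [Finite V] in
theorem par_mid {S : FS F V} {k : ℕ} {g : (S.ext k).Iso} {A : GL (Fin k) F}
    (h : ∀ x, g.1 (x, 0, 0) = (A.1 *ᵥ x, 0, 0)) (z) : (g.1 z).2.1 = (A⁻¹).1ᵀ *ᵥ z.2.1 := by
  refine dotProduct_eq _ _ fun u => ?_
  have h1 := map_B g ((A⁻¹).1 *ᵥ u, 0, 0) z
  have h2 := par_dot A ((A⁻¹).1 *ᵥ u) z.2.1
  rw [h] at h1
  rw [mulVec_mulVec, Units.mul_inv, one_mulVec] at h1 h2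
  simp only [ext_B, zero_dotProduct, mul_zero, add_zero, map_zero, LinearMap.zero_apply] at h1
  rw [dotProduct_comm, h1, dotProduct_comm _ u, h2]

omit [Fintype F] [DecidableEq F] [Finite V] in
theorem par_split {S : FS F V} {k : ℕ} (g : (S.ext k).Iso) (z : (Fin k → F) × (Fin k → F) × V) :
    g.1 z = g.1 (z.1, 0, 0) + g.1 (0, z.2.1, 0) + g.1 (0, 0, z.2.2) := by
  rw [← map_add, ← map_add]; simp

omit [DecidableEq F] [Finite V] in
/-- The stabiliser of `W₀`. -/
def parP : Subgroup (S.ext k).Iso where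
  carrier := {g | ∀ x, (g.1 (x, 0, 0)).2 = 0}
  one_mem' := fun _ => rfl
  mul_mem' := fun {a b} ha hb x => by
    have : b.1 (x, 0, 0) = ((b.1 (x, 0, 0)).1, 0, 0) := Prod.ext rfl (hb x)
    rw [mul_ap, this]; exact ha _
  inv_mem' := fun {a} ha x => by
    have e : ∀ y, a.1 (y, 0, 0) = ((a.1 (y, 0, 0)).1, 0, 0) := fun y => Prod.ext rfl (ha y)
    have hi : Function.Injective fun y : Fin k → F => (a.1 (y, 0, 0)).1 := fun y y' h => by
      have : a.1 (y, 0, 0) = a.1 (y', 0, 0) := by rw [e y, e y']; exact Prod.ext h rfl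
      exact congrArg Prod.fst (a.1.injective this)
    obtain ⟨y, hy⟩ := Finite.injective_iff_surjective.1 hi x
    have : a.1 (y, 0, 0) = (x, 0, 0) := by rw [e y]; exact Prod.ext hy rfl
    rw [← this, inv_ap]; rfl

/-- The matrix of the restriction to `W₀`. -/
noncomputable def parM (g : (S.ext k).Iso) : Matrix (Fin k) (Fin k) F :=
  LinearMap.toMatrix' (LinearMap.fst F _ _ ∘ₗ g.1.toLinearMap ∘ₗ LinearMap.inl F _ _)

omit [Fintype F] [DecidableEq F] [Finite V] in
theorem parM_ap (g : (S.ext k).Iso) (x) : S.parM k g *ᵥ x = (g.1 (x, 0, 0)).1 := by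
  rw [parM, ← toLin'_apply, toLin'_toMatrix']; rfl

omit [Finite V] in
theorem parM_eq (g : S.parP k) (x) : g.1.1 (x, 0, 0) = (S.parM k g *ᵥ x, 0, 0) :=
  Prod.ext (S.parM_ap k g x).symm (g.2 x)

/-- The action on `W₀`. -/
noncomputable def parA : S.parP k →* GL (Fin k) F := MonoidHom.toHomUnits
  { toFun := fun g => S.parM k g
    map_one' := mulVec_injective (funext fun x => by rw [parM_ap, one_mulVec]; rfl)
    map_mul' := fun a b => mulVec_injective (funext fun x => by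
      rw [← mulVec_mulVec, parM_ap, parM_ap, ← parM_eq]; rfl) }

omit [Finite V] in
theorem parA_eq (g : S.parP k) (x) : g.1.1 (x, 0, 0) = ((S.parA k g).1 *ᵥ x, 0, 0) := S.parM_eq k g x

omit [Finite V] in
theorem par_perp (g : S.parP k) (v : V) :
    g.1.1 (0, 0, v) = ((g.1.1 (0, 0, v)).1, 0, (g.1.1 (0, 0, v)).2.2) :=
  Prod.ext rfl (Prod.ext (by rw [par_mid (S.parA_eq k g)]; exact mulVec_zero _) rfl)

/-- The action on `W₀^⊥ / W₀`. -/
noncomputable def parH0 (g : S.parP k) : S.Iso :=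
  S.mkIso (LinearMap.snd F _ _ ∘ₗ LinearMap.snd F _ _ ∘ₗ g.1.1.toLinearMap ∘ₗ LinearMap.inr F _ _ ∘ₗ
      LinearMap.inr F _ _)
    (fun x y => by
      have := map_B g.1 (0, 0, x) (0, 0, y)
      rw [par_perp, S.par_perp k g y] at this
      simpa [ext_B] using this)
    (fun x => by
      have := map_Q g.1 (0, 0, x)
      rw [par_perp] at this
      simpa [ext_Q] using this)

theorem parH0_eq (g : S.parP k) (x v) : (g.1.1 (x, 0, v)).2 = (0, (S.parH0 k g).1 v) := by
  refine Prod.ext (by rw [par_mid (S.parA_eq k g)]; exact mulVec_zero _) ?_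
  have : ((x, 0, v) : (Fin k → F) × (Fin k → F) × V) = (x, 0, 0) + (0, 0, v) := by simp
  rw [this, map_add, parA_eq]
  exact zero_add _

/-- The action on `W₀^⊥ / W₀`. -/
noncomputable def parH : S.parP k →* S.Iso where
  toFun := S.parH0 k
  map_one' := iso_ext fun _ => rfl
  map_mul' a b := iso_ext fun v => by
    have h1 := S.parH0_eq k (a * b) 0 v
    have h2 : b.1.1 (0, 0, v) = ((b.1.1 (0, 0, v)).1, 0, (S.parH0 k b).1 v) :=
      Prod.ext rfl (S.parH0_eq k b 0 v)
    rw [Subgroup.coe_mul, mul_ap, h2, parH0_eq] at h1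
    exact (congrArg Prod.snd h1).symm

/-- The Levi factor. -/
noncomputable def parL0 (l : GL (Fin k) F × S.Iso) : (S.ext k).Iso :=
  (S.ext k).mkIso ((toLin' l.1.1).prodMap ((toLin' (l.1⁻¹).1ᵀ).prodMap l.2.1.toLinearMap))
    (fun x y => by
      simp only [ext_B, LinearMap.prodMap_apply, toLin'_apply, LinearEquiv.coe_coe, map_B, par_dot,
        dotProduct_comm ((l.1⁻¹).1ᵀ *ᵥ _), dotProduct_comm x.2.1])
    (fun x => by
      simp only [ext_Q, LinearMap.prodMap_apply, toLin'_apply, LinearEquiv.coe_coe, map_Q, par_dot])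

theorem parL0_ap (l : GL (Fin k) F × S.Iso) (z) :
    (S.parL0 k l).1 z = (l.1.1 *ᵥ z.1, (l.1⁻¹).1ᵀ *ᵥ z.2.1, l.2.1 z.2.2) := rfl

/-- The Levi factor. -/
noncomputable def parL : GL (Fin k) F × S.Iso →* (S.ext k).Iso where
  toFun := S.parL0 k
  map_one' := iso_ext fun z => by simp [parL0_ap]
  map_mul' a b := iso_ext fun z => by simp [parL0_ap]

/-- The Weyl element. -/
noncomputable def parW : (S.ext k).Iso :=
  (S.ext k).mkIso ((LinearMap.fst F _ _ ∘ₗ LinearMap.snd F _ _).prod ((S.ε • LinearMap.fst F _ _).prod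
      (LinearMap.snd F _ _ ∘ₗ LinearMap.snd F _ _)))
    (fun x y => by
      simp [ext_B]
      linear_combination (x.1 ⬝ᵥ y.2.1) * S.ε_sq)
    (fun x => by
      show S.κ * (x.2.1 ⬝ᵥ S.ε • x.1) + S.Q x.2.2 = S.κ * (x.1 ⬝ᵥ x.2.1) + S.Q x.2.2
      rw [dotProduct_smul, dotProduct_comm x.2.1, smul_eq_mul]
      linear_combination (x.1 ⬝ᵥ x.2.1) * S.κ_ε)

omit [DecidableEq F] in
theorem parW_ap (z) : (S.parW k).1 z = (z.2.1, S.ε • z.1, z.2.2) := rfl

/-- The inverse transpose. -/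
def parT : GL (Fin k) F →* GL (Fin k) F where
  toFun A := ⟨(A⁻¹).1ᵀ, A.1ᵀ, by rw [← transpose_mul, Units.mul_inv, transpose_one],
    by rw [← transpose_mul, Units.inv_mul, transpose_one]⟩
  map_one' := Units.ext (by simp)
  map_mul' a b := Units.ext (by simp)

/-- The scalar `ε`. -/
def parE : GL (Fin k) F := ⟨S.ε • 1, S.ε • 1, by simp [smul_smul, S.ε_sq], by simp [smul_smul, S.ε_sq]⟩

theorem par_int {x : (S.ext k).Iso} (hx : x ∈ S.parP k) (h : (S.parW k)⁻¹ * x * S.parW k ∈ S.parP k) :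
    x = S.parL0 k (S.parA k ⟨x, hx⟩, S.parH k ⟨x, hx⟩) := by
  have h1 : ∀ y, x.1 (0, S.ε • y, 0) = (0, S.ε • (S.parA k ⟨_, h⟩).1 *ᵥ y, 0) := fun y => by
    have := congrArg (S.parW k).1 (S.parA_eq k ⟨_, h⟩ y)
    rwa [mul_ap, mul_ap, ap_inv] at this
  have h2 : ∀ y, x.1 (0, y, 0) = (0, (x.1 (0, y, 0)).2.1, 0) := fun y => by
    have := h1 (S.ε • y)
    rw [smul_smul, S.ε_sq, one_smul] at this
    rw [this]
  have h3 : ∀ v, (x.1 (0, 0, v)).1 = 0 := fun v => dotProduct_eq_zero _ fun u => by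
    have := map_B x (0, 0, v) (0, S.ε • ((S.parA k ⟨_, h⟩)⁻¹).1 *ᵥ (S.ε • u), 0)
    rw [h1, mulVec_mulVec, Units.mul_inv, one_mulVec, smul_smul, S.ε_sq, one_smul] at this
    simpa [ext_B] using this
  refine iso_ext fun z => ?_
  have h4 : x.1 (0, 0, z.2.2) = (0, 0, (S.parH0 k ⟨x, hx⟩).1 z.2.2) :=
    Prod.ext (h3 _) (S.parH0_eq k ⟨x, hx⟩ 0 _)
  rw [par_split, S.parA_eq k ⟨x, hx⟩, h2, par_mid (S.parA_eq k ⟨x, hx⟩), h4, parL0_ap]
  simp
  rfl

/-- `P` is the stabiliser of `W₀` (an injective map of the finite `W₀` into itself is onto); it stabilises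
`W₀^⊥ = {(x, 0, v)}` (`B (x, 0, 0) z = x ⬝ᵥ z.2.1`). `π g = (toMatrix' (fst ∘ g ∘ inl), snd ∘ snd ∘ g ∘ inr ∘ inr)`
(`mkIso`). `int`: `x` stabilises `W₀` and `W' = {(0, y, 0)}`, hence `V = (W₀ + W')^⊥`, and `x = lam (π x)`. -/
theorem exists_dat [NeZero k] : ∃ D, S.Spec k D := by
  refine ⟨
    { P := S.parP k
      π := (S.parA k).prod (S.parH k)
      lam := S.parL k
      mem := fun l x => by
        show ((S.parL0 k l).1 _).2 = 0
        simp [parL0_ap]
      sec := fun l => Prod.ext (Units.ext (mulVec_injective (funext fun x => ?_))) (iso_ext fun v => rfl)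
      w := S.parW k
      α := (parT k).prodMap (MonoidHom.id _)
      cj := fun l => ?_
      l0 := (S.parE k, 1)
      sq := iso_ext fun z => ?_
      nm := fun h => ?_
      int := fun x hx h => ⟨_, S.par_int k hx h⟩ },
    ⟨fun _ => Iff.rfl, S.parA_eq k, S.parH0_eq k, S.parL0_ap k, S.parW_ap k, fun _ => ⟨rfl, rfl⟩, rfl, rfl⟩⟩
  · exact S.parM_ap k _ x
  · rw [mul_assoc, inv_mul_eq_iff_eq_mul]
    refine iso_ext fun z => ?_
    show (S.parL0 k l).1 ((S.parW k).1 z) = (S.parW k).1 ((S.parL0 k _).1 z)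
    rw [parL0_ap, parL0_ap, parW_ap, parW_ap, mulVec_smul]
    rfl
  · show (S.parW k).1 ((S.parW k).1 z) = (S.parL0 k _).1 z
    rw [parL0_ap, parW_ap, parW_ap]
    show _ = ((S.ε • (1 : Matrix (Fin k) (Fin k) F)) *ᵥ _, (S.ε • (1 : Matrix (Fin k) (Fin k) F))ᵀ *ᵥ _, _)
    simp [smul_mulVec]
  · have := congrFun (congrArg Prod.fst (h (Pi.single 0 1))) 0
    exact left_ne_zero_of_mul_eq_one S.ε_sq (by simpa [parW_ap] using this)

/-- The parabolic data. -/
noncomputable def dat [NeZero k] : Dat (S.ext k).Iso (GL (Fin k) F × S.Iso) := (S.exists_dat k).choose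

theorem spec [NeZero k] : S.Spec k (S.dat k) := (S.exists_dat k).choose_spec

variable {S k}

/-- `{(C y, y, β y)}` is totally singular. -/
def Con (S : FS F V) (β : (Fin k → F) →ₗ[F] V) (C : Matrix (Fin k) (Fin k) F) : Prop :=
  (∀ y, S.κ * (C *ᵥ y ⬝ᵥ y) + S.Q (β y) = 0) ∧
    ∀ y y', C *ᵥ y ⬝ᵥ y' + S.ε * (y ⬝ᵥ C *ᵥ y') + S.B (β y) (β y') = 0

/-- The linear map of an element of the unipotent radical. -/
def km (S : FS F V) (β : (Fin k → F) →ₗ[F] V) (C : Matrix (Fin k) (Fin k) F)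
    (z : (Fin k → F) × (Fin k → F) × V) : (Fin k → F) × (Fin k → F) × V :=
  (z.1 + C *ᵥ z.2.1 - fun r => S.B z.2.2 (β (Pi.single r 1)), z.2.1, z.2.2 + β z.2.1)

omit [Fintype F] [DecidableEq F] [Finite V] in
/-- It suffices to check the conditions on the basis vectors (both `y ↦ κ (C y ⬝ y) + Q (β y)` and its polar form
`κ * (second expression)`; induct with `S.add`, `S.smul`). -/
theorem con_iff {β : (Fin k → F) →ₗ[F] V} {C : Matrix (Fin k) (Fin k) F} : S.Con β C ↔
    (∀ i, S.κ * C i i + S.Q (β (Pi.single i 1)) = 0) ∧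
      ∀ i j, i < j → C j i + S.ε * C i j + S.B (β (Pi.single i 1)) (β (Pi.single j 1)) = 0 := by
  refine ⟨fun h => ⟨fun i => by simpa using h.1 (Pi.single i 1), fun i j _ => by
    simpa using h.2 (Pi.single i 1) (Pi.single j 1)⟩, fun h => ?_⟩
  have e : ∀ (i : Fin k) (a : F), Pi.single i a = a • (Pi.single i 1 : Fin k → F) := fun i a => by
    rw [← Pi.single_smul, smul_eq_mul, mul_one]
  have h2 : ∀ y y', C *ᵥ y ⬝ᵥ y' + S.ε * (y ⬝ᵥ C *ᵥ y') + S.B (β y) (β y') = 0 := fun y y' => by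
    induction y using Pi.single_induction with
    | zero => simp
    | add a b ha hb =>
      simp only [mulVec_add, add_dotProduct, map_add, LinearMap.add_apply]
      linear_combination ha + hb
    | single i a =>
      induction y' using Pi.single_induction with
      | zero => simp
      | add a b ha hb =>
        simp only [mulVec_add, dotProduct_add, map_add]
        linear_combination ha + hb
      | single j b =>
        have h0 : C j i + S.ε * C i j + S.B (β (Pi.single i 1)) (β (Pi.single j 1)) = 0 := by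
          rcases lt_trichotomy i j with c | rfl | c
          · exact h.2 i j c
          · rw [S.self, ε]; linear_combination 2 * h.1 i
          · rw [S.symm' (β (Pi.single j 1))]
            linear_combination S.ε * h.2 j i c - C j i * S.ε_sq
        rw [e i a, e j b]
        simp only [map_smul, LinearMap.smul_apply, mulVec_smul, smul_dotProduct, dotProduct_smul, smul_eq_mul]
        simp only [dotProduct_single, single_dotProduct, mulVec_single_one, col_apply, mul_one, one_mul]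
        linear_combination (a * b) * h0
  refine ⟨fun y => ?_, h2⟩
  induction y using Pi.single_induction with
  | zero => simp [S.Q_zero]
  | add a b ha hb =>
    simp only [mulVec_add, add_dotProduct, dotProduct_add, map_add, S.add]
    rw [dotProduct_comm (C *ᵥ b) a]
    linear_combination ha + hb + S.κ * h2 a b - (a ⬝ᵥ C *ᵥ b) * S.κ_ε
  | single i a =>
    rw [e i a]
    simp only [map_smul, S.smul, mulVec_smul, smul_dotProduct, dotProduct_smul, smul_eq_mul]
    simp only [dotProduct_single, mulVec_single_one, col_apply, mul_one]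
    linear_combination a ^ 2 * h.1 i

omit [Fintype F] [DecidableEq F] [Finite V] in
/-- `C j i = -B (β eᵢ) (β eⱼ)` for `i < j`, `C i i = -Q (β eᵢ)`, zero above the diagonal. -/
theorem exists_con (β : (Fin k → F) →ₗ[F] V) : ∃ C, S.Con β C := by
  refine ⟨Matrix.of fun j i => if i < j then - S.B (β (Pi.single i 1)) (β (Pi.single j 1)) else
    if i = j then - S.Q (β (Pi.single i 1)) else 0, con_iff.2 ⟨fun i => ?_, fun i j c => ?_⟩⟩
  · simp [S.zero]
  · simp [c, c.not_gt, c.ne']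

omit [Fintype F] [DecidableEq F] [Finite V] in
theorem par_t (S : FS F V) (β : (Fin k → F) →ₗ[F] V) (v : V) (y : Fin k → F) :
    (fun r => S.B v (β (Pi.single r 1))) ⬝ᵥ y = S.B v (β y) := by
  induction y using Pi.single_induction with
  | zero => simp
  | add a b ha hb => rw [dotProduct_add, ha, hb, map_add, map_add]
  | single i a =>
    rw [dotProduct_single, mul_comm, ← smul_eq_mul, ← map_smul, ← map_smul, ← Pi.single_smul, smul_eq_mul,
      mul_one]

/-- `km` as a linear map. -/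
def parK (S : FS F V) (β : (Fin k → F) →ₗ[F] V) (C : Matrix (Fin k) (Fin k) F) :
    ((Fin k → F) × (Fin k → F) × V) →ₗ[F] ((Fin k → F) × (Fin k → F) × V) where
  toFun := S.km β C
  map_add' a b := Prod.ext (funext fun r => by simp [km, mulVec_add]; ring)
    (Prod.ext rfl (by simp [km]; abel))
  map_smul' c a := Prod.ext (funext fun r => by simp [km, mulVec_smul]; ring)
    (Prod.ext rfl (by simp [km]))

variable [NeZero k]

theorem pi_eq {g : (S.ext k).Iso} {l : GL (Fin k) F × S.Iso} (h1 : ∀ x, g.1 (x, 0, 0) = (l.1.1 *ᵥ x, 0, 0))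
    (h2 : ∀ v, (g.1 (0, 0, v)).2.2 = l.2.1 v) : ∃ h : g ∈ (S.dat k).P, (S.dat k).π ⟨g, h⟩ = l := by
  have h : g ∈ (S.dat k).P := ((S.spec k).mem g).2 fun x => by rw [h1]; rfl
  refine ⟨h, Prod.ext (Units.ext (mulVec_injective (funext fun x => ?_))) (iso_ext fun v => ?_)⟩
  · exact congrArg Prod.fst (((S.spec k).pi1 ⟨g, h⟩ x).symm.trans (h1 x))
  · exact (congrArg Prod.snd ((S.spec k).pi2 ⟨g, h⟩ 0 v)).symm.trans (h2 v)

theorem mem_K {g : (S.ext k).Iso} :
    g ∈ (S.dat k).K ↔ (∀ x, g.1 (x, 0, 0) = (x, 0, 0)) ∧ ∀ v, (g.1 (0, 0, v)).2.2 = v := by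
  rw [Dat.mem_K]
  refine ⟨fun ⟨h, e⟩ => ⟨fun x => ?_, fun v => ?_⟩, fun h => pi_eq (fun x => by rw [h.1]; simp) h.2⟩
  · have := (S.spec k).pi1 ⟨g, h⟩ x
    rw [e] at this
    simpa using this
  · have := (S.spec k).pi2 ⟨g, h⟩ 0 v
    rw [e] at this
    exact congrArg Prod.snd this

/-- `mkIso`; note `(fun r => B v (β eᵣ)) ⬝ᵥ y = B v (β y)`. -/
theorem exists_K {β : (Fin k → F) →ₗ[F] V} {C : Matrix (Fin k) (Fin k) F} (h : S.Con β C) :
    ∃ g ∈ (S.dat k).K, ∀ z, g.1 z = S.km β C z := by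
  refine ⟨(S.ext k).mkIso (S.parK β C) (fun x y => ?_) (fun x => ?_), mem_K.2 ⟨fun x => ?_, fun v => ?_⟩,
    fun _ => rfl⟩
  · show (S.ext k).B (S.km β C x) (S.km β C y) = _
    simp only [ext_B, km, sub_dotProduct, add_dotProduct, dotProduct_sub, dotProduct_add, par_t, map_add,
      LinearMap.add_apply, dotProduct_comm x.2.1 (fun r => S.B y.2.2 (β (Pi.single r 1))),
      S.symm' y.2.2 (β x.2.1)]
    linear_combination h.2 x.2.1 y.2.1
  · show (S.ext k).Q (S.km β C x) = _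
    simp only [ext_Q, km, sub_dotProduct, add_dotProduct, par_t, S.add]
    linear_combination h.1 x.2.1
  · show S.km β C _ = _
    exact Prod.ext (funext fun r => by simp [km]) (by simp [km])
  · show (S.km β C _).2.2 = _
    simp [km]

omit [Fintype F] [DecidableEq F] [Finite V] [NeZero k] in
/-- A totally singular graph over `W'`. -/
theorem par_graph (f : (Fin k → F) →ₗ[F] ((Fin k → F) × (Fin k → F) × V)) (h : ∀ y, (f y).2.1 = y)
    (hQ : ∀ y, (S.ext k).Q (f y) = 0) (hB : ∀ y y', (S.ext k).B (f y) (f y') = 0) :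
    ∃ β C, S.Con β C ∧ ∀ y, f y = (C *ᵥ y, y, β y) := by
  have e : ∀ y, f y = (LinearMap.toMatrix' (LinearMap.fst F _ _ ∘ₗ f) *ᵥ y, y,
      (LinearMap.snd F _ _ ∘ₗ LinearMap.snd F _ _ ∘ₗ f) y) := fun y =>
    Prod.ext (by rw [← toLin'_apply, toLin'_toMatrix']; rfl) (Prod.ext (h y) rfl)
  refine ⟨_, _, ⟨fun y => ?_, fun y y' => ?_⟩, e⟩
  · have := hQ y
    rwa [e] at this
  · have := hB y y'
    rwa [e, e y'] at this

/-- Read `β`, `C` off `g (0, y, 0)`; the middle component is `y` as `g` fixes `W₀` pointwise. -/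
theorem K_form {g : (S.ext k).Iso} (h : g ∈ (S.dat k).K) : ∃ β C, S.Con β C ∧ ∀ z, g.1 z = S.km β C z := by
  obtain ⟨h1, h2⟩ := mem_K.1 h
  have hm : ∀ z, (g.1 z).2.1 = z.2.1 := fun z => by
    rw [par_mid (A := 1) (fun x => by rw [h1]; simp)]; simp
  obtain ⟨β, C, hc, e⟩ := par_graph (S := S) (g.1.toLinearMap ∘ₗ LinearMap.inr F _ _ ∘ₗ LinearMap.inl F _ _)
    (fun y => hm _) (fun y => (map_Q g _).trans (by simp [ext_Q, S.Q_zero]))
    (fun y y' => (map_B g _ _).trans (by simp [ext_B]))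
  have e' : ∀ y, g.1 (0, y, 0) = (C *ᵥ y, y, β y) := e
  refine ⟨β, C, hc, fun z => ?_⟩
  have h3 : g.1 (0, 0, z.2.2) = (-fun r => S.B z.2.2 (β (Pi.single r 1)), 0, z.2.2) := by
    refine Prod.ext (dotProduct_eq _ _ fun u => ?_) (Prod.ext (hm _) (h2 _))
    have := map_B g (0, 0, z.2.2) (0, u, 0)
    rw [e', ext_B, hm, h2] at this
    rw [neg_dotProduct, par_t]
    simp only [ext_B, zero_dotProduct, mul_zero, add_zero, map_zero] at this
    linear_combination this
  rw [par_split, h1, e', h3]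
  simp [km, sub_eq_add_neg, add_comm]

/-- `⇐`: `g W₀` is a graph `{(C y, y, β y)}` over `W'`, so `g W₀ = κ W' = κ w W₀` with `κ ∈ K` (`exists_K`). -/
theorem big_iff {g : (S.ext k).Iso} : (S.dat k).Big g ↔ ∀ x, (g.1 (x, 0, 0)).2.1 = 0 → x = 0 := by
  constructor
  · rintro ⟨x, hx, y, hy, rfl⟩ a h
    rw [mul_ap, mul_ap, (S.spec k).pi1 ⟨y, hy⟩, (S.spec k).w, par_mid ((S.spec k).pi1 ⟨x, hx⟩)] at h
    have h1 := congrArg (fun u => S.ε • (((S.dat k).π ⟨x, hx⟩).1.1ᵀ *ᵥ u)) h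
    simp only [mulVec_mulVec, ← transpose_mul, Units.inv_mul, transpose_one, one_mulVec, smul_smul, S.ε_sq,
      one_smul, mulVec_zero, smul_zero] at h1
    have h2 := congrArg (fun u => (((S.dat k).π ⟨y, hy⟩).1⁻¹).1 *ᵥ u) h1
    simpa only [mulVec_mulVec, Units.inv_mul, one_mulVec, mulVec_zero] using h2
  · intro h
    let e := LinearEquiv.ofBijective (LinearMap.fst F _ _ ∘ₗ LinearMap.snd F _ _ ∘ₗ g.1.toLinearMap ∘ₗ
      LinearMap.inl F _ _) (Finite.injective_iff_bijective.1 (LinearMap.ker_eq_bot.1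
        (LinearMap.ker_eq_bot'.2 h)))
    obtain ⟨β, C, hc, e1⟩ := par_graph (S := S) (g.1.toLinearMap ∘ₗ LinearMap.inl F _ _ ∘ₗ e.symm.toLinearMap)
      (fun y => e.apply_symm_apply y) (fun y => (map_Q g _).trans (by simp [ext_Q, S.Q_zero]))
      (fun y y' => (map_B g _ _).trans (by simp [ext_B]))
    obtain ⟨c, hc1, hc2⟩ := exists_K hc
    refine ⟨c, Dat.K_le _ hc1, (c * (S.dat k).w)⁻¹ * g, ((S.spec k).mem _).2 fun x => ?_, by group⟩
    have h1 : g.1 (x, 0, 0) = (c * (S.dat k).w).1 (S.ε • e x, 0, 0) := by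
      have h2 : g.1 (e.symm (e x), 0, 0) = _ := e1 (e x)
      rw [e.symm_apply_apply] at h2
      rw [h2, mul_ap, (S.spec k).w, hc2, smul_smul, S.ε_sq, one_smul]
      exact Prod.ext (funext fun r => by simp [km]) (by simp [km])
    rw [mul_ap, h1, inv_ap]
    rfl

/-- `w⁻¹ = w * lam l0⁻¹`. -/
theorem big_inv {g : (S.ext k).Iso} (h : (S.dat k).Big g⁻¹) : (S.dat k).Big g := by
  obtain ⟨x, hx, y, hy, e⟩ := h
  refine ⟨y⁻¹, inv_mem hy, (S.dat k).lam (S.dat k).l0⁻¹ * x⁻¹, mul_mem ((S.dat k).mem _) (inv_mem hx), ?_⟩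
  rw [map_inv, ← (S.dat k).sq, ← inv_inv g, e]
  group

/-- The Levi component of a big element: `g (x, 0, 0) = κ w (A x, 0, 0)` has middle component `ε A x`; if
`g (x, 0, v) = (x', 0, v')` then `(x, 0, v)` is mapped by `lam l * k'` to `(x'', 0, l.2 v)`, then by `w` to
`(0, ε x'', l.2 v)`, and the middle component forces `x'' = 0`. -/
theorem big_lev {g k1 k2 : (S.ext k).Iso} {l : GL (Fin k) F × S.Iso} (h1 : k1 ∈ (S.dat k).K)
    (h2 : k2 ∈ (S.dat k).K) (e : g = k1 * (S.dat k).w * (S.dat k).lam l * k2) :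
    (∀ x, (g.1 (x, 0, 0)).2.1 = S.ε • l.1.1 *ᵥ x) ∧
      ∀ x v, (g.1 (x, 0, v)).2.1 = 0 → (g.1 (x, 0, v)).2.2 = l.2.1 v := by
  obtain ⟨β, C, -, e1⟩ := K_form h1
  obtain ⟨β', C', -, e2⟩ := K_form h2
  subst e
  refine ⟨fun x => ?_, fun x v => ?_⟩
  · rw [mul_ap, mul_ap, mul_ap, (mem_K.1 h2).1, (S.spec k).lam, (S.spec k).w, e1]
    rfl
  · rw [mul_ap, mul_ap, mul_ap, e2, (S.spec k).lam, (S.spec k).w, e1]
    intro h
    simp only [km] at h ⊢
    rw [h]
    simp

theorem par_card_K : Nat.card (S.dat k).K =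
    Nat.card {p : ((Fin k → F) →ₗ[F] V) × Matrix (Fin k) (Fin k) F // S.Con p.1 p.2} := by
  refine (Nat.card_congr (Equiv.ofBijective (fun p => (⟨(exists_K p.2).choose, (exists_K p.2).choose_spec.1⟩ :
    (S.dat k).K)) ⟨fun p q e => ?_, fun g => ?_⟩)).symm
  · have h : ∀ y, S.km p.1.1 p.1.2 (0, y, 0) = S.km q.1.1 q.1.2 (0, y, 0) := fun y => by
      rw [← (exists_K p.2).choose_spec.2, ← (exists_K q.2).choose_spec.2, Subtype.mk.inj e]
    refine Subtype.ext (Prod.ext (LinearMap.ext fun y => ?_) (mulVec_injective (funext fun y => ?_)))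
    · simpa [km] using congrArg (fun z => z.2.2) (h y)
    · exact funext fun r => by simpa [km] using congrFun (congrArg Prod.fst (h y)) r
  · obtain ⟨β, C, hc, e⟩ := K_form g.2
    exact ⟨⟨(β, C), hc⟩, Subtype.ext (iso_ext fun z => ((exists_K hc).choose_spec.2 z).trans (e z).symm)⟩

omit [Finite V] [NeZero k] in
theorem par_card_con (β : (Fin k → F) →ₗ[F] V) : Nat.card {C // S.Con β C} =
    Fintype.card F ^ k.choose 2 * if S.κ = 0 then Fintype.card F ^ k else 1 := by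
  have e : {C // S.Con β C} ≃ ({p : Fin k × Fin k // p.1 < p.2} → F) ×
      {d : Fin k → F // ∀ i, S.κ * d i + S.Q (β (Pi.single i 1)) = 0} :=
    { toFun := fun C => (fun p => C.1 p.1.1 p.1.2, ⟨fun i => C.1 i i, (con_iff.1 C.2).1⟩)
      invFun := fun u => ⟨Matrix.of fun a b => if h : a < b then u.1 ⟨(a, b), h⟩ else if h : b < a then
          - S.ε * u.1 ⟨(b, a), h⟩ - S.B (β (Pi.single b 1)) (β (Pi.single a 1)) else u.2.1 a,
        con_iff.2 ⟨fun i => by simpa using u.2.2 i, fun i j c => by simp [c, c.not_gt]; ring⟩⟩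
      left_inv := fun C => Subtype.ext (Matrix.ext fun a b => by
        rcases lt_trichotomy a b with c | rfl | c
        · simp [c]
        · simp
        · simp only [of_apply, c, c.not_gt, dite_true, dite_false]
          linear_combination - (con_iff.1 C.2).2 b a c)
      right_inv := fun u => Prod.ext (funext fun p => by simp [p.2]) (Subtype.ext (funext fun i => by simp)) }
  have h1 : Fintype.card {p : Fin k × Fin k // p.1 < p.2} = k.choose 2 := by
    rw [Fintype.card_subtype, ← Finset.univ_product_univ, Finset.card_product_filter_lt]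
    simp
  rw [Nat.card_congr e, Nat.card_prod, Nat.card_eq_fintype_card, Fintype.card_fun, h1]
  congr 1
  split_ifs with c
  · rw [Nat.card_congr (Equiv.subtypeUnivEquiv fun d i => by rw [← S.zero, c]; simp)]
    simp
  · have c1 := S.hκ.resolve_left c
    refine Nat.card_eq_one_iff_exists.2 ⟨⟨fun i => - S.Q (β (Pi.single i 1)), fun i => by simp [c1]⟩,
      fun d => Subtype.ext (funext fun i => ?_)⟩
    show d.1 i = - S.Q (β (Pi.single i 1))
    linear_combination d.2 i - d.1 i * c1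

/-- `K ≃ {(β, C) | Con β C}` (`exists_K`, `K_form`); by `con_iff` the entries above the diagonal are free, those
below are determined, and the diagonal is free iff `κ = 0`. -/
theorem card_K : Nat.card (S.dat k).K = Nat.card V ^ k * Fintype.card F ^ k.choose 2 *
    if S.κ = 0 then Fintype.card F ^ k else 1 := by
  have : Finite ((Fin k → F) →ₗ[F] V) := Finite.of_injective _ DFunLike.coe_injective
  have := Fintype.ofFinite ((Fin k → F) →ₗ[F] V)
  rw [par_card_K, Nat.card_congr (Equiv.subtypeProdEquivSigmaSubtype fun β C => S.Con β C), Nat.card_sigma]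
  simp only [par_card_con, Finset.sum_const, smul_eq_mul, Finset.card_univ]
  rw [← Nat.card_eq_fintype_card, ← Nat.card_congr ((Pi.basisFun F (Fin k)).constr F (M' := V)).toEquiv,
    Nat.card_fun, mul_assoc]
  simp

theorem lam_neg : (S.dat k).lam (-1, S.neg) = (S.ext k).neg := by
  refine iso_ext fun z => ?_
  rw [(S.spec k).lam, neg_ap]
  simp [neg_mulVec, neg_ap]
  rfl

/-- The case `k = 1` of `exists_K`, `K_form`. -/
theorem exists_K_one (S : FS F V) : ∃ e : {p : V × F // S.κ * p.2 + S.Q p.1 = 0} ≃ (S.dat 1).K, ∀ p z,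
    (e p).1.1 z = (fun _ => z.1 0 + p.1.2 * z.2.1 0 - S.B z.2.2 p.1.1, z.2.1, z.2.2 + z.2.1 0 • p.1.1) := by
  have hc : ∀ p : {p : V × F // S.κ * p.2 + S.Q p.1 = 0},
      S.Con ((LinearMap.proj (0 : Fin 1)).smulRight p.1.1) (Matrix.of fun _ _ => p.1.2) := fun p =>
    con_iff.2 ⟨fun i => by simpa [Subsingleton.elim i 0] using p.2,
      fun i j c => absurd (Subsingleton.elim i j) c.ne⟩
  have he : ∀ p z, (exists_K (hc p)).choose.1 z =
      (fun _ => z.1 0 + p.1.2 * z.2.1 0 - S.B z.2.2 p.1.1, z.2.1, z.2.2 + z.2.1 0 • p.1.1) := fun p z => by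
    rw [(exists_K (hc p)).choose_spec.2]
    refine Prod.ext (funext fun r => ?_) rfl
    simp [km, Subsingleton.elim r 0, mulVec, dotProduct]
  refine ⟨Equiv.ofBijective (fun p => ⟨(exists_K (hc p)).choose, (exists_K (hc p)).choose_spec.1⟩)
    ⟨fun p q e => ?_, fun g => ?_⟩, he⟩
  · have h := he p (0, 1, 0)
    rw [Subtype.mk.inj e, he] at h
    refine Subtype.ext (Prod.ext ?_ ?_)
    · simpa using congrArg (fun z => z.2.2) h.symm
    · simpa using congrFun (congrArg Prod.fst h.symm) 0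
  · obtain ⟨β, C, h, e⟩ := K_form g.2
    refine ⟨⟨(β (Pi.single 0 1), C 0 0), (con_iff.1 h).1 0⟩, Subtype.ext (iso_ext fun z => ?_)⟩
    refine (he _ z).trans (Eq.trans ?_ (e z).symm)
    refine Prod.ext (funext fun r => ?_) (Prod.ext rfl ?_)
    · simp [km, Subsingleton.elim r 0, mulVec, dotProduct]
    · show _ + _ = _ + β z.2.1
      rw [← map_smul]
      congr 2
      funext r
      simp [Subsingleton.elim r 0]

end FS

end Cfsg.Lib.HCI
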