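import Cfsg.Agent.Lib.HCI.FrP
import Cfsg.Agent.Lib.Clifford.Degree
import Cfsg.Agent.Lib.Orth.Simple
import Cfsg.Agent.Lib.Symp.Simple
import Cfsg.Prelude.Def_DegreeGraph

/-! S4984: passing to the simple group `PCom S.Iso`. -/

set_option autoImplicit false

namespace Cfsg.Lib.HCI

open Module Cfsg.Lib.Char Cfsg.Lib.Orth

section

variable {G : Type*} [Group G] [Finite G] {χ : G → ℂ} {D : ℕ}

/-- An irreducible constituent `θ` of the restriction is trivial on the centre too (`apply_eq_of_add`); `exists_quot`,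
`Clifford.charDegree_dvd_index_mul`. -/
theorem pass (hχ : IsIrrCharacter G χ) (hD : χ 1 = D)
    (hz : ∀ z ∈ Subgroup.center (commutator G), χ z = χ 1) :
    ∃ d ∈ charDegrees (PCom G), D ∣ (commutator G).index * d := by
  classical
  have := Fintype.ofFinite (commutator G)
  have hr := hχ.isCharacter.restrict (commutator G)
  obtain ⟨θ, hθ, hne⟩ := hr.isClassFunction.exists_irr_inner_ne_zero fun h => hχ.apply_one_ne_zero (congrFun h 1)
  obtain ⟨ψ, hψ, e⟩ := exists_quot hθ fun z hz' => hr.apply_eq_of_constituent hθ hne (hz z hz')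
  refine ⟨charDegree ψ, ⟨⟨ψ, hψ⟩, rfl⟩, ?_⟩
  rw [charDegree_congr e, ← charDegree_eq_of_apply_one hD]
  exact Clifford.charDegree_dvd_index_mul _ hχ hθ hne

theorem pass_irr (hχ : IsIrrCharacter (commutator G) fun n => χ n) (hD : χ 1 = D)
    (hz : ∀ z ∈ Subgroup.center (commutator G), χ z = χ 1) : D ∈ charDegrees (PCom G) := by
  obtain ⟨ψ, hψ, e⟩ := exists_quot hχ hz
  exact ⟨⟨ψ, hψ⟩, charDegree_eq_of_apply_one (e.trans hD)⟩

/-- `∑ n ∈ N, |χ n|² < |G| = 2 |N|`. -/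
theorem irr_res_two {N : Subgroup G} (hN : N.index = 2) (hχ : IsIrrCharacter G χ) {g : G} (hg : g ∉ N)
    (h : χ g ≠ 0) : IsIrrCharacter N fun n => χ n := by
  classical
  have := Fintype.ofFinite G
  have hr := hχ.isCharacter.restrict N
  obtain ⟨n, hn⟩ := hr.exists_inner_eq_nat hr
  have h0 : n ≠ 0 := by
    rintro rfl
    exact hχ.apply_one_ne_zero (congrFun (classInner_self_eq_zero_iff.1 (hn.trans Nat.cast_zero)) 1)
  have h1 := classInner_self_re fun n : N => χ n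
  rw [hn, Complex.natCast_re] at h1
  have hN0 : (0 : ℝ) < Nat.card N := Nat.cast_pos.2 Nat.card_pos
  have h2 : ∑ x : N, ‖χ x‖ ^ 2 = ∑ x ∈ Finset.univ.filter (· ∈ N), ‖χ x‖ ^ 2 :=
    (Finset.sum_subtype (p := (· ∈ N)) _ (by simp) fun x => ‖χ x‖ ^ 2).symm
  have h3 : ∑ x ∈ Finset.univ.filter (· ∈ N), ‖χ x‖ ^ 2 < ∑ x, ‖χ x‖ ^ 2 :=
    Finset.sum_lt_sum_of_subset (Finset.subset_univ _) (Finset.mem_univ g) (by simpa using hg)
      (by positivity) fun _ _ _ => by positivity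
  have h4 : (Nat.card G : ℝ) = 2 * Nat.card N := by
    rw [← N.index_mul_card, hN]
    push_cast
    rfl
  rw [hχ.sum_norm_sq, ← h2, h4] at h3
  have h5 : (n : ℝ) < 2 := by
    rw [h1, inv_mul_lt_iff₀ hN0]
    linarith
  have h6 : n < 2 := by exact_mod_cast h5
  refine hr.isIrrCharacter_of_inner_self ?_
  rw [hn, show n = 1 by omega, Nat.cast_one]

theorem pass_pc (H Ω : Type*) [Group H] [Fintype H] [Fintype Ω] [MulAction H Ω] :
    classInner (PermChar.pc H Ω) (PermChar.pc H Ω) = Nat.card (MulAction.orbitRel.Quotient H (Ω × Ω)) := by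
  rw [← PermChar.inner_pc_one, classInner_eq_inner_one]
  congr 1
  funext g
  have e : MulAction.fixedBy (Ω × Ω) g = MulAction.fixedBy Ω g ×ˢ MulAction.fixedBy Ω g :=
    Set.ext fun p => by simp [Prod.ext_iff]
  simp only [PermChar.pc, map_natCast]
  rw [e, Nat.card_congr (Equiv.Set.prod _ _), Nat.card_prod, Nat.cast_mul]

/-- Burnside's lemma on `Ω × Ω`: `N` and `G` have the same orbits on pairs, so the norm of `pc` does not change under
restriction. The norm of a sum of three non-zero characters is at least the sum of the norms. -/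
theorem irr_res_pc {Ω : Type*} [Fintype G] [Fintype Ω] [MulAction G Ω] {N : Subgroup G}
    (h : ∀ (g : G) (x y : Ω), ∃ n ∈ N, n • x = g • x ∧ n • y = g • y) {ψ : G → ℂ} (hχ : IsIrrCharacter G χ)
    (hψ : IsIrrCharacter G ψ) (h1 : χ ≠ fun _ => 1) (h2 : ψ ≠ fun _ => 1) (h3 : χ ≠ ψ)
    (hπ : PermChar.pc G Ω = (fun _ => 1) + χ + ψ) : IsIrrCharacter N fun n => χ n := by
  classical
  have e1 : Nat.card (MulAction.orbitRel.Quotient N (Ω × Ω)) = Nat.card (MulAction.orbitRel.Quotient G (Ω × Ω)) := by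
    refine Nat.card_congr (Quotient.congrRight fun a b => ?_)
    rw [MulAction.orbitRel_apply, MulAction.orbitRel_apply]
    refine ⟨fun ⟨n, hn⟩ => ⟨n.1, hn⟩, fun ⟨g, hg⟩ => ?_⟩
    obtain ⟨n, hn, h4, h5⟩ := h g b.1 b.2
    exact ⟨⟨n, hn⟩, (Prod.ext h4 h5).trans hg⟩
  have e2 := pass_pc G Ω
  have e3 := pass_pc N Ω
  have hone := isIrrCharacter_one (G := G)
  rw [hπ] at e2
  simp only [classInner_add_left, classInner_add_right, hχ.inner_self, hψ.inner_self, hone.inner_self,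
    hχ.inner_eq_zero_of_ne hψ h3, hψ.inner_eq_zero_of_ne hχ h3.symm, hχ.inner_eq_zero_of_ne hone h1,
    hone.inner_eq_zero_of_ne hχ h1.symm, hψ.inner_eq_zero_of_ne hone h2, hone.inner_eq_zero_of_ne hψ h2.symm] at e2
  have e4 : PermChar.pc N Ω = (fun _ => 1) + (fun n : N => χ n) + fun n : N => ψ n :=
    funext fun n => congrFun hπ n
  have ha := hχ.isCharacter.restrict N
  have hb := hψ.isCharacter.restrict N
  have ho := isCharacter_one (G := N)
  obtain ⟨a, ea⟩ := ha.exists_inner_eq_nat ha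
  obtain ⟨b, eb⟩ := hb.exists_inner_eq_nat hb
  obtain ⟨c1, ec1⟩ := ha.exists_inner_eq_nat hb
  obtain ⟨c2, ec2⟩ := hb.exists_inner_eq_nat ha
  obtain ⟨c3, ec3⟩ := ha.exists_inner_eq_nat ho
  obtain ⟨c4, ec4⟩ := ho.exists_inner_eq_nat ha
  obtain ⟨c5, ec5⟩ := hb.exists_inner_eq_nat ho
  obtain ⟨c6, ec6⟩ := ho.exists_inner_eq_nat hb
  have ha0 : a ≠ 0 := by
    rintro rfl
    exact hχ.apply_one_ne_zero (congrFun (classInner_self_eq_zero_iff.1 (ea.trans Nat.cast_zero)) 1)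
  have hb0 : b ≠ 0 := by
    rintro rfl
    exact hψ.apply_one_ne_zero (congrFun (classInner_self_eq_zero_iff.1 (eb.trans Nat.cast_zero)) 1)
  rw [e4, e1, ← e2] at e3
  simp only [classInner_add_left, classInner_add_right, ea, eb, ec1, ec2, ec3, ec4, ec5, ec6,
    (isIrrCharacter_one (G := N)).inner_self] at e3
  have e5 : 1 + a + b + c1 + c2 + c3 + c4 + c5 + c6 = 3 := by
    have : ((1 + a + b + c1 + c2 + c3 + c4 + c5 + c6 : ℕ) : ℂ) = (3 : ℕ) := by
      push_cast
      linear_combination e3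
    exact_mod_cast this
  refine ha.isIrrCharacter_of_inner_self ?_
  rw [ea, show a = 1 by omega, Nat.cast_one]

/-- The values at `g` with `g ^ 2 = 1` are integers of the parity of the degree. -/
theorem exists_int_of_sq (hχ : IsCharacter G χ) (hD : χ 1 = D) {g : G} (hg : g * g = 1) :
    ∃ m : ℤ, χ g = D - 2 * m := by
  obtain ⟨n, ε, h1, h2, h3⟩ := hχ.exists_eigenvalues g
  have h4 : ∀ i, ∃ m : ℤ, ε i = 1 - 2 * m := by
    intro i
    obtain ⟨k, hk⟩ := orderOf_dvd_of_pow_eq_one (show g ^ 2 = 1 by rw [sq, hg])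
    have h5 : ε i * ε i = 1 := by rw [← sq, hk, pow_mul, h2, one_pow]
    rcases mul_self_eq_one_iff.1 h5 with h6 | h6
    · exact ⟨0, by simp [h6]⟩
    · exact ⟨1, by rw [h6]; norm_num⟩
  choose m hm using h4
  refine ⟨∑ i, m i, ?_⟩
  have h5 := h3 1
  simp only [pow_one, hm] at h5
  rw [h5, ← hD, h1, Finset.sum_sub_distrib, ← Finset.mul_sum]
  simp

end

/-- `r` divides `D / c`. -/
def Cv (c r D : ℕ) : Prop := r ∣ D ∧ (r = 2 → 2 * c ∣ D)

theorem Cv.dvd {c r D D' : ℕ} (h : Cv c r D) (h' : D ∣ D') : Cv c r D' := ⟨h.1.trans h', fun e => (h.2 e).trans h'⟩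

theorem Cv.of_ne {c r D : ℕ} (h2 : r ≠ 2) (h : r ∣ D) : Cv c r D := ⟨h, fun e => absurd e h2⟩

theorem Cv.mul_dvd {c r s D d : ℕ} (hc : c ∣ 4) (hr : r.Prime) (hs : s.Prime) (hrs : r ≠ s) (h1 : Cv c r D)
    (h2 : Cv c s D) (h : D ∣ c * d) : r * s ∣ d := by
  have key : ∀ r : ℕ, r.Prime → Cv c r D → r ∣ d := by
    intro r hr h1
    by_cases h2 : r = 2
    · have h3 := (h1.2 h2).trans h
      rw [mul_comm 2 c] at h3
      rw [h2]
      exact Nat.dvd_of_mul_dvd_mul_left (Nat.pos_of_dvd_of_pos hc (by norm_num)) h3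
    · refine ((Nat.Prime.dvd_mul hr).1 (h1.1.trans h)).resolve_left fun h3 => h2 ?_
      exact (Nat.prime_dvd_prime_iff_eq hr Nat.prime_two).1 (hr.dvd_of_dvd_pow (n := 2) (h3.trans hc))
  exact ((Nat.coprime_primes hr hs).2 hrs).mul_dvd_of_dvd_of_dvd (key r hr h1) (key s hs h2)

variable {F V V' : Type} [Field F] [Fintype F] [DecidableEq F] [AddCommGroup V] [Module F V] [Finite V]
  [AddCommGroup V'] [Module F V'] [Finite V']

namespace FS

/-- The index of the commutator subgroup. -/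
def cc (S : FS F V) : ℕ := if S.κ = 0 then 1 else if (2 : F) = 0 then 2 else 4

/-- The groups of the theorem. -/
structure Sz (S : FS F V) (d e : ℕ) : Prop where
  pol : S.Pol d e
  sp : S.κ = 0 → 2 ≤ d ∧ (d = 2 → 3 ≤ Fintype.card F)
  or : S.κ = 1 → 3 ≤ d ∧ (e = 0 → 4 ≤ d)
  ng : S.κ = 1 → (2 : F) ≠ 0 → e = 1 ∨ e = 0 ∧ Odd d ∧ Fintype.card F % 4 = 3 ∨ e = 2 ∧ Odd d →
    S.neg ∉ commutator S.Iso

/-- An available degree. -/
def Av (S : FS F V) (D : ℕ) : Prop :=
  ∃ χ, IsIrrCharacter S.Iso χ ∧ χ 1 = D ∧ (χ S.neg = χ 1 ∨ S.neg ∉ commutator S.Iso)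

/-- Adjacency in the degree graph of the simple group. -/
def Lk (S : FS F V) (r s : ℕ) : Prop := ∃ D ∈ charDegrees (PCom S.Iso), r * s ∣ D

variable {S : FS F V} {S' : FS F V'} {d e r s D : ℕ}

omit [Fintype F] [DecidableEq F] [Finite V] in
theorem Lk.symm (h : S.Lk r s) : S.Lk s r := let ⟨D, a, b⟩ := h; ⟨D, a, mul_comm r s ▸ b⟩

omit [Fintype F] [Finite V] [Finite V'] in
theorem cc_congr (h : S'.κ = S.κ) : S'.cc = S.cc := by rw [cc, cc, h]

omit [Fintype F] [Finite V] in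
theorem cc_dvd (S : FS F V) : S.cc ∣ 4 := by unfold cc; split_ifs <;> decide

omit [Fintype F] [DecidableEq F] [Finite V] in
theorem neg_eq_one (h : (2 : F) = 0) (S : FS F V) : S.neg = 1 :=
  iso_ext fun x => by rw [neg_ap, one_ap, neg_eq_iff_add_eq_zero, ← two_smul F, h, zero_smul]

/-- `κ = 0`: the anisotropic kernel is `0`. `κ = 1`: it has dimension `e ≤ 2` (Chevalley-Warning, see `Pol.prime_dvd`), and in
characteristic 2 `B` is alternating. -/
theorem Pol.typ (h : S.Pol d e) : (S.κ = 0 → e = 1) ∧ e ≤ 2 ∧ (S.κ = 1 → e = 1 → (2 : F) ≠ 0) := by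
  obtain ⟨V0, _, _, _, S0, h2, h3, ⟨m⟩⟩ := h
  have hk : S0.κ = S.κ := m.κ
  have a0 : S.κ = 0 → e = 1 := by
    intro h7
    have : Subsingleton V0 := ⟨fun a b => by
      rw [h2 a (by rw [← S0.zero, hk, h7, zero_mul]), h2 b (by rw [← S0.zero, hk, h7, zero_mul])]⟩
    rw [FS.om, hk, if_pos h7, Nat.card_of_subsingleton (0 : V0), one_mul] at h3
    exact (Nat.pow_right_injective Fintype.one_lt_card ((pow_one _).trans h3)).symm
  have a1 : S.κ = 1 → e ≤ 2 ∧ (e = 1 → (2 : F) ≠ 0) := by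
    intro h7
    have h7' := hk.trans h7
    have hA : (S0.toQ h7').Anisotropic := h2
    have h9 : e = finrank F V0 := by
      rw [FS.om, h7', if_neg one_ne_zero, mul_one, Orth.card_eq_pow (F := F), Nat.card_eq_fintype_card] at h3
      exact (Nat.pow_right_injective Fintype.one_lt_card h3).symm
    refine ⟨h9 ▸ Orth.finrank_le_two_of_anisotropic hA, fun he h4 => ?_⟩
    have h5 := even_finrank_of_two_eq_zero (nd_toQ h7') h4
    rw [← h9, he] at h5
    exact Nat.not_even_one h5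
  refine ⟨a0, ?_, fun h7 => (a1 h7).2⟩
  rcases S.hκ with h7 | h7
  · rw [a0 h7]
    exact one_le_two
  · exact (a1 h7).1

/-- `Pol.om`. -/
theorem Pol.finrank (h : S.Pol d e) : finrank F V = if S.κ = 0 then 2 * d else 2 * d + e := by
  have h1 := h.om
  rw [FS.om, Orth.card_eq_pow (F := F), Nat.card_eq_fintype_card] at h1
  split_ifs at h1 ⊢ with h0
  · rw [← pow_succ, h.typ.1 h0] at h1
    exact Nat.succ_injective (Nat.pow_right_injective Fintype.one_lt_card h1)
  · rw [mul_one] at h1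
    exact Nat.pow_right_injective Fintype.one_lt_card h1

omit [Fintype F] [DecidableEq F] [Finite V] in
theorem pass_Q (h : S.κ = 0) (x : V) : S.Q x = 0 := by rw [← S.zero, h, zero_mul]

omit [Fintype F] [DecidableEq F] [Finite V] in
theorem pass_iso (h : S.κ = 0) : S.Iso = Symp.isom S.B :=
  Subgroup.ext fun _ => ⟨fun e => e.1, fun e => ⟨e, fun _ => by rw [pass_Q h, pass_Q h]⟩⟩

omit [Fintype F] [DecidableEq F] [Finite V] in
theorem pass_alt (h : S.κ = 0) : LinearMap.BilinForm.IsAlt S.B := fun x => by rw [S.self, pass_Q h, mul_zero]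

theorem Sz.com_top (h : S.Sz d e) (h0 : S.κ = 0) : commutator S.Iso = ⊤ := by
  have hf := h.pol.finrank
  rw [if_pos h0] at hf
  obtain ⟨h2, h3⟩ := h.sp h0
  rw [pass_iso h0]
  refine Symp.commutator_isom_eq_top (pass_alt h0) ⟨S.nd, S.nd'⟩ ?_
  by_cases hd : d = 2
  · refine .inr (.inl ⟨by omega, ?_⟩)
    by_contra hc
    push Not at hc
    have h4 : (Finset.univ : Finset F) ⊆ {0, 1} := fun a _ => by
      by_cases ha : a = 0
      · simp [ha]
      · simp [hc a ha]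
    have h5 := (Finset.card_le_card h4).trans Finset.card_le_two
    have h6 := h3 hd
    rw [Finset.card_univ] at h5
    omega
  · exact .inl (by omega)

theorem Sz.five (h : S.Sz d e) (h1 : S.κ = 1) : 5 ≤ finrank F V := by
  have hf := h.pol.finrank
  rw [if_neg (by rw [h1]; exact one_ne_zero)] at hf
  have := (h.or h1).1
  omega

theorem pass_mem {G H : Type*} [Group G] [Group H] (f : G →* H) {g : G} (hg : g ∈ commutator G) :
    f g ∈ commutator H :=
  Subgroup.commutator_mono le_top le_top ((Subgroup.map_commutator ⊤ ⊤ f).le (Subgroup.mem_map_of_mem f hg))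

/-- `κ = 0`: `S.Iso = Symp.isom S.B`, `Symp.commutator_isom_eq_top`. `κ = 1`: `eqO`, `index_commutator_of_odd`,
`index_commutator_of_even`, `not_exc_of_five_le`. -/
theorem Sz.index (h : S.Sz d e) : (commutator S.Iso).index = S.cc := by
  rcases S.hκ with h0 | h1
  · rw [h.com_top h0, Subgroup.index_top, cc, if_pos h0]
  · have h5 := h.five h1
    rw [cc, if_neg (by rw [h1]; exact one_ne_zero), iso_toQ h1]
    split_ifs with h2
    · exact index_commutator_of_even (nd_toQ h1) (not_exc_of_five_le h5) h2 (by omega)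
    · exact index_commutator_of_odd (nd_toQ h1) h2 (by omega)

/-- `Symp.mem_center_iff`, `mem_center_commutator_iff`. -/
theorem Sz.center (h : S.Sz d e) {z : commutator S.Iso} (hz : z ∈ Subgroup.center (commutator S.Iso)) :
    z.1 = 1 ∨ z.1 = S.neg := by
  suffices H : z.1.1 = 1 ∨ z.1.1 = LinearEquiv.neg F from H.imp Subtype.ext Subtype.ext
  rcases S.hκ with h0 | h1
  · have h2 : z.1 ∈ Subgroup.center S.Iso := Subgroup.mem_center_iff.2 fun g =>
      congrArg Subtype.val (Subgroup.mem_center_iff.1 hz ⟨g, h.com_top h0 ▸ Subgroup.mem_top g⟩)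
    have key : ∀ H : Subgroup (V ≃ₗ[F] V), H = Symp.isom S.B → ∀ g ∈ Subgroup.center H,
        g.1 = 1 ∨ g.1 = LinearEquiv.neg F := by
      rintro _ rfl g hg
      exact ((Symp.mem_center_iff (pass_alt h0) ⟨S.nd, S.nd'⟩ g).1 hg).imp (congrArg Subtype.val)
        (congrArg Subtype.val)
    exact key _ (pass_iso h0) _ h2
  · have h5 := h.five h1
    have key : ∀ H : Subgroup (V ≃ₗ[F] V), H = O (S.toQ h1) → ∀ g ∈ Subgroup.center (commutator H),
        g.1.1 = 1 ∨ g.1.1 = LinearEquiv.neg F := by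
      rintro _ rfl g hg
      exact ((mem_center_commutator_iff (nd_toQ h1) (not_exc_of_five_le h5) (by omega)).1 hg).imp
        (congrArg Subtype.val) (congrArg Subtype.val)
    exact key _ (iso_toQ h1) _ hz

theorem Sz.triv (h : S.Sz d e) {χ : S.Iso → ℂ} (hs : χ S.neg = χ 1 ∨ S.neg ∉ commutator S.Iso) :
    ∀ z ∈ Subgroup.center (commutator S.Iso), χ z = χ 1 := fun z hz =>
  (h.center hz).elim (fun e => e ▸ rfl) fun e => hs.elim (fun e' => e ▸ e') fun e' => absurd (e ▸ z.2) e'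

theorem Sz.lk (h : S.Sz d e) (hD : S.Av D) (hr : r.Prime) (hs : s.Prime) (hrs : r ≠ s) (h1 : Cv S.cc r D)
    (h2 : Cv S.cc s D) : S.Lk r s :=
  let ⟨_, a, b, c⟩ := hD
  let ⟨d', e1, e2⟩ := pass a b (h.triv c)
  ⟨d', e1, Cv.mul_dvd S.cc_dvd hr hs hrs h1 h2 (h.index ▸ e2)⟩

/-- A reflection is not in the commutator subgroup (`eqO_tv`, Dickson invariant), which has index two. -/
theorem Sz.mem_of_refl (h : S.Sz d e) (hκ : S.κ = 1) (h2 : (2 : F) = 0) {χ : S.Iso → ℂ} (hχ : IsIrrCharacter _ χ)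
    (hD : χ 1 = D) {u : V} (hu : S.κ + S.Q u = 0) (h0 : χ (S.tv u 1) ≠ 0) : D ∈ charDegrees (PCom S.Iso) := by
  have hQ : S.Q u = -1 := by rw [hκ] at hu; linear_combination hu
  have hQ0 : S.Q u ≠ 0 := by rw [hQ]; exact neg_ne_zero.2 one_ne_zero
  have hi : (commutator S.Iso).index = 2 := by
    rw [h.index, cc, if_neg (by rw [hκ]; exact one_ne_zero), if_pos h2]
  have hn : S.tv u 1 ∉ commutator S.Iso := by
    intro hm
    have h3 := pass_mem (eqO hκ).toMonoidHom hm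
    have h4 : eqO hκ (S.tv u 1) = refl _ u := by
      rw [← eqO_tv hκ hQ0, hQ, inv_neg, neg_neg, inv_one]
    have h5 : dickson (nd_toQ hκ) (eqO hκ (S.tv u 1)) = 1 := Abelianization.commutator_subset_ker _ h3
    rw [h4, dickson_refl _ hQ0] at h5
    exact absurd h5 (by decide)
  exact pass_irr (irr_res_two hi hχ hn h0) hD (h.triv (.inl (by rw [neg_eq_one h2])))

omit [Fintype F] [DecidableEq F] in
theorem pass_four (p q r s c : F) :
    ∃ a0 a1 b0 b1 : F, a0 * b0 + a1 * b1 = c ∧ p * b0 + q * b1 + (r * a0 + s * a1) = 0 := by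
  by_cases hp : p = 0
  · by_cases hq : q = 0
    · by_cases hr : r = 0
      · exact ⟨1, 0, c, 0, by ring, by simp [hp, hq, hr]⟩
      · exact ⟨-s / r, 1, 0, c, by ring, by rw [hp, hq]; field_simp; ring⟩
    · exact ⟨1, 0, c, -r / q, by ring, by rw [hp]; field_simp; ring⟩
  · exact ⟨0, 1, -(q * c + s) / p, c, by ring, by field_simp; ring⟩

omit [Finite V] in
theorem Pol.exists_perp_one (h : S.Pol (d + 2) e) (hκ : S.κ = 1) (y : V) (c : F) :
    ∃ w, S.Q w = c ∧ S.B y w = 0 := by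
  obtain ⟨W, _, _, _, T, -, hT, ⟨i⟩⟩ := h.split
  obtain ⟨a0, a1, b0, b1, h1, h2⟩ := pass_four ((i.e y).1 0) ((i.e y).1 1) ((i.e y).2.1 0) ((i.e y).2.1 1) c
  have hε : T.ε = 1 := by rw [ε, hT, hκ]; ring
  refine ⟨i.e.symm (![a0, a1], ![b0, b1], 0), ?_, ?_⟩
  · rw [← i.Q, LinearEquiv.apply_symm_apply, ext_Q, hT, hκ, T.Q_zero]
    simpa [dotProduct, Fin.sum_univ_two] using h1
  · rw [← i.B, LinearEquiv.apply_symm_apply, ext_B, hε]
    simpa [dotProduct, Fin.sum_univ_two] using h2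

/-- Two singular vectors are orthogonal to a vector of any given length: move `x` to `(1, 0, 0)` in `T.ext 1`
(`Pol.trans`), so that `w = (0, 0, w')` with `w' ⊥ y.2.2` works; `T` has Witt index `≥ 2`, and the hyperplane `B · v = 0` of
`T'.ext 2` contains a vector `(a, b, 0)` with `a ⬝ᵥ b = c`. -/
theorem Pol.exists_perp (h : S.Pol (d + 3) e) (hκ : S.κ = 1) {x : V} (hx : S.Q x = 0) (y : V) (c : F) :
    ∃ w, S.Q w = c ∧ S.B x w = 0 ∧ S.B y w = 0 := by
  obtain ⟨W, _, _, _, T, hT, hk, ⟨i⟩⟩ := Pol.split (j := d + 2) (k := 1) h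
  have hx' : ∃ g : (T.ext 1).Iso, (g.1 (i.e x)).2 = 0 := by
    by_cases h0 : x = 0
    · exact ⟨1, by simp [h0]⟩
    · obtain ⟨g, hg⟩ := (hT.ext 1).trans (u := i.e x) (v := (1, 0, 0)) (by simpa using h0)
        (fun e => one_ne_zero (congrFun (congrArg Prod.fst e) 0)) ((i.Q x).trans hx)
        (by simp [ext_Q, T.Q_zero])
      exact ⟨g, by rw [hg]; rfl⟩
  obtain ⟨g, hg⟩ := hx'
  obtain ⟨w, h1, h2⟩ := hT.exists_perp_one (hk.trans hκ) (g.1 (i.e y)).2.2 c
  refine ⟨i.e.symm (g⁻¹.1 (0, 0, w)), ?_, ?_, ?_⟩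
  · rw [← i.Q, LinearEquiv.apply_symm_apply, map_Q, ext_Q, h1]
    simp
  · rw [← i.B, LinearEquiv.apply_symm_apply, ← map_B g, ap_inv, ext_B, hg]
    simp
  · rw [← i.B, LinearEquiv.apply_symm_apply, ← map_B g, ap_inv, ext_B, h2]
    simp

/-- The elements `g ∈ N * Stab (x, y)` form a subgroup (`N` is normal) containing all reflections (`closure_reflSet`):
`refl w` is conjugate to `refl w'` with `w'` from `exists_perp` (`witt_vec`, `tv_conj`). -/
theorem Pol.com_pair (h : S.Pol (d + 3) e) (hκ : S.κ = 1) (g : S.Iso) (x y : S.Pt) :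
    ∃ n ∈ commutator S.Iso, n • x = g • x ∧ n • y = g • y := by
  have hf := h.finrank
  rw [if_neg (by rw [hκ]; exact one_ne_zero)] at hf
  have key : ∀ g' : O (S.toQ hκ), ∃ n ∈ commutator S.Iso,
      n • x = (eqO hκ).symm g' • x ∧ n • y = (eqO hκ).symm g' • y := by
    refine refl_induction (nd_toQ hκ) (not_exc_of_five_le (by omega)) ⟨1, one_mem _, by simp, by simp⟩ ?_
    rintro v g' hv ⟨n, hn, h1, h2⟩
    obtain ⟨u, -, hu, eu⟩ := (n • x).2
    obtain ⟨u', -, -, eu'⟩ := (n • y).2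
    obtain ⟨w, hw, h3, h4⟩ := h.exists_perp hκ hu u' (S.Q v)
    have hfix : ∀ (p : S.Pt) (z : V), p.1 = F ∙ z → S.B z w = 0 → (eqO hκ).symm (refl _ w) • p = p := by
      intro p z hp hz
      refine Subtype.ext ?_
      rw [smul_val, hp, Submodule.map_span, Set.image_singleton]
      congr 2
      show (refl (S.toQ hκ) w).1 z = z
      rw [refl_apply, polar_toQ, S.B_comm hz, mul_zero, zero_smul, sub_zero]
    refine ⟨(eqO hκ).symm (refl _ v * refl _ w) * n, mul_mem (pass_mem (eqO hκ).symm.toMonoidHom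
      (refl_mul_refl_mem_commutator (nd_toQ hκ) hv hw.symm)) hn, ?_, ?_⟩
    · rw [map_mul, map_mul, mul_smul, mul_smul, mul_smul, hfix _ u eu h3, h1]
    · rw [map_mul, map_mul, mul_smul, mul_smul, mul_smul, hfix _ u' eu' h4, h2]
  simpa using key (eqO hκ g)

end FS

end Cfsg.Lib.HCI
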