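import Cfsg.Agent.Lib.HCI.Cu
import Cfsg.Agent.Lib.HCI.Oq

/-! S4984: the type `(d, e)` of a space (Witt index `d`, anisotropic kernel measured by `q ^ e`), singular points
and orders. -/

set_option autoImplicit false

namespace Cfsg.Lib.HCI

open Module Matrix

/-- The `p'`-part of `|G_{j+k}| / |G_j|`. -/
def win (q : ℤ) (j k e : ℕ) : ℤ := ∏ i ∈ Finset.range k, (q ^ (j + i + 1) - 1) * (q ^ (j + i + e) + 1)

variable {F V V' : Type} [Field F] [Fintype F] [DecidableEq F] [AddCommGroup V] [Module F V] [Finite V]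
  [AddCommGroup V'] [Module F V'] [Finite V']

namespace FS

/-- The number of points of `S.ext 1` opposite to a given point. -/
noncomputable def om (S : FS F V) : ℕ := Nat.card V * if S.κ = 0 then Fintype.card F else 1

/-- Witt index `d` and anisotropic kernel of type `e`. -/
def Pol (S : FS F V) (d e : ℕ) : Prop :=
  ∃ (V0 : Type) (_ : AddCommGroup V0) (_ : Module F V0) (_ : Finite V0) (S0 : FS F V0),
    (∀ v, S0.Q v = 0 → v = 0) ∧ S0.om = Fintype.card F ^ e ∧ Nonempty (Isom S (S0.ext d))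

/-- The singular points. -/
def Pt (S : FS F V) : Type := {p : Submodule F V // ∃ v, v ≠ 0 ∧ S.Q v = 0 ∧ p = F ∙ v}

instance finitePt (S : FS F V) : Finite S.Pt := inferInstanceAs (Finite {_p : Submodule F V // _})

noncomputable instance fintypePt (S : FS F V) : Fintype S.Pt := Fintype.ofFinite _

instance actPt (S : FS F V) : MulAction S.Iso S.Pt where
  smul g p := ⟨p.1.map (g.1 : V →ₗ[F] V), by
    obtain ⟨v, h0, h1, h2⟩ := p.2
    exact ⟨g.1 v, by simpa using h0, (map_Q g v).trans h1, by simp [h2, Submodule.map_span]⟩⟩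
  one_smul p := Subtype.ext (Submodule.map_id _)
  mul_smul g h p := Subtype.ext (Submodule.map_comp (h.1 : V →ₗ[F] V) (g.1 : V →ₗ[F] V) p.1)

omit [Fintype F] [DecidableEq F] [Finite V] in
theorem smul_val {S : FS F V} (g : S.Iso) (p : S.Pt) : (g • p).1 = p.1.map (g.1 : V →ₗ[F] V) := rfl

variable {S : FS F V} {S' : FS F V'} {d e j k : ℕ}

omit [Fintype F] [DecidableEq F] [Finite V] in
theorem ext_zero (S : FS F V) : Nonempty (Isom (S.ext 0) S) := by
  exact ⟨{
    e :=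
      { toFun := fun z => z.2.2
        invFun := fun v => (0, 0, v)
        map_add' := fun _ _ => rfl
        map_smul' := fun _ _ => rfl
        left_inv := fun z => Prod.ext (Subsingleton.elim _ _) (Prod.ext (Subsingleton.elim _ _) rfl)
        right_inv := fun _ => rfl }
    κ := rfl
    B := fun x y => by simp [ext_B]
    Q := fun x => by simp [ext_Q] }⟩

omit [Fintype F] [DecidableEq F] [Finite V] in
/-- Split `Fin (j + k) → F` with `Fin.append` / `finSumFinEquiv`, `Fin.sum_univ_add`. -/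
theorem ext_ext (S : FS F V) (j k : ℕ) : Nonempty (Isom (S.ext (j + k)) ((S.ext j).ext k)) := by
  have h : ∀ x y : Fin (j + k) → F, x ⬝ᵥ y = (fun i => x (Fin.castAdd k i)) ⬝ᵥ (fun i => y (Fin.castAdd k i)) +
      (fun i => x (Fin.natAdd j i)) ⬝ᵥ (fun i => y (Fin.natAdd j i)) := fun x y => Fin.sum_univ_add _
  exact ⟨{
    e :=
      { toFun := fun z => (fun i => z.1 (Fin.natAdd j i), fun i => z.2.1 (Fin.natAdd j i),
          fun i => z.1 (Fin.castAdd k i), fun i => z.2.1 (Fin.castAdd k i), z.2.2)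
        invFun := fun z => (Fin.append z.2.2.1 z.1, Fin.append z.2.2.2.1 z.2.1, z.2.2.2.2)
        map_add' := fun _ _ => rfl
        map_smul' := fun _ _ => rfl
        left_inv := fun z => by simp [Fin.append_castAdd_natAdd]
        right_inv := fun z => by simp }
    κ := rfl
    B := fun x y => by
      rw [ext_B, ext_B, ext_B, ext_ε, h x.1, h x.2.1]
      simp only [LinearEquiv.coe_mk, LinearMap.coe_mk, AddHom.coe_mk]
      ring
    Q := fun x => by
      rw [ext_Q, ext_Q, ext_Q, ext_κ, h x.1]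
      simp only [LinearEquiv.coe_mk, LinearMap.coe_mk, AddHom.coe_mk]
      ring }⟩

omit [Finite V] [Finite V'] in
theorem Pol.congr (h : S'.Pol d e) (i : Isom S S') : S.Pol d e :=
  let ⟨V0, a, b, c, S0, h1, h2, ⟨i'⟩⟩ := h
  ⟨V0, a, b, c, S0, h1, h2, ⟨i.trans i'⟩⟩

omit [Finite V] in
theorem Pol.ext (h : S.Pol j e) (k : ℕ) : (S.ext k).Pol (j + k) e :=
  let ⟨V0, a, b, c, S0, h1, h2, ⟨i⟩⟩ := h
  let ⟨i'⟩ := S0.ext_ext j k
  ⟨V0, a, b, c, S0, h1, h2, ⟨(i.ext k).trans i'.symm⟩⟩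

omit [Finite V] in
theorem Pol.split (h : S.Pol (j + k) e) : ∃ (W : Type) (_ : AddCommGroup W) (_ : Module F W) (_ : Finite W)
    (T : FS F W), T.Pol j e ∧ T.κ = S.κ ∧ Nonempty (Isom S (T.ext k)) :=
  let ⟨_, _, _, _, S0, h1, h2, ⟨i⟩⟩ := h
  let ⟨i'⟩ := S0.ext_ext j k
  ⟨_, _, _, inferInstance, S0.ext j, ⟨_, _, _, inferInstance, S0, h1, h2, ⟨.refl _⟩⟩, i.κ, ⟨i.trans i'⟩⟩

theorem Pol.om (h : S.Pol d e) : S.om = Fintype.card F ^ (2 * d + e) := by
  obtain ⟨V0, _, _, _, S0, -, h2, ⟨i⟩⟩ := h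
  have h3 : S0.κ = S.κ := i.κ
  rw [FS.om, Nat.card_congr i.e.toEquiv, Nat.card_prod, Nat.card_prod, Nat.card_fun, Nat.card_eq_fintype_card,
    Nat.card_fin, pow_add, ← h2, FS.om, h3]
  ring

omit [Fintype F] [DecidableEq F] in
theorem pol_perp {A B : Submodule F (Fin d → F)} (h : ∀ a ∈ A, ∀ b ∈ B, a ⬝ᵥ b = 0) :
    finrank F A + finrank F B ≤ d := by
  classical
  have hi : Function.Injective (dotProductBilin F F : (Fin d → F) →ₗ[F] (Fin d → F) →ₗ[F] F) :=
    fun a b e => dotProduct_eq _ _ fun u => LinearMap.congr_fun e u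
  have h1 : A.map (dotProductBilin F F) ≤ B.dualAnnihilator := by
    rintro _ ⟨a, ha, rfl⟩
    exact (Submodule.mem_dualAnnihilator _).2 fun b hb => h a ha b hb
  have h2 := Submodule.finrank_mono h1
  have h3 := Subspace.finrank_add_finrank_dualAnnihilator_eq B
  rw [← (Submodule.equivMapOfInjective _ hi A).finrank_eq] at h2
  rw [finrank_fin_fun, add_comm] at h3
  exact (Nat.add_le_add_right h2 _).trans h3.le

/-- In `S0.ext d`: the kernel `U` of `z ↦ (i z).2.1` is mapped into `W₀` (anisotropy), and the image of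
`z ↦ (i z).2.1` is orthogonal to the `d`-tuples `(i u).1`, `u ∈ U`; so `k - dim U ≤ d - dim U`. -/
theorem Pol.le (h : S.Pol d e) {i : (Fin k → F) →ₗ[F] V} (hi : Function.Injective i) (ht : S.TS i) : k ≤ d := by
  obtain ⟨V0, _, _, _, S0, h1, -, ⟨m⟩⟩ := h
  let f : (Fin k → F) →ₗ[F] (Fin d → F) × (Fin d → F) × V0 := m.e.toLinearMap ∘ₗ i
  have hf : Function.Injective f := m.e.injective.comp hi
  let p : (Fin k → F) →ₗ[F] (Fin d → F) := LinearMap.fst F _ _ ∘ₗ LinearMap.snd F _ _ ∘ₗ f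
  let x : (Fin k → F) →ₗ[F] (Fin d → F) := LinearMap.fst F _ _ ∘ₗ f
  have h2 : ∀ u, p u = 0 → (f u).2 = 0 := fun u hu => by
    have h3 : (S0.ext d).Q (f u) = 0 := (m.Q _).trans (ht.1 u)
    have h4 : (f u).2.1 = 0 := hu
    rw [ext_Q, h4, dotProduct_zero, mul_zero, zero_add] at h3
    exact Prod.ext h4 (h1 _ h3)
  have h3 : Function.Injective (x.domRestrict (LinearMap.ker p)) :=
    LinearMap.ker_eq_bot.1 (LinearMap.ker_eq_bot'.2 fun u hu =>
      Subtype.ext (hf ((Prod.ext hu (h2 u u.2)).trans (map_zero f).symm)))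
  have h4 := pol_perp (A := LinearMap.range (x.domRestrict (LinearMap.ker p))) (B := LinearMap.range p) (by
    rintro _ ⟨u, rfl⟩ _ ⟨z, rfl⟩
    have h5 : (S0.ext d).B (f u) (f z) = 0 := (m.B _ _).trans (ht.2 u z)
    rw [ext_B, h2 u u.2] at h5
    exact (by simpa using h5 : (f u).1 ⬝ᵥ (f z).2.1 = 0))
  have h5 := p.finrank_range_add_finrank_ker
  rw [LinearMap.finrank_range_of_inj h3] at h4
  rw [finrank_fin_fun] at h5
  omega

theorem Pol.fr (h : S.Pol j e) (hk : j < k) (ρ : GL (Fin k) F → ℂ) (τ : S.Iso → ℂ) : S.Fr ρ τ :=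
  fun _ hi ht => absurd (h.le hi ht) hk.not_ge

omit [DecidableEq F] in
theorem pol_w (S : FS F V) {a : F} (ha : a ≠ 0) :
    ∃ g : (S.ext 1).Iso, ∀ z, g.1 z = ((S.ε * a⁻¹) • z.2.1, a • z.1, z.2.2) := by
  let f : ((Fin 1 → F) × (Fin 1 → F) × V) →ₗ[F] ((Fin 1 → F) × (Fin 1 → F) × V) :=
    { toFun := fun z => ((S.ε * a⁻¹) • z.2.1, a • z.1, z.2.2)
      map_add' := fun _ _ => by simp
      map_smul' := fun c _ => by simp [smul_comm c] }
  have h1 := S.ε_sq
  have h2 := S.κ_ε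
  have h3 := mul_inv_cancel₀ ha
  refine ⟨(S.ext 1).mkIso f (fun x y => ?_) (fun x => ?_), fun z => rfl⟩
  · simp [f, ext_B, dotProduct]
    linear_combination (S.ε * x.2.1 0 * y.1 0 + S.ε * S.ε * x.1 0 * y.2.1 0) * h3 + x.1 0 * y.2.1 0 * h1
  · simp [f, ext_Q, dotProduct, -mul_eq_mul_left_iff]
    linear_combination (S.κ * S.ε * x.2.1 0 * x.1 0) * h3 + x.1 0 * x.2.1 0 * h2

theorem pol_t1 (S : FS F V) {z : (Fin 1 → F) × (Fin 1 → F) × V} (h0 : z.2.1 0 ≠ 0) (h : (S.ext 1).Q z = 0) :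
    ∃ g : (S.ext 1).Iso, g.1 (1, 0, 0) = z := by
  obtain ⟨w, hw⟩ := S.pol_w h0
  obtain ⟨m, hm⟩ := S.exists_K_one
  refine ⟨(m ⟨((z.2.1 0)⁻¹ • z.2.2, z.1 0 * (z.2.1 0)⁻¹), ?_⟩).1 * w, ?_⟩
  · rw [ext_Q] at h
    simp only [dotProduct, Finset.univ_unique, Fin.default_eq_zero, Finset.sum_singleton] at h
    rw [S.smul]
    field_simp
    linear_combination h
  · rw [mul_ap, hw, hm]
    refine Prod.ext (funext fun i => ?_) (Prod.ext (funext fun i => ?_) ?_)
    · simp [Subsingleton.elim i 0, h0]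
    · simp [Subsingleton.elim i 0]
    · simp [smul_smul, h0]

theorem pol_t2 (S : FS F V) {z : (Fin 1 → F) × (Fin 1 → F) × V} (h0 : z.1 0 ≠ 0) (h : (S.ext 1).Q z = 0) :
    ∃ g : (S.ext 1).Iso, g.1 (1, 0, 0) = z := by
  obtain ⟨w, hw⟩ := S.pol_w one_ne_zero
  obtain ⟨g, hg⟩ := S.pol_t1 (z := w.1 z) (by simpa [hw] using h0) ((map_Q w z).trans h)
  exact ⟨w⁻¹ * g, by rw [mul_ap, hg, inv_ap]⟩

/-- `z = (x, y, v)`: if `y ≠ 0` an element of `K` (`exists_K_one`) maps `(0, y, 0)` to `z`, use `w` and `lam`;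
if `y = 0 ≠ x` apply `w` first; if `x = y = 0` an element of `K` makes `x ≠ 0` (`nd`). -/
theorem trans_ext (S : FS F V) {z : (Fin 1 → F) × (Fin 1 → F) × V} (h0 : z ≠ 0) (h : (S.ext 1).Q z = 0) :
    ∃ g : (S.ext 1).Iso, g.1 (1, 0, 0) = z := by
  by_cases h1 : z.2.1 0 = 0
  · by_cases h2 : z.1 0 = 0
    · have h3 : z.2.2 ≠ 0 := fun h3 => h0 (Prod.ext (funext fun i => by simpa [Subsingleton.elim i 0] using h2)
        (Prod.ext (funext fun i => by simpa [Subsingleton.elim i 0] using h1) h3))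
      obtain ⟨b, hb⟩ := not_forall.1 fun h4 => h3 (S.nd _ h4)
      obtain ⟨m, hm⟩ := S.exists_K_one
      let c := (m ⟨(b, -S.Q b), by simp [S.zero]⟩).1
      obtain ⟨g, hg⟩ := S.pol_t2 (z := c.1 z) (by simpa [c, hm, h1, h2] using hb) ((map_Q c z).trans h)
      exact ⟨c⁻¹ * g, by rw [mul_ap, hg, inv_ap]⟩
    · exact S.pol_t2 h2 h
  · exact S.pol_t1 h1 h

/-- `Pol.split`, `trans_ext` (for `d = 0` there is no such vector). -/
theorem Pol.trans (h : S.Pol d e) {u v : V} (hu : u ≠ 0) (hv : v ≠ 0) (h1 : S.Q u = 0) (h2 : S.Q v = 0) :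
    ∃ g : S.Iso, g.1 u = v := by
  obtain _ | d := d
  · obtain ⟨V0, _, _, _, S0, h3, -, ⟨m⟩⟩ := h
    obtain ⟨m'⟩ := S0.ext_zero
    have := h3 _ (((m.trans m').Q u).trans h1)
    exact absurd ((m.trans m').e.map_eq_zero_iff.1 this) hu
  · obtain ⟨W, _, _, _, T, -, -, ⟨m⟩⟩ := h.split
    obtain ⟨a, ha⟩ := T.trans_ext (z := m.e u) (m.e.map_ne_zero_iff.2 hu) ((m.Q u).trans h1)
    obtain ⟨b, hb⟩ := T.trans_ext (z := m.e v) (m.e.map_ne_zero_iff.2 hv) ((m.Q v).trans h2)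
    refine ⟨m.congr.symm (b * a⁻¹), m.e.injective ?_⟩
    rw [← m.congr_ap, MulEquiv.apply_symm_apply, mul_ap, ← ha, inv_ap, hb]

/-- Each point has `q - 1` non-zero vectors. -/
theorem card_sing (S : FS F V) :
    Nat.card {v // v ≠ 0 ∧ S.Q v = 0} = Nat.card S.Pt * (Fintype.card F - 1) := by
  have hr : ∀ p : S.Pt, p.2.choose ≠ 0 ∧ S.Q p.2.choose = 0 ∧ p.1 = F ∙ p.2.choose := fun p => p.2.choose_spec
  rw [← Fintype.card_units, ← Nat.card_eq_fintype_card, ← Nat.card_prod]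
  refine (Nat.card_eq_of_bijective (fun x : S.Pt × Fˣ => (⟨(x.2 : F) • x.1.2.choose,
    smul_ne_zero x.2.ne_zero (hr _).1, by rw [S.smul, (hr _).2.1, mul_zero]⟩ : {v // v ≠ 0 ∧ S.Q v = 0}))
    ⟨fun x y h => ?_, fun v => ?_⟩).symm
  · have h1 : (x.2 : F) • x.1.2.choose = (y.2 : F) • y.1.2.choose := congrArg Subtype.val h
    have h2 : x.1 = y.1 := Subtype.ext (by
      rw [(hr x.1).2.2, (hr y.1).2.2, ← Submodule.span_singleton_smul_eq x.2.isUnit, h1,
        Submodule.span_singleton_smul_eq y.2.isUnit])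
    rw [h2] at h1
    exact Prod.ext h2 (Units.ext (smul_left_injective F (hr y.1).1 h1))
  · let p : S.Pt := ⟨F ∙ v.1, v.1, v.2.1, v.2.2, rfl⟩
    have h1 : v.1 ∈ F ∙ p.2.choose := (hr p).2.2 ▸ Submodule.mem_span_singleton_self v.1
    obtain ⟨a, ha⟩ := Submodule.mem_span_singleton.1 h1
    exact ⟨(p, Units.mk0 a fun h => v.2.1 (by rw [← ha, h, zero_smul])), Subtype.ext ha⟩

theorem pol_card_K (S : FS F V) : Nat.card (S.dat 1).K = S.om := by
  rw [card_K, om]; simp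

theorem pol_zero (S : FS F V) : Nat.card {v // S.Q v = 0} = 1 + Nat.card S.Pt * (Fintype.card F - 1) := by
  classical
  rw [← card_sing, ← Nat.card_congr (Equiv.sumCompl fun v : {v // S.Q v = 0} => v.1 = 0), Nat.card_sum]
  congr 1
  · exact Nat.card_eq_one_iff_exists.2 ⟨⟨⟨0, S.Q_zero⟩, rfl⟩, fun x => Subtype.ext (Subtype.ext x.2)⟩
  · exact Nat.card_congr ⟨fun x => ⟨x.1.1, x.2, x.1.2⟩, fun x => ⟨⟨x.1, x.2.2⟩, x.2.1⟩, fun _ => rfl, fun _ => rfl⟩

theorem pol_zero_ext (S : FS F V) : Nat.card {z // (S.ext 1).Q z = 0} =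
    Fintype.card F * Nat.card {v // S.Q v = 0} + (Fintype.card F - 1) * S.om := by
  obtain ⟨m, -⟩ := S.exists_K_one
  rw [← pol_card_K, ← Nat.card_congr m, ← Fintype.card_units, ← Nat.card_eq_fintype_card,
    ← Nat.card_eq_fintype_card, ← Nat.card_prod, ← Nat.card_prod, ← Nat.card_sum]
  refine (Nat.card_eq_of_bijective (Sum.elim
    (fun x : F × {v // S.Q v = 0} => (⟨(fun _ => x.1, 0, x.2.1), by simp [ext_Q, x.2.2]⟩ : {z // (S.ext 1).Q z = 0}))
    (fun x : Fˣ × {p : V × F // S.κ * p.2 + S.Q p.1 = 0} =>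
      ⟨(fun _ => x.2.1.2 * x.1, fun _ => x.1, (x.1 : F) • x.2.1.1), by
        simp [ext_Q, S.smul, dotProduct]
        linear_combination (x.1 : F) ^ 2 * x.2.2⟩)) ⟨?_, ?_⟩).symm
  · rintro (x | x) (y | y) h <;> have h1 := congrArg Subtype.val h <;>
      simp only [Sum.elim_inl, Sum.elim_inr, Prod.mk.injEq] at h1
    · exact congrArg _ (Prod.ext (congrFun h1.1 0) (Subtype.ext h1.2.2))
    · exact absurd (congrFun h1.2.1 0).symm y.1.ne_zero
    · exact absurd (congrFun h1.2.1 0) x.1.ne_zero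
    · have h2 : x.1 = y.1 := Units.ext (congrFun h1.2.1 0)
      rw [h2] at h1
      exact congrArg _ (Prod.ext h2 (Subtype.ext (Prod.ext (smul_right_injective V y.1.ne_zero h1.2.2)
        (mul_right_cancel₀ y.1.ne_zero (congrFun h1.1 0)))))
  · rintro ⟨⟨x, y, v⟩, h⟩
    have h1 : S.κ * (x 0 * y 0) + S.Q v = 0 := by simpa [ext_Q, dotProduct] using h
    by_cases h0 : y 0 = 0
    · refine ⟨.inl (x 0, ⟨v, by simpa [h0] using h1⟩), Subtype.ext (Prod.ext (funext fun i => ?_)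
        (Prod.ext (funext fun i => ?_) rfl))⟩ <;> simp [Subsingleton.elim i 0, h0]
    · refine ⟨.inr (Units.mk0 _ h0, ⟨((y 0)⁻¹ • v, x 0 * (y 0)⁻¹), ?_⟩), Subtype.ext (Prod.ext (funext fun i => ?_)
        (Prod.ext (funext fun i => ?_) ?_))⟩
      · rw [S.smul]
        field_simp
        linear_combination h1
      · simp [Subsingleton.elim i 0, h0]
      · simp [Subsingleton.elim i 0]
      · simp [smul_smul, h0]

/-- Count singular vectors `(x, y, v) ≠ 0`: `y ≠ 0` (`(q - 1) * om`), `y = 0 ≠ v` (`q` times those of `S`),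
`y = 0 = v`. -/
theorem card_pt_ext (S : FS F V) : Nat.card (S.ext 1).Pt = 1 + Fintype.card F * Nat.card S.Pt + S.om := by
  have h1 := S.pol_zero_ext
  rw [pol_zero, pol_zero] at h1
  obtain ⟨n, hn⟩ : ∃ n, Fintype.card F = n + 2 := ⟨Fintype.card F - 2, by have := Fintype.one_lt_card (α := F); omega⟩
  rw [hn] at h1 ⊢
  refine Nat.eq_of_mul_eq_mul_right n.succ_pos ?_
  rw [show n + 2 - 1 = n + 1 from rfl] at h1
  rw [Nat.succ_eq_add_one]
  linarith

theorem card_pt_congr (i : Isom S S') : Nat.card S.Pt = Nat.card S'.Pt := by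
  have h1 : 0 < Fintype.card F - 1 := by have := Fintype.one_lt_card (α := F); omega
  refine Nat.eq_of_mul_eq_mul_right h1 ?_
  rw [← card_sing, ← card_sing]
  exact Nat.card_congr (i.e.toEquiv.subtypeEquiv fun v => by simp [i.Q])

/-- Induction with `card_pt_ext`, `Pol.om`. -/
theorem Pol.card_pt (h : S.Pol d e) : (Nat.card S.Pt : ℤ) * (Fintype.card F - 1) * Fintype.card F =
    (Fintype.card F ^ d - 1) * (Fintype.card F ^ (d + e) + Fintype.card F) := by
  induction d generalizing V with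
  | zero =>
    have : IsEmpty S.Pt := ⟨fun p => by
      obtain ⟨u, hu, h1, -⟩ := p.2
      obtain ⟨V0, _, _, _, S0, h3, -, ⟨m⟩⟩ := h
      obtain ⟨m'⟩ := S0.ext_zero
      have := h3 _ (((m.trans m').Q u).trans h1)
      exact hu ((m.trans m').e.map_eq_zero_iff.1 this)⟩
    simp
  | succ d ih =>
    obtain ⟨W, _, _, _, T, h1, -, ⟨m⟩⟩ := h.split
    have h2 := ih h1
    rw [card_pt_congr m, card_pt_ext, h1.om]
    push_cast
    linear_combination (Fintype.card F : ℤ) * h2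

/-- `P` is the stabiliser of the point `F ∙ (1, 0, 0)`; `trans_ext`. -/
theorem index_one (S : FS F V) : (S.dat 1).P.index = Nat.card (S.ext 1).Pt := by
  let p : (S.ext 1).Pt := ⟨F ∙ (1, 0, 0), (1, 0, 0), by simp, by simp [ext_Q, S.Q_zero], rfl⟩
  have h1 : ∀ g : (S.ext 1).Iso, (g • p).1 = F ∙ g.1 (1, 0, 0) := fun g => by
    rw [smul_val, Submodule.map_span, Set.image_singleton]; rfl
  have : MulAction.IsPretransitive (S.ext 1).Iso (S.ext 1).Pt := .of_orbit (x₀ := p) fun a => by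
    obtain ⟨v, h0, h2, h3⟩ := a.2
    obtain ⟨g, hg⟩ := S.trans_ext h0 h2
    exact ⟨g, Subtype.ext (by rw [h1, hg, h3])⟩
  rw [← MulAction.index_stabilizer_of_transitive (S.ext 1).Iso p]
  congr 1
  ext g
  rw [(S.spec 1).mem, MulAction.mem_stabilizer_iff]
  refine Iff.trans ?_ Subtype.ext_iff.symm
  rw [h1]
  refine ⟨fun h => ?_, fun h x => ?_⟩
  · have h2 : g.1 (1, 0, 0) = (g.1 (1, 0, 0)).1 0 • (1, 0, 0) :=
      Prod.ext (funext fun i => by simp [Subsingleton.elim i 0]) (by rw [h]; simp [Prod.ext_iff])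
    have h3 : (g.1 (1, 0, 0)).1 0 ≠ 0 := fun h3 => by
      rw [h3, zero_smul, g.1.map_eq_zero_iff] at h2
      simp at h2
    rw [h2, Submodule.span_singleton_smul_eq h3.isUnit]
  · obtain ⟨a, ha⟩ := Submodule.mem_span_singleton.1 (h.le (Submodule.mem_span_singleton_self _))
    have h2 : ((x, 0, 0) : (Fin 1 → F) × (Fin 1 → F) × V) = x 0 • (1, 0, 0) :=
      Prod.ext (funext fun i => by simp [Subsingleton.elim i 0]) (by simp)
    rw [h2, map_smul, ← ha]
    simp

theorem card_K_one (S : FS F V) : Nat.card (S.dat 1).K = S.om := by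
  exact S.pol_card_K

theorem Pol.card_K (h : S.Pol j e) [NeZero k] :
    Nat.card (S.dat k).K = Fintype.card F ^ (k * (2 * j + e) + k.choose 2) := by
  rw [FS.card_K, pow_add, mul_comm k, pow_mul, ← h.om, FS.om]
  split_ifs <;> ring

/-- Induction on `k` (`ext_ext`, `index_one`, `card_P`, `card_K_one`, `Pol.card_pt`). -/
theorem Pol.card_ext (h : S.Pol j e) (k : ℕ) : (Nat.card (S.ext k).Iso : ℤ) =
    Nat.card S.Iso * win (Fintype.card F) j k e * Fintype.card F ^ (k * (2 * j + e) + 2 * k.choose 2) := by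
  induction k with
  | zero =>
    obtain ⟨m⟩ := S.ext_zero
    rw [Nat.card_congr m.congr.toEquiv]
    simp [win]
  | succ k ih =>
    obtain ⟨m⟩ := S.ext_ext k 1
    have h1 := ((h.ext k).ext 1).card_pt
    have h0 : (Fintype.card F : ℤ) ≠ 0 := by exact_mod_cast Fintype.card_ne_zero
    have h2 : (Nat.card ((S.ext k).ext 1).Pt : ℤ) * (Fintype.card F - 1) =
        (Fintype.card F ^ (j + k + 1) - 1) * (Fintype.card F ^ (j + k + e) + 1) :=
      mul_right_cancel₀ h0 (by rw [h1]; ring)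
    have h3 : (Nat.card (GL (Fin 1) F) : ℤ) = Fintype.card F - 1 := by
      rw [Matrix.card_GL_field]; simp [Fintype.card_pos]
    rw [Nat.card_congr m.congr.toEquiv, ← ((S.ext k).dat 1).P.index_mul_card, index_one, Dat.card_P, card_K_one,
      (h.ext k).om, Nat.card_prod, win, Finset.prod_range_succ, ← win, ← h2, Nat.choose_succ_succ', Nat.choose_one_right]
    push_cast
    rw [ih, h3]
    ring

theorem pol_prod (q : ℤ) (k : ℕ) : ∏ i ∈ Finset.range k, (q ^ k - q ^ i) =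
    q ^ k.choose 2 * ∏ i ∈ Finset.range k, (q ^ (i + 1) - 1) := by
  induction k with
  | zero => simp
  | succ k ih =>
    have : ∀ i ∈ Finset.range k, q ^ (k + 1) - q ^ (i + 1) = q * (q ^ k - q ^ i) := fun i _ => by ring
    rw [Finset.prod_range_succ', Finset.prod_congr rfl this, Finset.prod_mul_distrib, ih, Finset.prod_range_succ,
      Finset.prod_const, Finset.card_range, Nat.choose_succ_succ', Nat.choose_one_right]
    ring

theorem pol_GL (k : ℕ) [NeZero k] : (Nat.card (GL (Fin k) F) : ℤ) =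
    Fintype.card F ^ k.choose 2 * (gam (Fintype.card F) k * (Fintype.card F ^ k - 1)) := by
  have h1 : 1 ≤ Fintype.card F := Fintype.card_pos
  rw [Matrix.card_GL_field, Fin.prod_univ_eq_prod_range (fun i => Fintype.card F ^ k - Fintype.card F ^ i),
    Nat.cast_prod, Finset.prod_congr rfl fun i hi =>
      Nat.cast_sub (Nat.pow_le_pow_right h1 (Finset.mem_range.1 hi).le)]
  push_cast
  rw [pol_prod, gam, Nat.cast_prod, Finset.prod_congr rfl fun i _ => Nat.cast_sub (Nat.one_le_pow (i + 1) _ h1)]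
  obtain ⟨k, rfl⟩ := Nat.exists_eq_add_one_of_ne_zero (NeZero.ne k)
  rw [Finset.prod_range_succ]
  simp

/-- `Pol.card_ext`, `card_P`, `Pol.card_K`, `Matrix.card_GL_field`. -/
theorem Pol.index (h : S.Pol j e) [NeZero k] :
    ((S.dat k).P.index * gam (Fintype.card F) k : ℤ) * (Fintype.card F ^ k - 1) = win (Fintype.card F) j k e := by
  have h1 := h.card_ext k
  have h0 : (Fintype.card F : ℤ) ≠ 0 := by exact_mod_cast Fintype.card_ne_zero
  have h2 : (Nat.card S.Iso : ℤ) ≠ 0 := by exact_mod_cast Nat.card_pos.ne'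
  rw [← (S.dat k).P.index_mul_card, Dat.card_P, h.card_K, Nat.card_prod] at h1
  push_cast at h1
  rw [pol_GL] at h1
  refine mul_left_cancel₀ (mul_ne_zero h2 (pow_ne_zero (k * (2 * j + e) + 2 * k.choose 2) h0)) ?_
  linear_combination h1

/-- The anisotropic kernel: `κ = 0` gives `V0 = 0`; `κ = 1` gives dimension `e ≤ 2` and order `1`, `2`, `2 (q + 1)`
(`Orth.card_O_of_subsingleton`, `card_O_one`, `card_O_anisotropic_two`, `eqO`). -/
theorem Pol.prime_dvd (h : S.Pol d e) {r : ℕ} (hr : r.Prime) (h1 : r ∣ Nat.card S.Iso) :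
    r ∣ Fintype.card F ∨ r = 2 ∨ (r : ℤ) ∣ win (Fintype.card F) 0 d e ∨ e = 2 ∧ (r : ℤ) ∣ Fintype.card F + 1 := by
  obtain ⟨V0, _, _, _, S0, h2, h3, ⟨m⟩⟩ := h
  obtain ⟨m'⟩ := S0.ext_zero
  have h4 : S0.Pol 0 e := ⟨V0, _, _, inferInstance, S0, h2, h3, ⟨m'.symm⟩⟩
  have h5 := Int.natCast_dvd_natCast.2 h1
  have hp := Nat.prime_iff_prime_int.1 hr
  rw [Nat.card_congr m.congr.toEquiv, h4.card_ext d] at h5
  rcases hp.dvd_or_dvd h5 with h5 | h5
  swap
  · exact .inl (Int.natCast_dvd_natCast.1 (hp.dvd_of_dvd_pow h5))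
  rcases hp.dvd_or_dvd h5 with h5 | h5
  swap
  · exact .inr (.inr (.inl h5))
  have h6 := Int.natCast_dvd_natCast.1 h5
  rcases S0.hκ with h7 | h7
  · have : Subsingleton S0.Iso := ⟨fun a b => iso_ext fun x => by
      rw [h2 x (by rw [← S0.zero, h7, zero_mul]), map_zero, map_zero]⟩
    rw [Nat.card_of_subsingleton 1] at h6
    exact absurd (Nat.dvd_one.1 h6) hr.one_lt.ne'
  have hA : (S0.toQ h7).Anisotropic := h2
  have h8 := Orth.finrank_le_two_of_anisotropic hA
  have h9 : e = finrank F V0 := by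
    rw [FS.om, h7, if_neg one_ne_zero, mul_one, Orth.card_eq_pow (F := F), Nat.card_eq_fintype_card] at h3
    exact (Nat.pow_right_injective Fintype.one_lt_card h3).symm
  rw [Nat.card_congr (eqO h7).toEquiv] at h6
  obtain h0 | h0 | h0 : finrank F V0 = 0 ∨ finrank F V0 = 1 ∨ finrank F V0 = 2 := by omega
  · have := finrank_zero_iff.1 h0
    rw [Orth.card_O_of_subsingleton] at h6
    exact absurd (Nat.dvd_one.1 h6) hr.one_lt.ne'
  · rw [Orth.card_O_one (nd_toQ h7) h0] at h6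
    exact .inr (.inl ((Nat.prime_dvd_prime_iff_eq hr Nat.prime_two).1 h6))
  · rw [Orth.card_O_anisotropic_two (nd_toQ h7) h0 hA, Nat.card_eq_fintype_card] at h6
    rcases (Nat.Prime.dvd_mul hr).1 h6 with h6 | h6
    · exact .inr (.inl ((Nat.prime_dvd_prime_iff_eq hr Nat.prime_two).1 h6))
    · exact .inr (.inr (.inr ⟨h9.trans h0, by exact_mod_cast h6⟩))

end FS

end Cfsg.Lib.HCI
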