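import Cfsg.Agent.Lib.HCI.Pol
import Cfsg.Agent.Lib.RK3.Cf

/-! S4984: the permutation character on the singular points. -/

set_option autoImplicit false

namespace Cfsg.Lib.HCI

open Module Matrix Cfsg.Lib.Char Cfsg.Lib.PermChar MulAction

/-- `A` acts on the permutation module (`permRep`), commutes with `G`, so `A = c₀ e₀ + c₁ e₁ + c₂ e₂`
(`exists_eq_sum_eId`, `eId_eq_zero_iff`; or the matrix versions `em`, `Eqv.exists_eq_sum` used in
`PermChar.exists_eig`); `e₀ = J / n`, so `c₀ = κ` and `c₁, c₂` are roots of `T ^ 2 = b T + a`, that is lie in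
`{u, v}`; they differ since `A` is not of the form `s + t J`; take traces (`trace_eId`). -/
theorem rk_deg {G Ω : Type*} [Group G] [Fintype G] [Fintype Ω] [DecidableEq Ω] [MulAction G Ω]
    [IsPretransitive G Ω] {χ ψ : G → ℂ} (hχ : IsIrrCharacter G χ) (hψ : IsIrrCharacter G ψ)
    (h1 : χ ≠ fun _ => 1) (h2 : ψ ≠ fun _ => 1) (h3 : χ ≠ ψ) (hπ : pc G Ω = (fun _ => 1) + χ + ψ)
    (A : Matrix Ω Ω ℂ) (hA : ∀ (g : G) x y, A (g • x) (g • y) = A x y) {u v c κ : ℂ}
    (hs : A * A = (u + v) • A - (u * v) • (1 : Matrix Ω Ω ℂ) + c • Matrix.of fun _ _ => 1)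
    (hr : ∀ x, ∑ y, A x y = κ) (hn : ∃ x y x' y', x ≠ y ∧ x' ≠ y' ∧ A x y ≠ A x' y') :
    κ + u * χ 1 + v * ψ 1 = A.trace ∨ κ + v * χ 1 + u * ψ 1 = A.trace := by
  classical
  obtain ⟨a, b, a', b', hab, hab', hn⟩ := hn
  have h₀ : IsIrrCharacter G fun _ => 1 := isIrrCharacter_one
  have hin : ∀ θ, classInner (pc G Ω) θ =
      classInner (fun _ => 1) θ + classInner χ θ + classInner ψ θ := fun θ => by
    rw [hπ, classInner_add_left, classInner_add_left]
  have hz : ∀ θ, IsIrrCharacter G θ → θ ≠ (fun _ => 1) → θ ≠ χ → θ ≠ ψ →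
      classInner (pc G Ω) θ = 0 := fun θ h a b c => by
    rw [hin, h₀.inner_eq_zero_of_ne h a.symm, hχ.inner_eq_zero_of_ne h b.symm,
      hψ.inner_eq_zero_of_ne h c.symm, add_zero, add_zero]
  have i0 := inner_pc_one_of_trans (G := G) a
  have i1 : classInner (pc G Ω) χ = 1 := by
    simp [hin, h₀.inner_eq_zero_of_ne hχ h1.symm, hχ.inner_self, hψ.inner_eq_zero_of_ne hχ h3.symm]
  have i2 : classInner (pc G Ω) ψ = 1 := by
    simp [hin, h₀.inner_eq_zero_of_ne hψ h2.symm, hψ.inner_self, hχ.inner_eq_zero_of_ne hψ h3]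
  have hsum : ∀ c : IrrCharacter G → ℂ, ∑ θ : IrrCharacter G, c θ • em Ω (θ : G → ℂ) =
      c (irrOne G) • em Ω (fun _ : G => 1) + c ⟨χ, hχ⟩ • em Ω χ + c ⟨ψ, hψ⟩ • em Ω ψ :=
    fun c => by
      rw [← Finset.sum_subset (Finset.subset_univ {irrOne G, ⟨χ, hχ⟩, ⟨ψ, hψ⟩}) fun θ _ hθ => by
          simp only [Finset.mem_insert, Finset.mem_singleton, not_or, Subtype.ext_iff] at hθ
          rw [(em_eq_zero_iff θ.2).2 (hz _ θ.2 hθ.1 hθ.2.1 hθ.2.2), smul_zero],
        Finset.sum_insert (by simpa [Subtype.ext_iff, coe_irrOne] using ⟨h1.symm, h2.symm⟩),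
        Finset.sum_pair fun e => h3 (congrArg Subtype.val e), add_assoc]
      rfl
  have hI := hsum fun _ => 1
  simp only [one_smul, sum_em] at hI
  have hE : ∀ x y : Ω, em Ω (fun _ : G => 1) x y = (Nat.card Ω : ℂ)⁻¹ := fun x y => by
    simp only [em_apply, one_mul]
    rw [sum_smul_base y fun z => if x = z then (1 : ℂ) else 0, ← index_stabilizer_of_transitive G y,
      ← (stabilizer G y).card_mul_index]
    rw [Finset.sum_ite_eq, if_pos (Finset.mem_univ _), mul_one, Nat.cast_mul, one_div, mul_inv,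
      mul_right_comm, inv_mul_cancel₀ (card_ne_zero_complex _), one_mul]
  obtain ⟨d, hc⟩ := Eqv.exists_eq_sum (G := G) (A := A) (fun θ h => by
    by_cases a : θ = fun _ => 1
    · exact .inr (a ▸ i0)
    by_cases b : θ = χ
    · exact .inr (b ▸ i1)
    by_cases c : θ = ψ
    · exact .inr (c ▸ i2)
    exact .inl (hz θ h a b c)) hA
  rw [hsum] at hc
  have : Nonempty Ω := ⟨a⟩
  have hN : (Nat.card Ω : ℂ) ≠ 0 := Nat.cast_ne_zero.2 Nat.card_pos.ne'
  have hJ : (Matrix.of fun _ _ => 1 : Matrix Ω Ω ℂ) = (Nat.card Ω : ℂ) • em Ω (fun _ : G => 1) := by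
    ext x y
    rw [Matrix.smul_apply, hE, smul_eq_mul, mul_inv_cancel₀ hN]; rfl
  have c0 : d (irrOne G) = κ := by
    have : A * em Ω (fun _ : G => 1) = d (irrOne G) • em Ω (fun _ : G => 1) := by
      simp only [hc, add_mul, smul_mul_assoc, em_mul_self h₀, em_mul_of_ne hχ h₀ h1,
        em_mul_of_ne hψ h₀ h2, smul_zero, add_zero]
    have := congrFun (congrFun this a) a
    simp only [mul_apply, hE, ← Finset.sum_mul, hr, Matrix.smul_apply, smul_eq_mul] at this
    exact (mul_right_cancel₀ (inv_ne_zero hN) ‹_›).symm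
  have key : ∀ (θ : G → ℂ) (r : ℂ), IsIrrCharacter G θ → θ ≠ (fun _ => 1) → classInner (pc G Ω) θ = 1 →
      A * em Ω θ = r • em Ω θ → r = u ∨ r = v := fun θ r h hne i e => by
    have e2 := congrArg (· * em Ω θ) hs
    simp only [mul_assoc, e, add_mul, sub_mul, smul_mul_assoc, mul_smul_comm, one_mul, hJ,
      em_mul_of_ne h₀ h hne.symm, smul_zero, add_zero, smul_smul] at e2
    have e3 : ((r - u) * (r - v)) • em Ω θ = 0 := by linear_combination (norm := module) e2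
    have e4 := (smul_eq_zero.1 e3).resolve_right fun e => by simp [(em_eq_zero_iff h).1 e] at i
    exact (mul_eq_zero.1 e4).imp sub_eq_zero.1 sub_eq_zero.1
  have k1 := key χ (d ⟨χ, hχ⟩) hχ h1 i1 (by
    simp only [hc, add_mul, smul_mul_assoc, em_mul_self hχ, em_mul_of_ne h₀ hχ h1.symm,
      em_mul_of_ne hψ hχ h3.symm, smul_zero, add_zero, zero_add])
  have k2 := key ψ (d ⟨ψ, hψ⟩) hψ h2 i2 (by
    simp only [hc, add_mul, smul_mul_assoc, em_mul_self hψ, em_mul_of_ne h₀ hψ h2.symm,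
      em_mul_of_ne hχ hψ h3, smul_zero, add_zero, zero_add])
  have k3 : d ⟨χ, hχ⟩ ≠ d ⟨ψ, hψ⟩ := fun e => hn (by
    have j1 := congrFun (congrFun hI a) b
    have j2 := congrFun (congrFun hI a') b'
    rw [hc, e]
    simp only [Matrix.add_apply, Matrix.smul_apply, smul_eq_mul, hE, one_apply_ne hab,
      one_apply_ne hab'] at j1 j2 ⊢
    linear_combination d ⟨ψ, hψ⟩ * (j2 - j1))
  have t : A.trace = κ + d ⟨χ, hχ⟩ * χ 1 + d ⟨ψ, hψ⟩ * ψ 1 := by
    conv_lhs => rw [hc]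
    simp only [trace_add, trace_smul, trace_em h₀.isCharacter, trace_em hχ.isCharacter,
      trace_em hψ.isCharacter, i0, i1, i2, mul_one, c0, smul_eq_mul]
  rw [t]
  rcases k1 with k1 | k1 <;> rcases k2 with k2 | k2
  · exact absurd (k1.trans k2.symm) k3
  · exact .inl (by rw [k1, k2])
  · exact .inr (by rw [k1, k2])
  · exact absurd (k1.trans k2.symm) k3

variable {F V V' : Type} [Field F] [Fintype F] [DecidableEq F] [AddCommGroup V] [Module F V] [Finite V]
  [AddCommGroup V'] [Module F V'] [Finite V']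

namespace FS

/-- The permutation character on the singular points. -/
noncomputable def pi1 (S : FS F V) : S.Iso → ℂ := pc S.Iso S.Pt

variable {S : FS F V} {S' : FS F V'} {j e k : ℕ}

theorem isCharacter_pi1 (S : FS F V) : IsCharacter S.Iso S.pi1 := by
  exact isCharacter_card_fixedBy S.Pt

theorem pi1_neg (S : FS F V) : S.pi1 S.neg = S.pi1 1 := by
  have : fixedBy S.Pt S.neg = fixedBy S.Pt (1 : S.Iso) := by
    ext p
    rw [mem_fixedBy, mem_fixedBy, one_smul]
    refine iff_of_true (Subtype.ext ?_) rfl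
    rw [smul_val]
    exact (Submodule.map_neg p.1 LinearMap.id).trans (Submodule.map_id _)
  exact congrArg (fun s : Set S.Pt => (Nat.card s : ℂ)) this

/-- The image of a point. -/
def r3map (i : Isom S S') (p : S.Pt) : S'.Pt := ⟨p.1.map (i.e : V →ₗ[F] V'), by
  obtain ⟨v, h0, h1, h2⟩ := p.2
  exact ⟨i.e v, by simpa using h0, (i.Q v).trans h1, by simp [h2, Submodule.map_span]⟩⟩

theorem pi1_congr (i : Isom S S') (g : S.Iso) : S'.pi1 (i.congr g) = S.pi1 g := by
  let e : S.Pt ≃ S'.Pt := ⟨r3map i, r3map i.symm,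
    fun p => Subtype.ext (by simp [r3map, Isom.symm, ← Submodule.map_comp]),
    fun p => Subtype.ext (by simp [r3map, Isom.symm, ← Submodule.map_comp])⟩
  have h : ∀ p, i.congr g • e p = e (g • p) := fun p => Subtype.ext (by
    show (p.1.map _).map _ = (p.1.map _).map _
    rw [← Submodule.map_comp, ← Submodule.map_comp]
    exact congrArg (fun f => p.1.map f) (LinearMap.ext fun x => i.congr_ap g x))
  refine congrArg _ (Nat.card_congr (Equiv.subtypeEquiv e fun p => ?_)).symm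
  rw [mem_fixedBy, mem_fixedBy, h, e.apply_eq_iff_eq]

/-- The number of points orthogonal to two points `x`, `y`: move `x` to `F ∙ (1, 0, 0)` in `T.ext 1` and `y` to
`x`, to `F ∙ (0, 1, 0)`, or to `F ∙ (0, 0, a)` with `a = (1, 0, 0)` in `T = T'.ext 1`. -/
theorem Pol.orb (h : S.Pol j e) {z z' : (Fin 1 → F) × (Fin 1 → F) × V} (h1 : (S.ext 1).Q z = 0)
    (h1' : (S.ext 1).Q z' = 0) (h2 : z.2 ≠ 0) (h2' : z'.2 ≠ 0) (h3 : z.2.1 = 0 ↔ z'.2.1 = 0) :
    ∃ g ∈ (S.dat 1).P, g.1 z = z' := by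
  have one : ∀ y : Fin 1 → F, y ≠ 0 → y 0 ≠ 0 := fun y hy e => hy (funext fun r => by
    rw [Subsingleton.elim r 0]; exact e)
  obtain ⟨k, hk⟩ := S.exists_K_one
  by_cases c : z.2.1 = 0
  · have c' := h3.1 c
    have v0 : z.2.2 ≠ 0 := fun e => h2 (Prod.ext c e)
    have v0' : z'.2.2 ≠ 0 := fun e => h2' (Prod.ext c' e)
    obtain ⟨g, hg⟩ := h.trans v0 v0' (by simpa [ext_Q, c] using h1) (by simpa [ext_Q, c'] using h1')
    obtain ⟨b, hb⟩ : ∃ b, S.B z'.2.2 b ≠ 0 := by
      by_contra! e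
      exact v0' (S.nd _ e)
    let b' := ((z.1 0 - z'.1 0) / S.B z'.2.2 b) • b
    refine ⟨k ⟨(b', - S.Q b'), by simp [S.zero]⟩ * (S.dat 1).lam (1, g),
      mul_mem (Dat.K_le _ (k _).2) ((S.dat 1).mem _), ?_⟩
    rw [mul_ap, (S.spec 1).lam, hk]
    refine Prod.ext (funext fun r => ?_) (Prod.ext (by simp [c, c']) (by simp [c, hg]))
    simp only [Subsingleton.elim r 0, c, hg, b', map_smul, smul_eq_mul]
    simp
    field_simp
    ring
  · have key : ∀ w : (Fin 1 → F) × (Fin 1 → F) × V, (S.ext 1).Q w = 0 → w.2.1 0 ≠ 0 →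
        ∃ g ∈ (S.dat 1).P, g.1 (0, 1, 0) = w := fun w hw w0 => by
      let A : GL (Fin 1) F := ⟨(w.2.1 0)⁻¹ • 1, w.2.1 0 • 1, by simp [smul_smul, w0], by simp [smul_smul, w0]⟩
      refine ⟨k ⟨((w.2.1 0)⁻¹ • w.2.2, w.1 0 / w.2.1 0), ?_⟩ * (S.dat 1).lam (A, 1),
        mul_mem (Dat.K_le _ (k _).2) ((S.dat 1).mem _), ?_⟩
      · simp only [ext_Q, dotProduct, Fin.sum_univ_one] at hw
        rw [S.smul]
        field_simp
        linear_combination hw
      · have hA : ((A⁻¹).1ᵀ *ᵥ (1 : Fin 1 → F)) = w.2.1 := funext fun r => by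
          show ((w.2.1 0 • (1 : Matrix (Fin 1) (Fin 1) F))ᵀ *ᵥ _) r = _
          simp [Subsingleton.elim r 0, smul_mulVec]
        rw [mul_ap, (S.spec 1).lam, hk]
        simp only [hA]
        refine Prod.ext (funext fun r => ?_) (Prod.ext rfl (by simp [smul_smul, w0]))
        simp [Subsingleton.elim r 0, w0]
    obtain ⟨g, hg, e⟩ := key z h1 (one _ c)
    obtain ⟨g', hg', e'⟩ := key z' h1' (one _ fun e => c (h3.2 e))
    exact ⟨g' * g⁻¹, mul_mem hg' (inv_mem hg), by rw [mul_ap, ← e, inv_ap, e']⟩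

/-- Orthogonal points. -/
def Perp (p q : S.Pt) : Prop := ∀ x ∈ p.1, ∀ y ∈ q.1, S.B x y = 0

/-- The point of a vector. -/
def r3pt (S : FS F V) (v : V) (h0 : v ≠ 0) (h1 : S.Q v = 0) : S.Pt := ⟨F ∙ v, v, h0, h1, rfl⟩

omit [Fintype F] [DecidableEq F] [Finite V] in
theorem r3_ex (p : S.Pt) : ∃ v h0 h1, p = S.r3pt v h0 h1 :=
  let ⟨v, h0, h1, e⟩ := p.2
  ⟨v, h0, h1, Subtype.ext e⟩

omit [Fintype F] [DecidableEq F] [Finite V] in
theorem perp_pt {v w : V} {h0 h1 h0' h1'} : Perp (S.r3pt v h0 h1) (S.r3pt w h0' h1') ↔ S.B v w = 0 := by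
  refine ⟨fun h => h _ (Submodule.mem_span_singleton_self v) _ (Submodule.mem_span_singleton_self w),
    fun h x hx y hy => ?_⟩
  obtain ⟨a, rfl⟩ := Submodule.mem_span_singleton.1 hx
  obtain ⟨b, rfl⟩ := Submodule.mem_span_singleton.1 hy
  simp [h]

omit [Fintype F] [DecidableEq F] [Finite V] in
theorem pt_eq {v w : V} {h0 h1 h0' h1'} : S.r3pt v h0 h1 = S.r3pt w h0' h1' ↔ ∃ a : F, a • v = w := by
  refine ⟨fun h => Submodule.mem_span_singleton.1 ?_, fun ⟨a, e⟩ => Subtype.ext ?_⟩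
  · have : (F ∙ v) = F ∙ w := congrArg Subtype.val h
    exact this ▸ Submodule.mem_span_singleton_self w
  · subst e
    exact (Submodule.span_singleton_smul_eq (IsUnit.mk0 a (left_ne_zero_of_smul h0')) v).symm

omit [Fintype F] [DecidableEq F] [Finite V] in
theorem smul_pt (g : S.Iso) {v w : V} {h0 h1 h0' h1'} (e : g.1 v = w) :
    g • S.r3pt v h0 h1 = S.r3pt w h0' h1' :=
  Subtype.ext (by rw [smul_val]; simp [r3pt, Submodule.map_span, e])

omit [Fintype F] [DecidableEq F] [Finite V] in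
theorem Perp.symm {p q : S.Pt} (h : Perp p q) : Perp q p := fun x hx y hy => S.B_comm (h y hy x hx)

omit [Fintype F] [DecidableEq F] [Finite V] in
theorem perp_self (p : S.Pt) : Perp p p := by
  obtain ⟨v, h0, h1, rfl⟩ := r3_ex p
  rw [perp_pt, S.self, h1, mul_zero]

omit [Fintype F] [DecidableEq F] [Finite V] in
theorem perp_smul (g : S.Iso) {p q : S.Pt} : Perp (g • p) (g • q) ↔ Perp p q := by
  obtain ⟨v, h0, h1, rfl⟩ := r3_ex p
  obtain ⟨w, h0', h1', rfl⟩ := r3_ex q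
  rw [smul_pt g (h0' := by simpa using h0) (h1' := (map_Q g v).trans h1) rfl,
    smul_pt g (h0' := by simpa using h0') (h1' := (map_Q g w).trans h1') rfl, perp_pt, perp_pt, map_B]

/-- The base point. -/
def r3x (S : FS F V) : (S.ext 1).Pt :=
  (S.ext 1).r3pt (1, 0, 0) (fun e => one_ne_zero (congrArg Prod.fst e)) (by simp [ext_Q, S.Q_zero])

/-- The opposite point. -/
def r3y (S : FS F V) : (S.ext 1).Pt :=
  (S.ext 1).r3pt (0, 1, 0) (fun e => one_ne_zero (congrArg (fun z => z.2.1) e)) (by simp [ext_Q, S.Q_zero])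

omit [Fintype F] [DecidableEq F] [Finite V] in
theorem perp_x {z h0 h1} : Perp S.r3x ((S.ext 1).r3pt z h0 h1) ↔ z.2.1 = 0 := by
  rw [r3x, perp_pt]
  simp [ext_B, dotProduct, funext_iff, Fin.forall_fin_one]

omit [Fintype F] [DecidableEq F] [Finite V] in
theorem perp_y {z h0 h1} : Perp ((S.ext 1).r3pt z h0 h1) S.r3y ↔ z.1 = 0 := by
  rw [r3y, perp_pt]
  simp [ext_B, dotProduct, funext_iff, Fin.forall_fin_one]

omit [Fintype F] [DecidableEq F] [Finite V] in
theorem eq_x {z h0 h1} : (S.ext 1).r3pt z h0 h1 = S.r3x ↔ z.2 = 0 := by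
  rw [eq_comm, r3x, pt_eq]
  refine ⟨fun ⟨a, e⟩ => by simp [← e], fun h => ⟨z.1 0, Prod.ext (funext fun r => ?_) (by simp [h])⟩⟩
  simp [Subsingleton.elim r 0]

theorem pretrans_ext (S : FS F V) : IsPretransitive (S.ext 1).Iso (S.ext 1).Pt := ⟨fun p q => by
  obtain ⟨v, h0, h1, rfl⟩ := r3_ex p
  obtain ⟨w, h0', h1', rfl⟩ := r3_ex q
  obtain ⟨g, hg⟩ := S.trans_ext h0 h1
  obtain ⟨g', hg'⟩ := S.trans_ext h0' h1'
  exact ⟨g' * g⁻¹, smul_pt _ (by rw [mul_ap, ← hg, inv_ap, hg'])⟩⟩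

theorem Pol.orb_iff (h : S.Pol j e) (y y' : (S.ext 1).Pt) : orbitRel (stabilizer (S.ext 1).Iso S.r3x) _ y y' ↔
    (y = S.r3x ↔ y' = S.r3x) ∧ (Perp S.r3x y ↔ Perp S.r3x y') := by
  rw [orbitRel_apply]
  constructor
  · rintro ⟨⟨g, hg⟩, rfl⟩
    have hg' : g • S.r3x = S.r3x := hg
    constructor
    · show g • y' = _ ↔ _
      conv_lhs => rw [← hg']
      exact smul_left_cancel_iff g
    · show Perp _ (g • y') ↔ _
      conv_lhs => rw [← hg']
      exact perp_smul g
  · rintro ⟨h1, h2⟩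
    by_cases c : y = S.r3x
    · rw [c, h1.1 c]; exact mem_orbit_self _
    obtain ⟨z, z0, z1, rfl⟩ := r3_ex y
    obtain ⟨z', z0', z1', rfl⟩ := r3_ex y'
    rw [perp_x, perp_x] at h2
    obtain ⟨g, hg, e⟩ := h.orb z1' z1 (fun e => c (h1.2 (eq_x.2 e))) (fun e => c (eq_x.2 e)) h2.symm
    refine ⟨⟨g, ?_⟩, smul_pt g e⟩
    exact (smul_pt g (h0' := fun e => one_ne_zero (congrArg Prod.fst (g.1.map_eq_zero_iff.1 e)))
      (h1' := (map_Q g _).trans (by simp [ext_Q, S.Q_zero])) rfl).trans (eq_x.2 (((S.spec 1).mem g).1 hg 1))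

theorem Pol.pair (h : S.Pol j e) {x y x' y' : (S.ext 1).Pt} (h1 : y = x ↔ y' = x') (h2 : Perp x y ↔ Perp x' y') :
    ∃ g : (S.ext 1).Iso, g • x = x' ∧ g • y = y' := by
  have := S.pretrans_ext
  obtain ⟨a, rfl⟩ := exists_smul_eq (S.ext 1).Iso S.r3x x
  obtain ⟨b, rfl⟩ := exists_smul_eq (S.ext 1).Iso S.r3x x'
  obtain ⟨⟨g, hg⟩, e⟩ := (h.orb_iff (b⁻¹ • y') (a⁻¹ • y)).2 ⟨by rw [inv_smul_eq_iff, inv_smul_eq_iff, h1], by
    rw [← perp_smul b, ← perp_smul a (p := S.r3x), smul_inv_smul, smul_inv_smul, h2]⟩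
  have hg' : g • S.r3x = S.r3x := hg
  have e' : g • a⁻¹ • y = b⁻¹ • y' := e
  exact ⟨b * g * a⁻¹, by rw [mul_smul, mul_smul, inv_smul_smul, hg'], by
    rw [mul_smul, mul_smul, e', smul_inv_smul]⟩

theorem r3_card_orb {G X T : Type*} [Group G] [MulAction G X] (f : X → T) (hf : Function.Surjective f)
    (h : ∀ a b, orbitRel G X a b ↔ f a = f b) : Nat.card (orbitRel.Quotient G X) = Nat.card T :=
  Nat.card_congr ((Quotient.congrRight h).trans (Setoid.quotientKerEquivOfSurjective f hf))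

omit [Fintype F] [DecidableEq F] [Finite V] in
theorem not_perp_xy : ¬ Perp S.r3x S.r3y := fun h => one_ne_zero (perp_x.1 h)

theorem card_opp (S : FS F V) : Nat.card {w // ¬ Perp S.r3x w} = S.om := by
  obtain ⟨k, -⟩ := S.exists_K_one
  rw [← card_K_one, ← Nat.card_congr k]
  refine (Nat.card_congr (Equiv.ofBijective (fun p => ⟨(S.ext 1).r3pt (fun _ => p.1.2, 1, p.1.1)
    (fun e => one_ne_zero (congrArg (fun z => z.2.1) e)) (by simpa [ext_Q, dotProduct] using p.2),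
      fun h => one_ne_zero (perp_x.1 h)⟩) ⟨fun p q e => ?_, fun w => ?_⟩)).symm
  · obtain ⟨a, e⟩ := pt_eq.1 (Subtype.mk.inj e)
    have a1 : a = 1 := by simpa using congrFun (congrArg (fun z => z.2.1) e) 0
    rw [a1, one_smul] at e
    exact Subtype.ext (Prod.ext (congrArg (fun z => z.2.2) e) (congrFun (congrArg Prod.fst e) 0))
  · obtain ⟨w, hw⟩ := w
    obtain ⟨z, z0, z1, rfl⟩ := r3_ex w
    have y0 : z.2.1 0 ≠ 0 := fun e => hw (perp_x.2 (funext fun r => by rw [Subsingleton.elim r 0]; exact e))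
    refine ⟨⟨((z.2.1 0)⁻¹ • z.2.2, z.1 0 / z.2.1 0), ?_⟩, Subtype.ext ?_⟩
    · simp only [ext_Q, dotProduct, Fin.sum_univ_one] at z1
      rw [S.smul]
      field_simp
      linear_combination z1
    · simp only [pt_eq]
      refine ⟨z.2.1 0, ?_⟩
      refine Prod.ext (funext fun r => ?_) (Prod.ext (funext fun r => ?_) (by simp [smul_smul, y0]))
      · simp [Subsingleton.elim r 0, mul_div_cancel₀, y0]
      · simp [Subsingleton.elim r 0]

/-- The points of `S` inside `S.ext 1`. -/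
def r3in (p : S.Pt) : (S.ext 1).Pt := ⟨p.1.map (LinearMap.inr F _ _ ∘ₗ LinearMap.inr F _ _), by
  obtain ⟨v, h0, h1, h2⟩ := p.2
  exact ⟨(0, 0, v), fun e => h0 (congrArg (fun z => z.2.2) e), by simp [ext_Q, h1],
    by simp [h2, Submodule.map_span]⟩⟩

omit [Fintype F] [DecidableEq F] [Finite V] in
theorem r3in_pt {v : V} {h0 h1} : r3in (S.r3pt v h0 h1) =
    (S.ext 1).r3pt (0, 0, v) (fun e => h0 (congrArg (fun z => z.2.2) e)) (by simp [ext_Q, h1]) :=
  Subtype.ext (by simp [r3in, r3pt, Submodule.map_span])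

omit [Fintype F] [DecidableEq F] [Finite V] in
theorem card_both (S : FS F V) : Nat.card {w // Perp S.r3x w ∧ Perp w S.r3y} = Nat.card S.Pt := by
  have h : ∀ p : S.Pt, Perp S.r3x (r3in p) ∧ Perp (r3in p) S.r3y := fun p => by
    obtain ⟨v, h0, h1, rfl⟩ := r3_ex p
    rw [r3in_pt, perp_x, perp_y]
    exact ⟨rfl, rfl⟩
  refine (Nat.card_congr (Equiv.ofBijective (fun p : S.Pt => ⟨r3in p, h p⟩) ⟨fun p q e => ?_, fun w => ?_⟩)).symm
  · exact Subtype.ext (Submodule.map_injective_of_injective (f := LinearMap.inr F _ _ ∘ₗ LinearMap.inr F _ _)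
      (fun _ _ e => congrArg (fun z => z.2.2) e) (congrArg (fun w => w.1.1) e))
  · obtain ⟨w, h1, h2⟩ := w
    obtain ⟨⟨x, y, v⟩, z0, z1, rfl⟩ := r3_ex w
    obtain rfl : y = 0 := perp_x.1 h1
    obtain rfl : x = 0 := perp_y.1 h2
    exact ⟨S.r3pt v (fun e => z0 (by rw [e]; rfl)) (by simpa [ext_Q] using z1), Subtype.ext r3in_pt⟩

/-- In `T.ext 1` with `T` anisotropic all points other than `F ∙ (1, 0, 0)` have `y ≠ 0` and form one `K`-orbit
(`exists_K_one`): the action is 2-transitive on `1 + q ^ e` points. -/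
theorem Pol.rank_two (h : S.Pol 1 e) :
    ∃ χ, IsIrrCharacter S.Iso χ ∧ S.pi1 = (fun _ => 1) + χ ∧ χ 1 = Fintype.card F ^ e := by
  obtain ⟨W, _, _, _, T, hT, -, ⟨i⟩⟩ := Pol.split (j := 0) (k := 1) h
  have := T.pretrans_ext
  have an : ∀ v, T.Q v = 0 → v = 0 := fun v hv => by
    obtain ⟨_, _, _, _, S0, h1, -, ⟨i⟩⟩ := hT
    obtain ⟨i'⟩ := S0.ext_zero
    exact (i.trans i').e.map_eq_zero_iff.1 (h1 _ (((i.trans i').Q v).trans hv))
  have px : ∀ y, Perp T.r3x y ↔ y = T.r3x := fun y => by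
    refine ⟨fun h => ?_, fun e => e ▸ perp_self _⟩
    obtain ⟨z, z0, z1, rfl⟩ := r3_ex y
    have := perp_x.1 h
    exact eq_x.2 (Prod.ext this (an _ (by simpa [ext_Q, this] using z1)))
  have i2 := inner_pc_self (G := (T.ext 1).Iso) T.r3x
  rw [r3_card_orb (fun y => y = T.r3x) (fun p => by
      by_cases c : p
      · exact ⟨T.r3x, by simp [c]⟩
      · exact ⟨T.r3y, propext (iff_of_false (fun e => not_perp_xy ((px _).2 e)) c)⟩)
    fun a b => by rw [hT.orb_iff, px, px, and_self, eq_iff_iff], Nat.card_eq_fintype_card, Fintype.card_prop] at i2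
  have hπ := (T.ext 1).isCharacter_pi1
  have h1 : IsIrrCharacter (T.ext 1).Iso fun _ => 1 := isIrrCharacter_one
  have i1 : classInner (T.ext 1).pi1 _ = 1 := inner_pc_one_of_trans (G := (T.ext 1).Iso) T.r3x
  have hs := (hπ.sub_irr h1 (by rw [i1]; simp)).isIrrCharacter_of_inner_self (by
    rw [classInner_sub_right, classInner_sub_left, classInner_sub_left, i1, h1.inner_self,
      h1.isCharacter.inner_comm hπ, i1, show classInner (T.ext 1).pi1 (T.ext 1).pi1 = _ from i2]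
    norm_num)
  refine ⟨_, hs.comp_equiv i.congr, funext fun g => by simp [pi1_congr], ?_⟩
  have : IsEmpty T.Pt := ⟨fun p => let ⟨v, h0, h1, _⟩ := p.2; h0 (an v h1)⟩
  have hc := T.card_pt_ext
  rw [hT.om, Nat.card_of_isEmpty (α := T.Pt)] at hc
  simp only [map_one, Pi.sub_apply, pi1, pc, fixedBy_one_eq_univ, Nat.card_univ, hc]
  simp

/-- `S ≅ (T.ext 1).ext 1`, `T` of type `(j, e)`; three orbits of the point stabiliser (`Pol.orb`; `RK3.rank_three`; the
two constituents differ as the norm is `3`). `A x y = 1` iff `x ⊥ y` (including `x = y`). With `N' = |Pt (T.ext 1)|`,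
`N'' = |Pt T|`, `ω' = om T = q ^ (2 j + e)`: the number of points orthogonal to `x` and `y` is `1 + q N'` (`x = y`),
`q + 1 + q² N''` (`x ⊥ y`), `N'` (otherwise). So `A² = q ω' + β A + N' J` with `β = 1 + (q - 1) N' - q ω' = u + v` for
`u = q ^ (j + 1)`, `v = - q ^ (j + e)`; row sum `1 + q N'`, trace `N = 1 + q N' + q² ω'`. `rk_deg` and
`χ 1 + ψ 1 = N - 1`, `Pol.card_pt`. -/
theorem Pol.rank_three (h : S.Pol (j + 2) e) : ∃ (χ ψ : S.Iso → ℂ) (f g : ℕ), IsIrrCharacter S.Iso χ ∧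
    IsIrrCharacter S.Iso ψ ∧ S.pi1 = (fun _ => 1) + χ + ψ ∧ χ 1 = f ∧ ψ 1 = g ∧
    (f : ℤ) * ((Fintype.card F - 1) * (Fintype.card F ^ e + Fintype.card F)) =
      Fintype.card F ^ (e + 1) * (Fintype.card F ^ (j + 2) - 1) * (Fintype.card F ^ (j + e) + 1) ∧
    (g : ℤ) * ((Fintype.card F - 1) * (Fintype.card F ^ e + Fintype.card F)) =
      Fintype.card F ^ 2 * (Fintype.card F ^ (j + 1) - 1) * (Fintype.card F ^ (j + e + 1) + 1) := by
  classical
  obtain ⟨W, _, _, _, T, hT, -, ⟨i⟩⟩ := Pol.split (j := j + 1) (k := 1) h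
  have := T.pretrans_ext
  have q1 : (1 : ℤ) < Fintype.card F := by exact_mod_cast Fintype.one_lt_card
  have hN := hT.card_pt
  have N0 : Nat.card T.Pt ≠ 0 := fun c => by
    rw [c] at hN
    have h1 := one_lt_pow₀ q1 (Nat.succ_ne_zero j)
    have h2 : (0 : ℤ) < Fintype.card F ^ (j + 1 + e) := by positivity
    have := mul_pos (sub_pos.2 h1) (add_pos h2 (zero_lt_one.trans q1))
    simp [← hN] at this
  obtain ⟨p⟩ := (Nat.card_ne_zero.1 N0).1
  obtain ⟨a, a0, a1, -⟩ := r3_ex p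
  obtain ⟨y1, y1a, y1b⟩ : ∃ y, y ≠ T.r3x ∧ Perp T.r3x y :=
    ⟨r3in (T.r3pt a a0 a1), by rw [r3in_pt]; exact fun c => a0 (congrArg Prod.snd (eq_x.1 c)),
      by rw [r3in_pt]; exact perp_x.2 rfl⟩
  have y2a : T.r3y ≠ T.r3x := fun c => not_perp_xy (S := T) (by rw [c]; exact perp_self _)
  have o3 : Nat.card (orbitRel.Quotient (stabilizer (T.ext 1).Iso T.r3x) (T.ext 1).Pt) = 3 := by
    rw [r3_card_orb (fun y => if y = T.r3x then (0 : Fin 3) else if Perp T.r3x y then 1 else 2) (fun t => by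
      fin_cases t
      · exact ⟨T.r3x, by simp⟩
      · exact ⟨y1, by simp [y1a, y1b]⟩
      · exact ⟨T.r3y, by simp [y2a, not_perp_xy]⟩) fun a b => by
        rw [hT.orb_iff]
        have := perp_self T.r3x
        by_cases c1 : a = T.r3x <;> by_cases c2 : b = T.r3x <;> by_cases c3 : Perp T.r3x a <;>
          by_cases c4 : Perp T.r3x b <;> simp_all]
    simp
  obtain ⟨χ, ψ, hχ, hψ, n1, n2, hπ⟩ := RK3.rank_three T.r3x o3
  have h₀ : IsIrrCharacter (T.ext 1).Iso fun _ => 1 := isIrrCharacter_one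
  have n3 : χ ≠ ψ := by
    rintro rfl
    have := inner_pc_self (G := (T.ext 1).Iso) T.r3x
    simp only [o3, hπ, classInner_add_left, classInner_add_right, h₀.inner_self, hχ.inner_self,
      h₀.inner_eq_zero_of_ne hχ n1.symm, hχ.inner_eq_zero_of_ne h₀ n1] at this
    norm_num at this
  let A : Matrix (T.ext 1).Pt (T.ext 1).Pt ℂ := of fun x y => if Perp x y then 1 else 0
  have hA : Eqv (T.ext 1).Iso A := fun g x y => by simp only [A, of_apply, perp_smul]
  have hc := T.card_pt_ext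
  have ho := T.card_opp
  rw [hT.om] at hc ho
  have hb : (A * A) T.r3x T.r3y = Nat.card T.Pt := by
    rw [← T.card_both, Nat.card_eq_fintype_card, Fintype.card_subtype]
    simp only [mul_apply, A, of_apply, ite_zero_mul_ite_zero, mul_one, Finset.sum_boole]
  have hk : Nat.card {w // Perp T.r3x w} = 1 + Fintype.card F * Nat.card T.Pt := by
    have := Nat.card_congr (Equiv.sumCompl (Perp T.r3x))
    rw [Nat.card_sum, ho, hc] at this
    omega
  have hr : ∀ x, ∑ y, A x y = 1 + Fintype.card F * Nat.card T.Pt := fun x => by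
    obtain ⟨g, rfl⟩ := exists_smul_eq (T.ext 1).Iso T.r3x x
    rw [← Equiv.sum_comp (toPerm g)]
    simp only [toPerm_apply, hA g]
    rw [Nat.card_eq_fintype_card, Fintype.card_subtype] at hk
    simp only [A, of_apply, Finset.sum_boole, hk]
    push_cast; rfl
  have ha : (A * A) T.r3x T.r3x = 1 + Fintype.card F * Nat.card T.Pt := by
    rw [← hr T.r3x, mul_apply]
    refine Finset.sum_congr rfl fun w _ => ?_
    by_cases c : Perp T.r3x w
    · simp [A, c, c.symm]
    · simp [A, c]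
  have hn : (Fintype.card (T.ext 1).Pt : ℂ) =
      1 + Fintype.card F * Nat.card T.Pt + Fintype.card F ^ (2 * (j + 1) + e) := by
    rw [← Nat.card_eq_fintype_card, hc]; push_cast; rfl
  have hN' : (Nat.card T.Pt : ℂ) * (Fintype.card F - 1) * Fintype.card F =
    (Fintype.card F ^ (j + 1) - 1) * (Fintype.card F ^ (j + 1 + e) + Fintype.card F) := by exact_mod_cast hN
  have N0' : (Nat.card T.Pt : ℂ) ≠ 0 := Nat.cast_ne_zero.2 N0
  have q0 : (Fintype.card F : ℂ) ≠ 0 := Nat.cast_ne_zero.2 Fintype.card_ne_zero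
  generalize (Nat.card T.Pt : ℂ) = N at *
  obtain ⟨b, hb1⟩ : ∃ b, (A * A) T.r3x y1 = b := ⟨_, rfl⟩
  have hs : A * A = (b - N) • A + (1 + Fintype.card F * N - b) • (1 : Matrix _ _ ℂ) +
      N • Matrix.of fun _ _ => 1 := by
    ext x y
    simp only [Matrix.add_apply, Matrix.smul_apply, smul_eq_mul, of_apply]
    by_cases c : y = x
    · obtain ⟨g, rfl⟩ := exists_smul_eq (T.ext 1).Iso T.r3x x
      rw [c, hA.mul hA g, hA g, ha, one_apply_eq]
      simp only [A, of_apply, perp_self, if_true]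
      ring
    by_cases c' : Perp x y
    · obtain ⟨g, e1, e2⟩ := hT.pair (x := T.r3x) (y := y1) (x' := x) (y' := y) (by simp [c, y1a])
        (by simp [c', y1b])
      rw [← e1, ← e2, hA.mul hA g, hA g, e1, e2, hb1, one_apply_ne' c]
      simp only [A, of_apply, y1b, if_true]
      ring
    · obtain ⟨g, e1, e2⟩ := hT.pair (x := T.r3x) (y := T.r3y) (x' := x) (y' := y) (by simp [c, y2a])
        (by simp [c', not_perp_xy])
      rw [← e1, ← e2, hA.mul hA g, hA g, e1, e2, hb, one_apply_ne' c]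
      simp only [A, of_apply, not_perp_xy, if_false]
      ring
  have hs1 : ∑ y, (A * A) T.r3x y = (1 + Fintype.card F * N) * (1 + Fintype.card F * N) := by
    simp only [mul_apply]
    rw [Finset.sum_comm]
    simp only [← Finset.mul_sum, hr, ← Finset.sum_mul]
  rw [hs] at hs1
  simp only [Matrix.add_apply, Matrix.smul_apply, smul_eq_mul, of_apply, Finset.sum_add_distrib, ← Finset.mul_sum,
    hr, one_apply, Finset.sum_ite_eq, Finset.mem_univ, if_true, Finset.sum_const, Finset.card_univ,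
    nsmul_eq_mul, hn] at hs1
  have hb2 : b = 1 + Fintype.card F * N - Fintype.card F ^ (2 * j + e + 1) :=
    mul_left_cancel₀ (mul_ne_zero q0 N0') (by linear_combination hs1)
  have hN2 : N * (Fintype.card F - 1) = (Fintype.card F ^ (j + 1) - 1) * (Fintype.card F ^ (j + e) + 1) :=
    mul_left_cancel₀ q0 (by linear_combination hN')
  have tr : A.trace = 1 + Fintype.card F * N + Fintype.card F ^ (2 * (j + 1) + e) := by
    simp [trace, A, perp_self, hn]
  have d1 := congrFun hπ 1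
  simp only [pc, fixedBy_one_eq_univ, Nat.card_univ, Pi.add_apply] at d1
  rw [Nat.card_eq_fintype_card, hn] at d1
  have key : ∀ χ ψ : (T.ext 1).Iso → ℂ, IsIrrCharacter _ χ → IsIrrCharacter _ ψ →
      (T.ext 1).pi1 = (fun _ => 1) + χ + ψ →
      1 + Fintype.card F * N + Fintype.card F ^ (2 * (j + 1) + e) = 1 + χ 1 + ψ 1 →
      1 + Fintype.card F * N + Fintype.card F ^ (j + 1) * χ 1 + (-Fintype.card F ^ (j + e)) * ψ 1 = A.trace →
      ∃ (χ ψ : S.Iso → ℂ) (f g : ℕ), IsIrrCharacter S.Iso χ ∧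
    IsIrrCharacter S.Iso ψ ∧ S.pi1 = (fun _ => 1) + χ + ψ ∧ χ 1 = f ∧ ψ 1 = g ∧
    (f : ℤ) * ((Fintype.card F - 1) * (Fintype.card F ^ e + Fintype.card F)) =
      Fintype.card F ^ (e + 1) * (Fintype.card F ^ (j + 2) - 1) * (Fintype.card F ^ (j + e) + 1) ∧
    (g : ℤ) * ((Fintype.card F - 1) * (Fintype.card F ^ e + Fintype.card F)) =
      Fintype.card F ^ 2 * (Fintype.card F ^ (j + 1) - 1) * (Fintype.card F ^ (j + e + 1) + 1) :=
    fun χ ψ hχ hψ hπ d1 d2 => by
      rw [tr, hχ.apply_one_eq, hψ.apply_one_eq] at d2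
      rw [hχ.apply_one_eq, hψ.apply_one_eq] at d1
      refine ⟨_, _, charDegree χ, charDegree ψ, hχ.comp_equiv i.congr, hψ.comp_equiv i.congr,
        funext fun g => by rw [← pi1_congr i, hπ]; rfl, by rw [map_one, hχ.apply_one_eq],
        by rw [map_one, hψ.apply_one_eq], ?_, ?_⟩
      · refine Int.cast_injective (α := ℂ) (mul_left_cancel₀ (pow_ne_zero j q0) ?_)
        push_cast
        linear_combination (Fintype.card F - 1 : ℂ) * d2 - (Fintype.card F - 1 : ℂ) * Fintype.card F ^ (j + e) * d1 +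
          Fintype.card F ^ (j + e + 1) * hN2
      · refine Int.cast_injective (α := ℂ) (mul_left_cancel₀ (pow_ne_zero j q0) ?_)
        push_cast
        linear_combination -(Fintype.card F - 1 : ℂ) * d2 - (Fintype.card F - 1 : ℂ) * Fintype.card F ^ (j + 1) * d1 +
          Fintype.card F ^ (j + 2) * hN2
  rcases rk_deg hχ hψ n1 n2 n3 hπ A hA (u := Fintype.card F ^ (j + 1)) (v := -Fintype.card F ^ (j + e)) (c := N)
    (by rw [hs, hb2, sub_eq_add_neg _ (_ • _), ← neg_smul]; congr 3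
        · linear_combination hN2
        · ring) hr
    ⟨_, _, _, _, y1a.symm, y2a.symm, by simp [A, y1b, not_perp_xy]⟩ with d2 | d2
  · exact key χ ψ hχ hψ hπ d1 d2
  · exact key ψ χ hψ hχ (hπ.trans (add_right_comm _ _ _)) (by rw [d1]; ring) (by rw [← d2]; ring)

end FS

end Cfsg.Lib.HCI
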