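import Cfsg.Agent.Lib.HCI.Mid
import Cfsg.Agent.Lib.HCI.Hk
import Cfsg.Agent.Lib.HCI.Pol

/-! S4984: `q = 2`, `k = 2`, induction of the sign character of `GL₂(2)` (norm two).

`J = !![0, 1; 1, 0]`, `D = (S.dat 2).tw (J, 1)`, so `D.w (x, y, v) = (J y, J x, v)` (`ε = 1`), `D.w` is an involution which
centralises the Levi factor (`J A⁻ᵀ J = A` as `det A = 1`): `D.α l = l`, `D.l0 = 1`. -/

set_option autoImplicit false

namespace Cfsg.Lib.HCI.FS

open Module Matrix Cfsg.Lib.Char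

variable {F V : Type} [Field F] [Fintype F] [DecidableEq F] [AddCommGroup V] [Module F V] [Finite V]
  {S : FS F V}

/-- The swap. -/
def jj (F : Type) [Field F] : GL (Fin 2) F := ⟨!![0, 1; 1, 0], !![0, 1; 1, 0], by simp [one_fin_two], by simp [one_fin_two]⟩

omit [DecidableEq F] in
theorem t5_two (hq : Fintype.card F = 2) : (2 : F) = 0 := by
  have := FiniteField.cast_card_eq_zero F
  rwa [hq, Nat.cast_ofNat] at this

omit [DecidableEq F] in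
theorem t5_one (hq : Fintype.card F = 2) {a : F} (h : a ≠ 0) : a = 1 := by
  have := FiniteField.pow_card_sub_one_eq_one a h
  rwa [hq, pow_one] at this

omit [DecidableEq F] [Finite V] in
theorem t5_ε (hq : Fintype.card F = 2) : S.ε = 1 := t5_one hq (left_ne_zero_of_mul_eq_one S.ε_sq)

omit [Fintype F] [DecidableEq F] in
theorem t5_jt : ((jj F)⁻¹).1ᵀ = (jj F).1 := by
  ext i j
  fin_cases i <;> fin_cases j <;> rfl

omit [Fintype F] [DecidableEq F] in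
theorem t5_j (x : Fin 2 → F) : (jj F).1 *ᵥ x = ![x 1, x 0] := by
  ext i
  fin_cases i <;> simp [jj, mulVec, dotProduct]

omit [Fintype F] [DecidableEq F] in
theorem t5_jj (x : Fin 2 → F) : (jj F).1 *ᵥ ((jj F).1 *ᵥ x) = x := by
  rw [t5_j, t5_j]
  ext i
  fin_cases i <;> rfl

omit [DecidableEq F] in
theorem t5_alt (hq : Fintype.card F = 2) (x : Fin 2 → F) : x ⬝ᵥ (jj F).1 *ᵥ x = 0 := by
  rw [t5_j]
  simp [dotProduct]
  linear_combination x 0 * x 1 * t5_two hq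

theorem t5_sl (hq : Fintype.card F = 2) (A : GL (Fin 2) F) :
    A.1 * (jj F).1 = (jj F).1 * (A⁻¹).1ᵀ ∧ (jj F).1 * A.1 = (A⁻¹).1ᵀ * (jj F).1 := by
  have h := t5_one hq A.det_ne_zero
  have h2 := t5_two hq
  rw [det_fin_two] at h
  have e1 : A.1 * (jj F).1 * A.1ᵀ = (jj F).1 := by
    ext i j
    fin_cases i <;> fin_cases j <;> simp [jj, mul_apply]
    exacts [by linear_combination A.1 0 0 * A.1 0 1 * h2, by linear_combination h + A.1 0 1 * A.1 1 0 * h2,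
      by linear_combination h + A.1 0 1 * A.1 1 0 * h2, by linear_combination A.1 1 0 * A.1 1 1 * h2]
  have e2 : A.1ᵀ * ((jj F).1 * A.1) = (jj F).1 := by
    ext i j
    fin_cases i <;> fin_cases j <;> simp [jj, mul_apply, vecMul, dotProduct]
    exacts [by linear_combination A.1 0 0 * A.1 1 0 * h2, by linear_combination h + A.1 0 1 * A.1 1 0 * h2,
      by linear_combination h + A.1 0 1 * A.1 1 0 * h2, by linear_combination A.1 0 1 * A.1 1 1 * h2]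
  constructor
  · conv_rhs => rw [← e1, Matrix.mul_assoc, ← transpose_mul, Units.inv_mul, transpose_one, Matrix.mul_one]
  · conv_rhs => rw [← e2, ← Matrix.mul_assoc, ← transpose_mul, Units.mul_inv, transpose_one, Matrix.one_mul]

theorem tw_w (hq : Fintype.card F = 2) (z : (Fin 2 → F) × (Fin 2 → F) × V) :
    ((S.dat 2).tw (jj F, 1)).w.1 z = ((jj F).1 *ᵥ z.2.1, (jj F).1 *ᵥ z.1, z.2.2) := by
  change (S.dat 2).w.1 (((S.dat 2).lam (jj F, 1)).1 z) = _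
  rw [(S.spec 2).lam, (S.spec 2).w, t5_ε hq, one_smul, t5_jt]
  rfl

/-- Compare `lam (α l) = w⁻¹ * lam l * w` pointwise, `lam_inj`. -/
theorem tw_α (hq : Fintype.card F = 2) (l : GL (Fin 2) F × S.Iso) : ((S.dat 2).tw (jj F, 1)).α l = l := by
  refine (S.dat 2).lam_inj (Eq.trans (((S.dat 2).tw (jj F, 1)).cj l).symm ?_)
  rw [mul_assoc, inv_mul_eq_iff_eq_mul]
  refine iso_ext fun z => ?_
  change ((S.dat 2).lam l).1 (((S.dat 2).tw (jj F, 1)).w.1 z) = ((S.dat 2).tw (jj F, 1)).w.1 (((S.dat 2).lam l).1 z)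
  rw [tw_w hq, tw_w hq, (S.spec 2).lam, (S.spec 2).lam]
  simp only [mulVec_mulVec, (t5_sl hq l.1).1, (t5_sl hq l.1).2]

theorem t5_ww (hq : Fintype.card F = 2) : ((S.dat 2).tw (jj F, 1)).w * ((S.dat 2).tw (jj F, 1)).w = 1 :=
  iso_ext fun z => by rw [mul_ap, tw_w hq, tw_w hq, t5_jj, t5_jj]; rfl

theorem tw_l0 (hq : Fintype.card F = 2) : ((S.dat 2).tw (jj F, 1)).l0 = 1 := by
  exact (S.dat 2).lam_inj (Eq.trans (((S.dat 2).tw (jj F, 1)).sq.symm.trans (t5_ww hq)) (map_one _).symm)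

theorem t5_conj (hq : Fintype.card F = 2) {c : (S.ext 2).Iso} (h : IsConj ((S.dat 2).tw (jj F, 1)).w c) :
    c * c = 1 ∧ (∀ z, (S.ext 2).B z (c.1 z) = 0) ∧
      ∃ φ : (Fin 2 → F) → (Fin 2 → F) × (Fin 2 → F) × V, ∀ z, ∃ t, c.1 z - z = φ t := by
  obtain ⟨g, rfl⟩ := isConj_iff.1 h
  refine ⟨?_, fun z => ?_, fun t => g.1 (t, -((jj F).1 *ᵥ t), 0), fun z => ?_⟩
  · rw [← MulAut.conj_apply, ← map_mul, t5_ww hq, map_one]
  · rw [mul_ap, mul_ap, ← map_B g⁻¹, inv_ap, tw_w hq, ext_B]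
    generalize g⁻¹.1 z = u
    have h1 := t5_alt hq u.1
    have h2 := t5_alt hq u.2.1
    simp only [h1, h2, S.self, t5_two hq, zero_mul, mul_zero, add_zero]
  · refine ⟨(jj F).1 *ᵥ (g⁻¹.1 z).2.1 - (g⁻¹.1 z).1, ?_⟩
    conv_lhs => rhs; rw [← ap_inv g z]
    beta_reduce
    rw [mul_ap, mul_ap, ← map_sub, tw_w hq, mulVec_sub, t5_jj, neg_sub]
    exact congrArg g.1 (Prod.ext rfl (Prod.ext rfl (sub_self _)))

theorem t5_eq (hq : Fintype.card F = 2) {c : (S.ext 2).Iso} (h : IsConj ((S.dat 2).tw (jj F, 1)).w c)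
    (p : (S.dat 2).P) (e : c = ((S.dat 2).tw (jj F, 1)).w * p) : c = ((S.dat 2).tw (jj F, 1)).w := by
  obtain ⟨h1, h2, φ, h3⟩ := t5_conj hq h
  obtain ⟨M, hM⟩ : ∃ M : GL (Fin 2) F, ∀ x, c.1 (x, 0, 0) = (0, M.1 *ᵥ x, 0) :=
    ⟨jj F * ((S.dat 2).π p).1, fun x => by
      rw [e, mul_ap, (S.spec 2).pi1, tw_w hq, mulVec_zero, mulVec_mulVec]; rfl⟩
  have h4 : ∀ x, x ⬝ᵥ M.1 *ᵥ x = 0 := fun x => by simpa [hM, ext_B] using h2 (x, 0, 0)
  have a0 : M.1 0 0 = 0 := by simpa using h4 (Pi.single 0 1)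
  have a1 : M.1 1 1 = 0 := by simpa using h4 (Pi.single 1 1)
  have a2 := M.det_ne_zero
  rw [det_fin_two, a0, zero_mul, zero_sub, neg_ne_zero] at a2
  obtain rfl : M = jj F := Units.ext (by
    rw [eta_fin_two M.1, a0, a1, t5_one hq (left_ne_zero_of_mul a2), t5_one hq (right_ne_zero_of_mul a2)]; rfl)
  have h5 : ∀ y, c.1 (0, y, 0) = ((jj F).1 *ᵥ y, 0, 0) := fun y => by
    rw [← t5_jj y, ← hM, ← mul_ap, h1, t5_jj, one_ap]
  choose t ht using fun x : Fin 2 → F => h3 (x, 0, 0)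
  have h6 : Function.Surjective t := Finite.injective_iff_surjective.1 fun x y e' => by
    have := (ht x).trans ((congrArg φ e').trans (ht y).symm)
    rw [hM, hM] at this
    simpa using congrArg Prod.fst this
  have h7 : ∀ v, c.1 (0, 0, v) = (0, 0, v) := fun v => by
    obtain ⟨s, hs⟩ := h3 (0, 0, v)
    obtain ⟨x, rfl⟩ := h6 s
    rw [← ht, hM] at hs
    have b : (c.1 (0, 0, v)).1 = 0 := dotProduct_eq_zero _ fun u => by
      have := map_B c (0, 0, v) ((jj F).1 *ᵥ u, 0, 0)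
      rw [hM, t5_jj] at this
      simpa [ext_B] using this
    obtain rfl : x = 0 := by simpa [b] using congrArg Prod.fst hs
    rw [mulVec_zero] at hs
    exact sub_eq_zero.1 (hs.trans (sub_self _))
  refine iso_ext fun z => ?_
  rw [par_split, hM, h5, h7, tw_w hq]
  simp

/-- A conjugate `c` of `w` satisfies `c² = 1`, `B z (c z) = 0` and `range (c - 1)` has `4` elements. If `c` is big then
`c W₀ = κ W'` (`K_form`, `big_iff`), `c' = κ⁻¹ c κ` swaps `W₀` and `W'`: `c' (x, 0, 0) = (0, M x, 0)` with `M` invertible and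
`x ⬝ᵥ M x = 0`, so `M = J`; `range (c' - 1) = {(x, J x, 0)}` and `c'` preserves `V = (W₀ + W')^⊥`, so it is trivial there. -/
theorem big_conj (hq : Fintype.card F = 2) {c : (S.ext 2).Iso} (h : IsConj ((S.dat 2).tw (jj F, 1)).w c)
    (hb : (S.dat 2).Big c) : ∃! κ : (S.dat 2).K, c = κ * ((S.dat 2).tw (jj F, 1)).w * κ⁻¹ := by
  obtain ⟨k, hk, k', hk', l, e⟩ := (((S.dat 2).tw_big (jj F, 1)).2 hb).dec
  have hp : (S.dat 2).lam l * k' * k ∈ (S.dat 2).P :=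
    mul_mem (mul_mem ((S.dat 2).mem l) (Dat.K_le _ hk')) (Dat.K_le _ hk)
  have e1 := t5_eq hq ((h.trans (isConj_iff.2 ⟨k⁻¹, rfl⟩ : IsConj c _))) ⟨_, hp⟩ (by
    rw [e]; simp only [mul_assoc, inv_inv, inv_mul_cancel_left]; rfl)
  refine ⟨⟨k, hk⟩, by rw [← e1]; simp [mul_assoc], fun κ e2 => ?_⟩
  have e3 : (((S.dat 2).tw (jj F, 1)).w)⁻¹ * (k⁻¹ * κ) * ((S.dat 2).tw (jj F, 1)).w = k⁻¹ * κ := by
    rw [mul_assoc, inv_mul_eq_iff_eq_mul, mul_assoc, mul_inv_eq_iff_eq_mul.1 e2.symm]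
    conv_rhs => rw [← e1]
    group
  have h1 : k⁻¹ * κ ∈ ((S.dat 2).tw (jj F, 1)).K := mul_mem (inv_mem hk) κ.2
  obtain ⟨l', hl⟩ := ((S.dat 2).tw (jj F, 1)).int _ (Dat.K_le _ h1) (e3.symm ▸ Dat.K_le _ h1)
  obtain ⟨h2, h3⟩ := (Dat.mem_K _).1 h1
  have h4 : l' = 1 := by rw [← Dat.sec ((S.dat 2).tw (jj F, 1)) l', ← h3]; exact congrArg _ (Subtype.ext hl.symm)
  rw [h4, map_one, inv_mul_eq_one] at hl
  exact Subtype.ext hl.symm

theorem t5_ex {ρ : GL (Fin 2) F → ℂ} (h1 : ρ 1 = 1) (τ : S.Iso → ℂ) {x : Fin 2 → F} {v : V} (h : S.κ + S.Q v = 0) :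
    (S.dat 2).ex (tn ρ τ) ((S.ext 2).tv (x, 0, v) 1) = τ (S.tv v 1) := by
  have h2 : (S.ext 2).κ + 1 * (S.ext 2).Q (x, 0, v) = 0 := by simpa [ext_κ, ext_Q] using h
  obtain ⟨a, b⟩ := pi_eq (g := (S.ext 2).tv (x, 0, v) 1) (l := (1, S.tv v 1))
    (fun x' => by rw [tv_ap _ h2]; simp [ext_B]) fun v' => by
      rw [tv_ap _ h2, tv_ap _ (by rwa [one_mul])]; simp [ext_B]
  rw [Dat.ex_of_mem _ _ a, b, tn, h1, one_mul]

/-- A transvection or reflection `tv u 1` is not big (it fixes a non-zero vector of `W₀`); it lies in `P` iff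
`u = (x, 0, v)`, and then `π (tv u 1) = (1, tv v 1)` (`tv 0 1 = 1` if `κ = 0`). -/
theorem sum_ex_tv (hq : Fintype.card F = 2) [Fintype V] [DecidableEq V] {ρ : GL (Fin 2) F → ℂ} (h1 : ρ 1 = 1) (τ : S.Iso → ℂ) :
    ∑ u : {u // (S.ext 2).κ + (S.ext 2).Q u = 0 ∧ u ≠ 0}, (S.dat 2).ex (tn ρ τ) ((S.ext 2).tv u 1) =
      4 * ∑ v : {v // S.κ + S.Q v = 0 ∧ v ≠ 0}, τ (S.tv v 1) + if S.κ = 0 then 3 * τ 1 else 0 := by
  have e : ∀ {α : Type} [Fintype α] (p : α → Prop) [DecidablePred p] [Fintype (Subtype p)] (f : α → ℂ),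
      ∑ u : Subtype p, f u = ∑ u, if p u then f u else 0 := fun p _ _ f => by
    rw [← Finset.sum_filter, Finset.sum_subtype (p := p) _ (by simp)]
  have t0 : S.tv (0 : V) 1 = 1 := by
    by_cases h : S.κ + 1 * S.Q (0 : V) = 0
    · exact iso_ext fun x => by rw [tv_ap _ h, smul_zero, add_zero, one_ap]
    · simp only [tv, h, dite_false]
  have e2 : ∀ x : Fin 2 → F, (∑ y, ∑ v, if (S.ext 2).κ + (S.ext 2).Q (x, y, v) = 0 ∧ (x, y, v) ≠ 0 then
      (S.dat 2).ex (tn ρ τ) ((S.ext 2).tv (x, y, v) 1) else 0) =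
      (∑ v, if S.κ + S.Q v = 0 ∧ v ≠ 0 then τ (S.tv v 1) else 0) +
        if x = 0 then 0 else if S.κ = 0 then τ 1 else 0 := fun x => by
    rw [Finset.sum_eq_single 0 (fun y _ hy => Finset.sum_eq_zero fun v _ => ?_) (by simp),
      ← Finset.add_sum_erase _ _ (Finset.mem_univ 0), ← Finset.add_sum_erase _ _ (Finset.mem_univ 0), add_right_comm]
    · congr 1
      · by_cases hx : x = 0
        · simp [hx, show ((0 : Fin 2 → F), (0 : Fin 2 → F), (0 : V)) = 0 from rfl]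
        · by_cases hκ : S.κ = 0
          · rw [if_pos ⟨by simp [ext_κ, ext_Q, hκ, S.Q_zero], by simp [hx]⟩, t5_ex h1 τ (by simp [hκ, S.Q_zero]), t0]
            simp [hx, hκ]
          · simp [hx, hκ, ext_κ, ext_Q, S.Q_zero]
      · refine Finset.sum_congr rfl fun v hv => ?_
        have hv := Finset.ne_of_mem_erase hv
        by_cases h : S.κ + S.Q v = 0
        · rw [if_pos ⟨by simpa [ext_κ, ext_Q] using h, by simp [hv]⟩, if_pos ⟨h, hv⟩, t5_ex h1 τ h]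
        · rw [if_neg fun c => h (by simpa [ext_κ, ext_Q] using c.1), if_neg fun c => h c.1]
    · split_ifs with h
      · refine Dat.ex_of_notMem _ _ fun c => hy (funext fun i => ?_)
        have := congrFun (congrArg Prod.fst (((S.spec 2).mem _).1 c (Pi.single i 1))) i
        rw [tv_ap _ (by rw [one_mul]; exact h.1)] at this
        simpa [ext_B] using this
      · rfl
  rw [e (fun u => (S.ext 2).κ + (S.ext 2).Q u = 0 ∧ u ≠ 0) fun u => (S.dat 2).ex (tn ρ τ) ((S.ext 2).tv u 1),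
    e (fun v => S.κ + S.Q v = 0 ∧ v ≠ 0) fun v => τ (S.tv v 1), Fintype.sum_prod_type]
  simp only [Fintype.sum_prod_type, e2, Finset.sum_add_distrib, Finset.sum_const, Finset.card_univ,
    Fintype.card_fun, hq, Fintype.card_fin, nsmul_eq_mul]
  rw [← Finset.add_sum_erase _ _ (Finset.mem_univ (0 : Fin 2 → F)), if_pos rfl, zero_add,
    Finset.sum_congr rfl fun x hx => if_neg (Finset.ne_of_mem_erase hx), Finset.sum_const,
    Finset.card_erase_of_mem (Finset.mem_univ _), Finset.card_univ, Fintype.card_fun, hq, Fintype.card_fin]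
  split_ifs <;> norm_num

theorem t5_tv {u : (Fin 2 → F) × (Fin 2 → F) × V} (h : (S.ext 2).κ + (S.ext 2).Q u = 0) :
    ¬ (S.dat 2).Big ((S.ext 2).tv u 1) := fun hb => by
  have h1 : ∀ x, x ⬝ᵥ u.2.1 = 0 → x = 0 := fun x hx => big_iff.1 hb x (by
    rw [tv_ap _ (by rwa [one_mul])]; simp [ext_B, hx])
  have h2 := h1 ![u.2.1 1, -u.2.1 0] (by simp [dotProduct]; ring)
  have h3 : u.2.1 0 = 0 := by simpa using congrFun h2 1
  simpa using congrFun (h1 (Pi.single 0 1) (by simpa using h3)) 0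

/-- `Dat.two` for `D`; `Hyp` for the conjugacy class of `D.w` (`b = 1` on the big elements, `∑ b = |K|` by `big_conj`):
`Hyp.m1`, `m2`, `int`, `ratio_two` with `|K| = 2 ^ (2 (2 j + e) + 1)`; `Hyp` for the family `tv u 1` (`b = 0`, `tv_conj`):
`Hyp.th_eq_zero`, `sum_ex_tv`. -/
theorem t5 (hq : Fintype.card F = 2) [Fintype V] [DecidableEq V] {j e : ℕ} (hS : S.Pol j e) {ρ : GL (Fin 2) F → ℂ} (hρ : CI ρ)
    {τ : S.Iso → ℂ} (hτ : IsIrrCharacter _ τ) (hF : S.Fr ρ τ) {t : ℕ} (ht : τ 1 = t) :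
    ∃ (χ : (S.ext 2).Iso → ℂ) (f a : ℕ), IsIrrCharacter _ χ ∧ χ 1 = (2 ^ (2 * a + 1) * f : ℕ) ∧
      ((1 + 2 ^ (2 * a + 1)) * f * 3 : ℤ) = win 2 j 2 e * t ∧
      (∑ u : {u // (S.ext 2).κ + (S.ext 2).Q u = 0 ∧ u ≠ 0}, χ ((S.ext 2).tv u 1)) * t =
        χ 1 * (4 * ∑ v : {v // S.κ + S.Q v = 0 ∧ v ≠ 0}, τ (S.tv v 1) + if S.κ = 0 then 3 * τ 1 else 0) := by
  classical
  set D := (S.dat 2).tw (jj F, 1) with hD
  have hi : IsIrrCharacter _ (tn ρ τ) := hρ.irr.prod hτ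
  have c := hρ.irr.isCharacter
  have d := hτ.isCharacter
  have hm : D.Mid (tn ρ τ) (tn ρ τ) := (S.dat 2).tw_mid _ (mid c hρ.cu c d d hF)
  have r1 : ρ 1 = 1 := by rw [hρ.deg, hq]; simp [gam]
  have τ1 : tn ρ τ 1 = t := by rw [← ht, ← one_mul (τ 1), ← r1]; rfl
  obtain ⟨χ, ψ, i1, i2, ne, eq⟩ := D.two hi hm fun l => by rw [tw_α hq]
  have hz : ∀ l, tn ρ τ (l⁻¹ * D.α l) = tn ρ τ 1 := fun l => by rw [tw_α hq, inv_mul_cancel]
  have H1 : Hyp D (tn ρ τ) χ ψ (fun x : {x // IsConj D.w x} => x.1) fun x => if D.Big x.1 then 1 else 0 :=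
    ⟨hi, hm, hz, i1, i2, ne, eq, fun g => ⟨(MulAut.conj g).toEquiv.subtypeEquiv fun x =>
      ⟨fun h => h.trans (isConj_iff.2 ⟨g, rfl⟩), fun h => h.trans (isConj_iff.2 ⟨g, rfl⟩ : IsConj x _).symm⟩,
      fun _ => rfl⟩, fun x => by
      by_cases hb : D.Big x.1
      · obtain ⟨κ, e, -⟩ := big_conj hq x.2 (((S.dat 2).tw_big _).1 hb)
        exact .inr ⟨κ, κ.2, _, inv_mem κ.2, 1, by rw [map_one, mul_one]; exact e, fun y => by simp [hb]⟩
      · exact .inl ⟨hb, if_neg hb⟩⟩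
  have H2 : Hyp D (tn ρ τ) χ ψ (fun u : {u // (S.ext 2).κ + (S.ext 2).Q u = 0 ∧ u ≠ 0} => (S.ext 2).tv u 1)
      fun _ => 0 :=
    ⟨hi, hm, hz, i1, i2, ne, eq, fun g => ⟨g.1.toEquiv.subtypeEquiv fun u => by simp [map_Q],
      fun u => tv_conj _ g u 1⟩, fun u => .inl ⟨fun hb => t5_tv u.2.1 (((S.dat 2).tw_big _).1 hb), rfl⟩⟩
  have hs : ∑ x : {x // IsConj D.w x}, (if D.Big x.1 then (1 : ℂ) else 0) = Nat.card D.K := by
    rw [Finset.sum_boole, ← Fintype.card_subtype, ← Nat.card_eq_fintype_card]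
    refine congrArg _ (Nat.card_eq_of_bijective (fun κ : D.K => (⟨⟨κ * D.w * κ⁻¹, isConj_iff.2 ⟨κ, rfl⟩⟩,
      _, D.K_le κ.2, _, D.K_le κ⁻¹.2, rfl⟩ : {x : {x // IsConj D.w x} // D.Big x.1})) ⟨fun a b e => ?_, fun x => ?_⟩).symm
    · exact (big_conj hq (isConj_iff.2 ⟨a, rfl⟩) (((S.dat 2).tw_big _).1 ⟨_, D.K_le a.2, _, D.K_le a⁻¹.2, rfl⟩)).unique
        rfl (congrArg (fun x => x.1.1) e)
    · obtain ⟨κ, e, -⟩ := big_conj hq x.1.2 (((S.dat 2).tw_big _).1 x.2)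
      exact ⟨κ, Subtype.ext (Subtype.ext e.symm)⟩
  obtain ⟨⟨x, hx⟩, y, hy⟩ := H1.int fun x => (t5_conj hq x.2).1
  obtain ⟨f, hf, ef⟩ := i1.exists_apply_one
  obtain ⟨g, hg, eg⟩ := i2.exists_apply_one
  have hK : Nat.card D.K = 2 ^ (2 * (2 * j + e) + 1) := (hS.card_K (k := 2)).trans (by rw [hq]; rfl)
  have hI : (D.P.index : ℂ) * t = f + g := by rw [← τ1, ← D.I_one, eq, ← ef, ← eg]; rfl
  have m1 := H1.m1
  have m2 := H1.m2
  rw [hx, hy, ef, eg] at m1 m2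
  rw [hs, tw_l0 hq, τ1, hI, sq (Nat.card D.K : ℂ), mul_assoc, mul_comm,
    mul_right_inj' (card_ne_zero_complex _), hK, mul_comm _ ((f : ℂ) + g)] at m2
  obtain ⟨a, -, ha⟩ := ratio_two hf hg (x := x) (y := y) (n := 2 * j + e) (by exact_mod_cast m1)
    (by exact_mod_cast m2)
  have hw := hS.index (k := 2)
  have hI' : ((S.dat 2).P.index : ℤ) * t = f + g := by exact_mod_cast hI
  rw [hq, show gam 2 2 = 1 from rfl] at hw
  have h0 := H2.th_eq_zero (by simp)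
  have key : ∀ θ : (S.ext 2).Iso → ℂ, IsIrrCharacter _ θ → D.th (tn ρ τ)
      (fun u : {u // (S.ext 2).κ + (S.ext 2).Q u = 0 ∧ u ≠ 0} => (S.ext 2).tv u 1) θ = 0 →
      (∑ u : {u // (S.ext 2).κ + (S.ext 2).Q u = 0 ∧ u ≠ 0}, θ ((S.ext 2).tv u 1)) * t =
        θ 1 * (4 * ∑ v : {v // S.κ + S.Q v = 0 ∧ v ≠ 0}, τ (S.tv v 1) + if S.κ = 0 then 3 * τ 1 else 0) :=
    fun θ hθ h => by
      rw [Dat.th, sub_eq_zero, div_eq_div_iff hθ.apply_one_ne_zero hi.apply_one_ne_zero, τ1] at h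
      rw [h, ← sum_ex_tv hq r1 τ, mul_comm]
      rfl
  rcases ha with ha | ha
  · refine ⟨χ, g, a, i1, by rw [ef, ha], ?_, key χ i1 h0.1⟩
    rw [ha] at hI'
    push_cast at hI' hw
    linear_combination t * hw - 3 * hI'
  · refine ⟨ψ, f, a, i2, by rw [eg, ha], ?_, key ψ i2 h0.2⟩
    rw [ha] at hI'
    push_cast at hI' hw
    linear_combination t * hw - 3 * hI'

end Cfsg.Lib.HCI.FS
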