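import Cfsg.Agent.Lib.HCI.Mid
import Cfsg.Agent.Lib.HCI.Hk
import Cfsg.Agent.Lib.HCI.Pol

/-! S4984: `k = 1`, induction of a real linear character of `GL₁` (norm two). -/

set_option autoImplicit false

namespace Cfsg.Lib.HCI.FS

open Module Matrix Cfsg.Lib.Char

variable {F V : Type} [Field F] [Fintype F] [DecidableEq F] [AddCommGroup V] [Module F V] [Finite V]
  {S : FS F V}

/-- The character of `GL₁` given by a multiplicative character. -/
noncomputable def g1 (lam : MulChar F ℂ) : GL (Fin 1) F → ℂ := fun A => lam (A.1 0 0)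

omit [Fintype F] in
theorem g1_mul (A B : GL (Fin 1) F) : (A * B).1 0 0 = A.1 0 0 * B.1 0 0 := by
  simp [Matrix.mul_apply]

omit [Fintype F] in
theorem g1_inv (A : GL (Fin 1) F) : (A⁻¹).1 0 0 * A.1 0 0 = 1 := by
  rw [← g1_mul, inv_mul_cancel]; rfl

omit [Fintype F] [DecidableEq F] in
theorem lam_sq {lam : MulChar F ℂ} (hl : lam ^ 2 = 1) {a b : F} (h : b * a = 1) : lam a * lam a = 1 := by
  have h1 : IsUnit a := IsUnit.of_mul_eq_one_right b h
  rw [← sq, ← MulChar.pow_apply' _ two_ne_zero, hl, MulChar.one_apply h1]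

omit [Fintype F] [DecidableEq F] in
theorem lam_inv {lam : MulChar F ℂ} (hl : lam ^ 2 = 1) {a b : F} (h : b * a = 1) : lam b = lam a := by
  have h1 := lam_sq hl h
  have h2 : lam b * lam a = 1 := by rw [← map_mul, h, map_one]
  linear_combination lam a * h2 - lam b * h1

omit [Fintype F] [DecidableEq F] in
theorem one_eq_zero {x : Fin 1 → F} (h : x 0 = 0) : x = 0 := funext fun i => by rw [Subsingleton.elim i 0]; exact h

theorem g1_irr (lam : MulChar F ℂ) : IsIrrCharacter _ (g1 lam) := by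
  refine isIrrCharacter_of_map_mul (by simp [g1]) fun a b => ?_
  simp only [g1]
  rw [g1_mul, map_mul]

/-- There is no proper non-zero subspace. -/
theorem g1_cu (ρ : GL (Fin 1) F → ℂ) : Cu ρ := by
  intro T h0 h1
  obtain ⟨v, hv, hv0⟩ := (Submodule.ne_bot_iff T).1 h0
  refine absurd (Submodule.eq_top_iff'.2 fun x => ?_) h1
  have h2 : v 0 ≠ 0 := fun h => hv0 (one_eq_zero h)
  have h3 : x = (x 0 / v 0) • v := funext fun i => by
    rw [Subsingleton.elim i 0]; simp [h2]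
  exact h3 ▸ T.smul_mem _ hv

/-- `tv u c` maps `a = (1, 0, 0)` to `a + c y u` where `y = u.2.1 0`; its middle component is `c y²`. If
`(tv u c (x, 0, v)).2.1 = 0` then `B (x, 0, v) u = 0` and `(x, 0, v)` is fixed. `big_iff`, `Big.dec`, `big_lev`. -/
theorem tv_big {u : (Fin 1 → F) × (Fin 1 → F) × V} {c : F} (h : S.κ + c * (S.ext 1).Q u = 0) (hc : c ≠ 0) :
    (u.2.1 = 0 ∧ ¬ (S.dat 1).Big ((S.ext 1).tv u c)) ∨ (u.2.1 ≠ 0 ∧ ∃ k ∈ (S.dat 1).K, ∃ k' ∈ (S.dat 1).K,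
      ∃ A : GL (Fin 1) F, A.1 0 0 = S.ε * c * u.2.1 0 ^ 2 ∧
        (S.ext 1).tv u c = k * (S.dat 1).w * (S.dat 1).lam (A, 1) * k') := by
  have e1 : ∀ x v, (((S.ext 1).tv u c).1 (x, 0, v)) =
      (x, 0, v) + (c * (x 0 * u.2.1 0 + S.B v u.2.2)) • u := fun x v => by
    rw [tv_ap _ (show (S.ext 1).κ + c * (S.ext 1).Q u = 0 from h), ext_B]; simp [dotProduct]
  by_cases hu : u.2.1 = 0
  · refine .inl ⟨hu, fun hb => ?_⟩
    have := congrFun (big_iff.1 hb 1 (by rw [e1]; simp [hu])) 0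
    simp at this
  have hy : u.2.1 0 ≠ 0 := fun h => hu (one_eq_zero h)
  obtain ⟨k, hk, k', hk', l, e⟩ := (big_iff.2 fun x hx => one_eq_zero (by
    have := congrFun hx 0
    rw [e1] at this
    simpa [hc, hy] using this) : (S.dat 1).Big ((S.ext 1).tv u c)).dec
  obtain ⟨h1, h2⟩ := big_lev hk hk' e
  have h3 : l.2 = 1 := iso_ext fun v => by
    have h4 : c * (-(S.B v u.2.2 / u.2.1 0) * u.2.1 0 + S.B v u.2.2) = 0 := by field_simp; ring
    have h5 := h2 (fun _ => -(S.B v u.2.2 / u.2.1 0)) v (by rw [e1, h4]; simp)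
    rw [e1, h4] at h5
    simpa [one_ap] using h5.symm
  refine .inr ⟨hu, k, hk, k', hk', l.1, ?_, by rw [e, ← h3]⟩
  have h4 := congrFun (h1 1) 0
  rw [e1] at h4
  simp [Matrix.mulVec, dotProduct] at h4
  linear_combination (-S.ε) * h4 - l.1.1 0 0 * S.ε_sq

/-- With `κ = e (u, c)` from `exists_K_one`: `w κ w (x, 0, v) = (ε x, c x - ε B v u, v + ε x u)`; it is big iff `c ≠ 0`
and then the Levi component is `(ε c, tv u c⁻¹)` (`big_lev`). -/
theorem wkw {u : V} {c : F} (h : S.κ * c + S.Q u = 0) {κ : (S.ext 1).Iso} (hκ : ∀ z, κ.1 z =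
      (fun _ => z.1 0 + c * z.2.1 0 - S.B z.2.2 u, z.2.1, z.2.2 + z.2.1 0 • u)) :
    (c = 0 ∧ ¬ (S.dat 1).Big ((S.dat 1).w * κ * (S.dat 1).w)) ∨ (c ≠ 0 ∧ ∃ k ∈ (S.dat 1).K, ∃ k' ∈ (S.dat 1).K,
      ∃ A : GL (Fin 1) F, A.1 0 0 = S.ε * c ∧
        (S.dat 1).w * κ * (S.dat 1).w = k * (S.dat 1).w * (S.dat 1).lam (A, S.tv u c⁻¹) * k') := by
  have e1 : ∀ x v, ((S.dat 1).w * κ * (S.dat 1).w).1 (x, 0, v) =
      (S.ε • x, fun _ => c * x 0 - S.ε * S.B v u, v + (S.ε * x 0) • u) := fun x v => by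
    rw [mul_ap, mul_ap, (S.spec 1).w, (S.spec 1).w, hκ]
    refine Prod.ext rfl (Prod.ext (funext fun i => ?_) rfl)
    simp
    linear_combination c * x 0 * S.ε_sq
  by_cases hc : c = 0
  · refine .inl ⟨hc, fun hb => ?_⟩
    have := congrFun (big_iff.1 hb 1 (by rw [e1]; funext i; simp [hc])) 0
    simp at this
  obtain ⟨k, hk, k', hk', l, e⟩ := (big_iff.2 fun x hx => one_eq_zero (by
    have := congrFun hx 0
    rw [e1] at this
    simpa [hc] using this) : (S.dat 1).Big ((S.dat 1).w * κ * (S.dat 1).w)).dec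
  obtain ⟨h1, h2⟩ := big_lev hk hk' e
  have h3 : l.2 = S.tv u c⁻¹ := iso_ext fun v => by
    have h5 := h2 (fun _ => S.ε * S.B v u / c) v (by rw [e1]; funext i; simp; field_simp; ring)
    rw [e1] at h5
    rw [← h5, tv_ap _ (by field_simp; linear_combination h)]
    show v + (S.ε * (S.ε * S.B v u / c)) • u = _
    rw [← mul_div_assoc, ← mul_assoc, S.ε_sq, one_mul, div_eq_inv_mul]
  refine .inr ⟨hc, k, hk, k', hk', l.1, ?_, by rw [e, ← h3]⟩
  have h4 := congrFun (h1 1) 0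
  rw [e1] at h4
  simp [Matrix.mulVec, dotProduct] at h4
  linear_combination (-S.ε) * h4 - l.1.1 0 0 * S.ε_sq

/-- `Dat.two`; `Hyp` for the family `tv u c` over `{(u, c) | κ + c Q u = 0, lam c = 1}` (`tv_conj`), `b = lam ε` on the
big members (`tv_big`), and `β = ∑ b ≠ 0` as `u = (-κ, 1, 0)`, `c = 1` is big. With `x = |K| θ₁ / β`, `y = |K| θ₂ / β`:
`f x + g y = 0`, `f x² + g y² = D * lam ε * |K|`, `f x³ + g y³ = index * |K| * ∑ s` (`wkw`); `vieta`. -/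
theorem t6 [Fintype V] {lam : MulChar F ℂ} (hl : lam ^ 2 = 1) {τ : S.Iso → ℂ} (hτ : IsIrrCharacter _ τ)
    (hF : S.Fr (g1 lam) τ) : ∃ (χ ψ : (S.ext 1).Iso → ℂ) (x y : ℂ), IsIrrCharacter _ χ ∧ IsIrrCharacter _ ψ ∧
      χ 1 + ψ 1 = Nat.card (S.ext 1).Pt * τ 1 ∧ χ 1 * x + ψ 1 * y = 0 ∧ x * y = - (lam S.ε * S.om) ∧
      (x + y) * lam S.ε * τ 1 = ∑ p : {p : V × F // S.κ * p.2 + S.Q p.1 = 0}, lam p.1.2 * τ (S.tv p.1.1 p.1.2⁻¹) ∧
      (lam (-1) * τ S.neg = τ 1 → χ (S.ext 1).neg = χ 1 ∧ ψ (S.ext 1).neg = ψ 1) := by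
  classical
  have c := (g1_irr lam).isCharacter
  have d := hτ.isCharacter
  have hi : IsIrrCharacter _ (tn (g1 lam) τ) := (g1_irr lam).prod hτ
  have hm := mid c (g1_cu _) c d d hF
  have sp := S.spec 1
  have hα : ∀ l, tn (g1 lam) τ ((S.dat 1).α l) = tn (g1 lam) τ l := fun l => by
    simp only [tn, g1]
    rw [(sp.α l).1, (sp.α l).2, transpose_apply, lam_inv hl (g1_inv _)]
  obtain ⟨χ, ψ, h1, h2, hne, e⟩ := (S.dat 1).two hi hm hα
  have hε : lam S.ε * lam S.ε = 1 := lam_sq hl S.ε_sq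
  have hε0 : lam S.ε ≠ 0 := left_ne_zero_of_mul_eq_one hε
  let ι := {p : ((Fin 1 → F) × (Fin 1 → F) × V) × F // S.κ + p.2 * (S.ext 1).Q p.1 = 0 ∧ lam p.2 = 1}
  haveI : Fintype ι := Fintype.ofFinite _
  let b : ι → ℂ := fun p => if p.1.1.2.1 = 0 then 0 else lam S.ε
  have H : Hyp (S.dat 1) (tn (g1 lam) τ) χ ψ (fun p : ι => (S.ext 1).tv p.1.1 p.1.2) b := by
    refine ⟨hi, hm, fun l => ?_, h1, h2, hne, e, fun g => ?_, fun p => ?_⟩
    · simp only [tn, g1, Prod.fst_mul, Prod.snd_mul, Prod.fst_inv, Prod.snd_inv, Prod.fst_one, Prod.snd_one]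
      rw [g1_mul, (sp.α l).1, (sp.α l).2, transpose_apply, inv_mul_cancel, map_mul,
        lam_sq hl ((mul_comm _ _).trans (g1_inv l.1))]
      simp
    · refine ⟨⟨fun p => ⟨(g.1 p.1.1, p.1.2), by rw [map_Q]; exact p.2.1, p.2.2⟩,
        fun p => ⟨(g⁻¹.1 p.1.1, p.1.2), by rw [map_Q]; exact p.2.1, p.2.2⟩,
        fun p => Subtype.ext (Prod.ext (inv_ap _ _) rfl), fun p => Subtype.ext (Prod.ext (ap_inv _ _) rfl)⟩,
        fun p => tv_conj _ _ _ _⟩
    · have hc : p.1.2 ≠ 0 := fun h => by simpa [h, MulChar.map_zero] using p.2.2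
      rcases tv_big p.2.1 hc with ⟨h3, h4⟩ | ⟨h3, k, hk, k', hk', A, hA, h4⟩
      · exact .inl ⟨h4, if_pos h3⟩
      · refine .inr ⟨k, hk, k', hk', _, h4, fun y => ?_⟩
        have hy : p.1.1.2.1 0 ≠ 0 := fun h => h3 (one_eq_zero h)
        simp only [tn, g1, b, if_neg h3, Prod.fst_mul, Prod.snd_mul, one_mul]
        rw [g1_mul, hA, map_mul, map_mul, map_mul, p.2.2, sq, map_mul, lam_sq hl (inv_mul_cancel₀ hy)]
        ring
  have hβ : ∑ p, b p ≠ 0 := by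
    rw [← Finset.sum_filter_add_sum_filter_not _ (fun p : ι => p.1.1.2.1 = 0),
      Finset.sum_congr (f := b) rfl fun p hp => if_pos (Finset.mem_filter.1 hp).2,
      Finset.sum_congr (f := b) rfl fun p hp => if_neg (Finset.mem_filter.1 hp).2]
    simp only [Finset.sum_const_zero, zero_add, Finset.sum_const, nsmul_eq_mul]
    refine mul_ne_zero (Nat.cast_ne_zero.2 (Finset.card_ne_zero.2 ⟨⟨((fun _ => -S.κ, 1, 0), 1), ?_, map_one _⟩,
      Finset.mem_filter.2 ⟨Finset.mem_univ _, fun h => one_ne_zero (congrFun h 0)⟩⟩)) hε0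
    simp [ext_Q, S.Q_zero, S.κ_sq, dotProduct]
  obtain ⟨E, hE⟩ := S.exists_K_one
  haveI : Fintype (S.dat 1).K := Fintype.ofFinite _
  have m3 := H.m3 (s := fun k => lam (E.symm k).1.2 * τ (S.tv (E.symm k).1.1 (E.symm k).1.2⁻¹)) fun k => by
    obtain ⟨p, rfl⟩ := E.surjective k
    rw [E.symm_apply_apply]
    rcases wkw p.2 (hE p) with ⟨h3, h4⟩ | ⟨h3, k, hk, k', hk', A, hA, h4⟩
    · exact .inl ⟨h4, by rw [h3, MulChar.map_zero, zero_mul]⟩
    · refine .inr ⟨k, hk, k', hk', _, h4, ?_⟩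
      simp only [tn, g1, Prod.fst_mul, Prod.snd_mul]
      rw [g1_mul, hA, sp.l0.1, sp.l0.2, one_mul]
      simp [← mul_assoc, S.ε_sq]
  rw [Equiv.sum_comp E.symm fun p => lam p.1.2 * τ (S.tv p.1.1 p.1.2⁻¹)] at m3
  have m1 := H.m1
  have m2 := H.m2
  have e0 : tn (g1 lam) τ (S.dat 1).l0 = lam S.ε * τ 1 := by
    simp only [tn, g1]
    rw [sp.l0.1, sp.l0.2]; simp
  have e1 : χ 1 + ψ 1 = (S.dat 1).P.index * τ 1 := by
    have := (S.dat 1).I_one (tn (g1 lam) τ)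
    rw [e] at this
    simpa [tn, g1] using this
  have hK : (Nat.card (S.dat 1).K : ℂ) ≠ 0 := Nat.cast_ne_zero.2 Nat.card_pos.ne'
  have ht := hτ.apply_one_ne_zero
  have hx : ((S.dat 1).P.index : ℂ) ≠ 0 := Nat.cast_ne_zero.2 Subgroup.index_ne_zero_of_finite
  rw [e0] at m2
  generalize (S.dat 1).th (tn (g1 lam) τ) (fun p : ι => (S.ext 1).tv p.1.1 p.1.2) χ = x at m1 m2 m3
  generalize (S.dat 1).th (tn (g1 lam) τ) (fun p : ι => (S.ext 1).tv p.1.1 p.1.2) ψ = y at m1 m2 m3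
  generalize ∑ p, b p = β at hβ m2 m3
  generalize ∑ p : {p : V × F // S.κ * p.2 + S.Q p.1 = 0}, lam p.1.2 * τ (S.tv p.1.1 p.1.2⁻¹) = σ at m3 ⊢
  have n1 : χ 1 * (Nat.card (S.dat 1).K * x / β) + ψ 1 * (Nat.card (S.dat 1).K * y / β) = 0 := by
    field_simp; linear_combination (Nat.card (S.dat 1).K : ℂ) * m1
  obtain ⟨v1, v2⟩ := vieta (N := lam S.ε * Nat.card (S.dat 1).K) (a := σ / (lam S.ε * τ 1))
    (e1 ▸ mul_ne_zero hx ht) (mul_ne_zero hε0 hK) n1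
    (by rw [e1]; field_simp; linear_combination m2) (by rw [e1]; field_simp; linear_combination m3)
  refine ⟨χ, ψ, _, _, h1, h2, by rw [e1, index_one], n1, by rw [v1, card_K_one], by rw [v2]; field_simp,
    fun h => ?_⟩
  have hz : (S.dat 1).lam (-1, S.neg) ∈ Subgroup.center _ := lam_neg (S := S) (k := 1) ▸ (S.ext 1).neg_mem_center
  have h3 : tn (g1 lam) τ (-1, S.neg) = tn (g1 lam) τ 1 := by simpa [tn, g1] using h
  rw [← lam_neg (S := S) (k := 1)]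
  exact ⟨(S.dat 1).sign hi.isCharacter hz h3 h1.isCharacter h2.isCharacter e,
    (S.dat 1).sign hi.isCharacter hz h3 h2.isCharacter h1.isCharacter (e.trans (add_comm _ _))⟩

end Cfsg.Lib.HCI.FS
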