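import Cfsg.Agent.Lib.HCI.Num
import Cfsg.Agent.Lib.HCI.T5
import Cfsg.Agent.Lib.HCI.Cu2
import Cfsg.Agent.Lib.HCI.CuM

/-! S4984: the available degrees. -/

set_option autoImplicit false
set_option linter.unusedSectionVars false

namespace Cfsg.Lib.HCI

open Module Matrix Cfsg.Lib.Char Cfsg.Lib.Orth

/-- The first degree of the rank three action for Witt index `j + 2`. -/
def Ff (q j e f : ℕ) : Prop :=
  (f : ℤ) * ((q - 1) * (q ^ e + q)) = q ^ (e + 1) * (q ^ (j + 2) - 1) * (q ^ (j + e) + 1)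

/-- The second degree of the rank three action for Witt index `j + 2`. -/
def Fg (q j e g : ℕ) : Prop :=
  (g : ℤ) * ((q - 1) * (q ^ e + q)) = q ^ 2 * (q ^ (j + 1) - 1) * (q ^ (j + e + 1) + 1)

variable {F V V' : Type} [Field F] [Fintype F] [DecidableEq F] [AddCommGroup V] [Module F V] [Finite V]
  [AddCommGroup V'] [Module F V'] [Finite V']

namespace FS

local notation "𝔮" => Fintype.card F

/-- A non-real cuspidal character with a harmless sign. -/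
def Rho (S : FS F V) (k : ℕ) : Prop :=
  ∃ ρ : GL (Fin k) F → ℂ, CI ρ ∧ NR ρ ∧ (ρ (-1) = ρ 1 ∨ S.neg ∉ commutator S.Iso)

/-- A character of degree `t` that can be induced. -/
def Fa (T : FS F V) (k t : ℕ) : Prop :=
  ∃ τ, IsIrrCharacter T.Iso τ ∧ τ 1 = t ∧ τ T.neg = τ 1 ∧ ∀ ρ : GL (Fin k) F → ℂ, CI ρ → T.Fr ρ τ

/-- Every space of type `(j, e)` has such a character with `P t`. -/
def Sr (S : FS F V) (j e k : ℕ) (P : ℕ → Prop) : Prop :=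
  ∀ (W : Type) [AddCommGroup W] [Module F W] [Finite W] (T : FS F W), T.Pol j e → T.κ = S.κ → ∃ t, T.Fa k t ∧ P t

variable {S : FS F V} {S' : FS F V'} {d e j k r s t D : ℕ} {P : ℕ → Prop}

theorem rho_big (h3 : 3 ≤ k) (h6 : ¬ (𝔮 = 2 ∧ k = 6)) : S.Rho k :=
  let ⟨ρ, a, b, c⟩ := exists_nr (F := F) h3 h6; ⟨ρ, a, b, .inl c⟩

theorem rho_two (hq : 4 ≤ 𝔮) : S.Rho 2 := let ⟨ρ, a, b, c⟩ := cu2_nr hq; ⟨ρ, a, b, .inl c⟩

theorem rho_two' (hq : 3 ≤ 𝔮) (h : S.neg ∉ commutator S.Iso) : S.Rho 2 :=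
  let ⟨ρ, a, b⟩ := cu2_any hq; ⟨ρ, a, b, .inr h⟩

/-- In characteristic 2 `-1 = 1`. -/
theorem rho_one (hq : 4 ≤ 𝔮) (h : (2 : F) ≠ 0 → S.neg ∉ commutator S.Iso) : S.Rho 1 := by
  obtain ⟨ρ, a, b⟩ := cu1_nr hq
  refine ⟨ρ, a, b, (em ((2 : F) = 0)).imp (fun h2 => congrArg ρ (Units.ext ?_)) h⟩
  exact neg_eq_iff_add_eq_zero.2 (by rw [← two_smul F, h2, zero_smul])

theorem tl_com (i : Isom S S') (h : S.neg ∈ commutator S.Iso) : S'.neg ∈ commutator S'.Iso := by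
  have := Subgroup.mem_map_of_mem i.congr.toMonoidHom h
  rw [map_commutator_eq] at this
  exact i.congr_neg ▸ Subgroup.commutator_mono le_top le_top this

/-- `IsIrrCharacter.comp_mulEquiv`, `congr_neg`. -/
theorem Av.congr (i : Isom S S') (h : S'.Av D) : S.Av D := by
  obtain ⟨χ, a, b, c⟩ := h
  exact ⟨fun g => χ (i.congr g), a.comp_surjective i.congr.toMonoidHom i.congr.surjective, by simp only [map_one, b],
    c.imp (fun e => by simp only [i.congr_neg, map_one, e]) (mt (tl_com i))⟩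

theorem Fa.av (h : S.Fa k t) : S.Av t := let ⟨τ, a, b, c, _⟩ := h; ⟨τ, a, b, .inl c⟩

theorem fa_one (S : FS F V) (k : ℕ) : S.Fa k 1 := by
  exact ⟨fun _ => 1, isIrrCharacter_one, Nat.cast_one.symm, rfl, fun _ => fr_one⟩

theorem Cp.fa {τ : S.Iso → ℂ} (h : S.Cp τ) (ht : τ 1 = t) (k : ℕ) : S.Fa k t :=
  ⟨τ, h.1, ht, h.neg, fun _ => h.fr⟩

theorem Pol.fa_two (h : S.Pol 1 e) (k : ℕ) : S.Fa k (𝔮 ^ e) := by
  obtain ⟨χ, a, b, c⟩ := h.rank_two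
  exact Cp.fa ⟨a, _, isIrrCharacter_one.isCharacter, b.trans (add_comm _ _)⟩ (by rw [c, Nat.cast_pow]) k

theorem Pol.fa_f (h : S.Pol (j + 2) e) (k : ℕ) : ∃ f, S.Fa k f ∧ Ff 𝔮 j e f := by
  obtain ⟨χ, ψ, f, g, a, b, c, h1, -, h2, -⟩ := h.rank_three
  exact ⟨f, Cp.fa ⟨a, _, isIrrCharacter_one.isCharacter.add b.isCharacter, c.trans (by abel)⟩ h1 k, h2⟩

theorem Pol.fa_g (h : S.Pol (j + 2) e) (k : ℕ) : ∃ g, S.Fa k g ∧ Fg 𝔮 j e g := by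
  obtain ⟨χ, ψ, f, g, a, b, c, -, h1, -, h2⟩ := h.rank_three
  exact ⟨g, Cp.fa ⟨b, _, isIrrCharacter_one.isCharacter.add a.isCharacter, c.trans (add_comm _ _)⟩ h1 k, h2⟩

theorem Pol.av_f (h : S.Pol (j + 2) e) : ∃ f, S.Av f ∧ Ff 𝔮 j e f := let ⟨f, a, b⟩ := h.fa_f 0; ⟨f, a.av, b⟩

theorem Pol.av_g (h : S.Pol (j + 2) e) : ∃ g, S.Av g ∧ Fg 𝔮 j e g := let ⟨f, a, b⟩ := h.fa_g 0; ⟨f, a.av, b⟩

theorem tl_ne1 {q f : ℕ} (hq : 2 ≤ q) (he : e ≤ 2) (hf : Ff q (j + 1) e f) : f ≠ 1 := by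
  obtain ⟨b, hb⟩ := Nat.exists_eq_add_of_le (Nat.one_le_pow j q (by omega))
  have hb' : (q : ℤ) ^ j = 1 + b := by exact_mod_cast hb
  simp only [Ff, pow_add, hb'] at hf
  obtain ⟨a, rfl⟩ := Nat.exists_eq_add_of_le hq
  rintro rfl
  refine absurd hf (sub_pos.1 ?_).ne
  interval_cases e <;> push_cast <;> ring_nf <;> positivity

theorem tl_ne2 {q g : ℕ} (hq : 2 ≤ q) (he : e ≤ 2) (hg : Fg q (j + 1) e g) : g ≠ 1 := by
  obtain ⟨b, hb⟩ := Nat.exists_eq_add_of_le (Nat.one_le_pow j q (by omega))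
  have hb' : (q : ℤ) ^ j = 1 + b := by exact_mod_cast hb
  simp only [Fg, pow_add, hb'] at hg
  obtain ⟨a, rfl⟩ := Nat.exists_eq_add_of_le hq
  rintro rfl
  refine absurd hg (sub_pos.1 ?_).ne
  interval_cases e <;> push_cast <;> ring_nf <;> positivity

theorem tl_ne3 {q f : ℕ} (hq : 2 ≤ q) (he : e ≤ 2) (hf : Ff q (j + 1) e f) (hg : Fg q (j + 1) e f) : False := by
  obtain ⟨b, hb⟩ := Nat.exists_eq_add_of_le (Nat.one_le_pow j q (by omega))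
  have hb' : (q : ℤ) ^ j = 1 + b := by exact_mod_cast hb
  have h := Eq.trans (Eq.symm hf) hg
  simp only [pow_add, hb'] at h
  obtain ⟨a, rfl⟩ := Nat.exists_eq_add_of_le hq
  push_cast at h
  interval_cases e
  · exact absurd h (sub_pos.1 (by ring_nf; positivity)).ne
  · exact absurd h (sub_pos.1 (by ring_nf; positivity)).ne'
  · exact absurd h (sub_pos.1 (by ring_nf; positivity)).ne'

/-- `irr_res_pc`, `Pol.com_pair`, `pass_irr`, `Sz.triv`; the constituents are non-trivial and distinct as the norm of `pi1` is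
three, or by their degrees. -/
theorem Sz.mem_f (h : S.Sz (j + 3) e) (hκ : S.κ = 1) : ∃ f ∈ charDegrees (PCom S.Iso), Ff 𝔮 (j + 1) e f := by
  obtain ⟨χ, ψ, f, g, a, b, c, h1, h2, h3, h4⟩ := Pol.rank_three (j := j + 1) h.pol
  have n1 := tl_ne1 Fintype.one_lt_card h.pol.typ.2.1 h3
  have n2 := tl_ne2 Fintype.one_lt_card h.pol.typ.2.1 h4
  have n3 : f ≠ g := fun e => tl_ne3 Fintype.one_lt_card h.pol.typ.2.1 h3 (e ▸ h4)
  refine ⟨f, pass_irr (irr_res_pc (h.pol.com_pair hκ) a b (fun e => n1 ?_) (fun e => n2 ?_) (fun e => n3 ?_) c) h1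
    (h.triv (.inl (Cp.neg ⟨a, _, isIrrCharacter_one.isCharacter.add b.isCharacter, c.trans (by abel)⟩))), h3⟩
  · exact Nat.cast_eq_one.1 (h1.symm.trans (congrFun e 1))
  · exact Nat.cast_eq_one.1 (h2.symm.trans (congrFun e 1))
  · rw [e, h2] at h1; exact_mod_cast h1.symm

theorem sr_one : S.Sr j e k (· = 1) := fun _ _ _ _ T _ _ => ⟨1, T.fa_one k, rfl⟩

theorem sr_two : S.Sr 1 e k (· = 𝔮 ^ e) := fun _ _ _ _ _ h _ => ⟨_, h.fa_two k, rfl⟩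

theorem sr_f : S.Sr (j + 2) e k (Ff 𝔮 j e) := fun _ _ _ _ _ h _ => h.fa_f k

theorem sr_g : S.Sr (j + 2) e k (Fg 𝔮 j e) := fun _ _ _ _ _ h _ => h.fa_g k

theorem tl_t1 (hT : S'.Pol j e) (i : Isom S (S'.ext k)) (hk : k ≠ 0) {ρ : GL (Fin k) F → ℂ} (hρ : CI ρ) (hn : NR ρ)
    {τ : S'.Iso → ℂ} (hτ : IsIrrCharacter _ τ) (ht : τ 1 = t) (hF : S'.Fr ρ τ)
    (hs : ρ (-1) * τ S'.neg = ρ 1 * τ 1 ∨ S.neg ∉ commutator S.Iso) :
    ∃ D : ℕ, S.Av D ∧ (D : ℤ) * (𝔮 ^ k - 1) = win 𝔮 j k e * t := by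
  haveI : NeZero k := ⟨hk⟩
  obtain ⟨χ, a, b, c⟩ := FS.t1 hρ hn hτ hF
  refine ⟨(S'.dat k).P.index * gam 𝔮 k * t, Av.congr i ⟨χ, a, by rw [b, ht]; push_cast; rfl,
    hs.imp c (mt (tl_com i.symm))⟩, ?_⟩
  rw [← hT.index]
  push_cast
  ring

/-- `Pol.split`, `t1`, `Pol.index`, `Av.congr` (and `Isom.congr` maps the commutator subgroup onto the commutator subgroup). -/
theorem Pol.t1 (h : S.Pol (j + k) e) (hk : k ≠ 0) (hρ : S.Rho k) (hs : S.Sr j e k P) :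
    ∃ D t : ℕ, S.Av D ∧ (D : ℤ) * (𝔮 ^ k - 1) = win 𝔮 j k e * t ∧ P t := by
  obtain ⟨W, _, _, _, T, hT, hκ, ⟨i⟩⟩ := h.split
  obtain ⟨ρ, a, b, c⟩ := hρ
  obtain ⟨t, ⟨τ, h1, h2, h3, h4⟩, h5⟩ := hs W T hT hκ
  obtain ⟨D, h6, h7⟩ := tl_t1 hT i hk a b h1 h2 (h4 ρ a) (c.imp_left fun e => by rw [e, h3])
  exact ⟨D, t, h6, h7, h5⟩

/-- As `Pol.t1`; if `ρ (-1) = -ρ 1` (`sign_or`) take `τ` from `exists_neg`, otherwise `τ = 1`; `Pol.fr`. -/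
theorem Pol.t1_neg (h : S.Pol (j + k) e) (hj : 0 < j) (hk : j < k) (h2 : (2 : F) ≠ 0) {ρ : GL (Fin k) F → ℂ} (hρ : CI ρ)
    (hn : NR ρ) : ∃ D t : ℕ, S.Av D ∧ (D : ℤ) * (𝔮 ^ k - 1) = win 𝔮 j k e * t := by
  obtain ⟨W, _, _, _, T, hT, -, ⟨i⟩⟩ := h.split
  rcases sign_or (z := -1) (Subgroup.mem_center_iff.2 fun g => by simp) (by simp) hρ.irr with c | c
  · obtain ⟨D, h6, h7⟩ := tl_t1 (t := 1) hT i (by omega) hρ hn isIrrCharacter_one Nat.cast_one.symm (fr_one hρ)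
      (.inl (by rw [← c 1, mul_one (-1 : GL (Fin k) F)]))
    exact ⟨D, 1, h6, h7⟩
  · obtain ⟨τ, a, b⟩ := exists_neg T.neg_mem_center (fun e => by
      obtain ⟨_, _, _, _, S0, -, -, ⟨i0⟩⟩ := hT
      have h1 : -i0.e.symm (1, 0, 0) = i0.e.symm (1, 0, 0) := congrArg (fun g : T.Iso => g.1 _) e
      rw [neg_eq_iff_add_eq_zero, ← two_smul F, smul_eq_zero_iff_right h2, LinearEquiv.map_eq_zero_iff] at h1
      exact one_ne_zero (congrFun (congrArg Prod.fst h1) ⟨0, hj⟩)) T.neg_sq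
    obtain ⟨t, -, ht⟩ := a.exists_apply_one
    obtain ⟨D, h6, h7⟩ := tl_t1 hT i (by omega) hρ hn a ht (hT.fr hk ρ τ)
      (.inl (by rw [b, ← mul_one (-1 : GL (Fin k) F), c, _root_.neg_mul_neg]))
    exact ⟨D, t, h6, h7⟩

/-- `Pol.split`, `cu2`, `t5`, `neg_eq_one`. -/
theorem Pol.t5 (hq : 𝔮 = 2) (h : S.Pol (j + 2) e) (hs : S.Sr j e 2 P) : ∃ f a t : ℕ, S.Av (2 ^ (2 * a + 1) * f) ∧
    ((1 + 2 ^ (2 * a + 1)) * f * 3 : ℤ) = win 2 j 2 e * t ∧ P t := by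
  classical
  obtain ⟨W, _, _, _, T, hT, hκ, ⟨i⟩⟩ := h.split
  obtain ⟨ρ, a⟩ := cu2 (F := F)
  obtain ⟨t, ⟨τ, h1, h2, -, h4⟩, h5⟩ := hs W T hT hκ
  have := Fintype.ofFinite W
  obtain ⟨χ, f, n, b, c, d, -⟩ := FS.t5 hq hT a h1 (h4 ρ a) h2
  exact ⟨f, n, t, Av.congr i ⟨χ, b, c, .inl (by rw [neg_eq_one (t5_two hq)])⟩, d, h5⟩

theorem tl_card (F : Type) [Field F] [Fintype F] :
    ∃ p n : ℕ, p.Prime ∧ n ≠ 0 ∧ Fintype.card F = p ^ n ∧ (p : F) = 0 :=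
  let ⟨p, _, n, a, b⟩ := FiniteField.card' F
  ⟨p, n, a, n.ne_zero, b, CharP.cast_eq_zero F p⟩

/-- `j = 1`: `fa_two`. `j ≥ 2`: `e = 0`: `q² ∣ g`; `e = 2`: `q² ∣ f`; `e = 1`: `2 f (q - 1) = q (q ^ j - 1) (q ^ (j - 1) + 1)`, so
`r ∣ f` unless `q = 2`; then `κ = 0` (`Pol.typ`) and `Pol.t5` with `sr_one` gives an even degree (`neg_eq_one`, `Pol.fr`). -/
theorem sr_p (hj : 1 ≤ j) (he : e = 0 → 2 ≤ j) (hk : j < k ∨ S.κ = 1) :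
    S.Sr j e k fun t => ∀ r, r.Prime → r ∣ 𝔮 → Cv S.cc r t := by
  intro W _ _ _ T hT hκ
  obtain ⟨t1, t2, t3⟩ := hT.typ
  obtain ⟨p, n, hp, hn, hq, h0⟩ := tl_card F
  have cv : ∀ t, p ∣ t → (e ≠ 1 → p ^ 2 ∣ t) → ∀ r, r.Prime → r ∣ 𝔮 → Cv S.cc r t := fun t a b r hr hd => by
    obtain rfl := (Nat.prime_dvd_prime_iff_eq hr hp).1 (hr.dvd_of_dvd_pow (hq ▸ hd))
    refine ⟨a, ?_⟩
    rintro rfl
    have h2 : (2 : F) = 0 := by exact_mod_cast h0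
    rw [cc, if_pos h2]
    split_ifs with c
    · exact a
    · exact b fun e1 => t3 (hκ.trans (S.hκ.resolve_left c)) e1 h2
  have pq : p ∣ 𝔮 := hq ▸ dvd_pow_self p hn
  have sq : ∀ t : ℕ, ∀ z : ℤ, t * (((𝔮 : ℤ) - 1) * (𝔮 + 1)) = 𝔮 ^ 2 * z → p ∣ t ∧ p ^ 2 ∣ t := fun t z h => by
    have h1 : IsCoprime ((𝔮 : ℤ) ^ 2) ((𝔮 - 1) * (𝔮 + 1)) := ⟨1, -1, by ring⟩
    have h2 : p ^ 2 ∣ t := (pow_dvd_pow_of_dvd pq 2).trans (by exact_mod_cast h1.dvd_of_dvd_mul_right ⟨z, h⟩)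
    exact ⟨(dvd_pow_self p two_ne_zero).trans h2, h2⟩
  have q0 : (𝔮 : ℤ) ≠ 0 := Nat.cast_ne_zero.2 Fintype.card_ne_zero
  rcases hj.eq_or_lt with rfl | hj
  · exact ⟨_, hT.fa_two k, cv _ (pq.trans (dvd_pow_self _ (by omega))) fun _ =>
      (pow_dvd_pow_of_dvd pq 2).trans (pow_dvd_pow _ (by omega))⟩
  obtain ⟨j, rfl⟩ := Nat.exists_eq_add_of_le' hj
  interval_cases e
  · obtain ⟨g, a, b⟩ := hT.fa_g k
    have := sq g ((𝔮 ^ (j + 1) - 1) * (𝔮 ^ (j + 1) + 1)) (by rw [Fg] at b; linear_combination b)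
    exact ⟨g, a, cv g this.1 fun _ => this.2⟩
  · by_cases q2 : 𝔮 = 2
    · have h2 := t5_two q2
      have k0 : T.κ = 0 := T.hκ.resolve_right fun c => t3 c rfl h2
      obtain ⟨f, a, t, ⟨χ, b, c, -⟩, -⟩ := hT.t5 q2 sr_one
      refine ⟨_, ⟨χ, b, c, by rw [neg_eq_one h2], fun ρ _ => hT.fr (hk.resolve_right fun c => ?_) ρ χ⟩,
        cv _ ((q2 ▸ pq).trans ((dvd_pow_self 2 (by omega)).mul_right f)) fun c => absurd rfl c⟩
      exact zero_ne_one (k0.symm.trans (hκ.trans c))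
    · obtain ⟨f, a, b⟩ := hT.fa_f k
      refine ⟨f, a, cv f ?_ fun c => absurd rfl c⟩
      have h1 : (2 : ℤ) * (f * (𝔮 - 1)) = 𝔮 * ((𝔮 ^ (j + 2) - 1) * (𝔮 ^ (j + 1) + 1)) :=
        mul_left_cancel₀ q0 (by rw [Ff] at b; linear_combination b)
      have h2 : (p : ℤ) ∣ f * (𝔮 - 1) := by
        by_cases p2 : p = 2
        · subst p2
          obtain ⟨m, hm⟩ : 2 * 2 ∣ 𝔮 := hq ▸ pow_dvd_pow 2 (show 2 ≤ n by
            by_contra c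
            exact q2 (by rw [hq, show n = 1 by omega, pow_one]))
          refine ⟨m * ((𝔮 ^ (j + 2) - 1) * (𝔮 ^ (j + 1) + 1)), mul_left_cancel₀ two_ne_zero (h1.trans ?_)⟩
          conv_lhs => lhs; rw [hm]
          push_cast
          ring
        · refine (Nat.isCoprime_iff_coprime.2 ((Nat.coprime_primes hp Nat.prime_two).2 p2)).dvd_of_dvd_mul_left ?_
          exact h1 ▸ (Int.natCast_dvd_natCast.2 pq).mul_right _
      obtain ⟨m, hm⟩ := Int.natCast_dvd_natCast.2 pq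
      exact Int.natCast_dvd_natCast.1 (IsCoprime.dvd_of_dvd_mul_right ⟨m, -1, by rw [hm]; ring⟩ h2)
  · obtain ⟨f, a, b⟩ := hT.fa_f k
    have := sq f ((𝔮 ^ (j + 2) - 1) * (𝔮 ^ (j + 2) + 1))
      (mul_left_cancel₀ q0 (by rw [Ff] at b; linear_combination b))
    exact ⟨f, a, cv f this.1 fun _ => this.2⟩

theorem two_le_q : 2 ≤ 𝔮 := Fintype.one_lt_card

/-- Induction of a character of degree divisible by the characteristic. -/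
theorem Pol.tp (h : S.Pol (j + k) e) (hk : k ≠ 0) (hρ : S.Rho k) (hj : 1 ≤ j) (he : e = 0 → 2 ≤ j)
    (hjk : j < k ∨ S.κ = 1) : ∃ D t : ℕ, S.Av D ∧ (D : ℤ) * (𝔮 ^ k - 1) = win 𝔮 j k e * t ∧
      ∀ r, r.Prime → r ∣ 𝔮 → Cv S.cc r D :=
  let ⟨D, t, a, b, c⟩ := h.t1 hk hρ (sr_p hj he hjk)
  ⟨D, t, a, b, fun r x y => (c r x y).dvd (num_t two_le_q hk b)⟩

/-- The conclusion of the theorem. -/
def All (S : FS F V) (d e : ℕ) : Prop :=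
  ∀ r s, r.Prime → s.Prime → r ≠ s → Pr 𝔮 d e r → Pr 𝔮 d e s → S.Lk r s

/-- Only one prime divides `q`. -/
theorem all_of (h1 : ∀ r s, r.Prime → s.Prime → r ≠ s → Pr 𝔮 d e r → Pr 𝔮 d e s → ¬ r ∣ 𝔮 → ¬ s ∣ 𝔮 → S.Lk r s)
    (h2 : ∀ r s, r.Prime → s.Prime → r ≠ s → Pr 𝔮 d e s → r ∣ 𝔮 → ¬ s ∣ 𝔮 → S.Lk r s) : S.All d e := by
  intro r s hr hs hrs a b
  obtain ⟨p, n, hp, -, hq, -⟩ := tl_card F
  by_cases c : r ∣ 𝔮 <;> by_cases c' : s ∣ 𝔮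
  · exact absurd (((Nat.prime_dvd_prime_iff_eq hr hp).1 (hr.dvd_of_dvd_pow (hq ▸ c))).trans
      ((Nat.prime_dvd_prime_iff_eq hs hp).1 (hs.dvd_of_dvd_pow (hq ▸ c'))).symm) hrs
  · exact h2 r s hr hs hrs b c c'
  · exact (h2 s r hs hr hrs.symm a c' c).symm
  · exact h1 r s hr hs hrs a b c c'

/-- One degree does it. -/
theorem Sz.all_even (h : S.Sz (j + k) e) (hk : 2 ≤ k) (hk2 : Even k) (hρ : S.Rho k) (hj : 1 ≤ j) (he : e = 0 → 2 ≤ j)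
    (hjk : j < k) (he2 : e = 2 → j + 1 < k) : S.All (j + k) e := by
  obtain ⟨D, t, a, b, c⟩ := h.pol.tp (by omega) hρ hj he (.inl hjk)
  have key : ∀ r, r.Prime → Pr 𝔮 (j + k) e r → Cv S.cc r D := fun r x y => by
    by_cases z : r ∣ 𝔮
    · exact c r x z
    · exact num_even two_le_q S.cc_dvd hk hk2 hjk h.pol.typ.2.1 he2 x z y b
  exact fun r s x y z u v => h.lk a x y z (key r x u) (key s y v)

/-- The primes different from the characteristic. -/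
theorem Sz.lk_even (h : S.Sz (j + k) e) (hk : 2 ≤ k) (hk2 : Even k) (hρ : S.Rho k) (hjk : j < k) (he2 : e = 2 → j + 1 < k)
    (r s : ℕ) (hr : r.Prime) (hs : s.Prime) (hrs : r ≠ s) (h1 : Pr 𝔮 (j + k) e r) (h2 : Pr 𝔮 (j + k) e s) (h3 : ¬ r ∣ 𝔮)
    (h4 : ¬ s ∣ 𝔮) : S.Lk r s :=
  let ⟨_, _, a, b, _⟩ := h.pol.t1 (by omega) hρ sr_one
  h.lk a hr hs hrs (num_even two_le_q S.cc_dvd hk hk2 hjk h.pol.typ.2.1 he2 hr h3 h1 b)
    (num_even two_le_q S.cc_dvd hk hk2 hjk h.pol.typ.2.1 he2 hs h4 h2 b)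

/-- The characteristic and another prime. -/
theorem Sz.lk_odd (h : S.Sz (j + k) e) (hk : 2 ≤ k) (hρ : S.Rho k) (hj : 1 ≤ j) (he : e = 0 → 2 ≤ j) (hjk : j < k)
    (he2 : e = 2 → j + 1 < k) (hr : r.Prime) (hs : s.Prime) (hrs : r ≠ s) (h2 : Pr 𝔮 (j + k) e s) (h3 : r ∣ 𝔮)
    (h4 : ¬ s ∣ 𝔮) : S.Lk r s ∨ s ≠ 2 ∧ (s : ℤ) ∣ 𝔮 ^ k - 1 ∧ ¬ (s : ℤ) ∣ 𝔮 - 1 :=
  let ⟨_, _, a, b, c⟩ := h.pol.tp (by omega) hρ hj he (.inl hjk)
  (num_odd two_le_q S.cc_dvd hk hjk h.pol.typ.2.1 he2 hs h4 h2 b).imp_left (h.lk a hr hs hrs (c r hr h3))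

end FS

end Cfsg.Lib.HCI
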